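import Cfsg.Agent.H2.UE4

/-! Constituents of the permutation module on totally isotropic lines in dimension six. -/

set_option autoImplicit false
set_option linter.unusedSectionVars false

namespace Cfsg.Agent.H2.UE

open Module Matrix Cfsg.Agent.H1 Cfsg.Agent.H1.UR
open Cfsg.Agent.H5 hiding TI im mem_im app_mem_im im_mul im_one im_inv finrank_im im_perp im_inf im_sup im_le_iff
  im_span im_eq_of_mapsTo span_le_perp pt exists_pt eq_pt_iff pt_eq_iff smul_pt sum_pt pair_trans fix_trans Rel O2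
  Sit Irr
open scoped Classical

theorem exists_prim {G X Y : Type*} [Group G] [MulAction G X] [MulAction G Y] [Fintype X] [Fintype Y]
    {a : Matrix X Y ℝ} (ha : InvM G a) (a0 : a ≠ 0) (h : ∀ Z : Matrix Y Y ℝ, InvM G Z → ∃ c : ℝ, a * Z = c • a) :
    ∃ e : Matrix Y Y ℝ, Prim G e ∧ a * e = a ∧ ∀ (Z : Matrix Y Y ℝ) (c : ℝ), a * Z = c • a → e * Z = c • e := by
  have hi := ha.transpose.mul ha
  obtain ⟨c, hc⟩ := h _ hi
  have c0 : c ≠ 0 := fun e => mul_transpose_ne_zero (mul_transpose_ne_zero a0) (by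
    rw [Matrix.transpose_mul, Matrix.transpose_transpose, ← Matrix.mul_assoc, Matrix.mul_assoc a, hc, e,
      zero_smul, Matrix.zero_mul])
  have h1 : ∀ (Z : Matrix Y Y ℝ) (d : ℝ), a * Z = d • a → c⁻¹ • (aᵀ * a) * Z = d • c⁻¹ • (aᵀ * a) :=
    fun Z d e => by rw [Matrix.smul_mul, Matrix.mul_assoc, e, Matrix.mul_smul, smul_comm]
  have h2 : a * c⁻¹ • (aᵀ * a) = a := by rw [Matrix.mul_smul, hc, smul_smul, inv_mul_cancel₀ c0, one_smul]
  have h3 := h1 _ 1 (h2.trans (one_smul _ _).symm)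
  rw [one_smul] at h3
  refine ⟨c⁻¹ • (aᵀ * a), ⟨hi.smul _, by rw [Matrix.transpose_smul, Matrix.transpose_mul,
    Matrix.transpose_transpose], h3, fun Z hZ => ?_⟩, h2, h1⟩
  obtain ⟨d, hd⟩ := h Z hZ
  exact ⟨d, by rw [h1 Z d hd, Matrix.smul_mul, h3]⟩

variable {F : Type*} [Field F] {σ : F →+* F} {E : Type*} [AddCommGroup E] [Module F E]
  [FiniteDimensional F E] {B : Sesq σ E} (hB : IsEps B 1) [Fintype F] [Fintype E] {q : ℕ} (hU : UF σ q)
variable {X : Type*} [MulAction (SUb B) X] [Fintype X] {ω : X}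

theorem K1.aff' {k : ℕ} {Y : Matrix X (TI B k) ℝ} (h : K1 Y) (U : Submodule F E) (x : X) :
    ∑ L, Y x L * (Fintype.card F : ℝ) ^ finrank F (U ⊓ L.1 : Submodule F E) = 0 := by
  have h0 : ∀ W : Submodule F E, finrank F W ≤ 1 → lsum W (Y x) = 0 := fun W h2 => by
    by_cases hW : W ≤ perp B W
    · rw [← mulVec_fU, h W hW h2]; rfl
    · exact lsum_zero hW _
  have h2 := lsum_step ⊥ U (Y x)
  rw [Finset.sum_eq_zero fun v _ => ite_eq_right_iff.2 fun _ => h0 _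
    (by simpa using finrank_sup_single_le (F := F) ⊥ v), lsum_bot] at h2
  simpa only [mul_comm] using h2

include hB hU in
theorem exists_g {Z : Matrix (TI B 2) (TI B 2) ℝ} (hZ : InvM (SUb B) Z) :
    ∃ g : ℕ → ℕ → ℝ, ∀ L l, Z L l = g (tI L l) (tJ L l) := by
  refine ⟨fun i j => if h : ∃ p : TI B 2 × TI B 2, tI p.1 p.2 = i ∧ tJ p.1 p.2 = j then Z h.choose.1 h.choose.2
    else 0, fun L l => ?_⟩
  have h : ∃ p : TI B 2 × TI B 2, tI p.1 p.2 = tI L l ∧ tJ p.1 p.2 = tJ L l := ⟨(L, l), rfl, rfl⟩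
  simp only [dif_pos h]
  obtain ⟨h1, h2⟩ := h.choose_spec
  generalize h.choose = p at *
  obtain ⟨g, e1, e2⟩ := pair_trans hB hU p.1.2.2 L.2.2 p.2.2.2 l.2.2
    (fun e => by have := p.1.2.1; rw [e, finrank_bot] at this; omega)
    (p.1.2.1.trans L.2.1.symm) (p.2.2.1.trans l.2.1.symm) h1 (by rw [inf_comm, inf_comm L.1]; exact h2)
  rw [← show g • p.1 = L from UR.TI.ext' e2, ← show g • p.2 = l from UR.TI.ext' e1, hZ]

include hB hU in
theorem mul_chi (hn : finrank F E = 6) {a : Matrix X (TI B 2) ℝ} (h1 : K1 a)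
    (h2 : ∀ l : TI B 2, (a * inc B 2 3) *ᵥ fU B 3 l.1 = 0) {Z : Matrix (TI B 2) (TI B 2) ℝ} {g : ℕ → ℕ → ℝ}
    (hg : ∀ L l, Z L l = g (tI L l) (tJ L l)) : a * Z = chi q g • a := by
  ext x l
  have s0 := h1.aff' ⊥ x
  have s1 := h1.aff' l.1 x
  have s3 := h1.aff' (perp B l.1) x
  have s2 : ∑ L, a x L * cP L l = 0 := by
    have := congrFun (h2 l) x
    rwa [← Matrix.mulVec_mulVec] at this
  rw [Finset.sum_congr rfl (g := a x) fun L _ => by rw [bot_inf_eq, finrank_bot, pow_zero, mul_one]] at s0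
  rw [Matrix.mul_apply, Finset.sum_congr rfl fun L _ => by rw [hg, decomp hB hU hn g L l]]
  simp only [mul_add, Finset.sum_add_distrib, mul_left_comm (a x _), ← Finset.mul_sum, ← Finset.sum_mul,
    tI, tJ, s0, s1, s2, s3]
  simp

include hB hU in
theorem exists_a (h1 : Tr B ω 1) (h2 : ¬ Tr B ω 2) : ∃ a : Matrix X (TI B 2) ℝ, InvM (SUb B) a ∧ a ≠ 0 ∧
    ∀ k, ∀ Y : Matrix (TI B 2) (TI B k) ℝ, InvM (SUb B) Y → K1 (a * Y) := by
  simp only [Tr, not_forall] at h2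
  obtain ⟨l₀, l₁, h2⟩ := h2
  have : Nonempty (TI B 2) := ⟨l₀⟩
  set a := orbM (SUb B) ω l₀ - (Fintype.card (TI B 2) : ℝ)⁻¹ • (orbM (SUb B) ω l₀ * JM (TI B 2) (TI B 2)) with ha
  have i : InvM (SUb B) a := (invM_orbM ω l₀).sub (((invM_orbM ω l₀).mul invM_J).smul _)
  have aJ : a * JM (TI B 2) (TI B 2) = 0 := by
    rw [ha, Matrix.sub_mul, Matrix.smul_mul, Matrix.mul_assoc, JM_mul_JM, Matrix.mul_smul, smul_smul,
      inv_mul_cancel₀ (by positivity), one_smul, sub_self]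
  have key : ∀ j, Tr B ω j → ∀ N : Matrix (TI B 2) (TI B j) ℝ, InvM (SUb B) N → a * N = 0 := fun j hj N hN => by
    have e1 : N * JM (TI B j) (TI B 2) = (N * JM (TI B j) (TI B 2)) l₀ l₀ • JM (TI B 2) (TI B 2) := by
      ext L l
      obtain ⟨g, -, e⟩ := pair_trans hB hU (U := ⊥) (U' := ⊥) l₀.2.2 L.2.2 bot_le bot_le
        (fun e => by have := l₀.2.1; rw [e, finrank_bot] at this; omega) (l₀.2.1.trans L.2.1.symm) rfl
        (by rw [bot_inf_eq, bot_inf_eq])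
        (by rw [show perp B (⊥ : Submodule F E) = ⊤ from eq_top_iff.2 fun x _ => by simp [mem_perp],
          inf_top_eq, inf_top_eq, l₀.2.1, L.2.1])
      rw [← show g • l₀ = L from UR.TI.ext' e, ← (hN.mul invM_J) g l₀ l₀]
      simp [Matrix.mul_apply, JM_apply]
    have e2 : a * N * JM (TI B j) (TI B 2) = 0 := by rw [Matrix.mul_assoc, e1, Matrix.mul_smul, aJ, smul_zero]
    have e3 : ∀ y, (a * N) ω y = 0 := fun y => by
      have e4 := congrFun (congrFun e2 ω) l₀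
      rw [Matrix.mul_apply, Finset.sum_congr rfl (g := fun _ => (a * N) ω y) fun y' _ => by
        obtain ⟨g, e5, rfl⟩ := hj y y'
        rw [JM_apply, mul_one, ← (i.mul hN) g ω y, e5], Finset.sum_const, nsmul_eq_mul] at e4
      have : Nonempty (TI B j) := ⟨y⟩
      exact (mul_eq_zero.1 e4).resolve_left (by rw [Finset.card_univ]; positivity)
    ext x y
    by_cases hx : ∃ g : SUb B, g • ω = x
    · obtain ⟨g, rfl⟩ := hx
      rw [← smul_inv_smul g y, (i.mul hN) g, e3]; rfl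
    · have e4 : ∀ L, orbM (SUb B) ω l₀ x L = 0 := fun L => if_neg fun ⟨g, e, _⟩ => hx ⟨g, e⟩
      simp [Matrix.mul_apply, ha, e4]
  refine ⟨a, i, fun e => ?_, fun k Y hY U h0 hd => ?_⟩
  · have e1 := congrFun (congrFun e ω) l₀
    have e2 := congrFun (congrFun e ω) l₁
    have e3 : orbM (SUb B) ω l₀ ω l₀ = 1 := if_pos ⟨1, one_smul _ _, one_smul _ _⟩
    have e4 : orbM (SUb B) ω l₀ ω l₁ = 0 := if_neg h2
    simp only [ha, Matrix.sub_apply, Matrix.smul_apply, Matrix.mul_apply, JM_apply, e3, e4, Matrix.zero_apply]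
      at e1 e2
    linarith
  · have t : Tr B ω (finrank F U) := by
      rcases (by omega : finrank F U = 0 ∨ finrank F U = 1) with e | e <;> rw [e]
      · exact fun y y' => ⟨1, one_smul _ _, UR.TI.ext' (by
          rw [one_smul, Submodule.finrank_eq_zero.1 y.2.1, Submodule.finrank_eq_zero.1 y'.2.1])⟩
      · exact h1
    ext x
    have := congrFun (congrFun (key _ t _ (hY.mul (invM_inc _ k).transpose)) x) ⟨U, rfl, h0⟩
    rw [← Matrix.mul_assoc] at this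
    exact this

include hU in
theorem Kt_chi (hn : finrank F E = 6) : ∃ g : ℕ → ℕ → ℝ, (∀ L l, Kt hB (TI B 2) L l = g (tI L l) (tJ L l)) ∧
    chi q g = ((q : ℝ) - 1) * (q ^ 2 + 1) * (q ^ 3 + 1) := by
  obtain ⟨ε, e0, he⟩ := hU.exists_trace_zero
  obtain ⟨g, hg⟩ := exists_g hB hU (invM_Kt hB (TI B 2))
  have q1 := one_lt_q hU
  have h1 : ∀ L l : TI B 2, ((q : ℝ) + 1) * Kt hB (TI B 2) L l =
      ∑ u ∈ Iso B, if ∀ v ∈ l.1, v - (ε * B v u) • u ∈ L.1 then (1 : ℝ) else 0 := fun L l => by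
    have := Kt_mulVec hB hU e0 he (fU B 2 l.1) L
    rw [mulVec_fU, lsum_top l.2.2 l.2.1] at this
    exact this.trans (Finset.sum_congr rfl fun u hu => if_congr (le_ut hB he (mem_Iso.1 hu).2 l.1 L.1) rfl rfl)
  have h0 : ∀ L l : TI B 2, (∀ u, ¬ ∀ v ∈ l.1, v - (ε * B v u) • u ∈ L.1) → Kt hB (TI B 2) L l = 0 :=
    fun L l h => (mul_eq_zero.1 ((h1 L l).trans (Finset.sum_eq_zero fun u _ => if_neg (h u)))).resolve_left
      (by positivity)
  have h2 : ∀ L l : TI B 2, tI L l = 0 → Kt hB (TI B 2) L l = 0 := fun L l e => h0 L l fun u h => by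
    obtain ⟨v, hv, v0, h1⟩ := exists_perp_mem hB l.2.1.ge u
    have h3 : v ∈ l.1 ⊓ L.1 := ⟨hv, by simpa [h1] using h v hv⟩
    rw [Submodule.finrank_eq_zero.1 e] at h3
    exact v0 h3
  set g' : ℕ → ℕ → ℝ := fun i j => if i = 2 then (q - 1) * (q ^ 4 * (q + 1) + q ^ 2 + 1) else
    if i = 1 ∧ j = 1 then g 1 1 else 0 with hg'
  have h3 : ∀ L l, Kt hB (TI B 2) L l = g' (tI L l) (tJ L l) := fun L l => by
    rcases types hB hU hn L l with ⟨rfl, e1, e2, -⟩ | ⟨h, ⟨e1, e2, -, e3⟩ | ⟨-, ⟨e1, e2⟩ | ⟨e1, e2⟩ | ⟨e1, e2⟩⟩⟩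
    · apply mul_left_cancel₀ (show (q : ℝ) + 1 ≠ 0 by positivity)
      rw [h1, sum_fix hB hU e0 L.2.2 le_rfl, L.2.1, hn, e1, cI]
      simp only [hg', if_true]
      field_simp
      ring
    · rw [e1, e2, h0 L l fun u hu => h (UR.TI.ext' (Submodule.eq_of_le_of_finrank_eq (fun v hv => ?_)
        (l.2.1.trans L.2.1.symm)).symm)]
      · simp [hg']
      · have e4 := hB.refl (e3 (hu v hv) v hv)
        have e5 : B v u = 0 := by simpa [l.2.2 hv v hv, e0] using e4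
        simpa [e5] using hu v hv
    · rw [hg, e1, e2]; simp [hg']
    · rw [h2 L l e1, e1, e2]; simp [hg']
    · rw [h2 L l e1, e1, e2]; simp [hg']
  obtain ⟨l⟩ : Nonempty (TI B 2) := Fintype.card_pos_iff.1 (by rw [card_lines6 hB hU hn]; positivity)
  have h4 := congrFun (congrFun (Kt_mul_J hB hU (TI B 2)) l) l
  rw [Kt, (invM_J (G := SUb B)).opS_comm, ← Kt, Matrix.mul_apply, hn, cI] at h4
  simp only [JM_apply, one_mul, h3, colsum hB hU hn, Matrix.smul_apply, smul_eq_mul, mul_one] at h4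
  refine ⟨g', h3, ?_⟩
  have h5 : g 1 1 = (q - 1) * q ^ 2 := by
    norm_num [hg'] at h4
    field_simp at h4
    apply mul_left_cancel₀ (show ((q : ℝ) ^ 2 + 1) * q ^ 5 * (q + 1) ≠ 0 by positivity)
    linear_combination h4
  norm_num [chi, hg', h5]
  ring

include hU in
theorem lines6 (hn : finrank F E = 6) (hq : 3 ≤ q) (h1 : Tr B ω 1) (h2 : ¬ Tr B ω 2) :
    Occ hB X (-((q : ℝ) - 1) * (q ^ 6 - q ^ 5 - q ^ 2 - 1))
      (q ^ 3 * (q ^ 2 + q + 1) * (q ^ 4 - q ^ 3 + q ^ 2 - q + 1)) ∨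
    Occ hB X (((q : ℝ) - 1) * (q ^ 2 + 1) * (q ^ 3 + 1))
      (q ^ 6 * (q ^ 2 + q + 1) * (q ^ 4 - q ^ 3 + q ^ 2 - q + 1)) := by
  obtain ⟨a, ai, a0, ak⟩ := exists_a hB hU h1 h2
  obtain ⟨e, p, k, tr, -, ly⟩ := max_idem hB hU (j := 0) (t := q) (Or.inl ⟨by omega, rfl⟩) rfl rfl
  have q1 := one_lt_q hU
  have q2 : 0 < (q : ℝ) ^ 2 - 1 := by nlinarith
  by_cases hb : a * inc B 2 3 * e = 0
  · have k1 : K1 a := Matrix.mul_one a ▸ ak 2 1 invM_one
    have k2 : ∀ l : TI B 2, (a * inc B 2 3) *ᵥ fU B 3 l.1 = 0 := fun l => by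
      obtain ⟨g, e1, e2⟩ := ly l.1 l.2.2 l.2.1
      have := (ak 3 _ (invM_inc 2 3)).layer l.2.2 l.2.1.le e1
      rw [Matrix.mulVec_mulVec, hb, card_cast hU, e2, one_smul, Matrix.zero_mulVec] at this
      exact this.symm
    obtain ⟨z, zp, z1, z2⟩ := exists_prim ai a0 fun Z hZ => by
      obtain ⟨g, hg⟩ := exists_g hB hU hZ
      exact ⟨_, mul_chi hB hU hn k1 k2 hg⟩
    obtain ⟨g, hg, hc⟩ := Kt_chi hB hU hn
    have o := Occ.of_prim hB zp (θ := chi q g) (by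
      rw [Kt, zp.inv.opS_comm, ← Kt]; exact z2 _ _ (mul_chi hB hU hn k1 k2 hg)) ai (by rwa [z1])
    obtain ⟨c, hz⟩ := exists_g hB hU zp.inv
    have c1 : chi q c = 1 := smul_left_injective ℝ a0 (by
      simp only [one_smul]; rw [← mul_chi hB hU hn k1 k2 hz, z1])
    have zd : ∀ l, z l l = c 2 2 := fun l => by rw [hz, tI_self, tJ_self]
    obtain ⟨l⟩ : Nonempty (TI B 2) := Fintype.card_pos_iff.1 (by rw [card_lines6 hB hU hn]; positivity)
    have c2 : ∀ r : ℕ → ℕ → ℝ, c 2 2 * r 2 2 + (q + 1) * q ^ 2 * (q ^ 2 + 1) * (c 1 2 * r 1 2) +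
        (q ^ 2 + 1) * q ^ 5 * (c 1 1 * r 1 1) + q ^ 7 * (q + 1) * (q ^ 2 + 1) * (c 0 1 * r 0 1) +
        q ^ 12 * (c 0 0 * r 0 0) = chi q r * c 2 2 := fun r => by
      have := congrFun (congrFun (z2 _ _ (mul_chi hB hU hn k1 k2
        (Z := Matrix.of fun L l => r (tI L l) (tJ L l)) (g := r) fun _ _ => rfl)) l) l
      rw [Matrix.smul_apply, zd, Matrix.mul_apply] at this
      rw [← colsum hB hU hn (fun i j => c i j * r i j) l]
      refine Eq.trans (Finset.sum_congr rfl fun L _ => ?_) this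
      rw [← hz, show z L l = z l L from congrFun (congrFun zp.symm l) L]
      rfl
    have c3 := c2 fun i j => if i = 1 ∧ j = 2 then 1 else 0
    have c4 := c2 fun i j => if i = 1 ∧ j = 1 then 1 else 0
    have c5 := c2 fun i j => if i = 0 ∧ j = 1 then 1 else 0
    have c6 := c2 fun i j => if i = 0 ∧ j = 0 then 1 else 0
    norm_num [chi] at c1 c3 c4 c5 c6
    refine Or.inr (hc ▸ ?_)
    convert o using 1
    rw [Matrix.trace]
    simp only [Matrix.diag, zd, Finset.sum_const, nsmul_eq_mul, Finset.card_univ, card_lines6 hB hU hn]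
    push_cast
    apply mul_left_cancel₀ (show (q : ℝ) ^ 9 * (q ^ 2 + 1) ≠ 0 by positivity)
    linear_combination (q ^ 6 * (q ^ 2 + q + 1) * (q ^ 4 - q ^ 3 + q ^ 2 - q + 1) : ℝ) *
      (-(q ^ 9 * (q ^ 2 + 1)) * c1 - q ^ 7 * c3 + (q - q ^ 2) * q ^ 4 * c4 + q ^ 4 * c5 - (q ^ 2 + 1) * c6)
  · have o := Occ.of_prim hB p k (ai.mul (invM_inc 2 3)) hb
    refine Or.inl ?_
    convert o using 1
    · field_simp; ring
    · apply mul_right_cancel₀ (show ((q : ℝ) ^ 2 - 1) ^ 2 * (q ^ 2 + 1) * (q + q ^ 2) * (q + (q ^ 2) ^ 2) ≠ 0 by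
        positivity)
      rw [tr]; ring

end Cfsg.Agent.H2.UE
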