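import Cfsg.Agent.H2.UF1
import Cfsg.Agent.H1.URf
import Cfsg.Agent.H6.UL3

/-! Rank 3 actions of unitary groups of dimension six: the degree bound. -/

set_option autoImplicit false
set_option linter.unusedSectionVars false

namespace Cfsg.Agent.H2.UF6

open Module Matrix Cfsg.Agent.H1 Cfsg.Agent.H1.UR
open Cfsg.Agent.H5 hiding TI im mem_im app_mem_im im_mul im_one im_inv finrank_im im_perp im_inf im_sup im_le_iff
  im_span im_eq_of_mapsTo span_le_perp pt exists_pt eq_pt_iff pt_eq_iff smul_pt sum_pt pair_trans fix_trans Rel O2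
  Sit Irr
open scoped Classical

variable {F : Type*} [Field F] {σ : F →+* F} {E : Type*} [AddCommGroup E] [Module F E]
  [FiniteDimensional F E] {B : Sesq σ E} (hB : IsEps B 1) [Fintype F] [Fintype E] {q : ℕ} (hU : UF σ q)
variable {X : Type*} [MulAction (SUb B) X] [Fintype X] {adj : X → X → Prop} {ω : X} {r d : ℕ} {g : SUb B}

include hU in
theorem Ln_exists (hs : Sit B adj ω) (ht : TF hB ω) (hp : Pd q (finrank F E) r d) (h2 : (2 : F) ≠ 0)
    (hg : TA B ω r g) (hrel : ∀ y y' : TI B 1, y.1 ≤ fx B g → y'.1 ≤ fx B g → Rel B ω y y')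
    {u : E} (hu : u ∈ fx B g) (u0 : u ≠ 0) (he : B u u = 0) : ∃ l, Ln B ω l ∧ u ∈ l ∧ l ≤ fx B g :=
  H6.UL.Ln_exists_of hB hU hs ht hp h2 hg (hp.fx_spec hB hU hg.ord (Or.inl hg.ne))
    (fun _ _ hx hy _ ha ha' => hp.syl hB hU hg hx hy ha ha') (fun _ _ hx hy _ ha ha' => hp.syl hB hU hg hx hy ha ha')
    (hp.exists_N hB hU hg) hrel hu u0 he

include hU in
theorem six_bound (hs : Sit B adj ω) (ht : TF hB ω) (hn : finrank F E = 6) (hp : Pd q (finrank F E) r d)
    (h2 : (2 : F) ≠ 0) (hg : TA B ω r g) (ho : O2 B ω) :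
    q ^ 9 ∣ Fintype.card X ∨ q ^ 10 ≤ Fintype.card X := by
  obtain ⟨h3, h4⟩ := hp.fx_spec hB hU hg.ord (Or.inl hg.ne)
  have h5 := hp.hn
  obtain ⟨k, hk⟩ := hp.odd
  exact six_core hB hU hs ht hn h2 ho (W := fx B g) (by omega) h4
    (fun _ hu u0 he _ ha => hp.A_le hB hU ht hg hu u0 he ha)
    fun hrel _ hu u0 he => (Ln_exists hB hU hs ht hp h2 hg hrel hu u0 he).imp fun _ h => ⟨h.1, h.2.1⟩

end Cfsg.Agent.H2.UF6
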