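import Mathlib

/-! Zsigmondy's theorem (the cases `q ≥ 3` and `d` odd). -/

set_option autoImplicit false

namespace Cfsg.Agent.H2

open Polynomial

theorem zsig_aux {q d r : ℕ} (hq : 2 ≤ q) (hd : 3 ≤ d) (hr : r.Prime)
    (h : r ∣ ((cyclotomic d ℤ).eval (q : ℤ)).natAbs) (hn : orderOf (q : ZMod r) ≠ d) :
    ∃ k m, d = r ^ (k + 1) * m ∧ m ∣ r - 1 ∧ orderOf (q : ZMod r) = m ∧
      ¬ r * r ∣ ((cyclotomic d ℤ).eval (q : ℤ)).natAbs := by
  have := Fact.mk hr
  obtain ⟨k, m, hm, e⟩ := Nat.exists_eq_pow_mul_and_not_dvd (n := d) (by omega) r hr.ne_one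
  have : NeZero (m : ZMod r) := ⟨fun h0 => hm ((ZMod.natCast_eq_zero_iff m r).1 h0)⟩
  have h1 : (cyclotomic (r ^ k * m) (ZMod r)).IsRoot (q : ZMod r) := by
    rw [← e, IsRoot.def, ← map_cyclotomic_int, ← Int.cast_natCast (R := ZMod r) q, eval_intCast_map,
      eq_intCast, Int.cast_id, ZMod.intCast_zmod_eq_zero_iff_dvd]
    exact Int.natCast_dvd.2 h
  have h2 := (isRoot_cyclotomic_prime_pow_mul_iff_of_charP.1 h1).eq_orderOf
  have hm0 : 0 < m := Nat.pos_of_ne_zero (by rintro rfl; simp at hm)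
  have hq0 : (q : ZMod r) ≠ 0 := fun h0 => by
    have := pow_orderOf_eq_one (q : ZMod r)
    rw [← h2, h0, zero_pow hm0.ne'] at this
    exact zero_ne_one this
  obtain _ | k := k
  · exact absurd (by rw [e, ← h2]; simp) hn
  have h3 : m ∣ r - 1 := h2 ▸ ZMod.orderOf_dvd_card_sub_one hq0
  refine ⟨k, m, e, h3, h2.symm, fun h4 => ?_⟩
  have h5 : r ^ k * m ∈ d.properDivisors := by
    rw [Nat.mem_properDivisors, e]
    refine ⟨⟨r, by ring⟩, Nat.mul_lt_mul_of_pos_right (Nat.pow_lt_pow_right hr.one_lt (by omega)) hm0⟩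
  have h6 := eval_dvd (x := (q : ℤ)) (X_pow_sub_one_mul_cyclotomic_dvd_X_pow_sub_one_of_dvd ℤ h5)
  simp only [eval_mul, eval_sub, eval_pow, eval_X, eval_one] at h6
  set y : ℤ := (q : ℤ) ^ (r ^ k * m) with hy
  have h7 : (q : ℤ) ^ d - 1 = (y - 1) * ∑ i ∈ Finset.range r, y ^ i := by
    rw [mul_comm, geom_sum_mul, hy, ← pow_mul, e]; congr 2; ring
  have h8 : y - 1 ≠ 0 := by
    have : (1 : ℤ) < y := one_lt_pow₀ (by exact_mod_cast hq) (Nat.mul_pos (pow_pos hr.pos k) hm0).ne'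
    omega
  rw [h7, mul_dvd_mul_iff_left h8] at h6
  have h9 : ((r * r : ℕ) : ℤ) ∣ ∑ i ∈ Finset.range r, y ^ i := (Int.natCast_dvd.2 h4).trans h6
  have h10 : (r : ℤ) ∣ y - 1 := by
    rw [← ZMod.intCast_zmod_eq_zero_iff_dvd]
    push_cast [hy]
    rw [mul_comm, pow_mul, h2, pow_orderOf_eq_one, one_pow, sub_self]
  obtain ⟨b, hb⟩ := h10
  rcases hr.eq_two_or_odd' with rfl | ho
  · have hm1 : m = 1 := by simpa using h3
    obtain _ | k := k
    · omega
    have h11 : y = ((q : ℤ) ^ (2 ^ k)) ^ 2 := by rw [hy, hm1, ← pow_mul]; congr 1; ring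
    generalize (q : ℤ) ^ (2 ^ k) = z at h11
    simp only [Finset.sum_range_succ, Finset.sum_range_zero, h11] at h9
    have : ((0 + (z ^ 2) ^ 0 + (z ^ 2) ^ 1 : ℤ) : ZMod 4) = 0 :=
      (ZMod.intCast_zmod_eq_zero_iff_dvd _ 4).2 (by simpa using h9)
    push_cast at this
    generalize (z : ZMod 4) = w at this
    revert w; decide
  · have h11 := odd_sq_dvd_geom_sum₂_sub (p := r) (1 : ℤ) b ho
    have h12 : (1 : ℤ) + r * b = y := by omega
    simp only [h12, one_pow, mul_one] at h11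
    have h13 : ((r : ℤ)) ^ 2 ∣ r := by
      have := dvd_sub (by simpa [sq] using h9 : (r : ℤ) ^ 2 ∣ _) h11
      simpa using this
    have := Int.le_of_dvd (by exact_mod_cast hr.pos) h13
    have h14 : (2 : ℤ) ≤ r := by exact_mod_cast hr.two_le
    nlinarith

/-- Zsigmondy primes -/
theorem zsigmondy {q d : ℕ} (hq : 2 ≤ q) (hd : 3 ≤ d) (h : 3 ≤ q ∨ Odd d) :
    ∃ r : ℕ, r.Prime ∧ orderOf (q : ZMod r) = d := by
  by_contra hc
  push Not at hc
  set N := ((cyclotomic d ℤ).eval (q : ℤ)).natAbs with hN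
  have h0 := Polynomial.sub_one_pow_totient_lt_natAbs_cyclotomic_eval (n := d) (q := q) (by omega) (by omega)
  rw [← hN] at h0
  have h1 : N ≠ 1 := by
    have : 1 ≤ (q - 1) ^ d.totient := Nat.one_le_pow _ _ (by omega)
    omega
  obtain ⟨r, hr, hrN⟩ := Nat.exists_prime_and_dvd h1
  obtain ⟨k, m, e, hm, ho, h2⟩ := zsig_aux hq hd hr hrN (hc r hr)
  have h3 : N = r := by
    obtain ⟨N', hN'⟩ := hrN
    by_contra h3
    obtain ⟨s, hs, hsN⟩ := Nat.exists_prime_and_dvd (n := N') (by rintro rfl; simp at hN'; exact h3 hN')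
    obtain ⟨k', m', e', hm', -, -⟩ := zsig_aux hq hd hs (hN ▸ hN' ▸ hsN.mul_left r) (hc s hs)
    have key : ∀ {r s k m : ℕ}, r.Prime → s.Prime → s ≠ r → s ∣ r ^ k * m → m ∣ r - 1 → s < r := by
      intro r s k m hr hs hne h1 h2
      rcases (hs.dvd_mul).1 h1 with h | h
      · exact absurd ((Nat.prime_dvd_prime_iff_eq hs hr).1 (hs.dvd_of_dvd_pow h)) hne
      · have := Nat.le_of_dvd (by have := hr.two_le; omega) (h.trans h2)
        have := hr.two_le
        omega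
    by_cases hsr : s = r
    · exact h2 (hN ▸ hN' ▸ Nat.mul_dvd_mul_left r (hsr ▸ hsN))
    · have a1 := key (k := k + 1) hr hs hsr (by rw [← e, e']; exact ⟨s ^ k' * m', by ring⟩) hm
      have a2 := key (k := k' + 1) hs hr (Ne.symm hsr) (by rw [← e', e]; exact ⟨r ^ k * m, by ring⟩) hm'
      omega
  have hr2 := hr.two_le
  by_cases hq3 : 3 ≤ q
  · have a1 : r - 1 ≤ d.totient := Nat.le_of_dvd (Nat.totient_pos.2 (by omega))
      (Nat.totient_prime hr ▸ Nat.totient_dvd_of_dvd (e ▸ ⟨r ^ k * m, by ring⟩))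
    have a2 : 2 ^ (r - 1) ≤ (q - 1) ^ d.totient :=
      (Nat.pow_le_pow_right (by omega) a1).trans (Nat.pow_le_pow_left (by omega) _)
    have a3 : r - 1 < 2 ^ (r - 1) := Nat.lt_two_pow_self
    omega
  have hq2 : q = 2 := by omega
  subst hq2
  have hodd := h.resolve_left hq3
  have hm0 : 0 < m := Nat.pos_of_ne_zero (by rintro rfl; simp at e; omega)
  have hlt : r < 2 ^ r := Nat.lt_two_pow_self
  have hex : ∀ f : ℤ[X], (expand ℤ r f).eval ((2 : ℕ) : ℤ) = f.eval ((2 ^ r : ℕ) : ℤ) := fun f => by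
    rw [expand_eval]; simp
  obtain _ | k := k
  · have hrm : ¬ r ∣ m := fun h => by
      have := Nat.le_of_dvd (by omega) (h.trans hm)
      omega
    have a1 := congrArg (fun f => (f.eval ((2 : ℕ) : ℤ)).natAbs) (cyclotomic_expand_eq_cyclotomic_mul hr hrm ℤ)
    have e' : m * r = d := by rw [e]; ring
    simp only [hex, eval_mul, Int.natAbs_mul, e', ← hN, h3] at a1
    have hm1 : m ≠ 1 := fun h1 => by
      have := Fact.mk hr
      rw [h1, orderOf_eq_one_iff] at ho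
      have h5 : ((1 : ℕ) : ZMod r) = 0 := by
        push_cast at ho ⊢
        linear_combination ho
      exact hr.one_lt.ne' (Nat.dvd_one.1 ((ZMod.natCast_eq_zero_iff 1 r).1 h5))
    have hmo : Odd m := Odd.of_dvd_nat hodd ⟨r, e'.symm⟩
    have hm3 : 3 ≤ m := by obtain ⟨c, hc⟩ := hmo; omega
    have hr4 : 4 ≤ r := by have := Nat.le_of_dvd (by omega) hm; omega
    have a2 := Polynomial.sub_one_pow_totient_lt_natAbs_cyclotomic_eval (n := m) (q := 2 ^ r) (by omega) (by omega)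
    have a3 : ((cyclotomic m ℤ).eval ((2 : ℕ) : ℤ)).natAbs ≤ 3 ^ m.totient := by
      have b1 := cyclotomic_eval_le_add_one_pow_totient (q := (2 : ℝ)) (by norm_num) m
      have b2 : (cyclotomic m ℝ).eval (2 : ℝ) = (((cyclotomic m ℤ).eval ((2 : ℕ) : ℤ) : ℤ) : ℝ) := by
        rw [← map_cyclotomic_int, show (2 : ℝ) = (((2 : ℕ) : ℤ) : ℝ) by norm_num, eval_intCast_map]; simp
      have b3 := cyclotomic_nonneg m (R := ℤ) (x := ((2 : ℕ) : ℤ)) (by norm_num)
      rw [b2] at b1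
      rw [← Nat.cast_le (α := ℤ), Int.natAbs_of_nonneg b3]
      have b4 : ((2 : ℝ) + 1) ^ m.totient = ((3 ^ m.totient : ℤ) : ℝ) := by push_cast; norm_num
      rw [b4] at b1
      exact_mod_cast b1
    have a4 : 3 * r ≤ 2 ^ r - 1 := by
      have : ∀ j, 3 * (j + 4) + 1 ≤ 2 ^ (j + 4) := fun j => by
        induction j with
        | zero => norm_num
        | succ j ih => rw [show j + 1 + 4 = j + 4 + 1 by ring, pow_succ]; omega
      have := this (r - 4)
      rw [Nat.sub_add_cancel hr4] at this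
      omega
    have a5 : (3 * r) ^ m.totient ≤ (2 ^ r - 1) ^ m.totient := Nat.pow_le_pow_left a4 _
    have a6 : r ≤ r ^ m.totient := Nat.le_self_pow (Nat.totient_pos.2 hm0).ne' _
    rw [mul_pow] at a5
    have a7 := Nat.mul_le_mul a6 a3
    rw [a1] at a2
    nlinarith
  · have a1 := congrArg (fun f => (f.eval ((2 : ℕ) : ℤ)).natAbs)
      (cyclotomic_expand_eq_cyclotomic (n := r ^ (k + 1) * m) hr ⟨r ^ k * m, by ring⟩ ℤ)
    have e' : r ^ (k + 1) * m * r = d := by rw [e]; ring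
    simp only [hex, e', ← hN, h3] at a1
    have a2 := Polynomial.sub_one_lt_natAbs_cyclotomic_eval (n := r ^ (k + 1) * m) (q := 2 ^ r)
      (lt_of_lt_of_le hr.one_lt (Nat.le_of_dvd (by positivity) ⟨r ^ k * m, by ring⟩)) (by omega)
    omega

end Cfsg.Agent.H2
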