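import Cfsg.Agent.H1.OmGen
import Cfsg.Agent.H9.AH0

/-! Orthogonal groups over the field with two elements: linear algebra and the trace identity. -/

set_option autoImplicit false
set_option linter.unusedSectionVars false

namespace Cfsg.Agent.H2.AO

open Module Cfsg.Agent.H1 Cfsg.Agent.H6 Cfsg.Agent.H9.AH

variable {F : Type*} [Field F] [Finite F] {E : Type*} [AddCommGroup E] [Module F E] [FiniteDimensional F E]
  {Q : QuadraticForm F E}

/-- standing hypotheses -/
structure O2 (Q : QuadraticForm F E) : Prop where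
  nd : (pb Q).Nondegenerate
  big : 8 ≤ finrank F E
  two : ∀ x : F, x = 0 ∨ x = 1

namespace O2

variable (h : O2 Q)
include h

theorem oh : OH Q := ⟨h.nd, by have := h.big; omega⟩

theorem h2 : (2 : F) = 0 := (h.two 2).resolve_right fun e => one_ne_zero (α := F) (by linear_combination e)

theorem sq (x : F) : x * x = x := by rcases h.two x with rfl | rfl <;> simp

theorem one_of {x : F} (hx : x ≠ 0) : x = 1 := (h.two x).resolve_left hx

theorem add_self (x : E) : x + x = 0 := by rw [← two_smul F x, h.h2, zero_smul]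

theorem neg_eq (x : E) : -x = x := neg_eq_of_add_eq_zero_right (h.add_self x)

theorem sub_eq (x y : E) : x - y = x + y := by rw [sub_eq_add_neg, h.neg_eq]

theorem eq_of_add {x y : E} (e : x + y = 0) : x = y := by rw [← sub_eq_zero, h.sub_eq, e]

theorem pb0 (x : E) : pb Q x x = 0 := by rw [pb_self, h.h2, zero_mul]

theorem mem_span {u v : E} : u ∈ F ∙ v ↔ u = 0 ∨ u = v := by
  rw [Submodule.mem_span_singleton]
  constructor
  · rintro ⟨c, rfl⟩
    rcases h.two c with rfl | rfl <;> simp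
  · rintro (rfl | rfl)
    exacts [⟨0, zero_smul _ _⟩, ⟨1, one_smul _ _⟩]

theorem coset (Y : Submodule F E) (hY : finrank F E < 2 * finrank F Y) (x : E) (c : F) :
    ∃ y ∈ Y, Q (x + y) = c := by
  by_contra hc
  push Not at hc
  have k : ∀ y ∈ Y, Q (x + y) = c + 1 := fun y hy => by
    have := h.one_of (sub_ne_zero.2 (hc y hy))
    linear_combination this
  have hle : Y ≤ oc Q Y := fun y hy y' hy' => by
    have e1 := k _ (Y.add_mem hy' hy)
    have e2 := k _ hy
    have e3 := k _ hy'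
    have e4 := k _ Y.zero_mem
    simp only [Q_add, map_add, add_zero] at e1 e2 e3 e4
    change pb Q y' y = 0
    linear_combination e1 - e2 - e3 + e4
  have := Submodule.finrank_mono hle
  have := finrank_oc h.nd Y
  omega

theorem exists_oc (X : Submodule F E) (hX : finrank F X ≤ 3) (c : F) : ∃ y ∈ oc Q X, Q y = c := by
  have := finrank_oc h.nd X
  have := h.big
  simpa using h.coset (oc Q X) (by omega) 0 c

theorem dual (X : Submodule F E) (hX : finrank F X ≤ 2) {u : E} (hu : u ∉ X) (c : F) :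
    ∃ w, (∀ x ∈ X, pb Q x w = 0) ∧ pb Q u w = 1 ∧ Q w = c := by
  obtain ⟨w, h1, h2⟩ := exists_dual h.nd X hu
  have := finrank_oc h.nd (X ⊔ F ∙ u)
  have := finrank_sup_span_le X u
  have := h.big
  obtain ⟨y, hy, hc⟩ := h.coset (oc Q (X ⊔ F ∙ u)) (by omega) w c
  rw [mem_oc_sup, mem_oc_span] at hy
  exact ⟨w + y, fun x hx => by rw [map_add, h1 x hx, hy.1 x hx, add_zero], by rw [map_add, h2, hy.2, add_zero], hc⟩

omit h in
theorem fr1 (v : E) : finrank F (F ∙ v) ≤ 1 := by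
  have := finrank_sup_span_le (⊥ : Submodule F E) v
  rwa [bot_sup_eq, finrank_bot, zero_add] at this

omit h in
theorem fr2 (v v' : E) : finrank F ↥((F ∙ v) ⊔ (F ∙ v')) ≤ 2 := by
  have := finrank_sup_span_le (F ∙ v) v'
  have := fr1 (F := F) v
  omega

theorem dual1 {v u : E} (hu : u ∉ F ∙ v) (c : F) : ∃ w, pb Q v w = 0 ∧ pb Q u w = 1 ∧ Q w = c := by
  obtain ⟨w, h1, h2⟩ := h.dual (F ∙ v) ((fr1 v).trans one_le_two) hu c
  exact ⟨w, h1 v (Submodule.mem_span_singleton_self v), h2⟩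

theorem dual2 {v v' u : E} (hu : u ∉ (F ∙ v) ⊔ (F ∙ v')) (c : F) :
    ∃ w, pb Q v w = 0 ∧ pb Q v' w = 0 ∧ pb Q u w = 1 ∧ Q w = c := by
  obtain ⟨w, h1, h2⟩ := h.dual _ (fr2 v v') hu c
  exact ⟨w, h1 v (Submodule.mem_sup_left (Submodule.mem_span_singleton_self v)),
    h1 v' (Submodule.mem_sup_right (Submodule.mem_span_singleton_self v')), h2⟩

theorem oc2 (v v' : E) (c : F) : ∃ w, pb Q v w = 0 ∧ pb Q v' w = 0 ∧ Q w = c := by
  obtain ⟨w, h1, h2⟩ := h.exists_oc _ ((fr2 v v').trans (by omega)) c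
  rw [mem_oc_sup, mem_oc_span, mem_oc_span] at h1
  exact ⟨w, h1.1, h1.2, h2⟩

theorem proper {W : Submodule F E} (hW : W ≠ ⊤) : ∃ u, u ≠ 0 ∧ ∀ x ∈ W, pb Q x u = 0 := by
  obtain ⟨x, -, hx⟩ := SetLike.exists_of_lt (lt_top_iff_ne_top.2 hW)
  obtain ⟨u, h1, h2⟩ := exists_dual h.nd W hx
  exact ⟨u, by rintro rfl; simp at h2, h1⟩

theorem sing_two {W W' : Submodule F E} (hW : ∀ v, Q v = 0 → v ∈ W ∨ v ∈ W') : W = ⊤ ∨ W' = ⊤ := by
  by_contra hc
  push Not at hc
  obtain ⟨u, hu, h1⟩ := h.proper hc.1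
  obtain ⟨u', hu', h2⟩ := h.proper hc.2
  obtain ⟨w, k1, k2, k3⟩ := h.dual1 (v := u + u') (u := u) (by
    rw [h.mem_span]; rintro (e | e)
    exacts [hu e, hu' (by simpa using e)]) 0
  rw [map_add, LinearMap.add_apply, k2] at k1
  rcases hW w k3 with e | e
  · rw [pb_comm, h1 w e] at k2; exact zero_ne_one k2
  · rw [pb_comm Q u', h2 w e] at k1; simp at k1

theorem sing_top {W : Submodule F E} (hW : ∀ v, Q v = 0 → v ∈ W) : W = ⊤ :=
  (h.sing_two (W' := W) fun v hv => Or.inl (hW v hv)).elim id id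

/-- a product of two reflections -/
noncomputable def rr (w w' : E) (hw : Q w = 1) (hw' : Q w' = 1) : Om Q :=
  ⟨refl Q w * refl Q w', refl_mul_refl_mem h.nd (by rw [hw]; exact one_ne_zero) (by rw [hw, hw'])⟩

theorem refl_ap {w : E} (hw : Q w = 1) (x : E) : (refl Q w).1 x = x + pb Q x w • w := by
  rw [refl_apply, hw, div_one, h.sub_eq]

theorem rr_apply (w w' : E) (hw : Q w = 1) (hw' : Q w' = 1) (x : E) :
    oA Q (h.rr w w' hw hw') x = (refl Q w).1 ((refl Q w').1 x) := rfl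

theorem stab {v u : E} (hv : Q v = 0) (hu : u ∉ F ∙ v) : ∃ g : Om Q, oA Q g v = v ∧ oA Q g u + u ∉ F ∙ v := by
  obtain ⟨w, k1, k2, k3⟩ := h.dual1 hu 1
  obtain ⟨w', l1, l2, l3⟩ := h.oc2 v u 1
  refine ⟨h.rr w w' k3 l3, by rw [rr_apply, refl_of_orth l1, refl_of_orth k1], ?_⟩
  rw [rr_apply, refl_of_orth l2, h.refl_ap k3, k2, one_smul, add_right_comm, h.add_self, zero_add, h.mem_span]
  rintro (rfl | rfl)
  · simp at k3
  · rw [hv] at k3; exact zero_ne_one k3

end O2

theorem oA_mul (g k : Om Q) (x : E) : oA Q (g * k) x = oA Q g (oA Q k x) := rfl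

@[simp] theorem oA_inv_l (g : Om Q) (x : E) : oA Q g⁻¹ (oA Q g x) = x := by rw [← oA_mul, inv_mul_cancel]; rfl

@[simp] theorem oA_inv_r (g : Om Q) (x : E) : oA Q g (oA Q g⁻¹ x) = x := by rw [← oA_mul, mul_inv_cancel]; rfl

theorem oA_adj (g : Om Q) (x y : E) : pb Q (oA Q g x) y = pb Q (oA Q g⁻¹ y) x := by
  rw [← oA_pb g⁻¹, oA_inv_l, pb_comm]

/-- rank one maps -/
noncomputable def rk (Q : QuadraticForm F E) (p r : E) : Module.End F E := ((pb Q).flip r).smulRight p

theorem rk_apply (p r x : E) : rk Q p r x = pb Q x r • p := rfl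

theorem tr_rk (X : Module.End F E) (p r : E) : LinearMap.trace F E (X * rk Q p r) = pb Q (X p) r := by
  have : X * rk Q p r = ((pb Q).flip r).smulRight (X p) := by
    ext x; simp [rk_apply]
  rw [this, LinearMap.trace_smulRight]; rfl

theorem tr_rk1 (X Y : Module.End F E) (p r : E) :
    LinearMap.trace F E (X * (rk Q p r * Y)) = pb Q (Y (X p)) r := by
  rw [← mul_assoc, LinearMap.trace_mul_comm, ← mul_assoc, tr_rk]; rfl

theorem tr_rk2 (X Y : Module.End F E) (p r : E) :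
    LinearMap.trace F E (X * (Y * rk Q p r)) = pb Q (X (Y p)) r := by
  rw [← mul_assoc, tr_rk]; rfl

theorem tr_rk3 (X Y : Module.End F E) (p r p' r' : E) :
    LinearMap.trace F E (X * (rk Q p r * Y * rk Q p' r')) = pb Q (Y p') r * pb Q (X p) r' := by
  have : rk Q p r * Y * rk Q p' r' = pb Q (Y p') r • rk Q p r' := by
    ext x; simp [rk_apply, smul_smul, mul_comm]
  rw [this, mul_smul_comm, map_smul, tr_rk, smul_eq_mul]

theorem cp_trace {a b c : Om Q} (k : CP a b c) (g : Om Q) :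
    LinearMap.trace F E (oA Q a * (oA Q g * oA Q b * oA Q g⁻¹)) = LinearMap.trace F E (oA Q a * oA Q b) := by
  have hf : ∀ g x : Om Q, LinearMap.trace F E (oA Q (g * x * g⁻¹)) = LinearMap.trace F E (oA Q x) := fun g x => by
    rw [map_mul, LinearMap.trace_mul_comm, ← map_mul, ← mul_assoc, inv_mul_cancel, one_mul]
  have e1 := k.cls (fun x => LinearMap.trace F E (oA Q x)) hf (IsConj.refl a) (isConj_conj g b)
  have e2 := k.cls (fun x => LinearMap.trace F E (oA Q x)) hf (IsConj.refl a) (IsConj.refl b)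
  simp only [map_mul] at e1 e2
  rw [e1, e2]

/-- `a + a⁻¹` -/
noncomputable def sg (a : Om Q) : Module.End F E := oA Q a + oA Q a⁻¹

theorem sg_apply (a : Om Q) (x : E) : sg a x = oA Q a x + oA Q a⁻¹ x := rfl

theorem O2.key (h : O2 Q) {a b c : Om Q} (k : CP a b c) {v : E} (hv : Q v = 0) :
    ∃ (L : E →ₗ[F] F) (μ : F), ∀ y, pb Q v y = 0 →
      L y + (pb Q (oA Q a v) y * pb Q (oA Q b v) y + pb Q (oA Q a⁻¹ v) y * pb Q (oA Q b⁻¹ v) y +
        pb Q (oA Q a v) v * pb Q (oA Q b y) y + pb Q (oA Q b v) v * pb Q (oA Q a y) y) + μ * Q y +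
        Q y * (pb Q (oA Q a v) v * pb Q (sg b v) y + pb Q (oA Q b v) v * pb Q (sg a v) y) = 0 := by
  refine ⟨pb Q (oA Q (b * a) v) + pb Q (oA Q (b * a)⁻¹ v) + pb Q (oA Q (a * b) v) + pb Q (oA Q (a * b)⁻¹ v),
    pb Q (oA Q (b * a) v) v + pb Q (oA Q (a * b) v) v + pb Q (oA Q a v) v * pb Q (oA Q b v) v, fun y hy => ?_⟩
  have e := cp_trace k (h.oh.ez v y)
  have e1 : oA Q (h.oh.ez v y) = 1 + rk Q v y + rk Q (y + Q y • v) v := by
    ext x; rw [h.oh.ez_apply hv hy, h.sub_eq]; rfl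
  rw [h.oh.ez_inv hv hy, h.neg_eq, e1] at e
  simp only [mul_add, add_mul, one_mul, mul_one, map_add, tr_rk1, tr_rk3] at e
  simp only [tr_rk2, map_add, map_smul, LinearMap.add_apply, LinearMap.smul_apply, smul_eq_mul] at e
  simp only [LinearMap.add_apply, sg_apply, map_add, ← oA_adj _ y v, oA_mul]
  linear_combination e + (pb Q (oA Q a v) v * pb Q (oA Q b v) v) * (-h.sq (Q y))

end Cfsg.Agent.H2.AO
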