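import Cfsg.Agent.H2.AO1

/-! Orthogonal groups over the field with two elements: `a + a⁻¹` is a scalar. -/

set_option autoImplicit false
set_option linter.unusedSectionVars false

namespace Cfsg.Agent.H2.AO

open Module Cfsg.Agent.H1 Cfsg.Agent.H6 Cfsg.Agent.H9.AH

variable {F : Type*} [Field F] [Finite F] {E : Type*} [AddCommGroup E] [Module F E] [FiniteDimensional F E]
  {Q : QuadraticForm F E} {a b c : Om Q}

theorem oA_conj (g b : Om Q) {v v' : E} (e : oA Q g v' = v) : oA Q (g * b * g⁻¹) v = oA Q g (oA Q b v') := by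
  rw [← e, oA_mul, oA_mul, oA_inv_l]

theorem sg_conj (g b : Om Q) {v v' : E} (e : oA Q g v' = v) : sg (g * b * g⁻¹) v = oA Q g (sg b v') := by
  rw [sg_apply, sg_apply, map_add, conj_inv, oA_conj g b e, oA_conj g b⁻¹ e]

theorem q_conj (g b : Om Q) {v v' : E} (e : oA Q g v' = v) :
    pb Q (oA Q (g * b * g⁻¹) v) v = pb Q (oA Q b v') v' := by
  rw [oA_conj g b e, ← e, oA_pb]

theorem pb_sg (a : Om Q) (x y : E) : pb Q (sg a x) y = pb Q (oA Q a x) y + pb Q (oA Q a y) x := by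
  rw [sg_apply, map_add, LinearMap.add_apply, oA_adj a y x]

theorem oA_ne (g : Om Q) {x : E} (hx : x ≠ 0) : oA Q g x ≠ 0 := fun e => hx (by rw [← oA_inv_l g x, e, map_zero])

/-- no singular point is mapped to an opposite one -/
def Dom (b : Om Q) : Prop := ∀ v, Q v = 0 → pb Q (oA Q b v) v = 0

theorem Dom.conj (hb : Dom b) (g : Om Q) : Dom (g * b * g⁻¹) := fun v hv => by
  rw [q_conj g b (oA_inv_r g v)]
  exact hb _ (by rw [oA_Q, hv])

namespace O2

variable (h : O2 Q)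
include h

theorem pair (X : Submodule F E) (hX : finrank F X ≤ 3) : ∃ y ∈ oc Q X, ∃ y' ∈ oc Q X, pb Q y y' = 1 := by
  have := finrank_inf_oc_le (Q := Q) X
  have := h.big
  exact exists_pair_oc h.nd (by omega)

theorem opp1 (k : CP a b c) {v : E} (hv : Q v = 0) (ha : pb Q (oA Q a v) v = 1) (hb : pb Q (oA Q b v) v = 1) :
    sg a v + sg b v ∈ F ∙ v := by
  by_contra hu
  obtain ⟨L, μ, e⟩ := h.key k hv
  obtain ⟨y3, k1, k2, -⟩ := h.dual1 hu 0
  obtain ⟨y1, l1, y2, l2, l3⟩ := h.pair _ ((fr2 v (sg a v + sg b v)).trans (by omega))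
  rw [mem_oc_sup, mem_oc_span, mem_oc_span] at l1 l2
  have e1 := e (y1 + y2 + y3) (by simp [k1, l1.1, l2.1])
  have e2 := e (y1 + y2) (by simp [l1.1, l2.1])
  have e3 := e (y1 + y3) (by simp [k1, l1.1])
  have e4 := e (y2 + y3) (by simp [k1, l2.1])
  have e5 := e y1 l1.1
  have e6 := e y2 l2.1
  have e7 := e y3 k1
  have m1 := l1.2
  have m2 := l2.2
  simp only [map_add, LinearMap.add_apply, Q_add, ha, hb, one_mul] at e1 e2 e3 e4 e5 e6 e7 m1 m2 k2
  apply one_ne_zero (α := F)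
  linear_combination e1 - e2 - e3 - e4 + e5 + e6 + e7 - pb Q y1 y2 * k2 - l3 - pb Q y1 y3 * m2 - pb Q y2 y3 * m1

theorem opp2 (k : CP a b c) {v : E} (hv : Q v = 0) (ha : pb Q (oA Q a v) v = 1) (hb : pb Q (oA Q b v) v = 1) :
    sg b v ∈ F ∙ v := by
  by_contra hu
  obtain ⟨g, g1, g2⟩ := h.stab hv hu
  have e1 := h.opp1 k hv ha hb
  have e2 := h.opp1 (k.right (isConj_conj g b)) hv ha (by rw [q_conj g b g1, hb])
  rw [sg_conj g b g1] at e2
  have := Submodule.add_mem _ e2 e1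
  rw [add_add_add_comm, h.add_self, zero_add] at this
  exact g2 this

theorem opp3 (k : CP a b c) (hb : ¬ Dom b) {v : E} (hv : Q v = 0) (ha : pb Q (oA Q a v) v = 1) : sg a v ∈ F ∙ v := by
  simp only [Dom, not_forall] at hb
  obtain ⟨v', hv', hb⟩ := hb
  obtain ⟨g, hg⟩ := h.oh.witt_one (u := v') (w := v) (by rintro rfl; simp at hb) (by rintro rfl; simp at ha)
    (by rw [hv, hv'])
  exact h.opp2 (k.right (isConj_conj g b)).symm hv (by rw [q_conj g b hg, h.one_of hb]) ha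

theorem opp4 (ha : ¬ Dom a) (hs : ∀ v, Q v = 0 → pb Q (oA Q a v) v = 1 → sg a v ∈ F ∙ v) : sg a = 0 := by
  have k : ∀ v, Q v = 0 → pb Q (oA Q a v) v = 1 → sg a v = 0 := fun v hv e => by
    refine (h.mem_span.1 (hs v hv e)).resolve_right fun e' => ?_
    have e1 : oA Q a⁻¹ v = v - oA Q a v := by rw [eq_sub_iff_add_eq', ← sg_apply, e']
    have e2 := oA_Q a⁻¹ v
    rw [e1, Q_sub, oA_Q, hv, pb_comm, e] at e2
    simp at e2
  simp only [Dom, not_forall] at ha
  obtain ⟨v, hv, ha⟩ := ha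
  replace ha := h.one_of ha
  by_contra hc
  obtain ⟨u, hu, hW⟩ := h.proper (W := LinearMap.ker (sg a)) fun e => hc (LinearMap.ker_eq_top.1 e)
  have v1 := k v hv ha
  have u1 := hW v v1
  have u2 := hW (oA Q a v) (k _ (by rw [oA_Q, hv]) (by rw [oA_pb, ha]))
  obtain ⟨y, y1, y2, y3, y4⟩ := h.dual2 (v := v) (v' := oA Q a v) (u := u) (fun e => by
    obtain ⟨x, hx, x', hx', rfl⟩ := Submodule.mem_sup.1 e
    obtain ⟨s, rfl⟩ := Submodule.mem_span_singleton.1 hx
    obtain ⟨t, rfl⟩ := Submodule.mem_span_singleton.1 hx'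
    simp only [map_add, map_smul, smul_eq_mul, h.pb0, ha, pb_comm Q v (oA Q a v), mul_zero, mul_one, zero_add,
      add_zero] at u1 u2
    simp [u1, u2] at hu) 0
  have hy : sg a y ≠ 0 := fun e => by
    have := hW y e
    rw [pb_comm, y3] at this
    exact one_ne_zero this
  rcases h.two (pb Q (oA Q a y) y) with e | e
  · have e1 : pb Q (oA Q a y) v = 0 := by
      have := pb_sg a v y
      rw [v1, y2] at this
      simpa using this.symm
    have := k (v + y) (by rw [Q_add, hv, y4, y1]; simp) (by simp [ha, y2, e, e1])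
    rw [map_add, v1, zero_add] at this
    exact hy this
  · exact hy (k y y4 e)

theorem scalar (hs : ∀ v, Q v = 0 → sg a v ∈ F ∙ v) : sg a = 0 ∨ sg a = 1 := by
  have := h.sing_two (W := LinearMap.ker (sg a)) (W' := LinearMap.ker (sg a - 1)) fun v hv => by
    simpa [sub_eq_zero] using h.mem_span.1 (hs v hv)
  simpa [LinearMap.ker_eq_top, sub_eq_zero] using this

theorem dom1 (hb : Dom b) {v : E} (hv : Q v = 0) : sg b v ∈ F ∙ v := by
  by_contra hu
  obtain ⟨y, y1, y2, y3⟩ := h.dual1 hu 0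
  have := hb (v + y) (by rw [Q_add, hv, y3, y1]; simp)
  rw [pb_sg] at y2
  simp only [map_add, LinearMap.add_apply, hb v hv, hb y y3] at this
  apply one_ne_zero (α := F)
  linear_combination this - y2

theorem dom2 (k : CP a b c) (hb : Dom b) {v : E} (hv : Q v = 0) (h1 : sg a v ∉ F ∙ v) (h2 : oA Q b v ∉ F ∙ v) :
    sg a v + oA Q b v ∈ F ∙ v := by
  by_contra h3
  obtain ⟨L, μ, e⟩ := h.key k hv
  obtain ⟨l, hl⟩ : ∃ l : F, ∀ x, sg b x = l • x := by
    rcases h.scalar (fun v hv => h.dom1 hb hv) with e | e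
    exacts [⟨0, by simp [e]⟩, ⟨1, by simp [e]⟩]
  have key : ∀ y y', pb Q v y = 0 → pb Q v y' = 0 → pb Q (sg a v) y * pb Q (oA Q b v) y' +
      pb Q (sg a v) y' * pb Q (oA Q b v) y + (μ + pb Q (oA Q a v) v * l) * pb Q y y' = 0 := fun y y' hy hy' => by
    have e1 := e (y + y') (by simp [hy, hy'])
    have e2 := e y hy
    have e3 := e y' hy'
    have n : ∀ y, pb Q v y = 0 → pb Q (oA Q b⁻¹ v) y = pb Q (oA Q b v) y := fun y hy => by
      have := congrArg (fun x => pb Q x y) (hl v)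
      simp only [sg_apply, map_add, LinearMap.add_apply, map_smul, LinearMap.smul_apply, hy, smul_zero] at this
      linear_combination this - pb Q (oA Q b v) y * h.h2
    have n3 := pb_sg b y y'
    simp only [map_add, LinearMap.add_apply, Q_add, hb v hv, hl, map_smul, LinearMap.smul_apply, hy, hy', smul_eq_mul,
      n y hy, n y' hy'] at e1 e2 e3 n3
    simp only [sg_apply, map_add, LinearMap.add_apply]
    linear_combination e1 - e2 - e3 + pb Q (oA Q a v) v * n3
  obtain ⟨y1, l1, y2, l2, l3⟩ := h.pair ((F ∙ v) ⊔ (F ∙ sg a v) ⊔ (F ∙ oA Q b v)) (by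
    have := finrank_sup_span_le ((F ∙ v) ⊔ (F ∙ sg a v)) (oA Q b v)
    have := fr2 (F := F) v (sg a v)
    omega)
  simp only [mem_oc_sup, mem_oc_span] at l1 l2
  have m := key y1 y2 l1.1.1 l2.1.1
  rw [l1.1.2, l2.1.2, l3] at m
  obtain ⟨y, k1, k2, k3, -⟩ := h.dual2 (v := v) (v' := oA Q b v) (u := sg a v) (fun e => by
    obtain ⟨x, hx, x', hx', e'⟩ := Submodule.mem_sup.1 e
    rcases h.mem_span.1 hx' with rfl | rfl
    · exact h1 (by rw [← e', add_zero]; exact hx)
    · exact h3 (by rw [← e', add_assoc, h.add_self, add_zero]; exact hx)) 0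
  obtain ⟨y', n1, n2, -⟩ := h.dual1 h2 0
  have m' := key y y' k1 n1
  rw [k2, k3, n2] at m'
  apply one_ne_zero (α := F)
  linear_combination m' - pb Q y y' * m

theorem exists_moved (hb : b ≠ 1) : ∃ v, Q v = 0 ∧ oA Q b v ≠ v := by
  by_contra hc
  push Not at hc
  have := h.sing_top (W := fxS b.1) fun v hv => mem_fxS.2 (hc v hv)
  exact hb (om_ext fun x => mem_fxS.1 (this ▸ Submodule.mem_top))

theorem dom3 (k : CP a b c) (hb : Dom b) {v : E} (hv : Q v = 0) : sg a v ∈ F ∙ v := by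
  by_contra hu
  obtain ⟨v', hv', hm⟩ := h.exists_moved k.hb
  have n1 : v' ≠ 0 := by rintro rfl; simp at hm
  have n2 : v ≠ 0 := by rintro rfl; simp at hu
  obtain ⟨g, hg⟩ := h.oh.witt_one n1 n2 (by rw [hv, hv'])
  have inj : ∀ (g b : Om Q) (v' : E), v' ≠ 0 → oA Q g v' = v → oA Q b v' ≠ v' → oA Q (g * b * g⁻¹) v ∉ F ∙ v :=
    fun g b v' n hg hm => by
      rw [h.mem_span, oA_conj g b hg]
      rintro (e | e)
      · exact oA_ne g (oA_ne b n) e
      · exact hm (by rw [← oA_inv_l g (oA Q b v'), e, ← hg, oA_inv_l])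
  have r1 := inj g b v' n1 hg hm
  obtain ⟨g', g1, g2⟩ := h.stab hv r1
  have k' := k.right (isConj_conj g b)
  have e1 := h.dom2 k' (hb.conj g) hv hu r1
  have e2 := h.dom2 (k'.right (isConj_conj g' _)) ((hb.conj g).conj g') hv hu
    (inj g' _ v n2 g1 fun e => r1 (h.mem_span.2 (Or.inr e)))
  rw [oA_conj g' _ g1] at e2
  have := Submodule.add_mem _ e2 e1
  rw [add_add_add_comm, h.add_self, zero_add] at this
  exact g2 this

theorem main1 (k : CP a b c) : sg a = 0 ∨ sg a = 1 := by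
  by_cases hb : Dom b
  · exact h.scalar fun v hv => h.dom3 k hb hv
  by_cases ha : Dom a
  · exact h.scalar fun v hv => h.dom1 ha hv
  · exact Or.inl (h.opp4 ha fun v hv e => h.opp3 k hb hv e)

end O2

end Cfsg.Agent.H2.AO
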