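import Cfsg.Agent.H2.AO2
import Cfsg.Agent.H6.OrthBridge
import Cfsg.Agent.H6.OrthRank

/-! S2451 for the orthogonal groups over the field with two elements. -/

set_option autoImplicit false
set_option linter.unusedSectionVars false

namespace Cfsg.Agent.H2.AO

open Module Cfsg.Agent.H1 Cfsg.Agent.H6 Cfsg.Agent.H9.AH

variable {F : Type*} [Field F] [Finite F] {E : Type*} [AddCommGroup E] [Module F E] [FiniteDimensional F E]
  {Q : QuadraticForm F E} {a b c : Om Q}

theorem dvd_order {G M : Type*} [Group G] [Monoid M] {X : Type*} [MulAction M X] (ρ : G →* M) {g : G} {l : ℕ}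
    (hl : l.Prime) {x : X} (h1 : ρ (g ^ l) • x = x) (h2 : ρ g • x ≠ x) : l ∣ orderOf g := by
  by_contra hc
  obtain ⟨m, hm⟩ := exists_pow_eq_self_of_coprime ((Nat.Prime.coprime_iff_not_dvd hl).2 hc)
  have : ∀ n : ℕ, ρ ((g ^ l) ^ n) • x = x := fun n => by
    induction n with
    | zero => simp
    | succ n ih => rw [pow_succ, map_mul, mul_smul, h1, ih]
  exact h2 (hm ▸ this m)

theorem dvd_three {g : Om Q} {x : E} (h1 : oA Q g (oA Q g (oA Q g x)) = x) (h2 : oA Q g x ≠ x) : 3 ∣ orderOf g :=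
  dvd_order (oA Q) Nat.prime_three (x := x) (by rw [pow_three]; exact h1) h2

theorem dvd_two {g : Om Q} {x : E} (h1 : oA Q g (oA Q g x) = x) (h2 : oA Q g x ≠ x) : 2 ∣ orderOf g :=
  dvd_order (oA Q) Nat.prime_two (x := x) (by rw [pow_two]; exact h1) h2

namespace O2

variable (h : O2 Q)
include h

theorem inv_ap (ha : sg a = 0) (x : E) : oA Q a (oA Q a x) = x := by
  have := congrArg (fun f : Module.End F E => f (oA Q a x)) ha
  simp only [sg_apply, oA_inv_l, LinearMap.zero_apply] at this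
  exact h.eq_of_add this

theorem inv_pel (ha : sg a = 0) : PEl 2 a :=
  pel_of_pow (k := 1) (om_ext fun x => by rw [pow_one, pow_two]; exact h.inv_ap ha x)

theorem tri_ap (ha : sg a = 1) (x : E) : oA Q a (oA Q a x) = oA Q a x + x := by
  have := congrArg (fun f : Module.End F E => f (oA Q a x)) ha
  simp only [sg_apply, oA_inv_l, Module.End.one_apply] at this
  rw [← h.sub_eq, eq_sub_iff_add_eq, this]

theorem tri_q (ha : sg a = 1) (x : E) : pb Q (oA Q a x) x = Q x := by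
  have := oA_Q a (oA Q a x)
  rw [h.tri_ap ha, Q_add, oA_Q] at this
  linear_combination this - Q x * h.h2

theorem tri_ne (ha : sg a = 1) {x : E} (hx : x ≠ 0) : oA Q a x ≠ x := fun e => by
  have := h.tri_ap ha x
  rw [e, e, h.add_self] at this
  exact hx this

theorem rank_two (ha : a ≠ 1) : 2 ≤ finrank F (mvS a.1) := by
  have hN : BigEnough F E := Or.inl h.oh.big
  have h1 : dick h.nd hN a.1 = 1 := Abelianization.commutator_subset_ker _ a.2
  obtain ⟨k, hk⟩ := (dick_eq_one_iff _ _ _).1 h1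
  have : finrank F (mvS a.1) ≠ 0 := fun e =>
    ha (Subtype.ext (eq_one_of_mvS_eq_bot (Submodule.finrank_eq_zero.1 e)))
  omega

theorem not_span {x y : E} (h1 : y ≠ 0) (h2 : y ≠ x) : y ∉ F ∙ x := by
  rw [h.mem_span]; exact fun e => e.elim h1 h2

theorem inv_plane (ha : sg a = 0) (h1 : a ≠ 1) : ∃ x, Q x = 0 ∧ oA Q a x ≠ x ∧ pb Q (oA Q a x) x = 0 := by
  let φ : E →ₗ[F] F :=
    { toFun := fun x => pb Q (oA Q a x) x
      map_add' := fun x y => by
        have := pb_sg a x y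
        simp only [ha, LinearMap.zero_apply, map_zero] at this
        simp only [map_add, LinearMap.add_apply]
        linear_combination -this
      map_smul' := fun t x => by
        simp only [map_smul, LinearMap.smul_apply, smul_eq_mul, RingHom.id_apply]
        rw [← mul_assoc, h.sq] }
  obtain ⟨m, hm, hm'⟩ := exists_not_mem_of_finrank_lt (S := F ∙ ((pb Q).toDual h.nd).symm φ) (T := mvS a.1) (by
    have := h.rank_two h1
    have := fr1 (F := F) (((pb Q).toDual h.nd).symm φ)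
    omega)
  obtain ⟨x, k1, k2, k3⟩ := h.dual1 hm' 0
  rw [LinearMap.BilinForm.apply_toDual_symm_apply] at k1
  refine ⟨x, k3, fun e => ?_, k1⟩
  rw [pb_comm, pb_fx_mv (mem_fxS.2 e) hm] at k2
  exact zero_ne_one k2

theorem inv_fix (ha : sg a = 0) (h1 : a ≠ 1) : ∃ p p', p ≠ 0 ∧ p' ∉ F ∙ p ∧ Q p = 0 ∧ Q p' = 0 ∧ pb Q p p' = 0 ∧
    oA Q a p = p ∧ oA Q a p' = p' := by
  have hle : mvS a.1 ≤ fxS a.1 := fun x hx => by
    obtain ⟨u, rfl⟩ := mem_mvS.1 hx
    change u - oA Q a u ∈ _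
    refine mem_fxS.2 (show oA Q a _ = _ from ?_)
    rw [map_sub, h.inv_ap ha, h.sub_eq, h.sub_eq, add_comm]
  have r := h.rank_two h1
  obtain ⟨p, hp, p0, hq⟩ : ∃ p ∈ mvS a.1, p ≠ 0 ∧ Q p = 0 := by
    obtain ⟨m, hm, hm'⟩ := exists_not_mem_of_finrank_lt (S := ⊥) (T := mvS a.1) (by rw [finrank_bot]; omega)
    obtain ⟨n, hn, hn'⟩ := exists_not_mem_of_finrank_lt (S := F ∙ m) (T := mvS a.1) (by
      have := fr1 (F := F) m
      omega)
    rw [h.mem_span, not_or] at hn'
    rcases h.two (Q m) with e | e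
    · exact ⟨m, hm, by simpa using hm', e⟩
    rcases h.two (Q n) with e' | e'
    · exact ⟨n, hn, hn'.1, e'⟩
    refine ⟨n + m, add_mem hn hm, fun k => hn'.2 (h.eq_of_add k), ?_⟩
    rw [Q_add, e, e', pb_fx_mv (hle hn) hm]
    linear_combination h.h2
  obtain ⟨p', k1, k2, k3⟩ := exists_sing_not_mem Q (Y := fxS a.1) (R := F ∙ p)
    ((Submodule.span_singleton_le_iff_mem _ _).2 (hle hp)) (by
      have := fr1 (F := F) p
      have := Submodule.finrank_mono hle
      have := finrank_mvS_add a.1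
      have := h.big
      omega)
  exact ⟨p, p', p0, k2, hq, k3, by rw [pb_comm, pb_fx_mv k1 hp], mem_fxS.1 (hle hp), mem_fxS.1 k1⟩

/-- moving a totally singular plane `⟨y, b y⟩` onto a given one -/
theorem align {y p p' : E} (y0 : Q y = 0) (y1 : oA Q b y ≠ y) (y2 : pb Q (oA Q b y) y = 0) (p0 : p ≠ 0)
    (p1 : p' ∉ F ∙ p) (p2 : Q p = 0) (p3 : Q p' = 0) (p4 : pb Q p p' = 0) :
    ∃ g : Om Q, oA Q g y = p ∧ oA Q g (oA Q b y) = p' := by
  have : y ≠ 0 := by rintro rfl; simp at y1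
  exact h.oh.witt_two (by have := h.big; omega) this (h.not_span (oA_ne b this) y1) p0 p1 (by rw [p2, y0])
    (by rw [p3, oA_Q, y0]) (by rw [p4, pb_comm, y2])

theorem inv_inv (k : CP a b c) (ha : sg a = 0) (hb : sg b = 0) : False := by
  have := finite_Om (Q := Q)
  obtain ⟨x, x0, x1, x2⟩ := h.inv_plane ha k.ha
  obtain ⟨y, y0, y1, y2⟩ := h.inv_plane hb k.hb
  have n : x ≠ 0 := by rintro rfl; simp at x1
  obtain ⟨g, g1, g2⟩ := h.align y0 y1 y2 n (p' := oA Q a x + x)
    (h.not_span (fun e => x1 (h.eq_of_add e)) (by simpa using oA_ne a n)) x0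
    (by rw [Q_add, oA_Q, x0, x2]; simp) (by rw [map_add, h.pb0, pb_comm, x2, add_zero])
  have e1 : oA Q (g * b * g⁻¹) x = oA Q a x + x := by rw [oA_conj g b g1, g2]
  have e2 : oA Q (g * b * g⁻¹) (oA Q a x + x) = x := by rw [oA_conj g b g2, h.inv_ap hb, g1]
  have e3 : oA Q (g * b * g⁻¹) (oA Q a x) = oA Q a x := by
    rw [map_add, e1] at e2
    exact h.eq_of_add (by simpa [← add_assoc] using e2)
  refine k.pel_false (h.inv_pel ha) (h.inv_pel hb) Nat.prime_three (by decide) (IsConj.refl a) (isConj_conj g b)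
    (dvd_three (x := x) ?_ ?_)
  · simp only [oA_mul a, e1, map_add, e3, h.inv_ap ha]
    rw [add_right_comm, h.add_self, zero_add]
  · rw [oA_mul a, e1, map_add, h.inv_ap ha]
    simpa using oA_ne a n

theorem inv_tri (k : CP a b c) (ha : sg a = 0) (hb : sg b = 1) : Concl 2 a b c := by
  have := finite_Om (Q := Q)
  obtain ⟨x, x0, x1, x2⟩ := h.inv_plane ha k.ha
  obtain ⟨p, p', p0, p1, p2, p3, p4, p5, p6⟩ := h.inv_fix ha k.ha
  have n : x ≠ 0 := by rintro rfl; simp at x1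
  have y1 := h.tri_ne hb n
  have y2 : pb Q (oA Q b x) x = 0 := by rw [h.tri_q hb, x0]
  obtain ⟨g, g1, g2⟩ := h.align x0 y1 y2 n (p' := oA Q a x) (h.not_span (oA_ne a n) x1) x0 (by rw [oA_Q, x0])
    (by rw [pb_comm, x2])
  obtain ⟨g', k1, k2⟩ := h.align x0 y1 y2 p0 p1 p2 p3 p4
  have e1 : oA Q (g * b * g⁻¹) x = oA Q a x := by rw [oA_conj g b g1, g2]
  have e2 : oA Q (g * b * g⁻¹) (oA Q a x) = oA Q a x + x := by rw [oA_conj g b g2, h.tri_ap hb, map_add, g1, g2]
  have f1 : oA Q (g' * b * g'⁻¹) p = p' := by rw [oA_conj g' b k1, k2]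
  have f2 : oA Q (g' * b * g'⁻¹) p' = p' + p := by rw [oA_conj g' b k2, h.tri_ap hb, map_add, k1, k2]
  refine k.concl_two (Or.inl ((h.inv_pel ha).dvd k.ha)) (IsConj.refl a) (isConj_conj g b) (IsConj.refl a)
    (isConj_conj g' b) (dvd_two (x := oA Q a x) ?_ ?_) Nat.prime_three (by decide) (dvd_three (x := p) ?_ ?_)
  · simp only [oA_mul a, e1, e2, map_add, h.inv_ap ha]
    rw [← add_assoc, h.add_self, zero_add]
  · rw [oA_mul a, e2, map_add, h.inv_ap ha]
    simpa using n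
  · simp only [oA_mul a, f1, f2, map_add, p5, p6]
    rw [add_right_comm, h.add_self, zero_add]
  · rw [oA_mul a, f1, p6]
    exact fun e => p1 (h.mem_span.2 (Or.inr e))

/-- two orthogonal anisotropic planes -/
theorem exists_fr (ha : sg a = 1) : ∃ x y, Q x = 1 ∧ Q y = 1 ∧ pb Q x y = 0 ∧ pb Q (oA Q a x) y = 0 ∧
    pb Q x (oA Q a y) = 0 := by
  obtain ⟨x, -, -, hx⟩ := h.oc2 0 0 1
  obtain ⟨y, y1, y2, hy⟩ := h.oc2 x (oA Q a x) 1
  refine ⟨x, y, hx, hy, y1, y2, ?_⟩
  rw [← oA_pb a, h.tri_ap ha, map_add, oA_pb, y1, y2, add_zero]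

theorem gram (ha : sg a = 1) {x y : E} (hx : Q x = 1) (hy : Q y = 1) (h1 : pb Q x y = 0)
    (h2 : pb Q (oA Q a x) y = 0) (h3 : pb Q x (oA Q a y) = 0) (i j : Fin 4) :
    pb Q (![x, oA Q a x, y, oA Q a y] i) (![x, oA Q a x, y, oA Q a y] j) =
      !![0, 1, 0, 0; 1, 0, 0, 0; 0, 0, 0, 1; 0, 0, 1, 0] i j := by
  have e1 := h.tri_q ha x
  have e2 := h.tri_q ha y
  rw [hx] at e1
  rw [hy] at e2
  fin_cases i <;> fin_cases j <;>
    simp [h.pb0, oA_pb, e1, e2, h1, h2, h3, pb_comm Q x (oA Q a x), pb_comm Q y (oA Q a y), pb_comm Q y x,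
      pb_comm Q y (oA Q a x), pb_comm Q (oA Q a y) x]

omit h in
theorem gram_nd {u : Fin 4 → E} (hu : ∀ i j, pb Q (u i) (u j) =
    !![0, 1, 0, 0; 1, 0, 0, 0; 0, 0, 0, 1; 0, 0, 1, 0] i j) (t : Fin 4 → F)
    (ht : ∀ j, pb Q (u j) (∑ i, t i • u i) = 0) (i : Fin 4) : t i = 0 := by
  have e0 := ht 0
  have e1 := ht 1
  have e2 := ht 2
  have e3 := ht 3
  simp [Fin.sum_univ_four, hu] at e0 e1 e2 e3
  fin_cases i <;> simp [e0, e1, e2, e3]

theorem tri_tri (k : CP a b c) (ha : sg a = 1) (hb : sg b = 1) : False := by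
  obtain ⟨x, y, hx, hy, h1, h2, h3⟩ := h.exists_fr ha
  obtain ⟨x', y', hx', hy', h1', h2', h3'⟩ := h.exists_fr hb
  have G := h.gram ha hx hy h1 h2 h3
  have G' := h.gram hb hx' hy' h1' h2' h3'
  have li : ∀ {u : Fin 4 → E}, (∀ i j, pb Q (u i) (u j) =
      !![0, 1, 0, 0; 1, 0, 0, 0; 0, 0, 0, 1; 0, 0, 1, 0] i j) → LinearIndependent F u := fun hu =>
    Fintype.linearIndependent_iff.2 fun t ht => gram_nd hu t fun j => by rw [ht, map_zero]
  obtain ⟨g0, hg0⟩ := witt_fin h.nd 4 _ _ (li G') (li G)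
    (fun i => by fin_cases i <;> simp [oA_Q, hx, hy, hx', hy']) (fun i j => by rw [G, G'])
  obtain ⟨w, hw, w', hw', hww⟩ := exists_pair_oc h.nd
    (X := Submodule.span F (Set.range ![x', oA Q b x', y', oA Q b y'])) (by
      have e1 := finrank_span_eq_card (li G')
      have e2 : Submodule.span F (Set.range ![x', oA Q b x', y', oA Q b y']) ⊓
          oc Q (Submodule.span F (Set.range ![x', oA Q b x', y', oA Q b y'])) = ⊥ := by
        rw [eq_bot_iff]
        rintro z ⟨z1, z2⟩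
        obtain ⟨t, rfl⟩ := (Submodule.mem_span_range_iff_exists_fun F).1 z1
        have := gram_nd G' t fun j => z2 _ (Submodule.subset_span ⟨j, rfl⟩)
        simp [this]
      rw [e1, e2, finrank_bot, Fintype.card_fin]
      have := h.big
      omega)
  obtain ⟨u, hu, hu'⟩ := exists_nonsing_of_pair hw hw' (by rw [hww]; exact one_ne_zero)
  obtain ⟨g1, m1, m2⟩ := exists_omega h.nd h.oh.big
    (fun t ht => ⟨u, hu, by rw [h.one_of ht, h.one_of hu']⟩) g0
  set g : Om Q := ⟨g1, m1⟩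
  have hg : ∀ i, oA Q g (![x', oA Q b x', y', oA Q b y'] i) = ![x, oA Q a x, y, oA Q a y] i := fun i =>
    (m2 _ (Submodule.subset_span ⟨i, rfl⟩)).trans (hg0 i)
  have g0 : oA Q g x' = x := hg 0
  have g1 : oA Q g (oA Q b x') = oA Q a x := hg 1
  have g2 : oA Q g y' = y := hg 2
  have g3 : oA Q g (oA Q b y') = oA Q a y := hg 3
  set d := g * b * g⁻¹ with hd
  have e0 : oA Q d x = oA Q a x := by rw [oA_conj g b g0, g1]
  have e1 : oA Q d (oA Q a x) = oA Q a x + x := by rw [oA_conj g b g1, h.tri_ap hb, map_add, g0, g1]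
  have e2 : oA Q d y = oA Q a y := by rw [oA_conj g b g2, g3]
  have e3 : oA Q d (oA Q a y) = oA Q a y + y := by rw [oA_conj g b g3, h.tri_ap hb, map_add, g2, g3]
  set s := h.rr x y hx hy
  have hs : ∀ z, pb Q z x = 0 → pb Q z y = 0 → oA Q s z = z := fun z z1 z2 => by
    rw [rr_apply, refl_of_orth z2, refl_of_orth z1]
  have orth : ∀ z x, oA Q (a * d) z = z → oA Q d x = oA Q a x → oA Q d (oA Q a x) = oA Q a x + x →
      pb Q z x = 0 ∧ pb Q (oA Q d z) x = 0 := fun z x hz e0 e1 => by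
    have f1 := oA_pb (a * d) z x
    have f2 := oA_pb (a * d) z (oA Q a x)
    have f3 := oA_pb a (oA Q d z) x
    rw [← oA_mul, hz] at f3
    rw [hz, oA_mul, e0, h.tri_ap ha, map_add] at f1
    rw [hz, oA_mul, e1, map_add, h.tri_ap ha, add_right_comm, h.add_self, zero_add] at f2
    constructor
    · linear_combination f1 + f2
    · linear_combination f1 - f3
  have lt : fxS (a * d).1 < fxS (a * (s * d * s⁻¹)).1 := by
    refine SetLike.lt_iff_le_and_exists.2 ⟨fun z hz => ?_, x, ?_, fun e => ?_⟩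
    · have hz' : oA Q (a * d) z = z := mem_fxS.1 hz
      have o1 := orth z x hz' e0 e1
      have o2 := orth z y hz' e2 e3
      refine mem_fxS.2 (show oA Q (a * (s * d * s⁻¹)) z = z from ?_)
      rw [oA_mul, oA_conj s d (hs z o1.1 o2.1), hs _ o1.2 o2.2, ← oA_mul, hz']
    · refine mem_fxS.2 (show oA Q (a * (s * d * s⁻¹)) x = x from ?_)
      rw [oA_mul, oA_conj s d (hs x (h.pb0 x) h1), e0, rr_apply, refl_of_orth h2, h.refl_ap hx, h.tri_q ha, hx,
        one_smul, map_add, h.tri_ap ha, add_right_comm, h.add_self, zero_add]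
    · have e' : oA Q (a * d) x = x := mem_fxS.1 e
      rw [oA_mul, e0, h.tri_ap ha] at e'
      exact oA_ne a (x := x) (by rintro rfl; simp at hx) (by simpa using e')
  have hf : ∀ g x : Om Q, finrank F (mvS (g * x * g⁻¹).1) = finrank F (mvS x.1) := fun g x => by
    change finrank F (mvS (g.1 * x.1 * g.1⁻¹)) = _
    rw [mvS_conj, LinearEquiv.finrank_map_eq]
  have c1 := k.cls (fun x => finrank F (mvS x.1)) hf (IsConj.refl a) (isConj_conj g b)
  have c2 := k.cls (fun x => finrank F (mvS x.1)) hf (IsConj.refl a) ((isConj_conj g b).trans (isConj_conj s d))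
  have := Submodule.finrank_lt_finrank_of_lt lt
  have := finrank_mvS_add (a * d).1
  have := finrank_mvS_add (a * (s * d * s⁻¹)).1
  rw [← hd] at c1
  omega

theorem good_om : Good 2 (Om Q) := fun a b c k => by
  rcases h.main1 k with ha | ha <;> rcases h.main1 k.symm with hb | hb
  · exact (h.inv_inv k ha hb).elim
  · exact h.inv_tri k ha hb
  · exact (h.inv_tri k.symm hb ha).symm
  · exact (h.tri_tri k ha hb).elim

theorem center_om : Subgroup.center (Om Q) = ⊥ := by
  rw [eq_bot_iff]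
  intro z hz
  by_contra hc
  obtain ⟨v, hv, hm⟩ := h.exists_moved (b := z) hc
  obtain ⟨g, g1, g2⟩ := h.stab hv (h.not_span (oA_ne z (by rintro rfl; simp at hm)) hm)
  rw [← oA_mul, Subgroup.mem_center_iff.1 hz g, oA_mul, g1, h.add_self] at g2
  exact g2 (zero_mem _)

end O2

theorem good_pom {ι : Type} [Fintype ι] [DecidableEq ι] {Q : QuadraticForm F (ι → F)} (h : O2 Q) :
    Good 2 (POmega F Q) := by
  let e : Omega F Q ≃* Om Q := commutatorEquiv (ogEquiv Q)
  have hc : Subgroup.center (Omega F Q) = ⊥ := by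
    rw [eq_bot_iff]
    intro z hz
    have : e z ∈ Subgroup.center (Om Q) := Subgroup.mem_center_iff.2 fun g => by
      obtain ⟨g, rfl⟩ := e.surjective g
      rw [← map_mul, ← map_mul, Subgroup.mem_center_iff.1 hz g]
    rw [h.center_om, Subgroup.mem_bot] at this
    exact e.injective (this.trans (map_one e).symm)
  exact h.good_om.congr (((QuotientGroup.quotientMulEquivOfEq hc).trans QuotientGroup.quotientBot).trans e)

theorem two_of_card {F : Type*} [Field F] [Fintype F] (hq : Fintype.card F = 2) (x : F) : x = 0 ∨ x = 1 := by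
  have := FiniteField.pow_card x
  rw [hq] at this
  rcases eq_or_ne x 0 with e | e
  · exact Or.inl e
  · exact Or.inr (mul_left_cancel₀ e (by linear_combination this))

theorem char_eq_two {F : Type*} [Field F] (p : ℕ) [hp : Fact p.Prime] [CharP F p] (h : (2 : F) = 0) : p = 2 :=
  (Nat.prime_dvd_prime_iff_eq hp.out Nat.prime_two).1 ((CharP.cast_eq_zero_iff F p 2).1 (by exact_mod_cast h))

theorem good_plus_two {F : Type*} [Field F] [Fintype F] (p : ℕ) [Fact p.Prime] [CharP F p] (m : ℕ) (hm : 4 ≤ m)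
    (hq : Fintype.card F = 2) : Good p (POmega F (quadFormPlus m F)) := by
  have h : O2 (qPlus m F) := ⟨qPlus_nondeg m F, by simp; omega, two_of_card hq⟩
  obtain rfl := char_eq_two p h.h2
  exact good_pom h

theorem good_minus_two {F : Type*} [Field F] [Fintype F] (p : ℕ) [Fact p.Prime] [CharP F p] (m : ℕ) (a b : F)
    (hm : 4 ≤ m) (hab : ∀ z₁ z₂ : F, z₁ ^ 2 + a * z₁ * z₂ + b * z₂ ^ 2 = 0 → z₁ = 0 ∧ z₂ = 0)
    (hq : Fintype.card F = 2) : Good p (POmega F (quadFormMinus (m - 1) F a b)) := by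
  have h : O2 (qMinus (m - 1) F a b) := ⟨qMinus_nondeg _ F hab, by simp; omega, two_of_card hq⟩
  obtain rfl := char_eq_two p h.h2
  exact good_pom h

end Cfsg.Agent.H2.AO
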