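import Cfsg.Agent.H1.SpW
import Cfsg.Agent.H9.AH0

/-! Symplectic groups: the trace identity for products of conjugacy classes. -/

set_option autoImplicit false
set_option linter.unusedSectionVars false

namespace Cfsg.Agent.H2.AS

open Module Cfsg.Agent.H1 Cfsg.Agent.H5 Cfsg.Agent.H9.AH

variable {F : Type*} [Field F] {E : Type*} [AddCommGroup E] [Module F E] [FiniteDimensional F E]
  {B : Bil F E} {a b : Isom B}

/-- the action on vectors -/
abbrev ia (g : Isom B) : Module.End F E := isoAct B g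

theorem ia_mul (g k : Isom B) (x : E) : ia (g * k) x = ia g (ia k x) := rfl

@[simp] theorem ia_inv_l (g : Isom B) (x : E) : ia g⁻¹ (ia g x) = x := by rw [← ia_mul, inv_mul_cancel]; rfl

@[simp] theorem ia_inv_r (g : Isom B) (x : E) : ia g (ia g⁻¹ x) = x := by rw [← ia_mul, mul_inv_cancel]; rfl

theorem ia_B (g : Isom B) (x y : E) : B (ia g x) (ia g y) = B x y := g.2 x y

theorem ia_adj (g : Isom B) (x y : E) : B (ia g⁻¹ x) y = B x (ia g y) := by rw [← ia_B g, ia_inv_r]

theorem ia_ne (g : Isom B) {x : E} (hx : x ≠ 0) : ia g x ≠ 0 := fun e => hx (by rw [← ia_inv_l g x, e, map_zero])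

theorem ia_conj (g b : Isom B) {v v' : E} (e : ia g v' = v) : ia (g * b * g⁻¹) v = ia g (ia b v') := by
  rw [← e, ia_mul, ia_mul, ia_inv_l]

theorem B_conj (g b : Isom B) {v v' y y' : E} (e : ia g v' = v) (e' : ia g y' = y) :
    B (ia (g * b * g⁻¹) v) y = B (ia b v') y' := by
  rw [ia_conj g b e, ← e', ia_B]

/-- rank one maps -/
noncomputable def rk (B : Bil F E) (p r : E) : Module.End F E := (B.flip r).smulRight p

theorem rk_apply (p r x : E) : rk B p r x = B x r • p := rfl

theorem tr_rk (X : Module.End F E) (p r : E) : LinearMap.trace F E (X * rk B p r) = B (X p) r := by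
  have : X * rk B p r = (B.flip r).smulRight (X p) := by
    ext x; simp [rk_apply]
  rw [this, LinearMap.trace_smulRight]; rfl

theorem tr_rk1 (X Y : Module.End F E) (p r : E) :
    LinearMap.trace F E (X * (rk B p r * Y)) = B (Y (X p)) r := by
  rw [← mul_assoc, LinearMap.trace_mul_comm, ← mul_assoc, tr_rk]; rfl

theorem tr_rk2 (X Y : Module.End F E) (p r : E) :
    LinearMap.trace F E (X * (Y * rk B p r)) = B (X (Y p)) r := by
  rw [← mul_assoc, tr_rk]; rfl

theorem tr_rk3 (X Y : Module.End F E) (p r p' r' : E) :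
    LinearMap.trace F E (X * (rk B p r * Y * rk B p' r')) = B (Y p') r * B (X p) r' := by
  have : rk B p r * Y * rk B p' r' = B (Y p') r • rk B p r' := by
    ext x; simp [rk_apply, smul_smul, mul_comm]
  rw [this, mul_smul_comm, map_smul, tr_rk, smul_eq_mul]

/-- trace of a product -/
noncomputable def tp (a b : Isom B) : F := LinearMap.trace F E (ia a * ia b)

theorem tp_comm (a b : Isom B) : tp a b = tp b a := LinearMap.trace_mul_comm _ _ _

/-- the squares of the traces of the products agree -/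
def TP (a b : Isom B) : Prop := ∀ a' b', IsConj a a' → IsConj b b' → tp a' b' ^ 2 = tp a b ^ 2

theorem TP.symm (h : TP a b) : TP b a := fun x y k l => by rw [tp_comm, tp_comm b, h y x l k]

theorem TP.right (h : TP a b) (g : Isom B) : TP a (g * b * g⁻¹) := fun x y k l => by
  rw [h x y k ((isConj_conj g b).trans l), h _ _ (IsConj.refl a) (isConj_conj g b)]

/-- standing hypotheses -/
structure S4 (B : Bil F E) : Prop where
  sp : IsSp B
  big : 4 ≤ finrank F E

namespace S4

variable (h : S4 B)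
include h

theorem alt (x : E) : B x x = 0 := h.sp.alt x

theorem skew (x y : E) : B y x = -B x y := h.sp.skew x y

theorem perp0 {x y : E} (e : B x y = 0) : B y x = 0 := by rw [h.skew, e, neg_zero]

/-- elements of the Siegel radical -/
noncomputable def hg {v y : E} (e : B v y = 0) (s t r : F) : Isom B :=
  h.sp.isEps.toIsom (1 + (s • rk B v v + t • rk B y y + r • rk B y v + r • rk B v y)) (fun x z => by
    simp only [LinearMap.add_apply, Module.End.one_apply, LinearMap.smul_apply, rk_apply, map_add, map_smul,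
      map_smulₛₗ, RingHom.id_apply, smul_eq_mul, h.alt, e, h.perp0 e, h.skew z v, h.skew z y]
    ring)

theorem ia_hg {v y : E} (e : B v y = 0) (s t r : F) :
    ia (h.hg e s t r) = 1 + (s • rk B v v + t • rk B y y + r • rk B y v + r • rk B v y) := rfl

theorem hg_inv {v y : E} (e : B v y = 0) (s t r : F) : (h.hg e s t r)⁻¹ = h.hg e (-s) (-t) (-r) := by
  rw [inv_eq_iff_mul_eq_one]
  refine iso_ext fun x => ?_
  change ia (h.hg e s t r) (ia (h.hg e (-s) (-t) (-r)) x) = x
  simp only [ia_hg, LinearMap.add_apply, Module.End.one_apply, LinearMap.smul_apply, rk_apply, map_add, map_smul,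
    smul_eq_mul, h.alt, e, h.perp0 e]
  module

theorem key (a b : Isom B) {v y : E} (e : B v y = 0) : ∃ l₁ l₂ l₃ : F,
    l₁ = B (ia b (ia a v)) v - B (ia a (ia b v)) v ∧
    l₃ = B (ia b (ia a v)) y - B (ia a (ia b v)) y + B (ia b (ia a y)) v - B (ia a (ia b y)) v ∧ ∀ s t r : F,
    tp a (h.hg e s t r * b * (h.hg e s t r)⁻¹) = tp a b + s * l₁ + t * l₂ + r * l₃ -
      (s ^ 2 * (B (ia a v) v * B (ia b v) v) + t ^ 2 * (B (ia a y) y * B (ia b y) y) +
        s * t * (B (ia a v) y * B (ia b y) v + B (ia a y) v * B (ia b v) y) +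
        s * r * (B (ia a v) v * (B (ia b v) y + B (ia b y) v) + B (ia b v) v * (B (ia a v) y + B (ia a y) v)) +
        t * r * (B (ia a y) y * (B (ia b v) y + B (ia b y) v) + B (ia b y) y * (B (ia a v) y + B (ia a y) v)) +
        r ^ 2 * (B (ia a v) y * B (ia b v) y + B (ia a y) v * B (ia b y) v + B (ia a v) v * B (ia b y) y +
          B (ia b v) v * B (ia a y) y)) := by
  refine ⟨_, B (ia b (ia a y)) y - B (ia a (ia b y)) y, _, rfl, rfl, fun s t r => ?_⟩
  rw [tp, tp, h.hg_inv]
  change LinearMap.trace F E (ia a * (ia (h.hg e s t r) * ia b * ia (h.hg e (-s) (-t) (-r)))) = _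
  simp only [ia_hg, mul_add, add_mul, one_mul, mul_one, map_add, smul_mul_assoc, mul_smul_comm, map_smul, tr_rk1,
    tr_rk3]
  simp only [tr_rk2, smul_eq_mul]
  ring

theorem dual (X : Submodule F E) {u : E} (hu : u ∉ X) : ∃ w, (∀ x ∈ X, B x w = 0) ∧ B u w = 1 := by
  rw [← h.sp.isEps.perp_perp X, mem_perp] at hu
  push Not at hu
  obtain ⟨w, h1, h2⟩ := hu
  exact ⟨(B u w)⁻¹ • w, fun x hx => by simp [h.perp0 (h1 x hx)], by simp [h2]⟩

theorem dual1 {v u : E} (hu : u ∉ F ∙ v) : ∃ w, B v w = 0 ∧ B u w = 1 := by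
  obtain ⟨w, h1, h2⟩ := h.dual _ hu
  exact ⟨w, h1 v (Submodule.mem_span_singleton_self v), h2⟩

theorem dual0 {u : E} (hu : u ≠ 0) : ∃ w, B u w = 1 := by
  obtain ⟨w, -, h2⟩ := h.dual ⊥ (u := u) (by simpa using hu)
  exact ⟨w, h2⟩

theorem mem_of_perp {v u : E} (hu : ∀ y, B v y = 0 → B u y = 0) : u ∈ F ∙ v := by
  by_contra hc
  obtain ⟨w, h1, h2⟩ := h.dual1 hc
  simp [hu w h1] at h2

omit h in
theorem fr1 (v : E) : finrank F (F ∙ v) ≤ 1 := by
  have := finrank_sup_span_le (⊥ : Submodule F E) v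
  rwa [bot_sup_eq, finrank_bot, zero_add] at this

theorem exists_perp (X R : Submodule F E) (hX : finrank F X + finrank F R < finrank F E) :
    ∃ w, w ∉ R ∧ ∀ x ∈ X, B x w = 0 := by
  have := h.sp.isEps.finrank_perp X
  obtain ⟨w, h1, h2⟩ := exists_not_mem_of_finrank_lt (S := R) (T := perp B X) (by omega)
  exact ⟨w, h2, fun x hx => h.perp0 (h1 x hx)⟩

theorem perp3 (x y z : E) : ∃ w, w ≠ 0 ∧ B x w = 0 ∧ B y w = 0 ∧ B z w = 0 := by
  obtain ⟨w, h1, h2⟩ := h.exists_perp ((F ∙ x) ⊔ (F ∙ y) ⊔ (F ∙ z)) ⊥ (by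
    have := finrank_sup_span_le ((F ∙ x) ⊔ (F ∙ y)) z
    have := finrank_sup_span_le (F ∙ x) y
    have := fr1 (F := F) x
    have := h.big
    rw [finrank_bot]
    omega)
  exact ⟨w, by simpa using h1, h2 x (Submodule.mem_sup_left (Submodule.mem_sup_left (Submodule.mem_span_singleton_self x))),
    h2 y (Submodule.mem_sup_left (Submodule.mem_sup_right (Submodule.mem_span_singleton_self y))),
    h2 z (Submodule.mem_sup_right (Submodule.mem_span_singleton_self z))⟩

theorem perp21 (x y z : E) : ∃ w, w ∉ F ∙ z ∧ B x w = 0 ∧ B y w = 0 := by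
  obtain ⟨w, h1, h2⟩ := h.exists_perp ((F ∙ x) ⊔ (F ∙ y)) (F ∙ z) (by
    have := finrank_sup_span_le (F ∙ x) y
    have := fr1 (F := F) x
    have := fr1 (F := F) z
    have := h.big
    omega)
  exact ⟨w, h1, h2 x (Submodule.mem_sup_left (Submodule.mem_span_singleton_self x)),
    h2 y (Submodule.mem_sup_right (Submodule.mem_span_singleton_self y))⟩

/-- a hyperbolic pair orthogonal to a hyperbolic pair -/
theorem pair_perp {x y : E} (e : B x y = 1) : ∃ w w', B x w = 0 ∧ B y w = 0 ∧ B x w' = 0 ∧ B y w' = 0 ∧ B w w' = 1 := by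
  obtain ⟨w, w0, w1, w2, -⟩ := h.perp3 x y y
  obtain ⟨z, hz⟩ := h.dual0 w0
  refine ⟨w, z - B z y • x + B z x • y, w1, w2, ?_, ?_, ?_⟩
  · simp [h.alt, e, h.skew z x]
  · simp [h.alt, h.skew x y, e, h.skew z y]
  · simp [hz, h.perp0 w1, h.perp0 w2]

theorem witt {ι : Type*} {u w : ι → E} (hu : LinearIndependent F u) (hw : LinearIndependent F w)
    (e : ∀ i j, B (w i) (w j) = B (u i) (u j)) : ∃ g : Isom B, ∀ i, ia g (u i) = w i := by
  obtain ⟨g, h1, h2⟩ := H5.witt h.sp.good h.sp.good rfl hu hw e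
  exact ⟨⟨g, h1⟩, h2⟩

theorem witt2 {u u' w w' : E} (hu : u ≠ 0) (hu' : u' ∉ F ∙ u) (hw : w ≠ 0) (hw' : w' ∉ F ∙ w)
    (e : B w w' = B u u') : ∃ g : Isom B, ia g u = w ∧ ia g u' = w' := by
  have li : ∀ {a b : E}, a ≠ 0 → b ∉ F ∙ a → LinearIndependent F ![b, a] := fun ha hb => by
    rw [linearIndependent_fin2]
    exact ⟨ha, fun c e => hb (Submodule.mem_span_singleton.mpr ⟨c, e⟩)⟩
  obtain ⟨g, hg⟩ := h.witt (li hu hu') (li hw hw')
    (by simp [Fin.forall_fin_two, h.alt, e, h.skew w w', h.skew u u'])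
  exact ⟨g, hg 1, hg 0⟩

theorem not_span {x y : E} (e : B x y ≠ 0) : y ∉ F ∙ x := fun k => by
  obtain ⟨c, rfl⟩ := Submodule.mem_span_singleton.1 k
  simp [h.alt] at e

theorem wittH {u u' w w' : E} (e : B u u' ≠ 0) (e' : B w w' = B u u') : ∃ g : Isom B, ia g u = w ∧ ia g u' = w' :=
  h.witt2 (by rintro rfl; simp at e) (h.not_span e) (by rintro rfl; simp [← e'] at e) (h.not_span (e' ▸ e)) e'

end S4

theorem scalar_of {T : Module.End F E} (hT : ∀ v, T v ∈ F ∙ v) : ∃ c : F, ∀ v, T v = c • v := by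
  obtain ⟨c, hc⟩ := LinearMap.exists_eq_smul_id_of_forall_notLinearIndependent (f := T) (fun v => by
    obtain ⟨c, hc⟩ := Submodule.mem_span_singleton.1 (hT v)
    rw [LinearIndependent.pair_iff]
    intro h
    have := h (-c) 1 (by simp [← hc])
    simp at this)
  exact ⟨c, fun v => by simpa using LinearMap.congr_fun hc v⟩

/-- `a + a⁻¹` -/
noncomputable def sg (a : Isom B) : Module.End F E := ia a + ia a⁻¹

theorem sg_apply (a : Isom B) (x : E) : sg a x = ia a x + ia a⁻¹ x := rfl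

theorem S4.B_sg (h : S4 B) (a : Isom B) (x y : E) : B (sg a x) y = B (ia a x) y - B (ia a y) x := by
  rw [sg_apply, map_add, LinearMap.add_apply, ia_adj, h.skew (ia a y) x, sub_eq_add_neg]

/-- no point is mapped to an opposite one -/
def Dom (b : Isom B) : Prop := ∀ v, B (ia b v) v = 0

theorem Dom.conj (hb : Dom b) (g : Isom B) : Dom (g * b * g⁻¹) := fun v => by
  rw [B_conj g b (ia_inv_r g v) (ia_inv_r g v)]
  exact hb _

theorem Dom.anti (hb : Dom b) (x y : E) : B (ia b y) x = -B (ia b x) y := by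
  have := hb (x + y)
  simp only [map_add, LinearMap.add_apply, hb x, hb y] at this
  linear_combination this

/-- not a scalar -/
def NS (b : Isom B) : Prop := ∃ y, ia b y ∉ F ∙ y

theorem S4.caseB (h : S4 B) (k : TP a b) (hb : Dom b) (hn : NS b) : ∃ l : F, ∀ v, sg a v = l • v := by
  refine scalar_of fun v => h.mem_of_perp fun y e => ?_
  by_cases hy : y ∈ F ∙ v
  · obtain ⟨c, rfl⟩ := Submodule.mem_span_singleton.1 hy
    simp [h.B_sg]
  by_cases hv : v = 0
  · simp [hv]
  obtain ⟨y0, n⟩ := hn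
  obtain ⟨y1, k1, k2⟩ := h.dual1 n
  obtain ⟨g, g1, g2⟩ := h.witt2 (u := y0) (u' := y1) (by rintro rfl; simp at n) (fun m => by
    obtain ⟨c, rfl⟩ := Submodule.mem_span_singleton.1 m
    simp [hb y0] at k2) hv hy (by rw [e, k1])
  have hb' := hb.conj g
  have k' := k.right g
  have b1 := (B_conj g b g1 g2).trans k2
  generalize g * b * g⁻¹ = b at hb' k' b1
  obtain ⟨l₁, l₂, l₃, -, -, m⟩ := h.key a b e
  by_contra hc
  have all : ∀ x : F, x ^ 2 = tp a b ^ 2 := fun x => by
    have m1 := m ((1 - l₂) / B (sg a v) y) (x - tp a b - (1 - l₂) / B (sg a v) y * l₁) 0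
    rw [hb' v, hb' y, hb'.anti v y, b1] at m1
    rw [← k' _ _ (IsConj.refl a) (isConj_conj _ b), m1]
    congr 1
    have : (1 - l₂) / B (sg a v) y * (B (ia a v) y - B (ia a y) v) = 1 - l₂ := by
      rw [← h.B_sg]; field_simp
    linear_combination (-(x - tp a b - (1 - l₂) / B (sg a v) y * l₁)) * this
  have := (all 1).trans (all 0).symm
  simp at this

open Polynomial in
theorem S4.caseA [Fintype F] (h : S4 B) (k : TP a b) (ha : ¬ Dom a) (hb : ¬ Dom b)
    (hq : 5 ≤ Fintype.card F ∨ ((2 : F) = 0 ∧ 3 ≤ Fintype.card F)) : False := by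
  simp only [Dom, not_forall] at ha hb
  obtain ⟨v, ha⟩ := ha
  obtain ⟨v', hb⟩ := hb
  obtain ⟨g, hg⟩ := sp_move h.sp (x := v') (x' := v) (by rintro rfl; simp at hb) (by rintro rfl; simp at ha)
  have k' := k.right g
  rw [← B_conj g b hg hg] at hb
  generalize g * b * g⁻¹ = b at hb k'
  obtain ⟨l₁, l₂, l₃, -, -, m⟩ := h.key a b (h.alt v)
  have hK := mul_ne_zero ha hb
  generalize B (ia a v) v * B (ia b v) v = K at m hK
  have all : ∀ s : F, s * (l₁ - K * s) * (2 * tp a b + l₁ * s - K * s ^ 2) = 0 := fun s => by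
    have := k' _ _ (IsConj.refl a) (isConj_conj (h.hg (h.alt v) s 0 0) b)
    rw [m] at this
    linear_combination this
  have n1 : (C l₁ - C K * X : F[X]) ≠ 0 := fun e => hK (by simpa using congrArg (coeff · 1) e)
  rcases hq with hq | ⟨h2, hq⟩
  · have := eq_zero_of_natDegree_lt_card_of_eval_eq_zero
      (X * (C l₁ - C K * X) * (C (2 * tp a b) + C l₁ * X - C K * X ^ 2) : F[X]) Function.injective_id
      (fun s => by simpa using all s) (lt_of_le_of_lt (by compute_degree) hq)
    rcases mul_eq_zero.1 this with e | e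
    · exact mul_ne_zero X_ne_zero n1 e
    · exact hK (by simpa [coeff_X, coeff_C, -map_mul] using congrArg (coeff · 2) e)
  · have := eq_zero_of_natDegree_lt_card_of_eval_eq_zero (X * (C l₁ - C K * X) : F[X]) Function.injective_id
      (fun s => by
        have := all s
        rw [h2, zero_mul, zero_add, show l₁ * s - K * s ^ 2 = s * (l₁ - K * s) by ring, mul_self_eq_zero] at this
        simpa using this) (lt_of_le_of_lt (by compute_degree) hq)
    exact mul_ne_zero X_ne_zero n1 this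

end Cfsg.Agent.H2.AS
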