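import Cfsg.Agent.H2.AS1
import Cfsg.Agent.H2.AO3

/-! S2451 for symplectic groups in characteristic two. -/

set_option autoImplicit false
set_option linter.unusedSectionVars false

namespace Cfsg.Agent.H2.AS

open Module Cfsg.Agent.H1 Cfsg.Agent.H5 Cfsg.Agent.H9.AH

variable {F : Type*} [Field F] [Fintype F] {E : Type*} [AddCommGroup E] [Module F E] [FiniteDimensional F E]
  {B : Bil F E} {a b c : Isom B}

theorem S4.dom_inv (h : S4 B) (hb : Dom b) (x : E) : ia b (ia b x) = x := by
  refine h.sp.isEps.ext_left fun y => ?_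
  rw [hb.anti y, ia_B, h.skew y x]

theorem inv_eq_of (hb : ∀ x, ia b (ia b x) = x) (x : E) : ia b⁻¹ x = ia b x := by
  rw [← hb x, ia_inv_l, hb]

theorem S4.sg_adj (h : S4 B) (a : Isom B) (x y : E) : B (sg a x) y = B x (sg a y) := by
  rw [h.B_sg, h.skew (sg a y) x, h.B_sg]; ring

theorem sg_conj (g b : Isom B) {v v' : E} (e : ia g v' = v) : sg (g * b * g⁻¹) v = ia g (sg b v') := by
  rw [sg_apply, sg_apply, map_add, conj_inv, ia_conj g b e, ia_conj g b⁻¹ e]

theorem exists_moved (hb : b ≠ 1) : ∃ y, ia b y ≠ y := by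
  by_contra hc
  push Not at hc
  exact hb (iso_ext hc)

theorem nil_ker {T : Module.End F E} {W : Submodule F E} (hW : ∀ z ∈ W, T z ∈ W) (n : ℕ) :
    ∀ x ∈ W, x ≠ 0 → (T ^ n) x = 0 → ∃ z ∈ W, z ≠ 0 ∧ T z = 0 := by
  induction n with
  | zero => intro x _ h1 h2; exact (h1 h2).elim
  | succ n ih =>
    intro x hx h1 h2
    by_cases e : T x = 0
    · exact ⟨x, hx, h1, e⟩
    · exact ih _ (hW x hx) e (by rwa [pow_succ] at h2)

theorem tp_of_cp (k : CP a b c) {a' b' : Isom B} (h1 : IsConj a a') (h2 : IsConj b b') : tp a' b' = tp a b := by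
  have hf : ∀ g x : Isom B, LinearMap.trace F E (ia (g * x * g⁻¹)) = LinearMap.trace F E (ia x) := fun g x => by
    rw [ia, map_mul, LinearMap.trace_mul_comm, ← map_mul, ← mul_assoc, inv_mul_cancel, one_mul]
  exact (k.cls (fun x => LinearMap.trace F E (ia x)) hf h1 h2).trans
    (k.cls (fun x => LinearMap.trace F E (ia x)) hf (IsConj.refl a) (IsConj.refl b)).symm

theorem TP.of_cp (k : CP a b c) : TP a b := fun _ _ h1 h2 => by rw [tp_of_cp k h1 h2]

theorem dvd_three {g : Isom B} {x : E} (h1 : ia g (ia g (ia g x)) = x) (h2 : ia g x ≠ x) : 3 ∣ orderOf g :=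
  AO.dvd_order (isoAct B) Nat.prime_three (x := x) (by rw [pow_three]; exact h1) h2

theorem dvd_two {g : Isom B} {x : E} (h1 : ia g (ia g x) = x) (h2 : ia g x ≠ x) : 2 ∣ orderOf g :=
  AO.dvd_order (isoAct B) Nat.prime_two (x := x) (by rw [pow_two]; exact h1) h2

theorem inv_pel (ha : ∀ x, ia a (ia a x) = x) : PEl 2 a :=
  pel_of_pow (k := 1) (iso_ext fun x => by rw [pow_one, pow_two]; exact ha x)

/-- characteristic two -/
structure S2 (B : Bil F E) : Prop extends S4 B where
  h2 : (2 : F) = 0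

namespace S2

variable (h : S2 B)
include h

theorem add_self (x : E) : x + x = 0 := by rw [← two_smul F x, h.h2, zero_smul]

theorem neg_eq (x : E) : -x = x := neg_eq_of_add_eq_zero_right (h.add_self x)

theorem eq_of_add {x y : E} (e : x + y = 0) : x = y := by rw [← h.neg_eq y, eq_neg_iff_add_eq_zero, e]

theorem comm (x y : E) : B y x = B x y := by rw [h.skew]; linear_combination (-B x y) * h.h2

theorem inv_ap (ha : ∀ x, sg a x = 0) (x : E) : ia a (ia a x) = x := by
  have := ha (ia a x)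
  rw [sg_apply, ia_inv_l] at this
  exact h.eq_of_add this

theorem ns (hb : ∀ x, ia b (ia b x) = x) {y : E} (hy : ia b y ≠ y) : ia b y ∉ F ∙ y := fun k => by
  obtain ⟨t, ht⟩ := Submodule.mem_span_singleton.1 k
  have e := hb y
  rw [← ht, map_smul, ← ht, smul_smul] at e
  have y0 : y ≠ 0 := by rintro rfl; simp at hy
  have : t * t = 1 := smul_left_injective F y0 (by simpa using e)
  have : (t - 1) ^ 2 = 0 := by linear_combination this + (1 - t) * h.h2
  rw [pow_eq_zero_iff two_ne_zero, sub_eq_zero] at this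
  exact hy (by rw [← ht, this, one_smul])

theorem fix_add (hb : ∀ x, ia b (ia b x) = x) (y : E) : ia b (ia b y + y) = ia b y + y := by
  rw [map_add, hb, add_comm]

theorem transv_of (ha : ∀ x, ia a (ia a x) = x) (h1 : a ≠ 1) (hp : ∀ x, B (ia a x) x = 0 → ia a x = x) :
    ∃ u t, u ≠ 0 ∧ t ≠ 0 ∧ a = h.sp.transv u t := by
  obtain ⟨x, hx⟩ := exists_moved h1
  have u0 : ia a x + x ≠ 0 := fun e => hx (h.eq_of_add e)
  have adj : ∀ y z, B (ia a y) z = B y (ia a z) := fun y z => by rw [← ia_adj, inv_eq_of ha]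
  have k : ∀ y, ia a y + y ∈ F ∙ (ia a x + x) := fun y => by
    have q1 : B (ia a x) x ≠ 0 := fun e => hx (hp x e)
    have : CharP F 2 := CharTwo.of_one_ne_zero_of_two_eq_zero one_ne_zero h.h2
    obtain ⟨s, hs⟩ := FiniteField.isSquare_of_char_two (ringChar.eq F 2) (B (ia a y) y / B (ia a x) x)
    have := hp (s • x + y) (by
      simp only [map_add, map_smul, LinearMap.add_apply, LinearMap.smul_apply, smul_eq_mul, RingHom.id_apply]
      rw [adj y x, h.comm (ia a x) y]
      rw [div_eq_iff q1] at hs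
      linear_combination hs + (s * s * B (ia a x) x + s * B (ia a x) y) * h.h2)
    rw [map_add, map_smul] at this
    refine Submodule.mem_span_singleton.2 ⟨s, ?_⟩
    have e := h.add_self (s • x + y)
    have e' := h.add_self (ia a y + y)
    linear_combination (norm := module) this + e - e'
  obtain ⟨y0, hy0⟩ := h.dual0 u0
  obtain ⟨t, ht⟩ := Submodule.mem_span_singleton.1 (k y0)
  have key : ∀ y, ia a y = y + (t * B y (ia a x + x)) • (ia a x + x) := fun y => by
    obtain ⟨s, hs⟩ := Submodule.mem_span_singleton.1 (k y)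
    have e1 : B (ia a y + y) y0 = B y (ia a y0 + y0) := by simp [adj]
    rw [← hs, ← ht] at e1
    simp only [map_smul, LinearMap.smul_apply, hy0, smul_eq_mul, mul_one, RingHom.id_apply] at e1
    rw [← e1, hs, add_comm (ia a y), ← add_assoc, h.add_self, zero_add]
  refine ⟨_, t, u0, ?_, iso_ext fun y => by rw [tr_apply]; exact key y⟩
  rintro rfl
  exact hx (by simpa using key x)

theorem transv_inv (k : CP a b c) (hb : ∀ x, ia b (ia b x) = x) {u : E} {t : F} (hu : u ≠ 0) (ht : t ≠ 0)
    (e : a = h.sp.transv u t) : False := by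
  obtain ⟨y, hy⟩ := exists_moved k.hb
  have sq : ∀ g : Isom B, (a * (g * b * g⁻¹)) ^ 2 = a * h.sp.transv (ia (g * b * g⁻¹) u) t := fun g => by
    have : (g * b * g⁻¹) * (g * b * g⁻¹) = 1 := iso_ext fun x => by
      change ia g (ia b (ia g⁻¹ (ia g (ia b (ia g⁻¹ x))))) = x
      simp [hb]
    rw [pow_two, mul_assoc a, ← mul_assoc (g * b * g⁻¹), e, tr_conj, mul_assoc (h.sp.transv _ t), this, mul_one]
  obtain ⟨g, hg⟩ := sp_move h.sp (x := ia b y + y) (fun e => hy (h.eq_of_add e)) hu
  obtain ⟨g', hg'⟩ := sp_move h.sp (x := y) (by rintro rfl; simp at hy) hu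
  have e1 := sq g
  rw [ia_conj g b hg, h.fix_add hb, hg, e, ← tr_add, show t + t = 0 by linear_combination t * h.h2, tr_zero, ← e,
    ← orderOf_dvd_iff_pow_eq_one, k.order (IsConj.refl a) (isConj_conj g b),
    ← k.order (IsConj.refl a) (isConj_conj g' b), orderOf_dvd_iff_pow_eq_one, sq, ia_conj g' b hg'] at e1
  have n : ia g' (ia b y) ∉ F ∙ u := fun m => by
    obtain ⟨s, hs⟩ := Submodule.mem_span_singleton.1 m
    refine h.ns hb hy (Submodule.mem_span_singleton.2 ⟨s, ?_⟩)
    rw [← ia_inv_l g' (ia b y), ← hs, map_smul, ← hg', ia_inv_l]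
  obtain ⟨z, z1, z2⟩ := h.dual1 n
  have := congrArg (fun g : Isom B => ia g z) e1
  simp only [ia_mul, e, tr_apply, h.comm _ z, z2, mul_one, map_one, Module.End.one_apply] at this
  refine n (Submodule.mem_span_singleton.2 ⟨-(t⁻¹ * (t * B (z + t • ia g' (ia b y)) u)), ?_⟩)
  have e2 : t • ia g' (ia b y) = -((t * B (z + t • ia g' (ia b y)) u) • u) := by
    linear_combination (norm := module) this
  rw [neg_smul, mul_smul, ← smul_neg, ← e2, inv_smul_smul₀ ht]

theorem inv_inv (k : CP a b c) (ha : ∀ x, ia a (ia a x) = x) (hb : ∀ x, ia b (ia b x) = x) : False := by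
  have := finite_Isom B
  by_cases hp : ∀ x, B (ia a x) x = 0 → ia a x = x
  · obtain ⟨u, t, h1, h2, h3⟩ := h.transv_of ha k.ha hp
    exact h.transv_inv k hb h1 h2 h3
  by_cases hp' : ∀ x, B (ia b x) x = 0 → ia b x = x
  · obtain ⟨u, t, h1, h2, h3⟩ := h.transv_of hb k.hb hp'
    exact h.transv_inv k.symm ha h1 h2 h3
  push Not at hp hp'
  obtain ⟨x, x2, x1⟩ := hp
  obtain ⟨y, y2, y1⟩ := hp'
  have n : x ≠ 0 := by rintro rfl; simp at x1
  obtain ⟨g, g1, g2⟩ := h.witt2 (u := y) (w := x) (w' := ia a x + x) (by rintro rfl; simp at y1) (h.ns hb y1) n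
    (fun m => h.ns ha x1 (by simpa using Submodule.sub_mem _ m (Submodule.mem_span_singleton_self x)))
    (by rw [map_add, h.alt, h.perp0 x2, h.perp0 y2, add_zero])
  have e1 : ia (g * b * g⁻¹) x = ia a x + x := by rw [ia_conj g b g1, g2]
  have e2 : ia (g * b * g⁻¹) (ia a x + x) = x := by rw [ia_conj g b g2, hb, g1]
  have e3 : ia (g * b * g⁻¹) (ia a x) = ia a x := by
    rw [map_add, e1] at e2
    exact h.eq_of_add (by simpa [← add_assoc] using e2)
  refine k.pel_false (inv_pel ha) (inv_pel hb) Nat.prime_three (by decide) (IsConj.refl a) (isConj_conj g b)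
    (dvd_three (x := x) ?_ ?_)
  · simp only [ia_mul a, e1, map_add, e3, ha]
    rw [add_right_comm, h.add_self, zero_add]
  · rw [ia_mul a, e1, map_add, ha]
    simpa using ia_ne a n

theorem sq_ap {l : F} (ha : ∀ x, sg a x = l • x) (x : E) : ia a (ia a x) = l • ia a x + x := by
  rw [← ha, sg_apply, ia_inv_l, add_assoc, h.add_self, add_zero]

theorem iso_vec {l : F} (hl : l ≠ 0) (ha : ∀ x, sg a x = l • x) : ∃ x, B (ia a x) x = 0 ∧ ia a x ∉ F ∙ x := by
  obtain ⟨x, -, x0, hx⟩ := exists_sing_not_mem (LinearMap.BilinMap.toQuadraticMap (B ∘ₗ ia a)) (Y := ⊤) (R := ⊥)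
    bot_le (by have := h.big; rw [finrank_bot, finrank_top]; omega)
  replace x0 : x ≠ 0 := by simpa using x0
  replace hx : B (ia a x) x = 0 := hx
  by_cases m : ia a x ∈ F ∙ x
  swap
  · exact ⟨x, hx, m⟩
  obtain ⟨t, ht⟩ := Submodule.mem_span_singleton.1 m
  have t0 : t ≠ 0 := by rintro rfl; exact ia_ne a x0 (by rw [← ht, zero_smul])
  have e0 := h.sq_ap ha x
  rw [← ht, map_smul, ← ht, smul_smul, smul_smul] at e0
  have e1 : t * t = l * t + 1 := smul_left_injective F x0 (by simpa [add_smul] using e0)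
  have t1 : t * t ≠ 1 := fun e => hl (mul_right_cancel₀ t0 (by linear_combination e - e1))
  obtain ⟨w, w1, w2⟩ : ∃ w, B x w = 0 ∧ ia a w + t • w ≠ 0 := by
    by_contra hc
    push Not at hc
    obtain ⟨z, hz⟩ := h.dual0 x0
    obtain ⟨w, w', k1, -, k2, -, k3⟩ := h.pair_perp hz
    have := ia_B a w w'
    rw [h.eq_of_add (hc w k1), h.eq_of_add (hc w' k2)] at this
    exact t1 (by simpa [k3] using this)
  set f := ia a w + t • w with hf
  have f1 : t • ia a f = f := by
    rw [hf, map_add, map_smul, h.sq_ap ha]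
    have := h.add_self ((t * t) • ia a w)
    have e : (l * t) • ia a w = (t * t) • ia a w - ia a w := by rw [e1]; module
    have := h.add_self (ia a w)
    linear_combination (norm := module) e + ‹(t * t) • ia a w + (t * t) • ia a w = 0› - this
  have f2 : B x f = 0 := by
    have := ia_B a x w
    rw [← ht] at this
    simp only [map_smul, LinearMap.smul_apply, smul_eq_mul, w1, mul_eq_zero, t0, false_or] at this
    simp [hf, this, w1]
  have f3 : ia a f = t⁻¹ • f := by rw [← f1, inv_smul_smul₀ t0, f1]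
  refine ⟨x + f, by simp [← ht, f3, h.alt, f2, h.perp0 f2], fun m => ?_⟩
  obtain ⟨s, hs⟩ := Submodule.mem_span_singleton.1 m
  rw [map_add, ← ht, f3] at hs
  have k1 : (s - t) • x = (t⁻¹ - s) • f := by linear_combination (norm := module) hs
  have k2 := congrArg (ia a) k1
  rw [map_smul, map_smul, ← ht, f3, smul_comm (t⁻¹ - s), ← k1, smul_smul, smul_smul] at k2
  have k3 : (s - t) * t = t⁻¹ * (s - t) := smul_left_injective F x0 k2
  have k4 : s = t := by
    by_contra e
    have := mul_left_cancel₀ (sub_ne_zero.2 e) (k3.trans (mul_comm _ _))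
    exact t1 (by nth_rewrite 2 [this]; exact mul_inv_cancel₀ t0)
  rw [k4, sub_self, zero_smul, eq_comm, smul_eq_zero, sub_eq_zero] at k1
  exact k1.elim (fun e => t1 (by nth_rewrite 1 [← e]; field_simp)) w2

theorem dom_tri (k : CP b a c) (hb : Dom b) {l : F} (hl : l ≠ 0) (ha : ∀ x, sg a x = l • x) : Concl 2 b a c := by
  have := finite_Isom B
  have hi := h.dom_inv hb
  obtain ⟨x, x1, x2⟩ := h.iso_vec hl ha
  have x0 : x ≠ 0 := by rintro rfl; simp at x2
  obtain ⟨y, hy⟩ := exists_moved k.ha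
  have u0 : ia b y + y ≠ 0 := fun e => hy (h.eq_of_add e)
  have fx := h.fix_add hi
  have adj : ∀ y z, B (ia b y) z = B y (ia b z) := fun y z => by rw [← ia_adj, inv_eq_of hi]
  obtain ⟨g, g1, g2⟩ := h.witt2 (u := l⁻¹ • (ia b y + y)) (u' := y) (smul_ne_zero (inv_ne_zero hl) u0) (fun m => by
    obtain ⟨s, hs⟩ := Submodule.mem_span_singleton.1 m
    exact hy (by rw [← hs, map_smul, map_smul, fx])) x0 x2 (by simp [h.perp0 x1, hb y, h.alt])
  obtain ⟨y', hy'⟩ := h.dual0 u0
  obtain ⟨g', k1, k2⟩ := h.witt2 (u := ia b y + y) (u' := ia b y' + y') u0 (fun m => by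
    obtain ⟨s, hs⟩ := Submodule.mem_span_singleton.1 m
    have e1 := congrArg (fun z => B z y') hs
    simp only [map_smul, LinearMap.smul_apply, hy', smul_eq_mul, mul_one] at e1
    simp only [map_add, LinearMap.add_apply, hb y', h.alt, add_zero] at e1
    rw [e1, zero_smul] at hs
    rw [map_add, LinearMap.add_apply, adj, ← map_add, ← hs, map_zero] at hy'
    exact zero_ne_one hy') x0 x2 (by
      rw [h.perp0 x1, map_add B, LinearMap.add_apply, adj, fx]
      linear_combination (-B y (ia b y' + y')) * h.h2)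
  have k' := k.symm
  refine k.concl ?_ (fun hc => ?_) (Or.inl ((inv_pel hi).dvd k.ha))
  · rw [← k'.order (IsConj.refl a) (isConj_conj g b)]
    have e1 : ia (g * b * g⁻¹) x = x := by rw [ia_conj g b g1, map_smul, fx, g1]
    have e2 : ia (g * b * g⁻¹) (ia a x) = ia a x + l • x := by
      rw [ia_conj g b g2, ← g2, ← g1, ← map_smul, ← map_add, smul_inv_smul₀ hl, add_comm (ia b y), ← add_assoc,
        h.add_self, zero_add]
    refine dvd_two (x := x) ?_ ?_
    · rw [ia_mul a, ia_mul a, e1, e2, map_add, map_smul, h.sq_ap ha, add_right_comm, h.add_self, zero_add]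
    · rw [ia_mul a, e1]
      exact fun e => x2 (by rw [e]; exact Submodule.mem_span_singleton_self x)
  · obtain ⟨n, hn⟩ := (hc.conj (k'.mul_conj g')).pow
    set d := g' * b * g'⁻¹
    have e1 : ia d x = x := by rw [ia_conj g' b k1, fx, k1]
    have e2 : ia d (ia a x) = ia a x := by rw [ia_conj g' b k2, fx, k2]
    have : CharP F 2 := CharTwo.of_one_ne_zero_of_two_eq_zero one_ne_zero h.h2
    have : Nontrivial E := ⟨x, 0, x0⟩
    have : CharP (Module.End F E) 2 := charP_of_injective_algebraMap (algebraMap F _).injective 2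
    have e3 : (ia (a * d) - 1) ^ 2 ^ n = 0 := by
      rw [sub_pow_char_pow_of_commute _ _ (Commute.one_right _), ← map_pow, hn, map_one, one_pow, sub_self]
    obtain ⟨z, ⟨z1, z2⟩, z3, z4⟩ := nil_ker (T := ia (a * d) - 1)
      (W := LinearMap.ker (ia d - 1) ⊓ (LinearMap.ker (ia d - 1)).comap (ia a)) (fun z hz => by
        simp only [Submodule.mem_inf, Submodule.mem_comap, LinearMap.mem_ker, LinearMap.sub_apply,
          Module.End.one_apply, sub_eq_zero, ia_mul a, map_sub] at hz ⊢
        simp only [hz.1, hz.2, h.sq_ap ha, map_add, map_smul, sub_self, and_self]) (2 ^ n) x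
      ⟨by simpa [sub_eq_zero] using e1, by simpa [sub_eq_zero] using e2⟩ x0 (by rw [e3]; rfl)
    replace z1 : ia d z = z := by simpa [sub_eq_zero] using z1
    replace z4 : ia a z = z := by simpa [sub_eq_zero, ia_mul a, z1] using z4
    have := h.sq_ap ha z
    rw [z4, z4] at this
    exact smul_ne_zero hl z3 (by simpa using this)

theorem dom_case (k : CP b a c) (hb : Dom b) : Concl 2 b a c := by
  obtain ⟨y, hy⟩ := exists_moved k.ha
  obtain ⟨l, hl⟩ := h.caseB (TP.of_cp k.symm) hb ⟨y, h.ns (h.dom_inv hb) hy⟩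
  by_cases e : l = 0
  · exact (h.inv_inv k (h.dom_inv hb) (h.inv_ap (by simpa [e] using hl))).elim
  · exact h.dom_tri k hb e hl

end S2

end Cfsg.Agent.H2.AS
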