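import Cfsg.Agent.H2.AS2

/-! S2451 for symplectic groups in characteristic two: the field with two elements, and the conclusion. -/

set_option autoImplicit false
set_option linter.unusedSectionVars false

namespace Cfsg.Agent.H2.AS

open Module Cfsg.Agent.H1 Cfsg.Agent.H5 Cfsg.Agent.H9.AH

variable {F : Type*} [Field F] [Fintype F] {E : Type*} [AddCommGroup E] [Module F E] [FiniteDimensional F E]
  {B : Bil F E} {a b c : Isom B}

namespace S2

variable (h : S2 B)
include h

theorem q_add (a : Isom B) (x y : E) : B (ia a (x + y)) (x + y) = B (ia a x) x + B (ia a y) y + B (sg a x) y := by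
  rw [h.B_sg]
  simp only [map_add, LinearMap.add_apply]
  linear_combination B (ia a y) x * h.h2

theorem opp1 (k : CP a b c) {v : E} (ha : B (ia a v) v = 1) (hb : B (ia b v) v = 1) : sg a v + sg b v ∈ F ∙ v := by
  refine h.mem_of_perp fun y e => ?_
  obtain ⟨l₁, l₂, l₃, -, -, m⟩ := h.key a b e
  have m1 := m 1 0 1
  have m2 := m 1 0 0
  have m3 := m 0 0 1
  rw [tp_of_cp k (IsConj.refl a) (isConj_conj _ b), ha, hb] at m1 m2 m3
  rw [map_add, LinearMap.add_apply, h.B_sg, h.B_sg]
  linear_combination m1 - m2 - m3 - (B (ia a y) v + B (ia b y) v) * h.h2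

theorem opp2 (k : CP a b c) {v : E} (ha : B (ia a v) v = 1) (hb : B (ia b v) v = 1) : sg b v ∈ F ∙ v := by
  by_contra hu
  obtain ⟨w, w1, w2⟩ := h.dual1 hu
  have g1 : ia (h.sp.transv w 1) v = v := by rw [tr_apply, w1]; simp
  have e1 := h.opp1 k ha hb
  have e2 := h.opp1 (k.right (isConj_conj (h.sp.transv w 1) b)) ha (by rw [B_conj _ b g1 g1, hb])
  rw [sg_conj _ b g1, tr_apply, w2] at e2
  have := Submodule.sub_mem _ e2 e1
  simp only [mul_one, one_smul, add_sub_add_left_eq_sub, add_sub_cancel_left] at this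
  obtain ⟨t, rfl⟩ := Submodule.mem_span_singleton.1 this
  simp [h.B_sg] at w2

variable (two : ∀ x : F, x = 0 ∨ x = 1)
include two

theorem align (ha : ¬ Dom a) {v : E} (hv : v ≠ 0) : ∃ g : Isom B, B (ia (g * a * g⁻¹) v) v = 1 := by
  simp only [Dom, not_forall] at ha
  obtain ⟨v', ha⟩ := ha
  obtain ⟨g, hg⟩ := sp_move h.sp (x := v') (by rintro rfl; simp at ha) hv
  exact ⟨g, by rw [B_conj g a hg hg, (two _).resolve_left ha]⟩

theorem sig01 (k : CP a b c) (ha : ¬ Dom a) (hb : ¬ Dom b) : (∀ x, sg a x = 0) ∨ ∀ x, sg a x = x := by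
  have hs : ∀ v, B (ia a v) v = 1 → sg a v = 0 ∨ sg a v = v := fun v hv => by
    obtain ⟨g, hg⟩ := h.align two hb (v := v) (by rintro rfl; simp at hv)
    obtain ⟨t, ht⟩ := Submodule.mem_span_singleton.1 (h.opp2 (k.right (isConj_conj g b)).symm hg hv)
    rcases two t with rfl | rfl
    exacts [Or.inl (by rw [← ht, zero_smul]), Or.inr (by rw [← ht, one_smul])]
  by_cases e : ∃ v, B (ia a v) v = 1 ∧ sg a v = 0
  · obtain ⟨v, v1, v2⟩ := e
    have k1 : ∀ y, B v y = 1 → sg a y = 0 := fun y hy => by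
      have n : B v (sg a y) = 0 := by rw [← h.sg_adj, v2, map_zero, LinearMap.zero_apply]
      rcases two (B (ia a y) y) with e | e
      · rcases hs (v + y) (by rw [h.q_add, v1, v2, e]; simp) with e' | e'
        · rwa [map_add, v2, zero_add] at e'
        · rw [map_add, v2, zero_add] at e'
          simp [e', h.alt, hy] at n
      · exact (hs y e).resolve_right fun e' => by simp [e', hy] at n
    refine Or.inl fun y => ?_
    rcases two (B v y) with e | e
    · obtain ⟨z, hz⟩ := h.dual0 (u := v) (by rintro rfl; simp at v1)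
      have := k1 (y + z) (by rw [map_add, e, hz, zero_add])
      rwa [map_add, k1 z hz, add_zero] at this
    · exact k1 y e
  · push Not at e
    have k0 : ∀ v, B (ia a v) v = 1 → sg a v = v := fun v hv => (hs v hv).resolve_left (e v hv)
    simp only [Dom, not_forall] at ha
    obtain ⟨v, hv⟩ := ha
    replace hv := (two _).resolve_left hv
    have k1 : ∀ y, B v y = 0 → sg a y = y := fun y hy => by
      rcases two (B (ia a y) y) with e | e
      · have := k0 (v + y) (by rw [h.q_add, hv, e, k0 v hv, hy]; simp)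
        rwa [map_add, k0 v hv, add_right_inj] at this
      · exact k0 y e
    refine Or.inr fun y => ?_
    rcases two (B v y) with e | e
    · exact k1 y e
    · have := k1 (ia a v + y) (by rw [map_add, e, h.comm, hv]; linear_combination h.h2)
      rwa [map_add, k0 (ia a v) (by rw [ia_B, hv]), add_right_inj] at this

theorem both (ha : ¬ Dom a) (hb : ¬ Dom b) : ∃ v g, B (ia a v) v = 1 ∧ B (ia (g * b * g⁻¹) v) v = 1 := by
  simp only [Dom, not_forall] at ha
  obtain ⟨v, hv⟩ := ha
  obtain ⟨g, hg⟩ := h.align two hb (v := v) (by rintro rfl; simp at hv)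
  exact ⟨v, g, (two _).resolve_left hv, hg⟩

omit two in
theorem tri_tri (k : CP a b c) {v : E} (ha : B (ia a v) v = 1) (hb : B (ia b v) v = 1) (sa : ∀ x, sg a x = x)
    (sb : ∀ x, sg b x = x) : False := by
  obtain ⟨l₁, l₂, l₃, e1, -, m⟩ := h.key a b (h.alt v)
  have m1 := m 1 0 0
  have n1 := congrArg (B (ia a v)) (sb v)
  have n2 := congrArg (B (ia b v)) (sa v)
  rw [sg_apply, map_add, ← ia_B b _ (ia b⁻¹ v), ia_inv_r, ha] at n1
  rw [sg_apply, map_add, ← ia_B a _ (ia a⁻¹ v), ia_inv_r, hb, h.comm (ia a v)] at n2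
  rw [tp_of_cp k (IsConj.refl a) (isConj_conj _ b), ha, hb] at m1
  apply one_ne_zero (α := F)
  linear_combination m1 + e1 + n1 - n2

omit two in
theorem inv_tri (k : CP a b c) {v : E} (ha : B (ia a v) v = 1) (hb : B (ia b v) v = 1) (sa : ∀ x, sg a x = 0)
    (sb : ∀ x, sg b x = x) : False := by
  have key : ∀ y, B v y = 0 → B (ia b (ia a v)) y - B (ia a (ia b v)) y + B (ia b (ia a y)) v - B (ia a (ia b y)) v =
      B (ia b y) y + B (ia a y) y := fun y e => by
    obtain ⟨l₁, l₂, l₃, -, e3, m⟩ := h.key a b e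
    have m1 := m 0 0 1
    have n1 := h.B_sg a v y
    have n2 := h.B_sg b v y
    rw [sa, map_zero, LinearMap.zero_apply] at n1
    rw [sb, e] at n2
    rw [tp_of_cp k (IsConj.refl a) (isConj_conj _ b), ha, hb] at m1
    linear_combination -m1 - e3 + B (ia a y) v * n2 + B (ia b v) y * n1 + B (ia a v) y * B (ia b v) y * h.h2
  obtain ⟨z, hz⟩ := h.dual0 (u := v) (by rintro rfl; simp at ha)
  obtain ⟨w, w', k1, -, k2, -, k3⟩ := h.pair_perp hz
  have e1 := key (w + w') (by simp [k1, k2])
  have e2 := key w k1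
  have e3 := key w' k2
  rw [h.q_add, h.q_add, sa, sb, k3] at e1
  simp only [map_add, LinearMap.add_apply, map_zero, LinearMap.zero_apply] at e1
  apply one_ne_zero (α := F)
  linear_combination -e1 + e2 + e3

theorem opp_false (k : CP a b c) (ha : ¬ Dom a) (hb : ¬ Dom b) : False := by
  obtain ⟨v, g, v1, v2⟩ := h.both two ha hb
  have k' := k.right (isConj_conj g b)
  have hb' : ¬ Dom (g * b * g⁻¹) := fun e => zero_ne_one ((e v).symm.trans v2)
  rcases h.sig01 two k' ha hb' with e | e <;> rcases h.sig01 two k'.symm hb' ha with e' | e'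
  · exact h.inv_inv k' (h.inv_ap e) (h.inv_ap e')
  · exact h.inv_tri k' v1 v2 e e'
  · exact h.inv_tri k'.symm v2 v1 e' e
  · exact h.tri_tri k' v1 v2 e e'

omit two in
theorem good : Good 2 (Isom B) := fun a b c k => by
  by_cases ha : Dom a
  · exact h.dom_case k ha
  by_cases hb : Dom b
  · exact (h.dom_case k.symm hb).symm
  by_cases hq : 3 ≤ Fintype.card F
  · exact (h.caseA (TP.of_cp k) ha hb (Or.inr ⟨h.h2, hq⟩)).elim
  · have := Fintype.one_lt_card (α := F)
    exact (h.opp_false (AO.two_of_card (by omega)) k ha hb).elim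

end S2

theorem S4.center (h : S4 B) {z : Isom B} (hz : z ∈ Subgroup.center (Isom B)) :
    ∃ e : F, e * e = 1 ∧ ∀ x, ia z x = e • x := by
  obtain ⟨e, he⟩ := h.sp.scalar_of_mem_center hz
  obtain ⟨x, x0, -⟩ := h.perp3 0 0 0
  obtain ⟨y, hy⟩ := h.dual0 x0
  refine ⟨e, ?_, he⟩
  have := z.2 x y
  simpa [he, hy] using this

theorem S2.good_quot (h : S2 B) : Good 2 (Isom B ⧸ Subgroup.center (Isom B)) := by
  have hc : Subgroup.center (Isom B) = ⊥ := by
    rw [eq_bot_iff]
    intro z hz
    obtain ⟨e, h1, h2⟩ := h.center hz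
    have : (e - 1) ^ 2 = 0 := by linear_combination h1 + (1 - e) * h.h2
    rw [pow_eq_zero_iff two_ne_zero, sub_eq_zero] at this
    exact iso_ext fun x => by rw [← ia, h2, this, one_smul]; rfl
  exact h.good.congr ((QuotientGroup.quotientMulEquivOfEq hc).trans QuotientGroup.quotientBot)

end Cfsg.Agent.H2.AS
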