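import Cfsg.Agent.H2.AS3

/-! S2451 for symplectic groups in odd characteristic: orders modulo the centre, transvections. -/

set_option autoImplicit false
set_option linter.unusedSectionVars false

namespace Cfsg.Agent.H2.AS

open Module Cfsg.Agent.H1 Cfsg.Agent.H5 Cfsg.Agent.H9.AH

variable {F : Type*} [Field F] [Fintype F] {E : Type*} [AddCommGroup E] [Module F E] [FiniteDimensional F E]
  {B : Bil F E} {a b g : Isom B} {c : Isom B ⧸ Subgroup.center (Isom B)}

/-- the image modulo the centre -/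
abbrev pj (g : Isom B) : Isom B ⧸ Subgroup.center (Isom B) := QuotientGroup.mk' _ g

theorem pj_conj {x y : Isom B} (k : IsConj x y) : IsConj (pj x) (pj y) := (QuotientGroup.mk' _).map_isConj k

theorem ns_of (ha : pj a ≠ 1) : NS a := by
  by_contra hc
  simp only [NS, not_exists, not_not] at hc
  obtain ⟨t, ht⟩ := scalar_of hc
  exact ha ((QuotientGroup.eq_one_iff _).2 (mem_center_of_scalar ht))

theorem pow_eig {x : E} {e : F} (hx : ia g x = e • x) (n : ℕ) : ia (g ^ n) x = e ^ n • x := by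
  induction n with
  | zero => simp
  | succ n ih => rw [pow_succ, ia_mul, hx, map_smul, ih, smul_smul, pow_succ']

theorem pow_jor {x u : E} {e : F} (hx : ia g x = e • (x + u)) (hu : ia g u = e • u) (n : ℕ) :
    ia (g ^ n) x = e ^ n • (x + (n : F) • u) := by
  induction n with
  | zero => simp
  | succ n ih =>
    rw [pow_succ', ia_mul, ih, map_smul, map_add, map_smul, hx, hu]
    push_cast
    module

theorem eig_ne {x : E} {e : F} (x0 : x ≠ 0) (hx : ia g x = e • x) : e ≠ 0 := by
  rintro rfl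
  exact ia_ne g x0 (by rw [hx, zero_smul])

/-- `a` is a transvection up to sign -/
structure TV (a : Isom B) (u : E) (e s : F) : Prop where
  u0 : u ≠ 0
  s0 : s ≠ 0
  ap : ∀ x, ia a x = e • (x + (s * B x u) • u)

theorem TV.conj {u : E} {e s : F} (k : TV a u e s) (g : Isom B) : TV (g * a * g⁻¹) (ia g u) e s :=
  ⟨ia_ne g k.u0, k.s0, fun x => by
    rw [ia_mul, ia_mul, k.ap, ia_adj, map_smul, map_add, map_smul, ia_inv_r]⟩

theorem TV.fix {u x : E} {e s : F} (k : TV a u e s) (hx : B x u = 0) : ia a x = e • x := by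
  rw [k.ap, hx]; simp

/-- `a - a⁻¹` has rank one -/
structure R1 (a : Isom B) (u : E) (t : F) : Prop where
  u0 : u ≠ 0
  ap : ∀ x, ia a x - ia a⁻¹ x = (t * B u x) • u

/-- degenerate on totally isotropic planes -/
def DD (a : Isom B) : Prop := ∀ v y, B (ia a v) v ≠ 0 → B v y = 0 →
  (B (ia a v) y + B (ia a y) v) ^ 2 = 4 * B (ia a v) v * B (ia a y) y

namespace S4

variable (h : S4 B)
include h

theorem lift (k : CP (pj a) (pj b) c) {a' b' : Isom B} (h1 : IsConj a a') (h2 : IsConj b b') :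
    ∃ (e : F) (g : Isom B), e * e = 1 ∧ ia (a' * b') = e • ia (g * (a * b) * g⁻¹) := by
  have := k.mul.symm.trans (k.conj _ _ (pj_conj h1) (pj_conj h2))
  obtain ⟨g, hg⟩ := isConj_iff.1 this
  obtain ⟨g, rfl⟩ := QuotientGroup.mk'_surjective _ g
  rw [← map_inv, ← map_mul, ← map_mul, ← map_mul, ← map_mul, QuotientGroup.mk'_eq_mk'] at hg
  obtain ⟨z, hz, e⟩ := hg
  obtain ⟨t, t1, t2⟩ := h.center hz
  refine ⟨t, g, t1, LinearMap.ext fun x => ?_⟩
  rw [← e, ia_mul, t2, map_smul]; rfl

theorem tr_conj' (g x : Isom B) : LinearMap.trace F E (ia (g * x * g⁻¹)) = LinearMap.trace F E (ia x) := by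
  rw [ia, map_mul, LinearMap.trace_mul_comm, ← map_mul, ← mul_assoc, inv_mul_cancel, one_mul]

theorem tp_of (k : CP (pj a) (pj b) c) : TP a b := fun a' b' h1 h2 => by
  obtain ⟨e, g, e1, e2⟩ := h.lift k h1 h2
  change LinearMap.trace F E (ia (a' * b')) ^ 2 = LinearMap.trace F E (ia (a * b)) ^ 2
  rw [e2, map_smul, h.tr_conj', smul_eq_mul, mul_pow, sq e, e1, one_mul]

theorem tp2_of (k : CP (pj a) (pj b) c) {b' : Isom B} (h2 : IsConj b b') :
    LinearMap.trace F E (ia a * (ia b' * ia a * ia b')) = LinearMap.trace F E (ia a * (ia b * ia a * ia b)) := by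
  obtain ⟨e, g, e1, e2⟩ := h.lift k (IsConj.refl a) h2
  have : ia a * (ia b' * ia a * ia b') = ia (a * b') * ia (a * b') := by simp only [ia, map_mul, mul_assoc]
  rw [this, e2, smul_mul_smul_comm, e1, one_smul, ← map_mul,
    show g * (a * b) * g⁻¹ * (g * (a * b) * g⁻¹) = g * (a * (b * a * b)) * g⁻¹ by group, h.tr_conj']
  rfl

theorem pow_scalar (g : Isom B) : ∃ e : F, ∀ x, ia (g ^ orderOf (pj g)) x = e • x := by
  obtain ⟨e, -, he⟩ := h.center (z := g ^ orderOf (pj g))
    ((QuotientGroup.eq_one_iff _).1 (show pj (g ^ orderOf (pj g)) = 1 by rw [pj, map_pow, pow_orderOf_eq_one]))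
  exact ⟨e, he⟩

theorem dvd_p (p : ℕ) [CharP F p] {x u : E} {e : F} (u0 : u ≠ 0) (hx : ia g x = e • (x + u)) (hu : ia g u = e • u) :
    p ∣ orderOf (pj g) := by
  obtain ⟨t, ht⟩ := h.pow_scalar g
  have e1 := pow_jor hx hu (orderOf (pj g))
  have e2 := pow_eig hu (orderOf (pj g))
  rw [ht] at e1 e2
  rw [smul_left_injective F u0 e2, smul_add, left_eq_add, smul_eq_zero, smul_eq_zero] at e1
  exact (CharP.cast_eq_zero_iff F p _).1 ((e1.resolve_left (pow_ne_zero _ (eig_ne u0 hu))).resolve_right u0)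

theorem dvd_2 (h2 : (2 : F) ≠ 0) {x y : E} {e : F} (x0 : x ≠ 0) (y0 : y ≠ 0) (n : ℕ) (hx : ia (g ^ n) x = e • x)
    (hy : ia (g ^ n) y = (-e) • y) : 2 ∣ orderOf (pj g) := by
  refine Dvd.dvd.trans ?_ (orderOf_pow_dvd n)
  rw [← map_pow]
  by_contra hc
  obtain ⟨t, ht⟩ := h.pow_scalar (g ^ n)
  have e1 := pow_eig hx (orderOf (pj (g ^ n)))
  have e2 := pow_eig hy (orderOf (pj (g ^ n)))
  rw [ht] at e1 e2
  have := (smul_left_injective F x0 e1).symm.trans (smul_left_injective F y0 e2)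
  rw [Odd.neg_pow (Nat.not_even_iff_odd.1 fun e => hc e.two_dvd)] at this
  exact mul_ne_zero h2 (pow_ne_zero _ (eig_ne x0 hx)) (by linear_combination this)

theorem tv_pel (p : ℕ) [Fact p.Prime] [CharP F p] {u : E} {e s : F} (k : TV a u e s) : PEl p (pj a) := by
  refine pel_of_pow (k := 1) ?_
  rw [pow_one, pj, ← map_pow]
  refine (QuotientGroup.eq_one_iff _).2 (mem_center_of_scalar (c := e ^ p) fun x => ?_)
  have := pow_jor (k.ap x) (by rw [map_smul, k.fix (h.alt u), smul_comm]) p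
  rwa [CharP.cast_eq_zero, zero_smul, add_zero] at this

theorem tv_of (hn : NS a) {u : E} {e : F} (u0 : u ≠ 0) (he : ∀ x, B u x = 0 → ia a x = e • x) :
    ∃ s, TV a u e s := by
  obtain ⟨z, hz⟩ := h.dual0 u0
  have e0 := eig_ne u0 (he u (h.alt u))
  have ee : e * e = 1 := by
    obtain ⟨w, w', k1, -, k2, -, k3⟩ := h.pair_perp hz
    have := ia_B a w w'
    rw [he w k1, he w' k2] at this
    simpa [k3] using this
  obtain ⟨d, hd⟩ := Submodule.mem_span_singleton.1 (h.mem_of_perp (v := u) (u := ia a z - e • z) fun y hy => by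
    have := ia_B a z y
    rw [he y hy] at this
    simp only [map_smul, smul_eq_mul, map_sub, LinearMap.sub_apply, LinearMap.smul_apply] at this ⊢
    linear_combination e * this - B (ia a z) y * ee)
  have key : ∀ x, ia a x = e • (x + (-(e * d) * B x u) • u) := fun x => by
    have := he (x - B u x • z) (by simp [hz])
    rw [map_sub, map_smul, eq_sub_iff_add_eq.1 hd |>.symm] at this
    rw [h.skew u x]
    have e' : (e * e * d * B u x) • u = (d * B u x) • u := by rw [ee, one_mul]
    linear_combination (norm := module) this - e'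
  refine ⟨_, u0, fun e' => ?_, key⟩
  obtain ⟨y, hy⟩ := hn
  exact hy (Submodule.mem_span_singleton.2 ⟨e, by rw [key, e']; simp⟩)

theorem mixed (h2 : (2 : F) ≠ 0) (p : ℕ) [Fact p.Prime] [CharP F p] (k : CP (pj a) (pj b) c) {u : E} {e s : F}
    (ha : TV a u e s) {w₁ w₂ x₁ x₂ : E} {f f' : F} (n1 : w₁ ≠ 0) (n2 : w₂ ≠ 0) (b1 : ia b w₁ = f • w₁)
    (b2 : ia b w₂ = (-f) • w₂) (b3 : B w₁ w₂ = 0) (c1 : ia b x₁ = f' • x₁) (c2 : ia b x₂ = f' • x₂)
    (c3 : B x₁ x₂ ≠ 0) : Concl p (pj a) (pj b) c := by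
  have := finite_Isom B
  have hp : 2 ≠ p := fun e => h2 (by simpa [← e] using CharP.cast_eq_zero F p)
  obtain ⟨u', u1, u2, -⟩ := h.perp21 u u u
  obtain ⟨g, g1, g2⟩ := h.witt2 (u' := w₂) n1 (fun m => by
    obtain ⟨t, rfl⟩ := Submodule.mem_span_singleton.1 m
    rw [map_smul, b1, smul_comm] at b2
    exact mul_ne_zero h2 (eig_ne n1 b1) (by linear_combination smul_left_injective F n2 b2)) ha.u0 u1 (by rw [u2, b3])
  obtain ⟨z, hz⟩ := h.dual0 ha.u0
  obtain ⟨g', k1, k2⟩ := h.wittH (w := u) (w' := B x₁ x₂ • z) c3 (by simp [hz])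
  refine k.concl_two (Or.inl ((h.tv_pel p ha).dvd k.ha)) (IsConj.refl _) (pj_conj (isConj_conj g' b)) (IsConj.refl _)
    (pj_conj (isConj_conj g b)) ?_ Nat.prime_two hp ?_
  · rw [← map_mul]
    refine h.dvd_p p (x := B x₁ x₂ • z) (u := (s * B (B x₁ x₂ • z) u) • u) (e := f' * e)
      (smul_ne_zero (mul_ne_zero ha.s0 (by simp [h.skew u z, hz, c3])) ha.u0) ?_ ?_
    · rw [ia_mul, ia_conj g' b k2, c2, map_smul, k2, map_smul, ha.ap, smul_smul]
    · generalize s * B (B x₁ x₂ • z) u = r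
      rw [map_smul, ia_mul, ia_conj g' b k1, c1, map_smul, k1, map_smul, ha.fix (h.alt u), smul_smul f', smul_comm]
  · rw [← map_mul]
    refine h.dvd_2 h2 ha.u0 (y := u') (by rintro rfl; simp at u1) 1 (e := f * e) ?_ ?_
    · rw [pow_one, ia_mul, ia_conj g b g1, b1, map_smul, g1, map_smul, ha.fix (h.alt u), smul_smul]
    · rw [pow_one, ia_mul, ia_conj g b g2, b2, map_smul, g2, map_smul, ha.fix (h.perp0 u2), smul_smul, neg_mul]

theorem B_dl (a : Isom B) (x y : E) : B (ia a x - ia a⁻¹ x) y = B (ia a x) y + B (ia a y) x := by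
  rw [map_sub, LinearMap.sub_apply, ia_adj, h.skew (ia a y) x, sub_neg_eq_add]

theorem rank_one (h2 : (2 : F) ≠ 0) (hd : DD a) (ha : ¬ Dom a) : ∃ u t, R1 a u t := by
  simp only [Dom, not_forall] at ha
  obtain ⟨v, hv⟩ := ha
  have h4 : (4 : F) ≠ 0 := by rw [show (4 : F) = 2 * 2 by norm_num]; exact mul_ne_zero h2 h2
  have key : ∀ x, (B (ia a v) x + B (ia a x) v) ^ 2 = 4 * B (ia a v) v * B (ia a x) x := fun x => by
    by_contra hx
    have n : B v x ≠ 0 := fun e => hx (hd v x hv e)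
    obtain ⟨y, y0, y1, y2, y3⟩ := h.perp3 v (ia a v - ia a⁻¹ v) (ia a x - ia a⁻¹ x)
    rw [h.B_dl] at y2 y3
    have qy : B (ia a y) y = 0 := by
      have := hd v y hv y1
      rw [y2] at this
      exact (mul_eq_zero.1 (this.symm.trans (by ring))).resolve_left (mul_ne_zero h4 hv)
    have rad : ∀ z, B (ia a z) y + B (ia a y) z = 0 := fun z => by
      have w0 : B v (z - (B v z / B v x) • x) = 0 := by simp [n]
      have e1 := hd v _ hv w0
      have e2 := hd v (z - (B v z / B v x) • x + y) hv (by rw [map_add, w0, y1, add_zero])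
      generalize B v z / B v x = t at e1 e2
      simp only [map_add, map_sub, map_smul, LinearMap.add_apply, LinearMap.sub_apply, LinearMap.smul_apply,
        smul_eq_mul, qy] at e1 e2
      refine mul_left_cancel₀ (mul_ne_zero h4 hv) ?_
      linear_combination e1 - e2 + 4 * B (ia a v) v * t * y3 +
        (2 * (B (ia a v) z - t * B (ia a v) x + (B (ia a z) v - t * B (ia a x) v)) + B (ia a v) y + B (ia a y) v) * y2
    have off : ∀ z, B y z ≠ 0 → (B (ia a v) z + B (ia a z) v) ^ 2 = 4 * B (ia a v) v * B (ia a z) z := fun z hz => by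
      have q : B (ia a (v - (B v z / B y z) • y)) (v - (B v z / B y z) • y) = B (ia a v) v := by
        simp only [map_sub, map_smul, LinearMap.sub_apply, LinearMap.smul_apply, smul_eq_mul, qy]
        linear_combination (-(B v z / B y z)) * y2
      have := hd (v - (B v z / B y z) • y) z (by rwa [q]) (by simp [hz])
      rw [q] at this
      simp only [map_sub, map_smul, LinearMap.sub_apply, LinearMap.smul_apply, smul_eq_mul] at this
      rw [← this]
      congr 1
      linear_combination (B v z / B y z) * rad z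
    by_cases e : B y x = 0
    · obtain ⟨z, hz⟩ := h.dual0 y0
      have e1 := off z (by simp [hz])
      have e2 := off (z + x) (by simp [hz, e])
      have e3 := off (z - x) (by simp [hz, e])
      simp only [map_add, map_sub, LinearMap.add_apply, LinearMap.sub_apply] at e2 e3
      exact hx (mul_left_cancel₀ h2 (by linear_combination e2 + e3 - 2 * e1))
    · exact hx (off x e)
  refine ⟨ia a v - ia a⁻¹ v, (2 * B (ia a v) v)⁻¹, fun e => ?_, fun x => h.sp.isEps.ext_left fun y => ?_⟩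
  · have := h.B_dl a v v
    rw [e, map_zero, LinearMap.zero_apply] at this
    exact mul_ne_zero h2 hv (by linear_combination -this)
  · have e1 := key (x + y)
    have e2 := key x
    have e3 := key y
    simp only [map_add, LinearMap.add_apply] at e1
    rw [map_smul, LinearMap.smul_apply, h.B_dl, h.B_dl, h.B_dl, smul_eq_mul]
    field_simp
    refine mul_left_cancel₀ h2 ?_
    linear_combination -e1 + e2 + e3

theorem tv_of_sg (h2 : (2 : F) ≠ 0) (hn : NS a) {u : E} {t l : F} (r : R1 a u t) (hl : ∀ v, sg a v = l • v) :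
    ∃ e s, TV a u e s := by
  refine ⟨l / 2, h.tv_of hn r.u0 fun x hx => ?_⟩
  have e1 := r.ap x
  have e2 := hl x
  rw [hx, mul_zero, zero_smul] at e1
  rw [sg_apply] at e2
  refine smul_right_injective E h2 ?_
  change (2 : F) • _ = (2 : F) • _
  rw [smul_smul, mul_div_cancel₀ _ h2]
  linear_combination (norm := module) e1 + e2

theorem dom_dd (h2 : (2 : F) ≠ 0) (k : CP (pj a) (pj b) c) (hb : Dom b) {l : F} (hl : ∀ v, sg a v = l • v) :
    DD a := fun v w hv e => by
  have s := h.B_sg a v w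
  rw [hl, map_smul, LinearMap.smul_apply, e, smul_zero] at s
  by_cases hw : w ∈ F ∙ v
  · obtain ⟨t, rfl⟩ := Submodule.mem_span_singleton.1 hw
    simp only [map_smul, LinearMap.smul_apply, smul_eq_mul]
    ring
  obtain ⟨y, hy⟩ := ns_of k.hb
  obtain ⟨g, g1, g2⟩ := h.witt2 (u := y) (w := v) (by rintro rfl; simp at hy) hy (by rintro rfl; simp at hv) hw
    (by rw [e, h.perp0 (hb y)])
  have hb' := hb.conj g
  have k' := k.right (pj_conj (isConj_conj g b))
  have b1 := (ia_conj g b g1).trans g2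
  generalize g * b * g⁻¹ = b at hb' k' b1
  have m : ∀ s : F, ia (h.sp.transv v s * b * (h.sp.transv v s)⁻¹) = ia b + s • (rk B v w - rk B w v) := fun s => by
    ext x
    have : B (ia b x) v = B x w := by rw [← b1, ← ia_adj, inv_eq_of (h.dom_inv hb')]
    rw [tr_inv, ia_mul, ia_mul, tr_apply, tr_apply]
    simp only [map_add, map_smul, LinearMap.add_apply, LinearMap.smul_apply, LinearMap.sub_apply, rk_apply, b1, this,
      h.perp0 e, smul_eq_mul]
    module
  have m1 := h.tp2_of k' (isConj_conj (h.sp.transv v 1) b)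
  have m2 := h.tp2_of k' (isConj_conj (h.sp.transv v (-1)) b)
  rw [m] at m1 m2
  simp only [mul_add, add_mul, mul_sub, sub_mul, map_add, map_sub, smul_mul_assoc, mul_smul_comm, map_smul,
    tr_rk3, smul_eq_mul] at m1 m2
  linear_combination m1 + m2 - (B (ia a v) w - B (ia a w) v) * -s

theorem dom_odd (h2 : (2 : F) ≠ 0) (p : ℕ) [Fact p.Prime] [CharP F p] (k : CP (pj a) (pj b) c) (hb : Dom b) :
    Concl p (pj a) (pj b) c := by
  obtain ⟨l, hl⟩ := h.caseB (h.tp_of k) hb (ns_of k.hb)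
  have ha : ¬ Dom a := fun ha => by
    obtain ⟨y, hy⟩ := ns_of k.ha
    have := hl y
    rw [sg_apply, inv_eq_of (h.dom_inv ha), ← two_smul F] at this
    exact hy (Submodule.mem_span_singleton.2 ⟨2⁻¹ * l, by rw [mul_smul, ← this, inv_smul_smul₀ h2]⟩)
  obtain ⟨u, t, r⟩ := h.rank_one h2 (h.dom_dd h2 k hb hl) ha
  obtain ⟨e, s, tv⟩ := h.tv_of_sg h2 (ns_of k.ha) r hl
  obtain ⟨y, hy⟩ := ns_of k.hb
  have hi := h.dom_inv hb
  have n1 : y + ia b y ≠ 0 := fun e => hy (Submodule.mem_span_singleton.2 ⟨-1, by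
    linear_combination (norm := module) -e⟩)
  have n2 : y - ia b y ≠ 0 := fun e => hy (Submodule.mem_span_singleton.2 ⟨1, by
    linear_combination (norm := module) e⟩)
  have f : ∀ y, ia b (y + ia b y) = (1 : F) • (y + ia b y) := fun y => by rw [map_add, hi, one_smul, add_comm]
  obtain ⟨z, hz⟩ := h.dual0 n1
  refine h.mixed h2 p k tv n1 n2 (f y) (by rw [map_sub, hi]; module)
    (by simp [h.alt, hb y, h.perp0 (hb y)]) (f y) (f z) ?_
  have := ia_B b (y + ia b y) z
  rw [f, one_smul] at this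
  rw [map_add (B _), this, hz]
  exact fun e => h2 (by linear_combination e)

end S4

end Cfsg.Agent.H2.AS
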