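import Cfsg.Agent.H2.AS4
import Cfsg.Prelude.Def_Classical

/-! S2451 for symplectic groups: the field with three elements, and the conclusion. -/

set_option autoImplicit false
set_option linter.unusedSectionVars false

namespace Cfsg.Agent.H2.AS

open Module Cfsg.Agent.H1 Cfsg.Agent.H5 Cfsg.Agent.H9.AH

variable {F : Type*} [Field F] [Fintype F] {E : Type*} [AddCommGroup E] [Module F E] [FiniteDimensional F E]
  {B : Bil F E} {a b g : Isom B} {c : Isom B ⧸ Subgroup.center (Isom B)}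

/-- the defect of `DD` -/
def rd (a : Isom B) (v y : E) : F := (B (ia a v) y + B (ia a y) v) ^ 2 - 4 * B (ia a v) v * B (ia a y) y

/-- the field with three elements -/
structure S3 (B : Bil F E) : Prop extends S4 B where
  h3 : (3 : F) = 0
  sq : ∀ x : F, x ≠ 0 → x * x = 1

namespace S3

variable (h : S3 B)
include h

theorem h2 : (2 : F) ≠ 0 := fun e => one_ne_zero (α := F) (by linear_combination h.h3 - e)

theorem eqn0 (k : TP a b) {v y : E} (e : B v y = 0) (ha : B (ia a v) v ≠ 0) (hb : B (ia b v) v ≠ 0) :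
    rd a v y + rd b v y + B (ia a v) v * B (ia b v) v * (B (sg a v) y * B (sg b v) y) = 0 := by
  obtain ⟨l₁, l₂, l₃, -, -, m⟩ := h.key a b e
  have n : ∀ s r : F, tp a (h.hg e s 0 r * b * (h.hg e s 0 r)⁻¹) ^ 2 = tp a b ^ 2 := fun s r =>
    k _ _ (IsConj.refl a) (isConj_conj _ b)
  simp only [m] at n
  have qa := h.sq _ ha
  have qb := h.sq _ hb
  rw [rd, rd, h.B_sg, h.B_sg]
  generalize B (ia a v) v = A at *
  generalize B (ia b v) v = C at *
  generalize B (ia a v) y = a1 at *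
  generalize B (ia a y) v = a2 at *
  generalize B (ia b v) y = b1 at *
  generalize B (ia b y) v = b2 at *
  generalize B (ia a y) y = a3 at *
  generalize B (ia b y) y = b3 at *
  have d : ∀ r : F, (l₁ - r * (A * (b1 + b2) + C * (a1 + a2))) ^ 2 +
      A * C * (tp a b + r * l₃ - r ^ 2 * (a1 * b1 + a2 * b2 + A * b3 + C * a3)) + (A * C) ^ 2 = 0 := fun r => by
    refine mul_left_cancel₀ h.h2 ?_
    linear_combination n 0 r + n 1 r + n (-1) r + (tp a b ^ 2 -
      (tp a b + r * l₃ - r ^ 2 * (a1 * b1 + a2 * b2 + A * b3 + C * a3)) ^ 2 +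
      2 * A * C * (tp a b + r * l₃ - r ^ 2 * (a1 * b1 + a2 * b2 + A * b3 + C * a3))) * h.h3
  have f : (A * (b1 + b2) + C * (a1 + a2)) ^ 2 = A * C * (a1 * b1 + a2 * b2 + A * b3 + C * a3) := by
    refine mul_left_cancel₀ h.h2 ?_
    linear_combination d 1 + d (-1) - 2 * d 0
  linear_combination f + (C * b3 - (b1 + b2) ^ 2) * qa + (A * a3 - (a1 + a2) ^ 2) * qb -
    (A * a3 + C * b3 + A * C * (a1 * b2 + a2 * b1)) * h.h3

theorem eqn (k : TP a b) {v y v' y' : E} (e : B v y = 0) (e' : B v' y' = 0) (hy : y ∉ F ∙ v) (hy' : y' ∉ F ∙ v')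
    (ha : B (ia a v) v ≠ 0) (hb : B (ia b v') v' ≠ 0) :
    rd a v y + rd b v' y' = 0 ∧ B (sg a v) y * B (sg b v') y' = 0 := by
  have k0 : ∀ y, B v y = 0 → y ∉ F ∙ v → rd a v y + rd b v' y' +
      B (ia a v) v * B (ia b v') v' * (B (sg a v) y * B (sg b v') y') = 0 := fun y e hy => by
    obtain ⟨g, g1, g2⟩ := h.witt2 (u := v') (w := v) (by rintro rfl; simp at hb) hy' (by rintro rfl; simp at ha) hy
      (by rw [e, e'])
    have := h.eqn0 (k.right g) e ha (by rwa [B_conj g b g1 g1])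
    rwa [rd, rd, B_conj g b g1 g1, B_conj g b g1 g2, B_conj g b g2 g1, B_conj g b g2 g2, h.B_sg (g * b * g⁻¹),
      B_conj g b g1 g2, B_conj g b g2 g1, ← h.B_sg b] at this
  have e1 := k0 y e hy
  have e2 := k0 (-y) (by simp [e]) (by simpa using hy)
  have e3 : rd a v (-y) = rd a v y := by simp only [rd, map_neg, LinearMap.neg_apply]; ring
  rw [e3, map_neg] at e2
  exact ⟨mul_left_cancel₀ h.h2 (by linear_combination e1 + e2),
    mul_left_cancel₀ (mul_ne_zero h.h2 (mul_ne_zero ha hb)) (by linear_combination e1 - e2)⟩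

theorem dd (k : TP a b) (hb : ¬ Dom b) : DD a := fun v y ha e => by
  simp only [Dom, not_forall] at hb
  obtain ⟨v', hb⟩ := hb
  obtain ⟨y', y1, y2, -⟩ := h.perp21 v' v' v'
  by_cases hy : y ∈ F ∙ v
  · obtain ⟨t, rfl⟩ := Submodule.mem_span_singleton.1 hy
    simp only [map_smul, LinearMap.smul_apply, smul_eq_mul]
    ring
  have k0 : ∀ y, B v y = 0 → y ∉ F ∙ v → rd a v y = -rd b v' y' := fun y e hy =>
    eq_neg_of_add_eq_zero_left (h.eqn k e y2 hy y1 ha hb).1
  obtain ⟨z, z1, z2⟩ := h.exists_perp (F ∙ v) ((F ∙ v) ⊔ (F ∙ y)) (by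
    have := finrank_sup_span_le (F ∙ v) y
    have := S4.fr1 (F := F) v
    have := h.big
    omega)
  have z3 := z2 v (Submodule.mem_span_singleton_self v)
  have ym : y ∈ (F ∙ v) ⊔ (F ∙ y) := Submodule.mem_sup_right (Submodule.mem_span_singleton_self y)
  have e1 := k0 y e hy
  have e2 := k0 z z3 fun m => z1 (Submodule.mem_sup_left m)
  have e3 := k0 (z + y) (by simp [e, z3]) fun m => z1 (by simpa using sub_mem (Submodule.mem_sup_left m) ym)
  have e4 := k0 (z - y) (by simp [e, z3]) fun m => z1 (by simpa using add_mem (Submodule.mem_sup_left m) ym)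
  generalize rd b v' y' = R at *
  simp only [rd, map_add, map_sub, LinearMap.add_apply, LinearMap.sub_apply] at e1 e2 e3 e4
  refine mul_left_cancel₀ h.h2 ?_
  linear_combination 2 * e2 + 4 * e1 - e3 - e4 + 2 * (e3 + e4 - 2 * e1 - 2 * e2)

theorem r1_eig (hd : ¬ Dom a) {u : E} {t : F} (r : R1 a u t) : ∃ e : F, e * e = 1 ∧ ia a u = e • u ∧ t ≠ 0 ∧
    ∀ v, B u v ≠ 0 → B (ia a v) v ≠ 0 := by
  have q : ∀ v, 2 * B (ia a v) v = t * B u v * B u v := fun v => by
    have := h.B_dl a v v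
    rw [r.ap, map_smul, LinearMap.smul_apply, smul_eq_mul] at this
    linear_combination -this
  have t0 : t ≠ 0 := by
    rintro rfl
    exact hd fun v => mul_left_cancel₀ h.h2 (by linear_combination q v)
  obtain ⟨z, hz⟩ := h.dual0 r.u0
  have e1 := congrArg (ia a) (r.ap z)
  have e2 := r.ap (ia a z)
  rw [map_sub, ia_inv_r, map_smul, hz, mul_one] at e1
  rw [ia_inv_l, e1, mul_smul] at e2
  have e3 := smul_right_injective E t0 e2
  refine ⟨_, h.sq _ (eig_ne r.u0 e3), e3, t0, fun v hv e => ?_⟩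
  have := q v
  rw [e, mul_zero] at this
  exact mul_ne_zero (mul_ne_zero t0 hv) hv this.symm

theorem sg_scalar (hd : ¬ Dom a) {u : E} {t : F} (r : R1 a u t)
    (hs : ∀ v y, B v y = 0 → y ∉ F ∙ v → B (ia a v) v ≠ 0 → B (sg a v) y = 0) : ∃ l : F, ∀ v, sg a v = l • v := by
  obtain ⟨e, e1, e2, -, e3⟩ := h.r1_eig hd r
  have k0 : ∀ v y, B v y = 0 → B u v ≠ 0 → B (sg a v) y = 0 := fun v y hy hv => by
    by_cases m : y ∈ F ∙ v
    · obtain ⟨s, rfl⟩ := Submodule.mem_span_singleton.1 m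
      simp [h.B_sg]
    · exact hs v y hy m (e3 v hv)
  have k1 : ∀ v y, B v y = 0 → B u y ≠ 0 → B (sg a v) y = 0 := fun v y hy hv => by
    rw [h.sg_adj, h.skew, k0 y v (h.perp0 hy) hv, neg_zero]
  refine scalar_of fun v => h.mem_of_perp fun y hy => ?_
  by_cases m : B u y = 0
  swap
  · exact k1 v y hy m
  by_cases m' : u ∈ F ∙ v
  · obtain ⟨s, hs⟩ := Submodule.mem_span_singleton.1 m'
    have s0 : s ≠ 0 := by rintro rfl; exact r.u0 (by rw [← hs, zero_smul])
    have n := r.ap u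
    rw [h.alt, mul_zero, zero_smul, sub_eq_zero] at n
    have : B (sg a u) y = 0 := by simp [sg_apply, ← n, e2, m]
    rw [← hs] at this
    simpa [s0] using this
  · obtain ⟨z, z1, z2⟩ := h.dual1 m'
    have n1 := k1 v z z1 (by simp [z2])
    have n2 := k1 v (y + z) (by simp [hy, z1]) (by simp [m, z2])
    rwa [map_add, n1, add_zero] at n2

theorem tv_tv (p : ℕ) [Fact p.Prime] [CharP F p] (k : CP (pj a) (pj b) c) {u v : E} {e s f r : F} (ha : TV a v e s)
    (hb : TV b u f r) : False := by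
  have := finite_Isom B
  have hp : 2 ≠ p := fun e => h.h2 (by simpa [← e] using CharP.cast_eq_zero F p)
  obtain ⟨x, hx⟩ := h.dual0 ha.u0
  have x0 : x ≠ 0 := by rintro rfl; simp at hx
  obtain ⟨g, hg⟩ := sp_move h.sp hb.u0 x0
  have hb' := hb.conj g
  rw [show ia g u = x from hg] at hb'
  obtain ⟨w, w0, w1, w2, -⟩ := h.perp3 v x x
  refine k.pel_false (h.tv_pel p ha) (h.tv_pel p hb) Nat.prime_two hp (IsConj.refl _) (pj_conj (isConj_conj g b)) ?_
  rw [← map_mul]
  generalize g * b * g⁻¹ = b at hb'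
  have e1 : ia (a * b) w = (f * e) • w := by
    rw [ia_mul, hb'.fix (h.perp0 w2), map_smul, ha.fix (h.perp0 w1), smul_smul]
  have e2 : ia (a * b) x = (f * e) • (x - s • v) := by
    rw [ia_mul, hb'.fix (h.alt x), map_smul, ha.ap, h.skew v x, hx]; module
  have e3 : ia (a * b) v = (f * e) • (v + r • (x - s • v)) := by
    rw [ia_mul, hb'.ap, map_smul, map_add, map_smul, ha.fix (h.alt v), ha.ap, h.skew v x, hx]; module
  rcases mul_self_eq_one_iff.1 (h.sq _ (mul_ne_zero ha.s0 hb.s0)) with m | m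
  · refine h.dvd_2 h.h2 w0 x0 3 (pow_eig e1 3) ?_
    have m1 : (s * r) • x = (1 : F) • x := by rw [m]
    have m2 : (s * r) • v = (1 : F) • v := by rw [m]
    rw [pow_three, ia_mul (a * b), ia_mul (a * b) (a * b)]
    simp only [e2, e3, map_smul, map_sub, map_add]
    linear_combination (norm := module) ((f * e) ^ 3 * (s * r - 2)) • m1 + ((f * e) ^ 3 * s * (3 - s * r)) • m2
  · refine h.dvd_2 h.h2 w0 x0 2 (pow_eig e1 2) ?_
    have m1 : (s * r) • x = (-1 : F) • x := by rw [m]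
    have m2 : (s * r) • v = (-1 : F) • v := by rw [m]
    have m3 : (3 : F) • x = 0 := by rw [h.h3, zero_smul]
    have m4 : (3 : F) • v = 0 := by rw [h.h3, zero_smul]
    rw [pow_two, ia_mul]
    simp only [e2, e3, map_smul, map_sub]
    linear_combination (norm := module) (-(f * e) ^ 2) • m1 + ((f * e) ^ 2 * s) • m2 + ((f * e) ^ 2) • m3 -
      ((f * e) ^ 2 * s) • m4

theorem tv_r1 (p : ℕ) [Fact p.Prime] [CharP F p] (k : CP (pj a) (pj b) c) {u v : E} {e s t : F} (ha : TV a v e s)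
    (hd : ¬ Dom b) (r : R1 b u t) : Concl p (pj a) (pj b) c := by
  obtain ⟨f, f1, f2, -⟩ := h.r1_eig hd r
  by_cases m : ∀ x, B u x = 0 → ia b x = f • x
  · obtain ⟨s', tv⟩ := h.tv_of (ns_of k.hb) r.u0 m
    exact (h.tv_tv p k ha tv).elim
  push Not at m
  obtain ⟨w, w1, w2⟩ := m
  have bb : ∀ x, B u x = 0 → ia b (ia b x) = x := fun x hx => by
    have := r.ap x
    rw [hx, mul_zero, zero_smul, sub_eq_zero] at this
    rw [this, ia_inv_r]
  have eg : ∀ x, B u x = 0 → ia b (ia b x - f • x) = (-f) • (ia b x - f • x) := fun x hx => by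
    rw [map_sub, map_smul, bb x hx, smul_sub, smul_smul, neg_mul, f1]; module
  have pu : ∀ x, B u x = 0 → B u (ia b x) = 0 := fun x hx => by
    have := ia_B b u x
    rw [f2, hx] at this
    simpa [eig_ne r.u0 f2] using this
  have n := sub_ne_zero.2 w2
  obtain ⟨z, z1, z2⟩ := h.dual1 (v := u) (u := ia b w - f • w) fun m => by
    obtain ⟨d, hd⟩ := Submodule.mem_span_singleton.1 m
    have := eg w w1
    rw [← hd, map_smul, f2, smul_comm] at this
    exact mul_ne_zero h.h2 (eig_ne r.u0 f2) (by linear_combination smul_left_injective F (hd ▸ n) this)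
  refine h.mixed h.h2 p k ha r.u0 n f2 (eg w w1) (by simp [w1, pu w w1]) (eg w w1) (eg z z1) ?_
  have := ia_B b (ia b w - f • w) z
  rw [eg w w1, z2, map_smul, LinearMap.smul_apply, smul_eq_mul] at this
  rw [map_sub (B _), map_smul, z2, smul_eq_mul, mul_one]
  intro e'
  apply h.h2
  linear_combination -this - f * e' - f1

theorem three (p : ℕ) [Fact p.Prime] [CharP F p] (k : CP (pj a) (pj b) c) (ha : ¬ Dom a) (hb : ¬ Dom b) :
    Concl p (pj a) (pj b) c := by
  have T := h.tp_of k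
  obtain ⟨u, t, r⟩ := h.rank_one h.h2 (h.dd T hb) ha
  obtain ⟨u', t', r'⟩ := h.rank_one h.h2 (h.dd T.symm ha) hb
  by_cases m : ∀ v y, B v y = 0 → y ∉ F ∙ v → B (ia a v) v ≠ 0 → B (sg a v) y = 0
  · obtain ⟨l, hl⟩ := h.sg_scalar ha r m
    obtain ⟨e, s, tv⟩ := h.tv_of_sg h.h2 (ns_of k.ha) r hl
    exact h.tv_r1 p k tv hb r'
  · push Not at m
    obtain ⟨v, y, m1, m2, m3, m4⟩ := m
    obtain ⟨l, hl⟩ := h.sg_scalar hb r' fun v' y' e1 e2 e3 =>
      (mul_eq_zero.1 (h.eqn T m1 e1 m2 e2 m3 e3).2).resolve_left m4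
    obtain ⟨e, s, tv⟩ := h.tv_of_sg h.h2 (ns_of k.hb) r' hl
    exact (h.tv_r1 p k.symm tv ha r).symm

end S3

theorem S4.good (h : S4 B) (p : ℕ) [Fact p.Prime] [CharP F p] : Good p (Isom B ⧸ Subgroup.center (Isom B)) := by
  by_cases h2 : (2 : F) = 0
  · obtain rfl := AO.char_eq_two p h2
    exact S2.good_quot ⟨h, h2⟩
  intro a b c k
  obtain ⟨a, rfl⟩ := QuotientGroup.mk'_surjective _ a
  obtain ⟨b, rfl⟩ := QuotientGroup.mk'_surjective _ b
  by_cases hb : Dom b
  · exact h.dom_odd h2 p k hb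
  by_cases ha : Dom a
  · exact (h.dom_odd h2 p k.symm ha).symm
  by_cases hq : 5 ≤ Fintype.card F
  · exact (h.caseA (h.tp_of k) ha hb (Or.inl hq)).elim
  have h1 := Fintype.one_lt_card (α := F)
  have h0 := FiniteField.cast_card_eq_zero F
  have h3 : Fintype.card F = 3 := by
    by_contra e
    rcases (by omega : Fintype.card F = 2 ∨ Fintype.card F = 4) with e | e <;> rw [e] at h0
    · exact h2 (by exact_mod_cast h0)
    · exact mul_ne_zero h2 h2 (by push_cast at h0; linear_combination h0)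
  refine S3.three ⟨h, by rw [h3] at h0; exact_mod_cast h0, fun x hx => mul_left_cancel₀ hx ?_⟩ p k ha hb
  have := FiniteField.pow_card x
  rw [h3] at this
  linear_combination this

theorem good_psp {F : Type*} [Field F] [Fintype F] (p : ℕ) [Fact p.Prime] [CharP F p] (m : ℕ) (hm : 2 ≤ m) :
    Good p (PSp m F) := by
  have h : S4 (stdSp m F) := ⟨isSp_std m, by rw [finrank_std_sp]; omega⟩
  refine (h.good p).congr (QuotientGroup.congr _ _ (spEquiv m F) ?_)
  ext z
  simp only [Subgroup.mem_map, Subgroup.mem_center_iff]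
  constructor
  · rintro ⟨y, hy, rfl⟩ g
    obtain ⟨g, rfl⟩ := (spEquiv m F).surjective g
    simpa using congrArg (spEquiv m F) (hy g)
  · intro hz
    refine ⟨(spEquiv m F).symm z, fun g => (spEquiv m F).injective ?_, by simp⟩
    simpa using hz (spEquiv m F g)

end Cfsg.Agent.H2.AS
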