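import Cfsg.Agent.H8.Sym
import Cfsg.Agent.H9.AH0

/-! Bit-level evaluation on a `27`-dimensional module over the field with two elements. -/

set_option autoImplicit false
set_option linter.unusedSectionVars false

namespace Cfsg.Agent.H2.AX

open Matrix Finset Cfsg.Agent.H7 Cfsg.Agent.H8 Cfsg.Agent.H9.AH

noncomputable def tb (v j : ℕ) : Bool := Nat.beq (Nat.land (Nat.shiftRight v j) 1) 1

theorem tb_eq (v j : ℕ) : tb v j = v.testBit j := by
  have h : tb v j = Nat.beq ((v >>> j) &&& 1) 1 := rfl
  rw [h, Nat.and_one_is_mod, Nat.shiftRight_eq_div_pow, Nat.testBit_eq_decide_div_mod_eq, Bool.eq_iff_iff]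
  simp

noncomputable def frc {α : Type} (n : ℕ) (f : ℕ → α) : α := Nat.rec (f 0) (fun k _ => f (Nat.succ k)) n

theorem frc_eq {α : Type} (n : ℕ) (f : ℕ → α) : frc n f = f n := by cases n <;> rfl

noncomputable def app (L : List (ℕ × ℕ)) (v : ℕ) : ℕ :=
  List.rec 0 (fun p _ ih => (tb v p.1).rec ih (Nat.xor p.2 ih)) L

/-- The columns of the nilpotent parts of the root elements. -/
def TB : List (List (ℕ × ℕ)) := [[(21, 1), (22, 2), (23, 4), (24, 8), (25, 16), (26, 1024)],
  [(18, 1), (19, 2), (20, 4), (24, 32), (25, 64), (26, 2048)],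
  [(16, 1), (17, 2), (20, 8), (23, 32), (25, 128), (26, 4096)],
  [(13, 1), (14, 2), (15, 1), (17, 4), (19, 8), (20, 16), (22, 32), (23, 64), (24, 128), (25, 256), (26, 40961)],
  [(12, 1), (14, 4), (19, 16), (22, 64), (24, 256), (26, 65536)],
  [(11, 1), (14, 8), (17, 16), (22, 128), (23, 256), (26, 262144)],
  [(10, 1), (14, 32), (17, 64), (19, 128), (20, 256), (26, 2097152)],
  [(8, 1), (9, 2), (15, 2), (16, 4), (18, 8), (20, 1024), (21, 32), (23, 2048), (24, 4096), (25, 33282), (26, 16384)],
  [(7, 1), (9, 4), (12, 2), (13, 4), (18, 16), (19, 1024), (21, 64), (22, 2048), (24, 8708), (25, 65536), (26, 131072)],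
  [(6, 1), (9, 8), (11, 2), (13, 8), (16, 16), (17, 1024), (21, 128), (22, 4096), (23, 8712), (25, 262144), (26, 524288)],
  [(4, 1), (9, 32), (10, 2), (13, 32), (16, 64), (17, 2048), (18, 128), (19, 4096), (20, 8736), (25, 2097152), (26, 4194304)],
  [(5, 1), (9, 16), (11, 4), (12, 8), (14, 1024), (15, 16), (21, 256), (22, 33296), (23, 65536), (24, 262144), (26, 1048576)],
  [(3, 1), (9, 64), (10, 4), (12, 32), (14, 2048), (15, 64), (18, 256), (19, 33344), (20, 65536), (24, 2097152), (26, 8388608)],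
  [(2, 1), (9, 128), (10, 8), (11, 32), (14, 4096), (15, 128), (16, 256), (17, 33408), (20, 262144), (23, 2097152), (26, 16777216)],
  [(1, 1), (9, 256), (10, 16), (11, 64), (12, 128), (13, 256), (14, 8960), (17, 65536), (19, 262144), (22, 2097152), (26, 33554432)],
  [(7, 2), (8, 4), (18, 1024), (21, 2048), (24, 16384), (25, 131072)],
  [(6, 2), (8, 8), (16, 1024), (21, 4096), (23, 16384), (25, 524288)],
  [(4, 2), (8, 32), (16, 2048), (18, 4096), (20, 16384), (25, 4194304)],
  [(5, 2), (6, 4), (7, 8), (8, 16), (13, 1024), (15, 1024), (21, 41984), (22, 16384), (23, 131072), (24, 524288), (25, 1048576)],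
  [(3, 2), (4, 4), (7, 32), (8, 64), (13, 2048), (15, 2048), (18, 43008), (19, 16384), (20, 131072), (24, 4194304), (25, 8388608)],
  [(2, 2), (4, 8), (6, 32), (8, 128), (13, 4096), (15, 4096), (16, 45056), (17, 16384), (20, 524288), (23, 4194304), (25, 16777216)],
  [(5, 4), (7, 16), (12, 1024), (21, 65536), (22, 131072), (24, 1048576)],
  [(3, 4), (7, 64), (12, 2048), (18, 65536), (19, 131072), (24, 8388608)],
  [(5, 8), (6, 16), (11, 1024), (21, 262144), (22, 524288), (23, 1048576)],
  [(3, 32), (4, 64), (10, 2048), (18, 2097152), (19, 4194304), (20, 8388608)],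
  [(2, 8), (6, 128), (11, 4096), (16, 262144), (17, 524288), (23, 16777216)],
  [(2, 32), (4, 128), (10, 4096), (16, 2097152), (17, 4194304), (20, 16777216)],
  [(1, 4), (3, 16), (5, 64), (7, 256), (12, 106496), (13, 65536), (14, 131072), (15, 65536), (19, 1048576), (22, 8388608), (24, 33554432)],
  [(1, 8), (2, 16), (5, 128), (6, 256), (11, 303104), (13, 262144), (14, 524288), (15, 262144), (17, 1048576), (22, 16777216), (23, 33554432)],
  [(1, 32), (2, 64), (3, 128), (4, 256), (10, 2138112), (13, 2097152), (14, 4194304), (15, 2097152), (17, 8388608), (19, 16777216), (20, 33554432)],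
  [(1, 16), (5, 256), (11, 65536), (12, 262144), (14, 1048576), (22, 33554432)],
  [(1, 64), (3, 256), (10, 65536), (12, 2097152), (14, 8388608), (19, 33554432)],
  [(1, 128), (2, 256), (10, 262144), (11, 2097152), (14, 16777216), (17, 33554432)],
  [(0, 2), (4, 1024), (6, 2048), (7, 4096), (8, 25088), (9, 16384), (13, 16384), (16, 131072), (18, 524288), (21, 4194304), (25, 67108864)],
  [(0, 4), (3, 1024), (5, 2048), (7, 164352), (8, 65536), (9, 131072), (12, 16384), (15, 131072), (18, 1048576), (21, 8388608), (24, 67108864)],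
  [(0, 8), (2, 1024), (5, 4096), (6, 557568), (8, 262144), (9, 524288), (11, 16384), (15, 524288), (16, 1048576), (21, 16777216), (23, 67108864)],
  [(0, 32), (2, 2048), (3, 4096), (4, 4227584), (8, 2097152), (9, 4194304), (10, 16384), (15, 4194304), (16, 8388608), (18, 16777216), (20, 67108864)],
  [(0, 16), (1, 1024), (5, 1057280), (6, 65536), (7, 262144), (9, 1048576), (11, 131072), (12, 524288), (13, 1048576), (21, 33554432), (22, 67108864)],
  [(0, 64), (1, 2048), (3, 8397312), (4, 65536), (7, 2097152), (9, 8388608), (10, 131072), (12, 4194304), (13, 8388608), (18, 33554432), (19, 67108864)],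
  [(0, 128), (1, 4096), (2, 16785920), (4, 262144), (6, 2097152), (9, 16777216), (10, 524288), (11, 4194304), (13, 16777216), (16, 33554432), (17, 67108864)],
  [(0, 256), (1, 33587712), (2, 65536), (3, 262144), (5, 2097152), (9, 33554432), (10, 1048576), (11, 8388608), (12, 16777216), (14, 67108864), (15, 33554432)],
  [(0, 1024), (5, 16384), (6, 131072), (7, 524288), (8, 1048576), (21, 67108864)],
  [(0, 2048), (3, 16384), (4, 131072), (7, 4194304), (8, 8388608), (18, 67108864)],
  [(0, 4096), (2, 16384), (4, 524288), (6, 4194304), (8, 16777216), (16, 67108864)],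
  [(0, 67149824), (1, 16384), (2, 131072), (3, 524288), (4, 1048576), (5, 4194304), (6, 8388608), (7, 16777216), (8, 33554432), (13, 67108864), (15, 67108864)],
  [(0, 65536), (1, 131072), (3, 1048576), (5, 8388608), (7, 33554432), (12, 67108864)],
  [(0, 262144), (1, 524288), (2, 1048576), (5, 16777216), (6, 33554432), (11, 67108864)],
  [(0, 2097152), (1, 4194304), (2, 8388608), (3, 16777216), (4, 33554432), (10, 67108864)]]

def tab (r : ℕ) : List (ℕ × ℕ) := TB.getD r []

noncomputable def stp (r v : ℕ) : ℕ := Nat.xor v (app (tab r) v)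

noncomputable def cw (w : List ℕ) (v : ℕ) : ℕ := List.rec v (fun r _ ih => frc ih (stp r)) w

noncomputable def cwr (w : List ℕ) : ℕ → ℕ := List.rec (fun v => v) (fun r _ ih v => frc (stp r v) ih) w

/-- Symbolic vectors. -/
abbrev SV : Type := List (List ℕ × ℕ)

noncomputable def sx (s r : ℕ) (v : SV) : SV :=
  List.rec [] (fun e _ ih => e :: frc (app (tab s) e.2) fun y => (Nat.beq y 0).rec ((r :: e.1, y) :: ih) ih) v

noncomputable def sw (τ : ℕ → ℕ) (L : List ℕ) (c : ℕ) : SV := List.rec [([], c)] (fun r _ ih => sx (τ r) r ih) L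

noncomputable def flt {α : Type} (p : α → Bool) (l : List α) : List α :=
  List.rec [] (fun a _ ih => (p a).rec ih (a :: ih)) l

noncomputable def row (g n : List ℕ) (i : ℕ) : List ℕ :=
  flt (fun k => tb (frc (cw n (Nat.pow 2 k)) (cwr g)) i) (List.range 27)

noncomputable def dot (R : List ℕ) (v : ℕ) : Bool := List.rec false (fun k _ ih => xor (tb v k) ih) R

noncomputable def tog (m : List ℕ) (P : List (List ℕ)) : List (List ℕ) :=
  List.rec [m] (fun b t ih => (mbeq m b).rec (b :: ih) t) P

noncomputable def prj (R : List ℕ) (v : SV) (acc : List (List ℕ)) : List (List ℕ) :=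
  List.rec acc (fun e _ ih => (dot R e.2).rec ih (tog e.1 ih)) v

noncomputable def fnl (fs : List (Fin 27 × ℕ)) (τ : ℕ → ℕ) (n L g : List ℕ) : List (List ℕ) :=
  List.rec [] (fun p _ ih => prj (row g n p.1) (frc (cw g p.2) (sw τ L)) ih) fs

noncomputable def is1 (P : List (List ℕ)) (r : ℕ) : Bool := List.rec false (fun m t _ => band (mbeq m [r]) (isNil t)) P

/-- The symmetry of the roots. -/
def tw (r : ℕ) : ℕ := [3, 7, 8, 0, 9, 11, 18, 1, 2, 4, 15, 5, 16, 21, 23, 10, 12, 19, 6, 17, 22, 13, 20, 14, 33, 27, 34, 25, 30, 41, 28, 35, 37, 24, 26, 31, 42, 32, 43, 45, 46, 29, 36, 38, 47, 39, 40, 44].getD r r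

def tf (b : Bool) (r : ℕ) : ℕ := cond b (tw r) r

noncomputable def elim (fs : Bool → List (Fin 27 × ℕ)) (n : List ℕ) (S : List (List ℕ × Bool × ℕ)) : List ℕ → Bool :=
  List.rec (fun L => isNil L) (fun s _ ih L => band (is1 (fnl (fs s.2.1) (tf s.2.1) (n.map (tf s.2.1)) L s.1) s.2.2)
    (ih (flt (fun k => nne k s.2.2) L))) S

theorem flt_eq {α : Type} (p : α → Bool) (l : List α) : flt p l = l.filter p := by
  induction l with
  | nil => rfl
  | cons a l ih =>
    have : flt p (a :: l) = (p a).rec (flt p l) (a :: flt p l) := rfl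
    rw [this, List.filter_cons, ih]
    cases p a <;> rfl

variable {F : Type*} [Field F]

variable (F) in
def bF (b : Bool) : F := cond b 1 0

variable (F) in
noncomputable def vec (m : ℕ) (i : Fin 27) : F := bF F (tb m i)

theorem bF_xor (h2 : (2 : F) = 0) (a b : Bool) : bF F (xor a b) = bF F a + bF F b := by
  cases a <;> cases b <;> simp [bF]
  rw [one_add_one_eq_two, h2]

theorem vec_xor (h2 : (2 : F) = 0) (a b : ℕ) : vec F (Nat.xor a b) = vec F a + vec F b := by
  funext i
  simp only [vec, tb_eq, Pi.add_apply, ← bF_xor h2]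
  exact congrArg _ (Nat.testBit_xor ..)

theorem vec_zero : vec F 0 = 0 := by funext i; simp [vec, tb_eq, bF]

theorem vec_pow (j : Fin 27) : vec F (Nat.pow 2 j) = Pi.single j 1 := by
  funext i
  have : Nat.pow 2 j = 2 ^ (j : ℕ) := rfl
  simp only [vec, tb_eq, this, Nat.testBit_two_pow, Pi.single_apply, Fin.ext_iff, eq_comm (a := (i : ℕ))]
  by_cases h : (j : ℕ) = i <;> simp [h, bF]

theorem app_cons (p : ℕ × ℕ) (L : List (ℕ × ℕ)) (v : ℕ) (h2 : (2 : F) = 0) :
    vec F (app (p :: L) v) = bF F (tb v p.1) • vec F p.2 + vec F (app L v) := by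
  have : app (p :: L) v = (tb v p.1).rec (app L v) (Nat.xor p.2 (app L v)) := rfl
  rw [this]
  cases tb v p.1
  · simp [bF]
  · simp only [vec_xor h2, bF, cond_true, one_smul]

theorem app_lin (h2 : (2 : F) = 0) {L : List (ℕ × ℕ)} (hL : ∀ p ∈ L, p.1 < 27) (v : ℕ) :
    vec F (app L v) = ∑ j : Fin 27, vec F v j • vec F (app L (Nat.pow 2 j)) := by
  induction L with
  | nil => simp [app, vec_zero]
  | cons p L ih =>
    simp only [app_cons p L _ h2, smul_add, sum_add_distrib, ← ih fun q hq => hL q (List.mem_cons_of_mem _ hq)]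
    congr 1
    have e : ∀ j : Fin 27, bF F (tb (Nat.pow 2 j) p.1) = (Pi.single j (1 : F) : Fin 27 → F) ⟨p.1, hL p (by simp)⟩ :=
      fun j => congrFun (vec_pow j) ⟨p.1, hL p (by simp)⟩
    simp only [e, smul_smul, ← sum_smul, Pi.single_apply, mul_ite, mul_one, mul_zero, sum_ite_eq, mem_univ, if_true]
    rfl

theorem tab_lt (r : ℕ) : ∀ p ∈ tab r, p.1 < 27 := by
  by_cases h : r < 48
  · revert r; decide +kernel
  · rw [tab, List.getD_eq_default _ _ (not_lt.1 h)]; simp

variable {G : Type*} [Group G] {ρ : G →* Matrix (Fin 27) (Fin 27) F} {x : ℕ → F → G}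

variable (ρ x) in
/-- The tables describe the module. -/
structure Md : Prop where
  two : (2 : F) = 0
  bin : ∀ t : F, t = 0 ∨ t = 1
  zero : ∀ r, x r 0 = 1
  sq : ∀ r, x r 1 * x r 1 = 1
  col : ∀ r (i j : Fin 27), ρ (x r 1) i j = vec F (stp r (Nat.pow 2 j)) i

variable (x) in
/-- The value of a constant word. -/
def cv (w : List ℕ) : G := (w.map fun r => x r 1).prod

variable (x) in
/-- The value of a word with variables. -/
def ov (τ : ℕ → ℕ) (L : List ℕ) (f : ℕ → F) : G := (L.map fun r => x (τ r) (f r)).prod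

@[simp] theorem cv_nil : cv x [] = 1 := rfl

@[simp] theorem cv_cons (r : ℕ) (w : List ℕ) : cv x (r :: w) = x r 1 * cv x w := by simp [cv]

theorem cv_app (w w' : List ℕ) : cv x (w ++ w') = cv x w * cv x w' := by simp [cv]

/-- The value of a symbolic vector. -/
noncomputable def evv (f : ℕ → F) (v : SV) : Fin 27 → F := (v.map fun e => (e.1.map f).prod • vec F e.2).sum

/-- The value of a list of monomials. -/
def evp (f : ℕ → F) (P : List (List ℕ)) : F := (P.map fun m => (m.map f).prod).sum

variable (ρ) in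
/-- The value of a functional. -/
noncomputable def val (fs : List (Fin 27 × ℕ)) (a : G) : F := (fs.map fun p => (ρ a *ᵥ vec F p.2) p.1).sum

namespace Md

variable (h : Md ρ x)
include h

theorem act (r v : ℕ) : vec F (stp r v) = ρ (x r 1) *ᵥ vec F v := by
  funext i
  have e := h.col r i
  simp only [stp, vec_xor h.two, vec_pow, Pi.add_apply] at e
  rw [stp, vec_xor h.two, app_lin h.two (tab_lt r), mulVec, dotProduct]
  simp only [e, Pi.add_apply, Finset.sum_apply, Pi.smul_apply, smul_eq_mul, add_mul, sum_add_distrib, Pi.single_apply,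
    ite_mul, one_mul, zero_mul, sum_ite_eq, mem_univ, if_true]
  simp only [mul_comm]

theorem inv (r : ℕ) : (x r 1)⁻¹ = x r 1 := inv_eq_of_mul_eq_one_right (h.sq r)

theorem vec_cw (w : List ℕ) (v : ℕ) : vec F (cw w v) = ρ (cv x w) *ᵥ vec F v := by
  induction w with
  | nil => simp [cw]
  | cons r w ih =>
    have : cw (r :: w) v = frc (cw w v) (stp r) := rfl
    rw [this, frc_eq, h.act, ih, cv_cons, map_mul, mulVec_mulVec]

theorem vec_cwr (w : List ℕ) (v : ℕ) : vec F (cwr w v) = ρ (cv x w)⁻¹ *ᵥ vec F v := by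
  induction w generalizing v with
  | nil => simp [cwr]
  | cons r w ih =>
    have : cwr (r :: w) v = frc (stp r v) (cwr w) := rfl
    rw [this, frc_eq, ih, h.act, cv_cons, _root_.mul_inv_rev, h.inv, map_mul, mulVec_mulVec]

theorem ent (w : List ℕ) (i j : Fin 27) : ρ (cv x w) i j = vec F (cw w (Nat.pow 2 j)) i := by
  rw [h.vec_cw, vec_pow, mulVec_single_one]; rfl

theorem actv (s : ℕ) (t : F) (v : ℕ) : ρ (x s t) *ᵥ vec F v = vec F v + t • vec F (app (tab s) v) := by
  rcases h.bin t with rfl | rfl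
  · simp [h.zero]
  · rw [← h.act, stp, vec_xor h.two, one_smul]

theorem evv_sx (f : ℕ → F) (s r : ℕ) (v : SV) : evv f (sx s r v) = ρ (x s (f r)) *ᵥ evv f v := by
  induction v with
  | nil => simp [sx, evv]
  | cons e v ih =>
    have : sx s r (e :: v) = e :: frc (app (tab s) e.2) fun y => (Nat.beq y 0).rec ((r :: e.1, y) :: sx s r v) (sx s r v) := rfl
    rw [this, frc_eq]
    simp only [evv, List.map_cons, List.sum_cons, mulVec_add, mulVec_smul, h.actv] at ih ⊢
    rw [← ih]
    cases k : Nat.beq (app (tab s) e.2) 0 with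
    | false => simp only [List.map_cons, List.sum_cons, List.prod_cons, smul_add, smul_smul, mul_comm, add_assoc]
    | true => simp only [nbeq_iff.1 k, vec_zero, smul_zero, add_zero]

theorem evv_sw (f : ℕ → F) (τ : ℕ → ℕ) (L : List ℕ) (c : ℕ) : evv f (sw τ L c) = ρ (ov x τ L f) *ᵥ vec F c := by
  induction L with
  | nil => simp [sw, evv, ov]
  | cons r L ih =>
    have : sw τ (r :: L) c = sx (τ r) r (sw τ L c) := rfl
    rw [this, h.evv_sx, ih, mulVec_mulVec, ← map_mul]; rfl

theorem dot_row (g n : List ℕ) (i : Fin 27) (v : ℕ) :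
    bF F (dot (row g n i) v) = (ρ ((cv x g)⁻¹ * cv x n) *ᵥ vec F v) i := by
  have e1 : ∀ (p : ℕ → Bool) (R : List ℕ), bF F (dot (R.filter p) v) = (R.map fun k => bF F (p k) * bF F (tb v k)).sum :=
    fun p R => by
      induction R with
      | nil => simp [dot, bF]
      | cons k R ih =>
        rw [List.filter_cons, List.map_cons, List.sum_cons, ← ih]
        cases p k
        · simp [bF]
        · exact (bF_xor h.two _ _).trans (by simp [bF]; rfl)
  rw [row, flt_eq, e1, mulVec, dotProduct, ← List.sum_toFinset _ List.nodup_range, List.toFinset_range, Finset.sum_range]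
  refine sum_congr rfl fun k _ => ?_
  congr 1
  have := congrFun (h.vec_cwr g (cw n (Nat.pow 2 k))) i
  rw [h.vec_cw, mulVec_mulVec, ← map_mul, vec_pow, mulVec_single_one] at this
  rw [frc_eq]; exact this

theorem evp_tog (f : ℕ → F) (m : List ℕ) (P : List (List ℕ)) : evp f (tog m P) = (m.map f).prod + evp f P := by
  induction P with
  | nil => simp [tog, evp]
  | cons b P ih =>
    have : tog m (b :: P) = (mbeq m b).rec (b :: tog m P) P := rfl
    rw [this]
    cases k : mbeq m b with
    | false => simp only [evp, List.map_cons, List.sum_cons] at ih ⊢; rw [ih]; ring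
    | true =>
      simp only [evp, List.map_cons, List.sum_cons, mbeq_sound k]
      linear_combination (-(b.map f).prod) * h.two

theorem evp_prj (f : ℕ → F) (g n : List ℕ) (i : Fin 27) (v : SV) (acc : List (List ℕ)) :
    evp f (prj (row g n i) v acc) = (ρ ((cv x g)⁻¹ * cv x n) *ᵥ evv f v) i + evp f acc := by
  induction v with
  | nil => simp [prj, evv]
  | cons e v ih =>
    have : prj (row g n i) (e :: v) acc =
      (dot (row g n i) e.2).rec (prj (row g n i) v acc) (tog e.1 (prj (row g n i) v acc)) := rfl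
    rw [this]
    simp only [evv, List.map_cons, List.sum_cons, mulVec_add, mulVec_smul, Pi.add_apply, Pi.smul_apply, ← h.dot_row] at ih ⊢
    cases dot (row g n i) e.2 with
    | false => simp [ih, bF]
    | true => simp only [h.evp_tog, ih, bF, cond_true, smul_eq_mul, mul_one, add_assoc]

theorem evp_fnl (f : ℕ → F) (fs : List (Fin 27 × ℕ)) (τ : ℕ → ℕ) (n L g : List ℕ) :
    evp f (fnl fs τ n L g) = val ρ fs ((cv x g)⁻¹ * (cv x n * ov x τ L f) * cv x g) := by
  induction fs with
  | nil => simp [fnl, evp, val]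
  | cons p fs ih =>
    have : fnl (p :: fs) τ n L g = prj (row g n p.1) (frc (cw g p.2) (sw τ L)) (fnl fs τ n L g) := rfl
    rw [this, h.evp_prj, ih, frc_eq, h.evv_sw, h.vec_cw, mulVec_mulVec, mulVec_mulVec, ← map_mul, ← map_mul]
    simp only [val, List.map_cons, List.sum_cons, mul_assoc]

theorem ov_flt {f : ℕ → F} {r : ℕ} (hr : f r = 0) (τ : ℕ → ℕ) (L : List ℕ) :
    ov x τ (flt (fun k => nne k r) L) f = ov x τ L f := by
  rw [flt_eq]
  induction L with
  | nil => rfl
  | cons k L ih =>
    rw [List.filter_cons]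
    cases e : Nat.beq k r with
    | false => simp only [nne, e, ov, if_true, List.map_cons, List.prod_cons] at ih ⊢; rw [ih]
    | true =>
      simp only [nne, e, ov, List.map_cons, List.prod_cons] at ih ⊢
      rw [if_neg (by simp), ih, nbeq_iff.1 e, hr, h.zero, one_mul]

theorem elim_sound {γ : G →* G} (hγ : ∀ r t, γ (x r t) = x (tw r) t) {fs : Bool → List (Fin 27 × ℕ)} {n : List ℕ}
    {S : List (List ℕ × Bool × ℕ)} {L : List ℕ} (hS : elim fs n S L = true) {f : ℕ → F} {a : G}
    (ha : IsConj a (cv x n * ov x id L f)) (h0 : ∀ a', IsConj a a' → val ρ (fs false) a' = 0)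
    (h1 : ∀ a', IsConj (γ a) a' → val ρ (fs true) a' = 0) : IsConj a (cv x n) := by
  induction S generalizing L with
  | nil =>
    obtain rfl := isNil_iff.1 hS
    simpa [ov] using ha
  | cons s S ih =>
    obtain ⟨k1, k2⟩ := band_iff.1 hS
    refine ih k2 ?_
    rw [h.ov_flt]
    · exact ha
    have e := h.evp_fnl f (fs s.2.1) (tf s.2.1) (n.map (tf s.2.1)) L s.1
    have e0 : val ρ (fs s.2.1) ((cv x s.1)⁻¹ * (cv x (n.map (tf s.2.1)) * ov x (tf s.2.1) L f) * cv x s.1) = 0 := by
      cases s.2.1
      · refine h0 _ (ha.trans ?_)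
        rw [show tf false = id from rfl, List.map_id]
        exact isConj_conj' _ _
      · refine h1 _ ((γ.map_isConj ha).trans ?_)
        have : γ (cv x n * ov x id L f) = cv x (n.map (tf true)) * ov x (tf true) L f := by
          simp only [map_mul, cv, ov, map_list_prod, List.map_map, Function.comp_def, hγ, id, tf, cond_true]
        rw [this]
        exact isConj_conj' _ _
    rw [e0] at e
    generalize fnl (fs s.2.1) (tf s.2.1) (n.map (tf s.2.1)) L s.1 = P at k1 e
    cases P with
    | nil => exact absurd k1 (by simp [is1])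
    | cons m t =>
      obtain ⟨k3, k4⟩ := band_iff.1 k1
      rw [mbeq_sound k3, isNil_iff.1 k4] at e
      simpa [evp] using e

end Md

end Cfsg.Agent.H2.AX
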