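import Cfsg.Agent.H2.AX2

/-! Consequences of the certificates for class products. -/

set_option autoImplicit false
set_option linter.unusedSectionVars false

namespace Cfsg.Agent.H2.AX

open Matrix Finset Cfsg.Agent.H7 Cfsg.Agent.H8 Cfsg.Agent.H9.AH

variable {F : Type*} [Field F] {G : Type*} [Group G] {ρ : G →* Matrix (Fin 27) (Fin 27) F} {x : ℕ → F → G} {a b c : G}

theorem val_C (a : G) : val ρ (fsC false) a = ρ a 0 26 := by
  simp only [val, fsC, cond_false, List.map_cons, List.map_nil, List.sum_cons, List.sum_nil, vec_pow, mulVec_single_one,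
    add_zero]
  rfl

theorem val_C' (a : G) : val ρ (fsC true) a = 0 := rfl

theorem val_S (k : Bool) (a : G) : val ρ (fsS k) a = ρ a 0 25 + ρ a 1 26 := by
  simp only [val, fsS, List.map_cons, List.map_nil, List.sum_cons, List.sum_nil, vec_pow, mulVec_single_one, add_zero]
  rfl

theorem lsum_apply {α : Type} (S : List α) (M : α → Matrix (Fin 27) (Fin 27) F) (i j : Fin 27) :
    (S.map M).sum i j = (S.map fun w => M w i j).sum := by
  induction S with
  | nil => rfl
  | cons w S ih => simp [ih]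

theorem bF_mul (p q : Bool) : bF F p * bF F q = bF F (p && q) := by cases p <;> cases q <;> simp [bF]

namespace Md

variable (h : Md ρ x)
include h

theorem vec_xs {α : Type} (f : α → ℕ) (W : List α) (k : Fin 27) : vec F (xs f W) k = (W.map fun w => vec F (f w) k).sum := by
  induction W with
  | nil => simp [xs, vec_zero]
  | cons w W ih =>
    have : xs f (w :: W) = Nat.xor (f w) (xs f W) := rfl
    rw [this, vec_xor h.two, Pi.add_apply, ih, List.map_cons, List.sum_cons]

theorem ent3 (g w : List ℕ) (i j : Fin 27) :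
    ρ (cv x g * cv x w * (cv x g)⁻¹) i j = vec F (cw g (cw w (cwr g (Nat.pow 2 j)))) i := by
  rw [h.vec_cw, h.vec_cw, h.vec_cwr, mulVec_mulVec, mulVec_mulVec, ← map_mul, ← map_mul, vec_pow, mulVec_single_one]; rfl

theorem ceq_sound {g w w' : List ℕ} (k : ceq g w w' = true) : ρ (cv x g * cv x w * (cv x g)⁻¹) = ρ (cv x w') := by
  ext i j
  rw [h.ent3, h.ent, nbeq_iff.1 (allTo_iff.1 k j j.2)]

theorem cne_sound {w : List ℕ} (k : cne w = true) : ρ (cv x w) ≠ 1 := fun e => by
  simp only [cne, List.any_eq_true, List.mem_range] at k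
  obtain ⟨j, hj, i, hi, k⟩ := k
  have h1 := h.ent w ⟨i, hi⟩ ⟨j, hj⟩
  have h2 := h.ent [] ⟨i, hi⟩ ⟨j, hj⟩
  rw [cv_nil, map_one, ← e, h1] at h2
  have h3 := congrArg (bF F) k
  rw [bF_xor h.two] at h3
  have h4 : bF F (tb (cw w (Nat.pow 2 j)) i) = bF F (tb (Nat.pow 2 j) i) := h2
  rw [h4, ← two_mul, h.two, zero_mul] at h3
  exact zero_ne_one h3

theorem even_sum (k : CP a b c) (S : List (List ℕ)) (hS : 2 ∣ S.length) :
    (ρ a * (S.map fun w => ρ (cv x w) * ρ b * ρ (cv x w)⁻¹).sum).trace = 0 := by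
  have : (ρ a * (S.map fun w => ρ (cv x w) * ρ b * ρ (cv x w)⁻¹).sum).trace = (S.length : F) * (ρ c).trace := by
    clear hS
    induction S with
    | nil => simp
    | cons w S ih => rw [List.map_cons, List.sum_cons, mul_add, trace_add, ih, k.trace, List.length_cons]; push_cast; ring
  obtain ⟨m, hm⟩ := hS
  rw [this, hm]; push_cast; rw [h.two]; simp

theorem sumP (B : Matrix (Fin 27) (Fin 27) F) : (S7.map fun w => ρ (cv x w) * B * ρ (cv x w)⁻¹).sum =
    B 0 26 • (single 25 0 1 + single 26 1 1) := by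
  ext i l
  have e1 : ∀ S : List (List ℕ), (S.map fun w => (ρ (cv x w) * B * ρ (cv x w)⁻¹) i l).sum =
      ∑ j : Fin 27, ∑ k : Fin 27, B j k * vec F (xs (fun w => cwr w (Nat.pow 2 l))
        (flt (fun w => tb (cw w (Nat.pow 2 j)) i) S)) k := fun S => by
    simp only [h.vec_xs, flt_eq]
    induction S with
    | nil => simp
    | cons w S ih =>
      rw [List.map_cons, List.sum_cons, ih, mul_apply]
      simp only [mul_apply, sum_mul]
      rw [sum_comm, ← sum_add_distrib]
      refine sum_congr rfl fun j _ => ?_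
      rw [← sum_add_distrib]
      refine sum_congr rfl fun k _ => ?_
      have e2 : ρ (cv x w)⁻¹ k l = vec F (cwr w (Nat.pow 2 l)) k := by rw [h.vec_cwr, vec_pow, mulVec_single_one]; rfl
      rw [h.ent, e2, List.filter_cons, vec]
      cases tb (cw w (Nat.pow 2 j)) i <;> simp [bF, mul_add]
  have e3 : ∀ j : Fin 27, xs (fun w => cwr w (Nat.pow 2 l)) (flt (fun w => tb (cw w (Nat.pow 2 j)) i) S7) =
      if (j : ℕ) = 0 ∧ (((i : ℕ) = 25 ∧ (l : ℕ) = 0) ∨ ((i : ℕ) = 26 ∧ (l : ℕ) = 1)) then Nat.pow 2 (26 : Fin 27) else 0 :=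
    fun j => nbeq_iff.1 (allTo_iff.1 (allTo_iff.1 (allTo_iff.1 okP j j.2) i i.2) l l.2)
  rw [lsum_apply, e1]
  simp only [e3, apply_ite (vec F), vec_pow, vec_zero]
  rw [sum_eq_single 0 (fun j _ hj => by simp [Fin.val_eq_zero_iff, hj]) (by simp),
    sum_eq_single 26 (fun k _ hk => by split_ifs <;> simp [hk]) (by simp)]
  simp only [Matrix.smul_apply, Matrix.add_apply, smul_eq_mul, single_apply, Fin.ext_iff]
  congr 1
  have e4 : ((25 : Fin 27) : ℕ) = 25 ∧ ((26 : Fin 27) : ℕ) = 26 ∧ ((1 : Fin 27) : ℕ) = 1 ∧ ((0 : Fin 27) : ℕ) = 0 := by decide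
  simp only [e4.1, e4.2.1, e4.2.2.1, e4.2.2.2, true_and]
  split_ifs <;> first | omega | simp

theorem extP (k : CP a b c) (hb : ρ b 0 26 ≠ 0) (t : Bool) : val ρ (fsS t) a = 0 := by
  have := h.even_sum k S7 (by decide +kernel)
  rw [h.sumP, Matrix.mul_smul, trace_smul, mul_add, trace_add, trace_mul_single, trace_mul_single] at this
  rw [val_S]
  simpa [hb] using this

theorem extX (k : CP a (x 44 1) c) : val ρ (fsC false) a = 0 := by
  have := h.even_sum k SX (by decide +kernel)
  have e : (SX.map fun w => ρ (cv x w) * ρ (x 44 1) * ρ (cv x w)⁻¹).sum = single 26 0 1 := by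
    ext i j
    have e1 : ∀ w, (ρ (cv x w) * ρ (x 44 1) * ρ (cv x w)⁻¹) i j = vec F (cw w (cw [44] (cwr w (Nat.pow 2 j)))) i := fun w => by
      rw [← h.ent3, map_mul, map_mul, cv_cons, cv_nil, mul_one]
    rw [lsum_apply]
    simp only [e1]
    rw [← h.vec_xs, nbeq_iff.1 (allTo_iff.1 okX j j.2), apply_ite (vec F), vec_pow, vec_zero, single_apply]
    by_cases hj : j = 0
    · simp [hj, Pi.single_apply, eq_comm]
    · simp [hj, Ne.symm hj]
  rw [e, trace_mul_single] at this
  rw [val_C]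
  simpa using this

theorem pairs (hρ : Function.Injective ρ) {u v : List ℕ} (hu : u ∈ reps) (hv : v ∈ reps) (k : CP (cv x u) (cv x v) c) :
    False := by
  have k1 := k.order (IsConj.refl _) (IsConj.refl _)
  have k2 := k.order (IsConj.refl _) (isConj_conj (cv x [0]) _)
  have e0 : (cv x [0])⁻¹ = cv x [0] := by rw [cv_cons, cv_nil, mul_one, h.inv]
  rw [e0, ← cv_app, ← cv_app, ← cv_app, ← k1, ← cv_app] at k2
  have e1 : ∀ w, ceq [] w [] = true → cv x w = 1 := fun w hw => hρ (by simpa using h.ceq_sound hw)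
  rcases okR u hu v hv with ⟨h1, h2⟩ | ⟨h1, h2⟩
  · rw [e1 _ h1, orderOf_one, orderOf_eq_one_iff] at k2
    exact h.cne_sound h2 (by rw [k2, map_one])
  · have := e1 _ h1
    rw [cv_app, ← pow_two, ← orderOf_dvd_iff_pow_eq_one, ← k2, orderOf_dvd_iff_pow_eq_one, pow_two, ← cv_app] at this
    exact h.cne_sound h2 (by rw [this, map_one])

end Md

end Cfsg.Agent.H2.AX
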