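import Cfsg.Agent.H2.AX3
import Cfsg.Agent.H8.AF3
import Cfsg.Agent.H8.TwF4

/-! No product of two classes of `F4(2)` is a class. -/

set_option autoImplicit false
set_option linter.unusedSectionVars false

namespace Cfsg.Agent.H2.AX

open Cfsg.Lie Matrix Finset Cfsg.Agent.H7 Cfsg.Agent.H8 Cfsg.Agent.H8.AF Cfsg.Agent.H9.AH

def i27 (i : Fin 27) : ℕ := (L27.map Prod.fst).getD i 63

def ix (i : Fin 27) : {c // In27 c} :=
  ⟨Sum.inr ⟨i27 i, (by decide +kernel : ∀ i : Fin 27, i27 i < chevE7.nroots) i⟩,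
    (by decide +kernel : ∀ i : Fin 27, i27 i ∈ L27.map Prod.fst) i⟩

theorem ix_bij : Function.Bijective ix := by
  refine ⟨fun i j h => ?_, fun c => ?_⟩
  · exact (by decide +kernel : ∀ i j : Fin 27, i27 i = i27 j → i = j) i j (congrArg (fun c : {c // In27 c} => enc chevE7 c.1) h)
  · obtain ⟨i, hi⟩ := (by decide +kernel : ∀ n ∈ L27.map Prod.fst, ∃ i : Fin 27, i27 i = n) _ c.2
    exact ⟨i, Subtype.ext (enc_inj chevE7 hi)⟩

variable {F : Type*} [Field F] [Finite F]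

variable (F) in
/-- The `27`-dimensional module. -/
noncomputable def rho : chevF4.group F →* Matrix (Fin 27) (Fin 27) F where
  toFun g := (rho27 F g).submatrix ix ix
  map_one' := by rw [map_one]; exact submatrix_one _ ix_bij.1
  map_mul' a b := by rw [map_mul]; exact submatrix_mul _ _ _ _ _ ix_bij

theorem chk_col : (allTo 48 fun r => allTo 27 fun j => allTo 27 fun i =>
    peq 2 (ent7 2 [(r, [(1, [])])] ((L27.map Prod.fst).getD i 63) ((L27.map Prod.fst).getD j 63))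
      (cond (tb (stp r (Nat.pow 2 j)) i) [(1, [])] [])) = true := by decide +kernel

theorem md (h2 : (2 : F) = 0) (hF : ∀ t : F, t = 0 ∨ t = 1) : Md (rho F) (xg chevF4 F) := by
  have hx := (H7.isChev_xg (D := chevF4) (F := F)).toIsSt
  refine ⟨h2, hF, hx.zero, fun r => by rw [← hx.add, one_add_one_eq_two, h2, hx.zero], fun r i j => ?_⟩
  by_cases hr : r < 48
  · have e := pev_ent7 (p := 2) (by exact_mod_cast h2) (fun _ => (0 : F)) [(r, [(1, [])])] (ix i).1 (ix j).1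
    rw [show enc chevE7 (ix i).1 = (L27.map Prod.fst).getD i 63 from rfl,
      show enc chevE7 (ix j).1 = (L27.map Prod.fst).getD j 63 from rfl,
      peq_sound (p := 2) (by exact_mod_cast h2) _ (allTo_iff.1 (allTo_iff.1 (allTo_iff.1 chk_col r hr) j j.2) i i.2)] at e
    simp only [evS_cons, evS_nil, pev_cons, pev_nil, mev, Int.cast_one, mul_one, add_zero] at e
    refine e.symm.trans ?_
    rw [vec]
    cases tb (stp r (Nat.pow 2 j)) i <;> simp [bF, mev]
  · rw [hx.out r (not_lt.1 hr), map_one, stp, tab, List.getD_eq_default _ _ (not_lt.1 hr), vec_xor h2, vec_pow]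
    simp [app, vec_zero, one_apply, Pi.single_apply]

/-- The Weyl group part of the check. -/
def Dt.wk (d : Dt) : Prop :=
  d.n = ((fl chevF4 d.l).flatMap fun i : Fin chevF4.rank => [chevF4.simple i, 47 - chevF4.simple i, chevF4.simple i]) ∧
  (∀ i ∈ fl chevF4 d.lJ, actW chevF4 (fl chevF4 d.l) (chevF4.simple i) = chevF4.simple i) ∧
  (∀ k < 48, k ∈ d.R ↔ 24 ≤ k ∧ 24 ≤ actW chevF4 (fl chevF4 d.lJ) k ∧ actW chevF4 (fl chevF4 d.lJ) k < 48) ∧
  (∀ k ∈ d.R, k < 48) ∧ d.R.Nodup ∧ d.rep ∈ reps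

instance decWk : DecidablePred Dt.wk := fun d => by unfold Dt.wk; infer_instance

theorem pos_iff {r : ℕ} : chevF4.IsPosRoot r ↔ 24 ≤ r ∧ r < 48 :=
  ⟨posF4, fun h => (by decide +kernel : ∀ r < 48, 24 ≤ r → chevF4.IsPosRoot r) r h.2 h.1⟩

variable (h : Md (rho F) (xg chevF4 F))
include h

theorem cell {a : chevF4.group F} {w : Equiv.Perm ℕ} (hm : Mx chevF4 (xg chevF4 F) a w) {d : Dt} (hd : d.wk)
    (hq : quad w = quad (actW chevF4 (fl chevF4 d.l))) :
    ∃ f, IsConj a (cv (xg chevF4 F) d.n * ov (xg chevF4 F) id d.R f) := by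
  have hx := H7.isChev_xg (D := chevF4) (F := F)
  have hs := hx.toIsSt
  obtain ⟨h1, h2, h3, h4, h5, -⟩ := hd
  obtain rfl := quad_inj hm.mem_W (wordW_mem _) (hq.trans (congrArg quad (funext (wordW_apply _)).symm))
  obtain ⟨n, u, hn, hu, k⟩ := hm.form hs
  have hv : wordW chevF4 (fl chevF4 d.lJ) ∈ WJ chevF4 {i | ∃ j ∈ fl chevF4 d.lJ, j.1 = i} :=
    wordW_mem_WJ fun i hi => ⟨i, hi, rfl⟩
  have h6 := hm.up hx.toIsFaith hn hu k (J := {i | ∃ j ∈ fl chevF4 d.lJ, j.1 = i})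
    (fun i hi => by obtain ⟨j, hj, e⟩ := hi; rw [← Fin.ext e, wordW_apply]; exact h2 j hj) hv
  obtain ⟨f, rfl⟩ := hs.exists_oprod (isClosed_pos.inter (isClosed_pos.preimage (wordW_mem (fl chevF4 d.lJ)))) (one_mem _)
    (fun k hk => hk.1) (L := d.R) (fun k => by
      simp only [Set.mem_inter_iff, Set.mem_preimage, Set.mem_ofPred_eq, pos_iff, wordW_apply]
      exact ⟨fun e => ⟨⟨((h3 k (h4 k e)).1 e).1, h4 k e⟩, ((h3 k (h4 k e)).1 e).2⟩, fun e => (h3 k e.1.2).2 ⟨e.1.1, e.2⟩⟩)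
    h5 h6
  have h7 : HH chevF4 (xg chevF4 F) ≤ ⊥ := (Subgroup.closure_le _).2 (by
    rintro _ ⟨r, t, -, ht, rfl⟩
    rw [(h.bin t).resolve_left ht, hs.hE_one]; exact one_mem _)
  have h8 : ∀ l : List (Fin chevF4.rank), nWd chevF4 (xg chevF4 F) l = cv (xg chevF4 F)
      (l.flatMap fun i : Fin chevF4.rank => [chevF4.simple i, 47 - chevF4.simple i, chevF4.simple i]) := fun l => by
    have e : (-1 : F) = 1 := by linear_combination -h.two
    induction l with
    | nil => rfl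
    | cons i l ih => rw [nWd_cons, ih, List.flatMap_cons, cv_app, nE, inv_one, e, negF4 (simple_lt i)]; simp [mul_assoc]
  rw [inv_mul_eq_one.1 (Subgroup.mem_bot.1 (h7 (hn.inv_mul_mem hs (NRep.nWd _ _)))), h8, ← h1] at k
  exact ⟨f, k⟩

omit h in
theorem exists_gam [CharP F 2] (hF : ∀ t : F, t = 0 ∨ t = 1) : ∃ γ : chevF4.group F →* chevF4.group F,
    (∀ r t, γ (xg chevF4 F r t) = xg chevF4 F (tw r) t) ∧ Function.Bijective γ := by
  have hx := H7.isChev_xg (D := chevF4) (F := F)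
  obtain ⟨σ, hσ⟩ := exists_twistF4 hx H7.GG_xg (RingHom.id F)
  have e0 : ∀ r, 48 ≤ r → tw r = r := fun r hr => List.getD_eq_default _ _ hr
  have e : ∀ r t, σ (xg chevF4 F r t) = xg chevF4 F (tw r) t := fun r t => by
    by_cases hr : r < 48
    · obtain ⟨k, hk, e⟩ := (by decide +kernel : ∀ r < 48, ∃ k ∈ [1, 2], k ≠ 0 ∧ twT H7.twF4 r = (tw r, k, 1)) r hr
      rw [hσ.map_one' e.2]
      rcases hF t with rfl | rfl <;> simp [e.1]
    · rw [e0 r (not_lt.1 hr), hx.out r (not_lt.1 hr), map_one]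
  have e1 : σ.comp σ = MonoidHom.id _ := hom_ext_XS H7.GG_xg fun r _ t => by
    rw [MonoidHom.comp_apply, e, e, MonoidHom.id_apply]
    by_cases hr : r < 48
    · rw [(by decide +kernel : ∀ r < 48, tw (tw r) = r) r hr]
    · rw [e0 r (not_lt.1 hr), e0 r (not_lt.1 hr)]
  exact ⟨σ, e, Function.Involutive.bijective (DFunLike.congr_fun e1)⟩

variable {γ : chevF4.group F →* chevF4.group F} (hγ : ∀ r t, γ (xg chevF4 F r t) = xg chevF4 F (tw r) t)
include hγ

theorem dom0 {a : chevF4.group F} (ha : a ≠ 1) (h0 : ∀ a', IsConj a a' → rho F a' 0 26 = 0) :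
    IsConj a (cv (xg chevF4 F) dC.n) := by
  rcases short_cases ha with ⟨w, hm, hq⟩ | ⟨a', k, e⟩
  · obtain ⟨f, k⟩ := cell h hm (d := dC) (by decide +kernel) (hq.trans (by decide +kernel))
    exact h.elim_sound hγ (band_iff.1 okC).1 k (fun a' k => (val_C a').trans (h0 a' k)) fun a' _ => val_C' a'
  · exact (e (h0 a' k)).elim

theorem rho_inj : Function.Injective (rho F) := (injective_iff_map_eq_one _).2 fun a ha => by_contra fun hne => by
  have e : ∀ a', IsConj a a' → rho F a' = 1 := fun a' k => isConj_one_right.1 (ha ▸ (rho F).map_isConj k)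
  exact h.cne_sound (w := dC.n) (by decide +kernel) (e _ (dom0 h hγ hne fun a' k => by rw [e a' k]; exact one_apply_ne (by decide)))

theorem conj_rep {fs : Bool → List (Fin 27 × ℕ)} {d : Dt} (hd : d.ok fs = true) :
    IsConj (cv (xg chevF4 F) d.n) (cv (xg chevF4 F) d.rep) :=
  isConj_iff.2 ⟨_, rho_inj h hγ (h.ceq_sound (band_iff.1 hd).2)⟩

theorem dom {a : chevF4.group F} (ha : a ≠ 1) (h0 : ∀ a', IsConj a a' → rho F a' 0 26 = 0) :
    IsConj a (cv (xg chevF4 F) [47]) := (dom0 h hγ ha h0).trans (conj_rep h hγ okC)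

theorem sym_cl {a : chevF4.group F} (ha : a ≠ 1) (h0 : ∀ a', IsConj a a' → val (rho F) (fsS false) a' = 0)
    (h1 : ∀ a', IsConj (γ a) a' → val (rho F) (fsS true) a' = 0) : ∃ u ∈ reps, IsConj a (cv (xg chevF4 F) u) := by
  have hx := H7.isChev_xg (D := chevF4) (F := F)
  obtain ⟨w, hm⟩ := exists_mx hx.toIsSt H7.GG_xg a
  rcases (by decide +kernel : ∀ z ∈ quads, z = (33, 27, 25, 24) ∨ ∃ d ∈ DS, d.wk ∧ z = quad (actW chevF4 (fl chevF4 d.l))) _
    (quad_mem hm.mem_W fun i => hm.fix hx.toIsSt) with e | ⟨d, hd, h2, e⟩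
  · obtain rfl := quad_inj hm.mem_W (one_mem _) e
    exact (ha (hm.eq_one hx H7.GG_xg)).elim
  · obtain ⟨f, k⟩ := cell h hm h2 e
    exact ⟨d.rep, h2.2.2.2.2.2, (h.elim_sound hγ (band_iff.1 (okS d hd)).1 k h0 h1).trans (conj_rep h hγ (okS d hd))⟩

theorem opp (hb : Function.Bijective γ) {a b c : chevF4.group F} (k : CP a b c) : ∃ b', IsConj b b' ∧ rho F b' 0 26 ≠ 0 := by
  by_contra! h0
  have k1 : CP (γ a) (γ (cv (xg chevF4 F) [47])) (γ c) := (k.right (dom h hγ k.hb h0)).map (MulEquiv.ofBijective γ hb)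
  have e : γ (cv (xg chevF4 F) [47]) = xg chevF4 F 44 1 := by rw [cv_cons, cv_nil, mul_one, hγ]; rfl
  rw [e] at k1
  have k2 := k1.left (dom h hγ k1.ha fun a' l => (val_C a').symm.trans (h.extX (k1.left l)))
  exact h.pairs (rho_inj h hγ) (u := [47]) (v := [44]) (by decide) (by decide) (by simpa using k2)

theorem left_cl (hb : Function.Bijective γ) {a b c : chevF4.group F} (k : CP a b c) :
    ∃ u ∈ reps, IsConj a (cv (xg chevF4 F) u) := by
  have k1 : CP (γ a) (γ b) (γ c) := k.map (MulEquiv.ofBijective γ hb)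
  obtain ⟨b', l, e⟩ := opp h hγ hb k
  obtain ⟨b'', l', e'⟩ := opp h hγ hb k1
  exact sym_cl h hγ k.ha (fun a' m => h.extP (k.congr m l) e _) fun a' m => h.extP (k1.congr m l') e' _

omit h hγ in
theorem noCP_F4 (h2 : (2 : F) = 0) (hF : ∀ t : F, t = 0 ∨ t = 1) : NoCP (chevF4.group F) := fun a b c k => by
  have : CharP F 2 := (CharP.charP_iff_prime_eq_zero Nat.prime_two).2 (by exact_mod_cast h2)
  obtain ⟨γ, hγ, hb⟩ := exists_gam hF
  have h := md h2 hF
  obtain ⟨u, hu, l⟩ := left_cl h hγ hb k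
  obtain ⟨v, hv, l'⟩ := left_cl h hγ hb k.symm
  exact h.pairs (rho_inj h hγ) hu hv (k.congr l l')

omit h hγ [Finite F] in
theorem noCP_F4_two [Fintype F] (hq : Fintype.card F = 2) : NoCP (chevF4.group F) := by
  classical
  have hF : ∀ t : F, t = 0 ∨ t = 1 := fun t => by
    have : ({0, 1} : Finset F) = univ := eq_univ_of_card _ (by rw [hq, card_pair zero_ne_one])
    simpa using (this ▸ mem_univ t : t ∈ ({0, 1} : Finset F))
  refine noCP_F4 ?_ hF
  rcases hF 2 with e | e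
  · exact e
  · exact absurd (by linear_combination e : (1 : F) = 0) one_ne_zero

omit h hγ [Finite F] in
theorem good_F4_two [Fintype F] (p : ℕ) (hq : Fintype.card F = 2) : Good p (chevF4.group F) := (noCP_F4_two hq).good p

end Cfsg.Agent.H2.AX
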