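import Cfsg.Agent.H2.MinA
import Cfsg.Agent.H2.MinNT

/-! Eigenspaces of one-parameter families in complex representations of finite groups. -/

set_option autoImplicit false
set_option linter.unusedSectionVars false

namespace Cfsg.Agent.H2

open Module Cfsg.Agent.H1

variable {Γ : Type*} [Group Γ] [Finite Γ] {V : Type*} [AddCommGroup V] [Module ℂ V] [FiniteDimensional ℂ V]
  {R : Γ →* Module.End ℂ V} {F : Type*} [Field F] [Fintype F] [DecidableEq F]

variable (R) in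
/-- Eigenspaces of a one-parameter family. -/
noncomputable def Wy (y : F → Γ) (s : F) : Submodule ℂ V := Wt (fun t => R (y t)) (chi s)

theorem chi_mul {a b c t u w : F} (h : a * t + b * u = c * w) : chi a t * chi b u = chi c w := by
  simp only [chi, ← AddChar.map_add_eq_mul, h]

theorem chi_eq {a c t w : F} (h : a * t = c * w) : chi a t = chi c w := by simp only [chi, h]

theorem eq_zero_of_chi {a : F} (h : ∀ t, chi a t = 1) : a = 0 :=
  by_contra fun h0 => let ⟨t, ht⟩ := exists_chi h0; ht (h t)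

variable {y y0 y1 : F → Γ} {U : Submodule ℂ V} {v : V} {m : ℕ}

theorem mem_Wy {s : F} : v ∈ Wy R y s ↔ ∀ t, R (y t) v = chi s t • v := Iff.rfl

theorem mem_Wy_zero : v ∈ Wy R y 0 ↔ ∀ t, R (y t) v = v := by simp [mem_Wy, chi_zero]

theorem Wy_conj {g : Γ} {s : F} (h : ∀ t, R (g⁻¹ * y t * g) v = chi s t • v) : R g v ∈ Wy R y s := fun t => by
  show R _ _ = _
  rw [← map_smul, ← h, ← rmul, ← rmul, ← mul_assoc, mul_inv_cancel_left]

theorem card_erase : (Finset.univ.erase (0 : F)).card = Fintype.card F - 1 := by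
  rw [Finset.card_erase_of_mem (Finset.mem_univ _), Finset.card_univ]

theorem dim_ge (h : ∀ s ≠ 0, m ≤ finrank ℂ ↥(U ⊓ Wy R y s)) :
    finrank ℂ ↥(U ⊓ Wy R y 0) + (Fintype.card F - 1) * m ≤ finrank ℂ U := by
  refine le_trans (Nat.add_le_add_left ?_ _) (filt_step chi_inj (fun t => R (y t)) U _ fun _ => le_rfl)
  rw [← card_erase, ← smul_eq_mul]
  exact Finset.card_nsmul_le_sum _ _ _ fun s hs => h s (Finset.ne_of_mem_erase hs)

theorem one_le_finrank (h : U ≠ ⊥) : 1 ≤ finrank ℂ U := Nat.one_le_iff_ne_zero.2 (mt Submodule.finrank_eq_zero.1 h)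

theorem one_le_finrank_iff : 1 ≤ finrank ℂ U ↔ U ≠ ⊥ := Nat.one_le_iff_ne_zero.trans Submodule.finrank_eq_zero.not

theorem card_le_dim {S : Finset F} (h : ∀ s ∈ S, m ≤ finrank ℂ ↥(U ⊓ Wy R y s)) : S.card * m ≤ finrank ℂ U := by
  have h1 := sum_finrank_Wt_le' (fun t => R (y t)) chi (fun s => U ⊓ Wy R y s) (fun _ => inf_le_right) S chi_inj.injOn
  exact ((Finset.card_nsmul_le_sum _ _ _ h).trans h1.le).trans
    (Submodule.finrank_mono (Finset.sup_le fun _ _ => inf_le_left))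

section
variable (hy : ∀ t u, y (t + u) = y t * y u) (hU : ∀ t, ∀ v ∈ U, R (y t) v ∈ U)
include hy hU

theorem le_of_Wy {P : Submodule ℂ V} (h : ∀ s, U ⊓ Wy R y s ≤ P) : U ≤ P :=
  le_of_chi (fun t => R (y t)) (by simp only [H8.add_fam_zero hy, map_one]) (fun t u => by simp only [hy, map_mul]) hU h

theorem exists_Wy (h : U ≠ ⊥) : ∃ s, U ⊓ Wy R y s ≠ ⊥ := by
  by_contra h0
  push Not at h0
  exact h (eq_bot_iff.2 (le_of_Wy hy hU fun s => (h0 s).le))

theorem dim_split : finrank ℂ U = ∑ s, finrank ℂ ↥(U ⊓ Wy R y s) := by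
  rw [sum_finrank_Wt_le' (fun t => R (y t)) chi (fun s => U ⊓ Wy R y s) (fun _ => inf_le_right) _ chi_inj.injOn]
  rw [le_antisymm (Finset.sup_le fun _ _ => inf_le_left) (le_of_Wy hy hU fun s => Finset.le_sup (f := fun s => U ⊓ Wy R y s)
    (Finset.mem_univ s))]

theorem dim_scale (h : ∀ s ≠ 0, finrank ℂ ↥(U ⊓ Wy R y s) = m) :
    finrank ℂ U = finrank ℂ ↥(U ⊓ Wy R y 0) + (Fintype.card F - 1) * m := by
  rw [dim_split hy hU, ← Finset.add_sum_erase _ _ (Finset.mem_univ 0),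
    Finset.sum_congr rfl fun s hs => h s (Finset.ne_of_mem_erase hs), Finset.sum_const, card_erase, smul_eq_mul]

variable {g : F → Γ} {f : F → F} (hf : Function.Surjective f)
  (h : ∀ t c, ∀ v ∈ U ⊓ Wy R y c, R (g t) v ∈ U ⊓ Wy R y (c + f t))
include hf h

theorem shift_dim (c : F) : finrank ℂ U = Fintype.card F * finrank ℂ ↥(U ⊓ Wy R y c) := by
  have h1 : ∀ c c', finrank ℂ ↥(U ⊓ Wy R y c) ≤ finrank ℂ ↥(U ⊓ Wy R y c') := fun c c' => by
    obtain ⟨t, ht⟩ := hf (c' - c)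
    exact finrank_le_conj (g t) fun v hv => by simpa [ht] using h t c v hv
  rw [dim_split hy hU, Finset.sum_congr rfl fun s _ => le_antisymm (h1 s c) (h1 c s)]
  simp

theorem shift_ne (h0 : U ≠ ⊥) (c : F) : U ⊓ Wy R y c ≠ ⊥ := fun e => by
  have := shift_dim hy hU hf h c
  rw [e, finrank_bot] at this
  exact h0 (Submodule.finrank_eq_zero.1 this)

theorem shift_ge (h0 : U ≠ ⊥) : Fintype.card F ≤ finrank ℂ U := by
  rw [shift_dim hy hU hf h 0]
  exact Nat.le_mul_of_pos_right _ (one_le_finrank (shift_ne hy hU hf h h0 0))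

end

theorem ne_bot_conj {S T : Submodule ℂ V} (h0 : S ≠ ⊥) (g : Γ) (h : ∀ v ∈ S, R g v ∈ T) : T ≠ ⊥ :=
  let ⟨v, hv, h1⟩ := (Submodule.ne_bot_iff _).1 h0; (Submodule.ne_bot_iff _).2 ⟨_, h v hv, rne h1 g⟩

theorem Wy_split {S T : Submodule ℂ V} (h : Disjoint S T) (hS : ∀ t, ∀ v ∈ S, R (y t) v ∈ S) (hT : ∀ t, ∀ v ∈ T, R (y t) v ∈ T)
    {a b : V} (ha : a ∈ S) (hb : b ∈ T) {s : F} (h1 : a + b ∈ Wy R y s) : a ∈ Wy R y s := fun t => by
  have h2 := h1 t
  simp only [map_add, smul_add] at h2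
  refine sub_eq_zero.1 (Submodule.disjoint_def.1 h _ (S.sub_mem (hS t a ha) (S.smul_mem _ ha)) ?_)
  rw [show R (y t) a - chi s t • a = chi s t • b - R (y t) b from by rw [sub_eq_sub_iff_add_eq_add, h2, add_comm]]
  exact T.sub_mem (T.smul_mem _ hb) (hT t b hb)

/-- A line of multiplicity one generates an irreducible submodule. -/
theorem exists_irr (ρ : Representation ℂ Γ V) {L : Submodule ℂ V} (hL : finrank ℂ L ≤ 1) (hv : v ∈ L) (h0 : v ≠ 0)
    (h : ∀ S T : Submodule ℂ V, Disjoint S T → (∀ g, ∀ v ∈ S, ρ g v ∈ S) → (∀ g, ∀ v ∈ T, ρ g v ∈ T) →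
      ∀ a ∈ S, ∀ b ∈ T, a + b ∈ L → a ∈ L) :
    ∃ Y : Submodule ℂ V, v ∈ Y ∧ (∀ g, ∀ v ∈ Y, ρ g v ∈ Y) ∧ (∀ Y' : Submodule ℂ V, v ∈ Y' → (∀ g, ∀ v ∈ Y', ρ g v ∈ Y') → Y ≤ Y') ∧
      finrank ℂ Y ∣ Nat.card Γ := by
  have h1 : ∀ Y' : Submodule ℂ V, v ∈ Y' → (∀ g, ∀ v ∈ Y', ρ g v ∈ Y') → Submodule.span ℂ (Set.range fun g => ρ g v) ≤ Y' :=
    fun Y' h1 h2 => Submodule.span_le.2 (Set.range_subset_iff.2 fun g => h2 g v h1)
  let Y : Subrepresentation ρ := ⟨Submodule.span ℂ (Set.range fun g => ρ g v), fun g w hw =>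
    (Submodule.span_le (p := Submodule.comap (ρ g) (Submodule.span ℂ (Set.range fun g => ρ g v)))).2
      (Set.range_subset_iff.2 fun g' => Submodule.subset_span (Set.mem_range.2 ⟨g * g', rmul _ _ _⟩)) hw⟩
  have h2 : v ∈ Y.toSubmodule := Submodule.subset_span ⟨1, by simp⟩
  have h3 : ∀ S : Subrepresentation Y.toRepresentation, ∀ g, ∀ w ∈ S.toSubmodule.map Y.toSubmodule.subtype,
      ρ g w ∈ S.toSubmodule.map Y.toSubmodule.subtype := by
    rintro S g _ ⟨w, hw, rfl⟩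
    exact ⟨_, S.apply_mem_toSubmodule g hw, rfl⟩
  have h4 : ∀ S : Subrepresentation Y.toRepresentation, ⟨v, h2⟩ ∈ S.toSubmodule → S = ⊤ := fun S hS =>
    Subrepresentation.toSubmodule_injective (eq_top_iff.2 fun w _ => by
      obtain ⟨w', h5, h6⟩ := h1 _ (Submodule.mem_map_of_mem hS) (h3 S) w.2
      exact Subtype.ext h6 ▸ h5)
  have h5 : Nontrivial (Subrepresentation Y.toRepresentation) := ⟨⊥, ⊤, fun e => h0 (congrArg Subtype.val
    ((Submodule.mem_bot ℂ).1 (show (⟨v, h2⟩ : Y.toSubmodule) ∈ (⊥ : Subrepresentation Y.toRepresentation).toSubmodule from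
      e ▸ Submodule.mem_top)))⟩
  refine ⟨Y.toSubmodule, h2, fun g w hw => Y.apply_mem_toSubmodule g hw, h1, finrank_dvd_card Y.toRepresentation ⟨fun S => ?_⟩⟩
  obtain ⟨T, hT⟩ := exists_isCompl S
  obtain ⟨a, ha, b, hb, e⟩ := Submodule.mem_sup.1 (show (⟨v, h2⟩ : Y.toSubmodule) ∈ S.toSubmodule ⊔ T.toSubmodule from
    (congrArg Subrepresentation.toSubmodule hT.sup_eq_top).ge Submodule.mem_top)
  have h6 := h _ _ (Submodule.disjoint_map (Submodule.injective_subtype _) (disjoint_iff.2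
    (congrArg Subrepresentation.toSubmodule hT.inf_eq_bot))) (h3 S) (h3 T) _ ⟨a, ha, rfl⟩ _ ⟨b, hb, rfl⟩
    (by rw [← map_add, e]; exact hv)
  obtain ⟨c, hc⟩ := Submodule.mem_span_singleton.1 (mem_span_of_finrank hL hv h0 h6)
  by_cases h7 : c = 0
  · rw [h7, zero_smul] at hc
    rw [show a = 0 from Subtype.ext hc.symm, zero_add] at e
    exact Or.inl (by simpa [h4 T (e ▸ hb)] using hT.inf_eq_bot)
  · refine Or.inr (h4 S ?_)
    rw [show (⟨v, h2⟩ : Y.toSubmodule) = c⁻¹ • a from Subtype.ext ((eq_inv_smul_iff₀ h7).2 hc)]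
    exact Submodule.smul_mem _ _ ha

/-- Independence of translates of a fixed space. -/
theorem card_mul_le_of_av {ι : Type*} [Fintype ι] [DecidableEq ι] {A : Subgroup Γ} {M W : Submodule ℂ V} (g : ι → Γ)
    (hM : M ≤ Fix R A) (hW : ∀ i, ∀ v ∈ M, R (g i) v ∈ W) (h : ∀ i j, j ≠ i → ∀ v ∈ M, av R A (R ((g i)⁻¹ * g j) v) = 0) :
    Fintype.card ι * finrank ℂ M ≤ finrank ℂ W := by
  have h1 := LinearMap.finrank_le_finrank_of_injective (f := LinearMap.lsum ℂ (fun _ : ι => M) ℂ fun i => (R (g i)).restrict (hW i))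
    ((injective_iff_map_eq_zero _).2 fun f hf => funext fun i => Subtype.ext ?_)
  · simpa [finrank_pi_fintype] using h1
  have h2 := congrArg (fun w : W => av R A (R (g i)⁻¹ w)) hf
  simp only [LinearMap.lsum_apply, LinearMap.coe_sum, Finset.sum_apply, LinearMap.comp_apply, Submodule.coe_sum, map_sum,
    LinearMap.restrict_apply, LinearMap.proj_apply, ← rmul, Submodule.coe_zero, map_zero] at h2
  rw [Finset.sum_eq_single i (fun j _ hj => h i j hj _ (f j).2) (by simp), inv_mul_cancel, map_one] at h2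
  exact eq_zero_of_av (hM (f i).2) h2

end Cfsg.Agent.H2
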