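import Cfsg.Agent.H2.G2a
import Cfsg.Agent.H8.NTabG2
import Cfsg.Agent.H8.RootTables

/-! Joint eigenspaces of root subgroups of `G₂`. -/

set_option autoImplicit false
set_option linter.unusedSectionVars false

namespace Cfsg.Agent.H2.G2

open Module Cfsg.Lie Cfsg.Agent.H1 Cfsg.Agent.H8

variable {G : Type*} [Group G] [Finite G] {V : Type*} [AddCommGroup V] [Module ℂ V] [FiniteDimensional ℂ V]
  {F : Type*} [Field F] [Fintype F] [DecidableEq F] (R : G →* Module.End ℂ V) (x : ℕ → F → G)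

/-- The vectors of `Y` fixed by a list of root subgroups. -/
noncomputable def FZ (Y : Submodule ℂ V) : List ℕ → Submodule ℂ V
  | [] => Y
  | r :: Z => FZ Y Z ⊓ Wy R (x r) 0

/-- `Y` is stable under a root subgroup. -/
def St (r : ℕ) (Y : Submodule ℂ V) : Prop := ∀ t, ∀ v ∈ Y, R (x r t) v ∈ Y

/-- The commutators of `r` and `s` lie in `Z`. -/
def Ok (p r : ℕ) (Z : List ℕ) (s : ℕ) : Prop :=
  s = r ∨ s ≠ chevG2.neg r ∧ ∀ c ∈ chevG2.commTerms r s, (p : ℤ) ∣ c.2.1 ∨ c.1 ∈ Z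

instance decOk (p r : ℕ) (Z : List ℕ) (s : ℕ) : Decidable (Ok p r Z s) := by unfold Ok; infer_instance

/-- The reflection in `r` maps `s` to `s'`. -/
def Rf (r s s' : ℕ) : Prop := r < 12 ∧ s < 12 ∧ s' < 12 ∧ wt chevG2 s' = wt chevG2 s - A chevG2 r s • wt chevG2 r

instance decRf (r s s' : ℕ) : Decidable (Rf r s s') := by unfold Rf; infer_instance

variable {R x} {Y Y' : Submodule ℂ V} {Z Z' : List ℕ} {v : V} {p r s s' k : ℕ} {c c' d t : F}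

theorem mem_FZ : v ∈ FZ R x Y Z ↔ v ∈ Y ∧ ∀ z ∈ Z, v ∈ Wy R (x z) 0 := by
  induction Z with
  | nil => simp [FZ]
  | cons r Z ih => simp only [FZ, Submodule.mem_inf, ih, List.forall_mem_cons]; tauto

theorem FZ_mono (hv : v ∈ FZ R x Y Z) (hY : Y ≤ Y' := by exact le_rfl) (h : ∀ z ∈ Z', z ∈ Z := by decide) : v ∈ FZ R x Y' Z' :=
  mem_FZ.2 ⟨hY (mem_FZ.1 hv).1, fun z hz => (mem_FZ.1 hv).2 z (h z hz)⟩

theorem FZ_fix (hv : v ∈ FZ R x Y Z) (r : ℕ) (h : r ∈ Z := by decide) : v ∈ Wy R (x r) 0 := (mem_FZ.1 hv).2 r h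

theorem St_top (r : ℕ) : St R x r ⊤ := fun _ _ _ => trivial

theorem Rf.eq (h : Rf r s s') : refl chevG2 r s = s' :=
  wt_inj (W_lt (refl_mem r) h.2.1) h.2.2.1 (by rw [wt_refl, h.2.2.2])

theorem eta_mul (r s : ℕ) : (eta chevG2 r s : F) * eta chevG2 r s = 1 := by rw [← Int.cast_mul, eta_sq, Int.cast_one]

theorem eta_ne (r s : ℕ) : (eta chevG2 r s : F) ≠ 0 := left_ne_zero_of_mul_eq_one (eta_mul r s)

theorem actsW {g : G} {w : Equiv.Perm ℕ} {κ : ℕ → F} (h : Acts x g w κ) {e : F} (he : κ s * e = 1) (hv : v ∈ Wy R (x s) c) :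
    R g v ∈ Wy R (x (w s)) (c * e) := Wy_conj fun t => by
  have := h s (e * t)
  rw [← mul_assoc (κ s), he, one_mul] at this
  rw [← this, show R _ v = _ from by simpa [mul_assoc] using hv (e * t), chi_eq (mul_assoc _ _ _)]

variable (hx : IsSt chevG2 x)
include hx

theorem ev_act (f : ℕ → F) (u : F) (T : List (ℕ × ℤ × ℕ × ℕ)) (hf : ∀ c ∈ T, (c.2.1 : F) = 0 ∨ v ∈ Wy R (x c.1) (f c.1)) :
    R (ev x (T.map fun c => (c.1, (c.2.1 : F) * (-t) ^ c.2.2.1 * u ^ c.2.2.2))) v =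
      chi 1 (T.map fun c => f c.1 * ((c.2.1 : F) * (-t) ^ c.2.2.1 * u ^ c.2.2.2)).sum • v := by
  induction T with
  | nil => simp [chi]
  | cons c T ih =>
    rw [List.map_cons, ev_cons, rmul, ih fun c h => hf c (List.mem_cons_of_mem _ h), map_smul, List.map_cons, List.sum_cons]
    rcases hf c List.mem_cons_self with h | h
    · simp [h, hx.zero]
    · rw [show R _ v = _ from h _, smul_smul]
      exact congrArg (· • v) (chi_mul (by rw [one_mul, one_mul, add_comm]))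

theorem mvx (h1 : s ≠ r) (h2 : s ≠ chevG2.neg r) (hv : v ∈ Wy R (x s) c) (f : ℕ → F) {T : List (ℕ × ℤ × ℕ × ℕ)}
    (hT : chevG2.commTerms r s = T) (hf : ∀ c ∈ T, (c.2.1 : F) = 0 ∨ v ∈ Wy R (x c.1) (f c.1))
    (e : ∀ u, (T.map fun c => f c.1 * ((c.2.1 : F) * (-t) ^ c.2.2.1 * u ^ c.2.2.2)).sum + c * u = c' * u) :
    R (x r t) v ∈ Wy R (x s) c' := Wy_conj fun u => by
  rw [(hx.comm' h1 h2).conj, rmul, ChevalleyDatum.commWord, hT, ev_act hx f u T hf, map_smul, show R _ v = _ from hv u,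
    smul_smul]
  exact congrArg (· • v) (chi_mul (by rw [one_mul, e]))

theorem mv1 {n : ℤ} (h : s ≠ r ∧ s ≠ chevG2.neg r ∧ chevG2.commTerms r s = [(k, n, 1, 1)]) (hv : v ∈ Wy R (x s) c)
    (hk : v ∈ Wy R (x k) d) (t : F) : R (x r t) v ∈ Wy R (x s) (c + -(n * d) * t) :=
  mvx hx h.1 h.2.1 hv (fun _ => d) h.2.2 (by simpa using Or.inr hk) fun u => by simp; ring

theorem stW (hp : (p : F) = 0) (h : Ok p r Z s) (hZ : v ∈ FZ R x Y Z) (hv : v ∈ Wy R (x s) c) (t : F) :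
    R (x r t) v ∈ Wy R (x s) c := by
  by_cases e : s = r
  · exact Wy_conj fun u => by rw [e, mul_assoc, (hx.commute_self _ _ _).eq, inv_mul_cancel_left]; exact (e ▸ hv) u
  obtain ⟨h1, h2⟩ := h.resolve_left e
  refine mvx hx e h1 hv (fun _ => 0) rfl (fun c hc => (h2 c hc).imp ?_ ((mem_FZ.1 hZ).2 _)) (by simp)
  rintro ⟨m, hm⟩
  simp [hm, hp]

theorem stZ (hp : (p : F) = 0) (hY : St R x r Y) (h : ∀ s ∈ Z, Ok p r Z s := by decide +kernel) : St R x r (FZ R x Y Z) :=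
  fun t v hv => mem_FZ.2 ⟨hY t v (mem_FZ.1 hv).1, fun z hz => stW hx hp (h z hz) hv (FZ_fix hv z hz) t⟩

theorem st1 (hp : (p : F) = 0) (hY : St R x r Y) (h : ∀ s' ∈ s :: Z, Ok p r Z s' := by decide +kernel) :
    St R x r (FZ R x Y Z ⊓ Wy R (x s) c) := fun t v hv =>
  ⟨stZ hx hp hY (fun z hz => h z (List.mem_cons_of_mem _ hz)) t v hv.1, stW hx hp (h s List.mem_cons_self) hv.1 hv.2 t⟩

theorem st2 (hp : (p : F) = 0) (hY : St R x r Y) (h : ∀ z ∈ s' :: s :: Z, Ok p r Z z := by decide +kernel) :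
    St R x r (FZ R x Y Z ⊓ Wy R (x s) c ⊓ Wy R (x s') c') := fun t v hv =>
  ⟨st1 hx hp hY (fun z hz => h z (List.mem_cons_of_mem _ hz)) t v hv.1, stW hx hp (h s' List.mem_cons_self) hv.1.1 hv.2 t⟩

theorem nW (hv : v ∈ Wy R (x s) c) (h : Rf r s s' := by decide +kernel) :
    R (nE chevG2 x r 1) v ∈ Wy R (x s') (c * eta chevG2 r s) :=
  h.eq ▸ actsW (hx.acts_nE h.1 one_ne_zero) (by simpa using eta_mul r s) hv

theorem nW' (hv : v ∈ Wy R (x s) (c * eta chevG2 r s)) (h : Rf r s s' := by decide +kernel) :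
    R (nE chevG2 x r 1) v ∈ Wy R (x s') c := by simpa [mul_assoc, eta_mul] using nW hx hv h

theorem nZ (hv : v ∈ FZ R x Y Z) (hY : R (nE chevG2 x r 1) v ∈ Y' := by trivial) (h : ∀ z ∈ Z', ∃ z' ∈ Z, Rf r z' z := by decide +kernel) :
    R (nE chevG2 x r 1) v ∈ FZ R x Y' Z' :=
  mem_FZ.2 ⟨hY, fun z hz => let ⟨z', h1, h2⟩ := h z hz; by simpa using nW hx (FZ_fix hv z' h1) h2⟩

theorem hW {l : F} (hl : l ≠ 0) (hv : v ∈ Wy R (x s) c) {a : ℤ} (h : r < 12 ∧ A chevG2 r s = -a := by decide +kernel) :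
    R (hE chevG2 x r l) v ∈ Wy R (x s) (c * l ^ a) :=
  actsW (hx.acts_hE h.1 hl) (by rw [h.2, ← zpow_add₀ hl]; simp) hv

theorem hZ {l : F} (hl : l ≠ 0) (hv : v ∈ FZ R x Y Z) (hY : R (hE chevG2 x r l) v ∈ Y := by trivial) (h : r < 12 := by decide) :
    R (hE chevG2 x r l) v ∈ FZ R x Y Z :=
  mem_FZ.2 ⟨hY, fun z hz => by simpa using hW hx hl (FZ_fix hv z hz) ⟨h, (neg_neg _).symm⟩⟩

omit hx in
theorem St.nE (h : St R x r Y) (h' : St R x (chevG2.neg r) Y) (t : F) (hv : v ∈ Y) : R (nE chevG2 x r t) v ∈ Y := by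
  rw [H8.nE, rmul, rmul]; exact h _ _ (h' _ _ (h _ _ hv))

omit hx in
theorem St.hE (h : St R x r Y) (h' : St R x (chevG2.neg r) Y) (t : F) (hv : v ∈ Y) : R (hE chevG2 x r t) v ∈ Y := by
  rw [H8.hE, rmul]; exact h.nE h' _ (h.nE h' _ hv)

/-- A line stable under a root subgroup and a torus element moving it is fixed. -/
theorem fix_line (hY : finrank ℂ Y ≤ 1) (h : St R x r Y) {l : F} (hl : l ≠ 0) {a : ℤ} (ha : l ^ a ≠ 1)
    (h1 : ∀ v ∈ Y, R (hE chevG2 x k l) v ∈ Y) (h2 : k < 12 ∧ A chevG2 k r = a := by decide +kernel) : Y ≤ Wy R (x r) 0 := fun v hv => by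
  by_cases h0 : v = 0
  · exact h0 ▸ zero_mem _
  refine mem_Wy_zero.2 fun u => ?_
  have := comm_mem_Stb (R := R) (mem_StbS_span (mem_span_of_finrank hY hv h0 (h1 v hv)))
    (mem_StbS_span (mem_span_of_finrank hY hv h0 (h (u / (l ^ a - 1)) v hv)))
  rwa [hx.hE_conj h2.1 hl, ← hx.sub, h2.2, ← sub_one_mul, mul_div_cancel₀ _ (sub_ne_zero.2 ha)] at this

/-- The natural module of a long root. -/
theorem nat_mod {b : ℕ} {n : ℤ} (h : (r ≠ b ∧ r ≠ chevG2.neg b ∧ chevG2.commTerms b r = [(s, n, 1, 1)]) ∧ n * n = 1 ∧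
      Ok 0 b [] s ∧ Ok 0 r [] s ∧ Rf b r s ∧ Rf b s r ∧ A chevG2 b r = -1)
    (h1 : St R x b Y) (h2 : St R x (chevG2.neg b) Y) (h3 : St R x r Y) (h4 : St R x s Y) :
    ∃ μ, (∀ c ≠ 0, finrank ℂ ↥(FZ R x Y [s] ⊓ Wy R (x r) c) = μ) ∧
      (∀ c ≠ 0, finrank ℂ ↥(Y ⊓ Wy R (x s) c) = Fintype.card F * μ) ∧
      finrank ℂ Y = finrank ℂ (FZ R x Y [r, s]) + (Fintype.card F - 1) * μ + (Fintype.card F - 1) * (Fintype.card F * μ) := by
  obtain ⟨e1, e2, e3, e4, e5, e6, e7⟩ := h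
  have h0 : ((0 : ℕ) : F) = 0 := Nat.cast_zero
  have h5 : ∀ c ≠ 0, ∀ c' ≠ 0, finrank ℂ ↥(FZ R x Y [s] ⊓ Wy R (x r) c) ≤ finrank ℂ ↥(FZ R x Y [s] ⊓ Wy R (x r) c') :=
    fun c hc c' hc' => finrank_le_conj (hE chevG2 x b (c' / c)) fun v hv => ⟨hZ hx (div_ne_zero hc' hc) hv.1 (h1.hE h2 _ hv.1.1) e5.1,
      by simpa [mul_div_cancel₀ _ hc] using hW hx (div_ne_zero hc' hc) hv.2 ⟨e5.1, e7⟩⟩
  have h6 := fun c hc => le_antisymm (h5 c hc 1 one_ne_zero) (h5 1 one_ne_zero c hc)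
  have h7 : ∀ c ≠ 0, finrank ℂ ↥(Y ⊓ Wy R (x s) c) = Fintype.card F * finrank ℂ ↥(FZ R x Y [s] ⊓ Wy R (x r) 1) := fun c hc => by
    have h7 : (n : F) * c ≠ 0 := mul_ne_zero (left_ne_zero_of_mul_eq_one (by rw [← Int.cast_mul, e2, Int.cast_one])) hc
    rw [shift_dim (U := Y ⊓ Wy R (x s) c) (hx.add r) (st1 (Z := []) hx h0 h3 (by simpa using e4)) (mul_left_surjective₀ (neg_ne_zero.2 h7))
      (fun t c' v hv => ⟨st1 (Z := []) hx h0 h1 (by simpa using e3) t v hv.1, mv1 hx e1 hv.2 hv.1.2 t⟩) 0]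
    refine congrArg _ (le_antisymm ?_ ?_)
    · rw [← h6 _ (mul_ne_zero hc (eta_ne b s))]
      exact finrank_le_conj _ fun v hv => ⟨⟨h1.nE h2 1 hv.1.1, by simpa using nW hx hv.2 e5⟩, nW hx hv.1.2 e6⟩
    · rw [← h6 _ (mul_ne_zero hc (eta_ne b r))]
      exact finrank_le_conj _ fun v hv => ⟨⟨h1.nE h2 1 hv.1.1, nW' hx hv.2 e5⟩, by simpa using nW hx hv.1.2 e6⟩
  refine ⟨_, h6, h7, ?_⟩
  rw [dim_scale (hx.add s) h4 h7]
  exact congrArg (· + _) (dim_scale (hx.add r) (st1 (Z := []) hx h0 h3 (by simpa using e4)) h6)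

end Cfsg.Agent.H2.G2
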