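import Cfsg.Agent.H2.G2b

/-! Small representations of `G₂` in characteristic different from three. -/

set_option autoImplicit false
set_option linter.unusedSectionVars false

namespace Cfsg.Agent.H2.G2

open Module Cfsg.Lie Cfsg.Agent.H1 Cfsg.Agent.H8

variable {G : Type*} [Group G] [Finite G] {V : Type*} [AddCommGroup V] [Module ℂ V] [FiniteDimensional ℂ V]
  {F : Type*} [Field F] [Fintype F] [DecidableEq F] {R : G →* Module.End ℂ V} {x : ℕ → F → G}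
  {Y : Submodule ℂ V} {v : V} {c : F}

theorem exists_pow_ne {n : ℕ} (hn : 0 < n) (h : n + 1 < Fintype.card F) : ∃ l : F, l ≠ 0 ∧ l ^ (n : ℤ) ≠ 1 := by
  by_contra h0
  push Not at h0
  have := Nat.le_of_dvd hn ((FiniteField.forall_pow_eq_one_iff F n).1 fun a => Units.ext (by simpa using h0 a a.ne_zero))
  omega

theorem eq_of_Wy {y : F → G} {s s' : F} (h : v ∈ Wy R y s) (h' : v ∈ Wy R y s') (h0 : v ≠ 0) : s = s' :=
  chi_inj (funext fun t => smul_left_injective ℂ h0 ((h t).symm.trans (h' t)))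

theorem c0 : ((0 : ℕ) : F) = 0 := Nat.cast_zero

variable (hx : IsSt chevG2 x)
include hx

theorem W11_ne (hq : 3 < Fintype.card F) (hnt : ¬ ∀ r t, R (x r t) = 1) (hc : c ≠ 0) : ⊤ ⊓ Wy R (x 11) c ≠ ⊥ := fun h0 => by
  have h1 : ∀ {g w κ s}, Acts x g w κ → κ s ≠ 0 → ⊤ ≤ Wy R (x s) 0 → ⊤ ≤ Wy R (x (w s)) 0 := fun {g w κ s} h hk hs v _ => by
    simpa [rinv'] using actsW h (mul_inv_cancel₀ hk) (hs (Submodule.mem_top (x := R g⁻¹ v)))
  have h2 : ∀ {r s s'}, Rf r s s' → ⊤ ≤ Wy R (x s) 0 → ⊤ ≤ Wy R (x s') 0 := fun {r s s'} h =>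
    h.eq ▸ h1 (hx.acts_nE h.1 one_ne_zero) (by simpa using eta_ne r s)
  have h3 : ∀ {r}, ⊤ ≤ Wy R (x r) 0 → ∀ t, R (x r t) = 1 := fun h t => LinearMap.ext fun v => mem_Wy_zero.1 (h trivial) t
  have h11 : ⊤ ≤ Wy R (x 11) 0 := le_of_Wy (hx.add 11) (St_top 11) fun s v hv => by
    by_cases hs : s = 0
    · exact hs ▸ hv.2
    have := hW (r := 6) (a := -1) hx (div_ne_zero hs hc) hv.2
    rw [zpow_neg_one, inv_div, mul_div_cancel₀ _ hs] at this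
    rw [not_not.1 fun h => rne h _ ((Submodule.mem_bot ℂ).1 (h0.le ⟨trivial, this⟩))]
    exact zero_mem _
  have h10 := h2 (r := 6) (s' := 10) (by decide +kernel) h11
  have h6 := h2 (r := 7) (s' := 6) (by decide +kernel) h10
  have h4 : ∀ t u, R (x 8 (t * u)) * R (x 9 (t ^ 2 * u)) = 1 := fun t u => by
    have := congrArg R ((hx.comm' (r := 7) (s := 6) (by decide) (by decide)).conj t u)
    rw [ChevalleyDatum.commWord, show chevG2.commTerms 7 6 = [(8, -1, 1, 1), (9, 1, 2, 1), (10, 1, 3, 1), (11, 1, 3, 2)] from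
      by decide +kernel] at this
    simpa [h3 h6, h3 h10, h3 h11, ← map_mul R (x 7 t)⁻¹] using this.symm
  obtain ⟨a, ha, ha'⟩ := exists_pow_ne (F := F) one_pos (by omega)
  have h9 : ⊤ ≤ Wy R (x 9) 0 := fun v _ => mem_Wy_zero.2 fun t => by
    have h5 : a ^ 2 - a ≠ 0 := by rw [pow_two, ← mul_sub_one]; exact mul_ne_zero ha (sub_ne_zero.2 (by simpa using ha'))
    have h7 := h4 1 (a * (t / (a ^ 2 - a)))
    rw [← h4 a (t / (a ^ 2 - a)), one_mul, one_pow, one_mul] at h7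
    have h8 := rep_injective R _ (congrArg (· (R (x 9 (a * (t / (a ^ 2 - a))))⁻¹ v)) h7)
    rwa [rinv', ← rmul, ← hx.sub, ← sub_mul, mul_div_cancel₀ _ h5, eq_comm] at h8
  have h7 := h2 (r := 6) (s' := 7) (by decide +kernel) (h2 (r := 7) (s' := 8) (by decide +kernel) h9)
  refine hnt fun r => ?_
  by_cases hr : r < chevG2.nroots
  · obtain ⟨⟨l, i⟩, rfl⟩ := exists_word_simple hr
    refine h3 (h1 (hx.acts_nWd l) ((goodScal_wSign l).ne_zero (simple_lt i)) ?_)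
    fin_cases i
    exacts [h7, h6]
  · simp [hx.out r (not_lt.1 hr)]

theorem nat_col (h : ∀ r ∈ [5, 6, 10, 11], St R x r Y) :
    ∃ μ, (∀ c ≠ 0, finrank ℂ ↥(FZ R x Y [11] ⊓ Wy R (x 10) c) = μ) ∧
      (∀ c ≠ 0, finrank ℂ ↥(Y ⊓ Wy R (x 11) c) = Fintype.card F * μ) ∧
      finrank ℂ Y = finrank ℂ (FZ R x Y [10, 11]) + (Fintype.card F - 1) * μ + (Fintype.card F - 1) * (Fintype.card F * μ) :=
  nat_mod (b := 6) (n := 1) hx (by decide +kernel) (h 6 (by decide)) (h 5 (by decide)) (h 10 (by decide)) (h 11 (by decide))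

theorem shift79 (t δ : F) (v : V) (hv : v ∈ FZ R x ⊤ [11] ⊓ Wy R (x 10) c ⊓ Wy R (x 9) δ) :
    R (x 7 t) v ∈ FZ R x ⊤ [11] ⊓ Wy R (x 10) c ⊓ Wy R (x 9) (δ + -((3 : ℤ) * c) * t) :=
  ⟨st1 hx c0 (St_top 7) (by decide +kernel) t v hv.1, mv1 hx (by decide +kernel) hv.2 hv.1.2 t⟩

variable (h3 : (3 : F) ≠ 0) (hq : 4 < Fintype.card F) (hnt : ¬ ∀ r t, R (x r t) = 1)
  (hk : finrank ℂ V ≤ Fintype.card F ^ 3)
include h3 hq hnt hk

theorem base : finrank ℂ V = finrank ℂ (FZ R x ⊤ [10, 11]) + (Fintype.card F - 1) * Fintype.card F +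
      (Fintype.card F - 1) * (Fintype.card F * Fintype.card F) ∧
    ∀ c ≠ 0, ∀ δ, finrank ℂ ↥(FZ R x ⊤ [11] ⊓ Wy R (x 10) c ⊓ Wy R (x 9) δ) = 1 := by
  obtain ⟨μ, h1, h2, h4⟩ := nat_col (R := R) hx fun r _ => St_top r
  have h5 := fun c (hc : c ≠ 0) δ => (h1 c hc).symm.trans (shift_dim (hx.add 9) (st1 hx c0 (St_top 9))
    (mul_left_surjective₀ (neg_ne_zero.2 (mul_ne_zero (by simpa using h3) hc))) (shift79 hx) δ)
  have h6 := one_le_finrank (W11_ne hx (by omega) hnt one_ne_zero)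
  rw [finrank_top] at h4
  have h7 : ∀ c ≠ 0, ∀ δ, finrank ℂ ↥(FZ R x ⊤ [11] ⊓ Wy R (x 10) c ⊓ Wy R (x 9) δ) = 1 := fun c hc δ => by
    have h7 := h5 c hc δ
    rw [h2 1 one_ne_zero] at h6
    generalize finrank ℂ ↥(FZ R x ⊤ [11] ⊓ Wy R (x 10) c ⊓ Wy R (x 9) δ) = m at *
    subst h7
    clear h1 h2 h5
    generalize Fintype.card F = q at *
    obtain ⟨n, rfl⟩ := Nat.exists_eq_add_of_lt hq
    rw [Nat.add_sub_cancel] at h4
    rcases lt_trichotomy m 1 with h | h | h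
    · simp [Nat.lt_one_iff.1 h] at h6
    · exact h
    · have := Nat.mul_le_mul_left ((4 + n) * ((4 + n + 1) * (4 + n + 1))) h
      nlinarith
  exact ⟨by rw [h4, h5 1 one_ne_zero 0, h7 1 one_ne_zero 0, mul_one], h7⟩

theorem line_fix (hc : c ≠ 0) : FZ R x ⊤ [9, 11] ⊓ Wy R (x 10) c ≤ FZ R x ⊤ [6, 8, 9, 11] := fun v hv => by
  have h1 : finrank ℂ ↥(FZ R x ⊤ [9, 11] ⊓ Wy R (x 10) c) ≤ 1 :=
    (congrArg (fun U : Submodule ℂ V => finrank ℂ U) (inf_right_comm _ _ _)).trans_le ((base hx h3 hq hnt hk).2 c hc 0).le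
  have h2 : ∀ {l : F}, l ≠ 0 → ∀ v ∈ FZ R x ⊤ [9, 11] ⊓ Wy R (x 10) c, R (hE chevG2 x 8 l) v ∈ FZ R x ⊤ [9, 11] ⊓ Wy R (x 10) c :=
    fun hl v hv => ⟨hZ hx hl hv.1, by simpa using hW (a := 0) hx hl hv.2⟩
  obtain ⟨l, hl, hl'⟩ := exists_pow_ne (F := F) (n := 3) (by omega) hq
  obtain ⟨m, hm, hm'⟩ := exists_pow_ne (F := F) (n := 2) (by omega) (by omega)
  exact ⟨⟨hv.1, fix_line hx h1 (st1 hx c0 (St_top 8)) hm hm' (h2 hm) (by decide +kernel) hv⟩,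
    fix_line hx h1 (st1 hx c0 (St_top 6)) hl hl' (h2 hl) (by decide +kernel) hv⟩

theorem line_ne (hc : c ≠ 0) : FZ R x ⊤ [6, 11] ⊓ Wy R (x 10) c ≠ ⊥ := fun h => by
  have h1 := (base hx h3 hq hnt hk).2 c hc 0
  exact (one_le_finrank_iff.1 h1.ge) (eq_bot_iff.2 fun v hv =>
    h.le ⟨FZ_mono (line_fix hx h3 hq hnt hk hc ⟨⟨hv.1.1, hv.2⟩, hv.1.2⟩), hv.1.2⟩)

theorem bound2 : Fintype.card F ^ 3 - 1 ≤ finrank ℂ V := by
  have h1 := dim_ge (R := R) (y := x 6) (U := FZ R x ⊤ [10, 11]) fun s hs => one_le_finrank (ne_bot_conj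
    (line_ne hx h3 hq hnt hk (mul_ne_zero hs (eta_ne 7 10))) _ fun v hv => ⟨nZ (r := 7) hx hv.1, nW' hx hv.2⟩)
  have h2 := (base hx h3 hq hnt hk).1
  generalize Fintype.card F = q at *
  obtain ⟨n, rfl⟩ := Nat.exists_eq_add_of_lt hq
  rw [Nat.add_sub_cancel] at h1 h2
  rw [tsub_le_iff_right]
  nlinarith

theorem mem_W6 (t : F) (hv : v ∈ FZ R x ⊤ [11] ⊓ Wy R (x 10) 1 ⊓ Wy R (x 9) (-3 * t)) : v ∈ Wy R (x 6) (-t ^ 3) := by
  have h1 := shift79 hx (-t) _ v hv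
  rw [show -3 * t + -((3 : ℤ) * 1) * -t = 0 by push_cast; ring] at h1
  have h2 := line_fix hx h3 hq hnt hk one_ne_zero ⟨⟨h1.1.1, h1.2⟩, h1.1.2⟩
  have := mvx (r := 7) (t := t) (c' := -t ^ 3) hx (by decide) (by decide) (FZ_fix h2 6) (fun k => if k = 10 then 1 else 0)
    (T := [(8, -1, 1, 1), (9, 1, 2, 1), (10, 1, 3, 1), (11, 1, 3, 2)]) (by decide +kernel)
    (by simpa using ⟨FZ_fix h2 8, FZ_fix h2 9, h1.1.2, FZ_fix h2 11⟩) fun u => by simp; ring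
  rwa [← rmul, ← hx.add, add_neg_cancel, hx.zero, map_one] at this

end Cfsg.Agent.H2.G2
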