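import Cfsg.Agent.H2.G2c

/-! Restriction of small representations of `G₂` to the long root subgroups. -/

set_option autoImplicit false
set_option linter.unusedSectionVars false

namespace Cfsg.Agent.H2.G2

open Module Cfsg.Lie Cfsg.Agent.H1 Cfsg.Agent.H8

variable {G : Type*} [Group G] [Finite G] {V : Type*} [AddCommGroup V] [Module ℂ V] [FiniteDimensional ℂ V]
  {F : Type*} [Field F] [Fintype F] [DecidableEq F] {R : G →* Module.End ℂ V} {x : ℕ → F → G}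
  {Y : Submodule ℂ V} {v : V} {c : F}

theorem fixA {S : List ℕ} : v ∈ Fix R (XS x {r | r ∈ S}) ↔ v ∈ FZ R x ⊤ S := by
  simp only [mem_Fix, XS_le, mem_FZ, mem_Wy_zero, mem_Stb, Submodule.mem_top, true_and, Set.mem_ofPred_eq]

variable (hx : IsSt chevG2 x)
include hx

theorem conj1 {r s k : ℕ} {n : ℤ} (t u : F) (h : s ≠ r ∧ s ≠ chevG2.neg r ∧ chevG2.commTerms r s = [(k, n, 1, 1)] := by decide +kernel) :
    (x r t)⁻¹ * x s u * x r t = x s u * x k (-(n * t * u)) := by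
  simp [(hx.comm' h.1 h.2.1).conj, ChevalleyDatum.commWord, h.2.2]

theorem normA {r : ℕ} {S : List ℕ} (t : F) (h : ∀ s ∈ S, s ≠ r ∧ s ≠ chevG2.neg r ∧ ∀ c ∈ chevG2.commTerms r s, c.1 ∈ S := by decide +kernel) :
    ∀ a ∈ XS x {r | r ∈ S}, x r t * a * (x r t)⁻¹ ∈ XS x {r | r ∈ S} := fun _ => conj_mem_of_XS fun s hs u => by
  have := (hx.comm' (h s hs).1 (h s hs).2.1).conj (-t) u
  rw [hx.neg, inv_inv] at this
  refine this ▸ mul_mem (x_mem_XS hs u) (ev_mem_XS fun p hp => ?_)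
  obtain ⟨c, hc, rfl⟩ := mem_commWord hp
  exact (h s hs).2.2 c hc

theorem indep (h : ∀ r ∈ [0, 1, 5, 6, 10, 11], St R x r Y) (h0 : FZ R x Y [10, 6, 11] = ⊥) :
    Fintype.card F * Fintype.card F * finrank ℂ (FZ R x Y [6, 11]) ≤ finrank ℂ Y := by
  have h1 : ∀ t ≠ 0, ∀ v ∈ FZ R x Y [6, 11], av R (XS x {r | r ∈ [6, 11]}) (R (x 5 t) v) = 0 := fun t ht v hv => by
    have h1 : -t⁻¹ ≠ 0 := by simpa using ht
    have h2 : x 5 t = x 6 t⁻¹ * (hE chevG2 x 6 (-t⁻¹) * nE chevG2 x 6 1) * x 6 t⁻¹ := by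
      rw [← hx.nE_eq, nE, inv_neg, inv_inv, neg_neg, hx.neg]; simp [mul_assoc]; rfl
    have h3 : R (hE chevG2 x 6 (-t⁻¹)) (R (nE chevG2 x 6 1) v) ∈ FZ R x Y [10] :=
      hZ hx h1 (nZ hx hv ((h 6 (by decide)).nE (h 5 (by decide)) _ hv.1.1))
        ((h 6 (by decide)).hE (h 5 (by decide)) _ ((h 6 (by decide)).nE (h 5 (by decide)) _ hv.1.1))
    rw [h2, rmul, rmul, mem_Wy_zero.1 hv.2, av_right (x_mem_XS (by simp) _), rmul]
    generalize R (hE chevG2 x 6 (-t⁻¹)) (R (nE chevG2 x 6 1) v) = w at h3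
    refine (Submodule.mem_bot ℂ).1 (h0.le ⟨mem_FZ.2 ⟨av_mem_of fun a ha => ?_, (mem_FZ.1 (fixA.1 (av_mem _ w))).2⟩,
      mem_Wy_zero.2 fun u => by rw [av_conj (normA hx u), mem_Wy_zero.1 h3.2]⟩)
    refine StbS.mem ((XS_le (H := StbS R Y)).2 (fun r hr u => mem_StbS (h r ?_ u)) ha) h3.1
    exact (by decide : ∀ r ∈ [6, 11], r ∈ [0, 1, 5, 6, 10, 11]) r hr
  have h2 : ∀ t ≠ 0, ∀ u, ∀ v ∈ FZ R x Y [6, 11], av R (XS x {r | r ∈ [6, 11]}) (R (x 5 t * x 0 u) v) = 0 := fun t ht u v hv => by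
    have h2 := conj1 (r := 1) (s := 5) (k := 0) (n := 1) hx (-u / t) t
    rw [Int.cast_one, one_mul, div_mul_cancel₀ _ ht, neg_neg, ← hx.neg] at h2
    rw [← h2, rmul, rmul, ← av_conj (normA hx _), h1 t ht _ (stZ hx c0 (h 1 (by decide)) (by decide +kernel) _ v hv), map_zero]
  have h3 : ∀ t u, x 0 u * x 5 t = x 5 t * x 0 u := fun t u => by
    simpa [ChevalleyDatum.commWord, show chevG2.commTerms 5 0 = [] from by decide +kernel] using
      (hx.comm' (r := 5) (s := 0) (by decide) (by decide)).swap t u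
  rw [← Fintype.card_prod]
  refine card_mul_le_of_av (A := XS x {r | r ∈ [6, 11]}) (fun p : F × F => x 5 p.1 * x 0 p.2) (fun v hv => fixA.2 (FZ_mono hv le_top))
    (fun p v hv => by rw [rmul]; exact h 5 (by decide) _ _ (h 0 (by decide) _ _ hv.1.1)) fun p p' e v hv => ?_
  rw [mul_inv_rev, mul_assoc, ← mul_assoc (x 5 p.1)⁻¹, ← hx.neg, ← hx.neg, ← hx.add, ← mul_assoc, h3, mul_assoc, ← hx.add]
  by_cases ht : -p.1 + p'.1 = 0
  · have h4 : -p.2 + p'.2 ≠ 0 := fun e' => e (Prod.ext (neg_add_eq_zero.1 ht).symm (neg_add_eq_zero.1 e').symm)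
    have h5 := conj1 (r := 10) (s := 0) (k := 5) (n := 1) hx 1 (-p.2 + p'.2)
    rw [h3, mul_assoc, inv_mul_eq_iff_eq_mul, ← eq_mul_inv_iff_mul_eq, ← hx.neg] at h5
    rw [ht, hx.zero, one_mul, h5, rmul, rmul, ← av_conj (normA hx _),
      h2 _ (neg_ne_zero.2 (mul_ne_zero (by simp) h4)) _ _ (stZ hx c0 (h 10 (by decide)) (by decide +kernel) _ v hv), map_zero]
  · exact h2 _ ht _ v hv

theorem fcomp_z {l δ : F} (hl : l ≠ 0) {ζ : ℂ} (hv : R (hE chevG2 x 8 l) v = ζ • v) :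
    R (hE chevG2 x 8 l) (fcomp (fun t => R (x 9 t)) (chi (δ * l)) v) = ζ • fcomp (fun t => R (x 9 t)) (chi δ) v := by
  rw [fcomp_apply, fcomp_apply, map_sum, Finset.smul_sum]
  refine Fintype.sum_equiv (Equiv.mulLeft₀ l hl) _ _ fun t => ?_
  have := hx.hE_conj (r := 8) (by decide) hl 9 t
  rw [show A chevG2 8 9 = 1 from by decide +kernel, zpow_one, mul_inv_eq_iff_eq_mul] at this
  rw [map_smul, ← rmul, this, rmul, hv, map_smul, smul_comm, chi_eq (c := δ) (w := -(l * t)) (by ring)]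
  rfl

variable (h3 : (3 : F) ≠ 0) (hq : 4 < Fintype.card F) (hnt : ¬ ∀ r t, R (x r t) = 1)
  (hk : finrank ℂ V ≤ Fintype.card F ^ 3)
include h3 hq hnt hk

theorem eq_cube {β δ : F} (hv : v ∈ FZ R x ⊤ [11] ⊓ Wy R (x 10) 1 ⊓ Wy R (x 6) β ⊓ Wy R (x 9) δ) (h0 : v ≠ 0) :
    β = -(-δ / 3) ^ 3 :=
  eq_of_Wy hv.1.2 (mem_W6 hx h3 hq hnt hk _ ⟨hv.1.1, by rw [show -3 * (-δ / 3) = δ by field_simp]; exact hv.2⟩) h0

theorem line_le : finrank ℂ ↥(FZ R x ⊤ [6, 11] ⊓ Wy R (x 10) 1) ≤ 1 := by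
  refine le_of_le_of_eq (Submodule.finrank_mono (?_ : _ ≤ FZ R x ⊤ [11] ⊓ Wy R (x 10) 1 ⊓ Wy R (x 9) 0))
    ((base hx h3 hq hnt hk).2 1 one_ne_zero 0)
  refine fun v hv => ⟨⟨hv.1.1, hv.2⟩, ?_⟩
  refine le_of_Wy (hx.add 9) (st1 hx c0 (St_top 9)) (fun δ v hv => by_contra fun h => ?_) hv
  have := eq_cube hx h3 hq hnt hk ⟨⟨⟨hv.1.1.1, hv.1.2⟩, hv.1.1.2⟩, hv.2⟩ fun e => h (e ▸ zero_mem _)
  rw [eq_comm, neg_eq_zero, pow_eq_zero_iff three_ne_zero, div_eq_zero_iff, or_iff_left h3, neg_eq_zero] at this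
  exact h (this ▸ hv.2)

variable {ω : F} (hω : ω ^ 2 + ω + 1 = 0) {ζ : ℂ} (hζ : ζ ≠ 0) (hY : ∀ v ∈ Y, R (hE chevG2 x 8 ω) v = ζ • v)
include hω hζ hY

theorem dim_cube (β : F) : finrank ℂ ↥(FZ R x Y [11] ⊓ Wy R (x 10) 1 ⊓ Wy R (x 6) β) ≤ 1 ∧
    ((∀ t, -t ^ 3 ≠ β) → finrank ℂ ↥(FZ R x Y [11] ⊓ Wy R (x 10) 1 ⊓ Wy R (x 6) β) = 0) := by
  have h0 : ω ≠ 0 := by rintro rfl; simp at hω
  have hb : ∀ δ w w' : F, chi δ (w + w') = chi δ w * chi δ w' := fun δ w w' => (chi_mul (mul_add _ _ _).symm).symm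
  have h1 : ∀ δ, ∀ v ∈ FZ R x Y [11] ⊓ Wy R (x 10) 1 ⊓ Wy R (x 6) β, fcomp (fun t => R (x 9 t)) (chi δ) v ∈
      FZ R x ⊤ [11] ⊓ Wy R (x 10) 1 ⊓ Wy R (x 6) β ⊓ Wy R (x 9) δ := fun δ v hv =>
    ⟨by rw [fcomp_apply]; exact Submodule.sum_mem _ fun t _ => Submodule.smul_mem _ _
          (st2 hx c0 (St_top 9) (by decide +kernel) t v ⟨⟨FZ_mono hv.1.1 le_top, hv.1.2⟩, hv.2⟩),
      fcomp_mem _ (fun t u => by simp only [hx.add, map_mul]) _ (hb δ) v⟩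
  have h2 : ∀ v ∈ FZ R x Y [11] ⊓ Wy R (x 10) 1 ⊓ Wy R (x 6) β, (∀ δ, β = -(-δ / 3) ^ 3 → fcomp (fun t => R (x 9 t)) (chi δ) v = 0) →
      v = 0 := fun v hv h => by
    have := sum_fcomp (fun t => R (x 9 t)) (by simp [hx.zero]) chi (fun _ => by simp [chi]) (fun w hw => by
      obtain ⟨u, hu⟩ := exists_chi hw
      exact sum_psi_eq_zero _ (AddMonoidHom.mulRight w) ⟨u, by simpa [chi, mul_comm w] using hu⟩) v
    rw [Finset.sum_eq_zero fun δ _ => by_contra fun e => e (h δ (eq_cube hx h3 hq hnt hk (h1 δ v hv) e))] at this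
    exact (smul_eq_zero.1 this.symm).resolve_left (by simp)
  have h4 : (∀ t, -t ^ 3 ≠ β) → finrank ℂ ↥(FZ R x Y [11] ⊓ Wy R (x 10) 1 ⊓ Wy R (x 6) β) = 0 := fun h =>
    Submodule.finrank_eq_zero.2 (eq_bot_iff.2 fun v hv => h2 v hv fun δ e => absurd e.symm (h _))
  refine ⟨?_, h4⟩
  by_cases h : ∀ t, -t ^ 3 ≠ β
  · exact (h4 h).trans_le zero_le_one
  push Not at h
  obtain ⟨t, rfl⟩ := h
  refine le_trans (LinearMap.finrank_le_finrank_of_injective (f := (fcomp (fun t => R (x 9 t)) (chi (-3 * t))).restrict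
    (q := FZ R x ⊤ [11] ⊓ Wy R (x 10) 1 ⊓ Wy R (x 9) (-3 * t)) fun v hv => ⟨(h1 _ v hv).1.1, (h1 _ v hv).2⟩) ((injective_iff_map_eq_zero _).2 fun v hv => Subtype.ext (h2 v v.2 fun δ e => ?_)))
    ((base hx h3 hq hnt hk).2 1 one_ne_zero _).le
  have h5 : ∀ δ, fcomp (fun t => R (x 9 t)) (chi δ) v = 0 → fcomp (fun t => R (x 9 t)) (chi (δ * ω)) v = 0 := fun δ e =>
    not_not.1 fun e' => rne e' _ (by rw [fcomp_z hx h0 (hY _ v.2.1.1.1), e, smul_zero])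
  have h6 : fcomp (fun t => R (x 9 t)) (chi (-3 * t)) v = 0 := congrArg Subtype.val hv
  have h7 : (δ - -3 * t) * (δ - -3 * t * ω) * (δ - -3 * t * ω * ω) = 0 := by
    field_simp at e
    linear_combination -e + (3 * t * δ ^ 2 + 9 * t ^ 2 * δ * ω + 27 * t ^ 3 * (ω - 1)) * hω
  simp only [mul_eq_zero, sub_eq_zero] at h7
  rcases h7 with (rfl | rfl) | rfl
  exacts [h6, h5 _ h6, h5 _ (h5 _ h6)]

theorem dim_mu (h : ∀ r ∈ [0, 1, 5, 6, 10, 11], St R x r Y) (h0 : FZ R x Y [6, 11] ⊓ Wy R (x 10) 1 ≠ ⊥) :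
    ∃ D ≤ 1, 3 * finrank ℂ ↥(FZ R x Y [11] ⊓ Wy R (x 10) 1) = 3 + (Fintype.card F - 1) * D := by
  have h1 := dim_cube hx h3 hq hnt hk hω hζ hY
  have h2 : ∀ t ≠ 0, ∀ u ≠ 0, finrank ℂ ↥(FZ R x Y [11] ⊓ Wy R (x 10) 1 ⊓ Wy R (x 6) (-t ^ 3)) ≤
      finrank ℂ ↥(FZ R x Y [11] ⊓ Wy R (x 10) 1 ⊓ Wy R (x 6) (-u ^ 3)) := fun t ht u hu => by
    have hl := div_ne_zero ht hu
    refine finrank_le_conj (R := R) (hE chevG2 x 6 ((t / u) ^ 2) * hE chevG2 x 10 (t / u)) fun v hv => ?_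
    have h2 := (h 10 (by decide)).hE (h 1 (by decide)) (t / u) hv.1.1.1
    rw [rmul]
    refine ⟨⟨hZ hx (pow_ne_zero _ hl) (hZ hx hl hv.1.1 h2) ((h 6 (by decide)).hE (h 5 (by decide)) _ h2), ?_⟩, ?_⟩
    · have := hW (r := 6) (a := 1) hx (pow_ne_zero 2 hl) (hW (r := 10) (a := -2) hx hl hv.1.2)
      rwa [show 1 * (t / u) ^ (-2 : ℤ) * ((t / u) ^ 2) ^ (1 : ℤ) = 1 from by
        rw [zpow_neg, zpow_one, zpow_ofNat]; field_simp] at this
    · have := hW (r := 6) (a := -2) hx (pow_ne_zero 2 hl) (hW (r := 10) (a := 1) hx hl hv.2)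
      rwa [show -t ^ 3 * (t / u) ^ (1 : ℤ) * ((t / u) ^ 2) ^ (-2 : ℤ) = -u ^ 3 from by
        rw [zpow_neg, zpow_one, zpow_ofNat]; field_simp] at this
  refine ⟨_, (h1 (-1 ^ 3)).1, ?_⟩
  have hω0 : ω ≠ 0 := by rintro rfl; simp at hω
  have hω1 : ω - 1 ≠ 0 := fun e => h3 (by rw [sub_eq_zero.1 e] at hω; linear_combination hω)
  have h4 := Finset.sum_comp (s := Finset.univ.erase (0 : F))
    (fun β => finrank ℂ ↥(FZ R x Y [11] ⊓ Wy R (x 10) 1 ⊓ Wy R (x 6) β)) fun t => -t ^ 3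
  rw [Finset.sum_congr rfl fun t ht => le_antisymm (h2 t (Finset.ne_of_mem_erase ht) 1 one_ne_zero)
    (h2 1 one_ne_zero t (Finset.ne_of_mem_erase ht)), Finset.sum_const, card_erase, smul_eq_mul] at h4
  rw [dim_split (hx.add 6) (st1 hx c0 (h 6 (by decide))), ← Finset.add_sum_erase _ _ (Finset.mem_univ 0), h4, mul_add,
    le_antisymm (h1 0).1 (one_le_finrank fun e => h0 ((inf_right_comm _ _ _).trans e)), Finset.mul_sum]
  refine congrArg _ (Finset.sum_subset_zero_on_sdiff ?_ ?_ ?_).symm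
  · exact Finset.image_subset_iff.2 fun t ht => by simpa using Finset.ne_of_mem_erase ht
  · intro β hβ
    simp only [Finset.mem_sdiff, Finset.mem_image, not_exists, not_and] at hβ
    rw [(h1 β).2 fun t e => hβ.2 t (Finset.mem_erase.2 ⟨by rintro rfl; simp [← e] at hβ, Finset.mem_univ _⟩) e, mul_zero]
  · intro β hβ
    obtain ⟨t, ht, rfl⟩ := Finset.mem_image.1 hβ
    have ht' := Finset.ne_of_mem_erase ht
    rw [smul_eq_mul, show Finset.filter _ _ = {t, t * ω, t * ω * ω} from Finset.ext fun u => ?_, Finset.card_eq_three.2 ⟨_, _, _, ?_, ?_, ?_, rfl⟩]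
    · exact fun e => mul_ne_zero ht' hω1 (by linear_combination -e)
    · exact fun e => mul_ne_zero ht' hω1 (by linear_combination ω * e + t * (ω - 1) * hω)
    · exact fun e => mul_ne_zero (mul_ne_zero ht' hω0) hω1 (by linear_combination -e)
    have : (u - t) * (u - t * ω) * (u - t * ω * ω) = u ^ 3 - t ^ 3 := by
      linear_combination (-t * u ^ 2 + t ^ 2 * u * ω - t ^ 3 * (ω - 1)) * hω
    simp only [Finset.mem_filter, Finset.mem_erase, Finset.mem_univ, and_true, _root_.neg_inj, Finset.mem_insert, Finset.mem_singleton]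
    rw [← sub_eq_zero (a := u ^ 3), ← this]
    simp only [mul_eq_zero, sub_eq_zero, or_assoc, and_iff_right_iff_imp]
    rintro (rfl | rfl | rfl) <;> simp [ht', hω0]

omit hζ hY in
theorem bound1 : ∃ d, d ∣ Nat.card G ∧ (d + 1 = Fintype.card F ^ 2 + Fintype.card F ∨
    3 * d + 2 = Fintype.card F ^ 3 + 2 * Fintype.card F ^ 2 + 2 * Fintype.card F) := by
  have hω0 : ω ≠ 0 := by rintro rfl; simp at hω
  have hω3 : ω ^ 3 = 1 := by linear_combination (ω - 1) * hω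
  set z := hE chevG2 x 8 ω
  have h1 : ∀ r ∈ [0, 1, 5, 6, 10, 11], ∀ t, x r t ∈ Subgroup.centralizer {z} := fun r hr t => by
    obtain ⟨m, hm⟩ := (by decide +kernel : ∀ r ∈ [0, 1, 5, 6, 10, 11], 3 ∣ A chevG2 8 r) r hr
    have := hx.hE_conj (r := 8) (by decide) hω0 r t
    rw [hm, zpow_mul, zpow_ofNat, hω3, one_zpow, one_mul, mul_inv_eq_iff_eq_mul] at this
    exact Subgroup.mem_centralizer_singleton_iff.2 this.symm
  obtain ⟨v, hv, h0⟩ := (Submodule.ne_bot_iff _).1 (line_ne hx h3 hq hnt hk one_ne_zero)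
  have hL := line_le hx h3 hq hnt hk
  obtain ⟨ζ, hζ⟩ := Submodule.mem_span_singleton.1 (mem_span_of_finrank hL hv h0 (w := R z v)
    ⟨hZ hx hω0 hv.1, by simpa using hW (a := 0) hx hω0 hv.2⟩)
  obtain ⟨Y, hY1, hY2, hY3, hY4⟩ := exists_irr (R.comp (Subgroup.centralizer {z}).subtype) hL hv h0 fun S T e hS hT a ha b hb h =>
    have := fun r hr s => Wy_split (R := R) (s := s) e (fun t => hS ⟨_, h1 r hr t⟩) (fun t => hT ⟨_, h1 r hr t⟩) ha hb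
    ⟨⟨⟨trivial, this 11 (by decide) _ h.1.1.2⟩, this 6 (by decide) _ h.1.2⟩, this 10 (by decide) _ h.2⟩
  have hS : ∀ r ∈ [0, 1, 5, 6, 10, 11], St R x r Y := fun r hr t => hY2 ⟨_, h1 r hr t⟩
  have hY : ∀ v ∈ Y, R z v = ζ • v := fun w hw => End.mem_eigenspace_iff.1 (hY3 ((R z).eigenspace ζ)
    (End.mem_eigenspace_iff.2 hζ.symm) (fun g u hu => End.mem_eigenspace_iff.2 (by
      show R z (R g u) = ζ • R g u
      rw [← rmul, ← Subgroup.mem_centralizer_singleton_iff.1 g.2, rmul, End.mem_eigenspace_iff.1 hu, map_smul])) hw)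
  have hv' : FZ R x Y [6, 11] ⊓ Wy R (x 10) 1 ≠ ⊥ := (Submodule.ne_bot_iff _).2 ⟨v, ⟨⟨⟨hY1, hv.1.1.2⟩, hv.1.2⟩, hv.2⟩, h0⟩
  obtain ⟨D, hD, h2⟩ := dim_mu hx h3 hq hnt hk hω (fun e => rne h0 z (by rw [← hζ, e, zero_smul])) hY hS hv'
  obtain ⟨μ, h4, h5, -⟩ := nat_col hx fun r hr => hS r ((by decide : ∀ r ∈ [5, 6, 10, 11], r ∈ [0, 1, 5, 6, 10, 11]) r hr)
  obtain ⟨μ', -, h6, h7⟩ := nat_mod (r := 6) (s := 11) (b := 10) (n := -1) hx (by decide +kernel) (hS 10 (by decide)) (hS 1 (by decide))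
    (hS 6 (by decide)) (hS 11 (by decide))
  obtain rfl := Nat.eq_of_mul_eq_mul_left Fintype.card_pos ((h5 1 one_ne_zero).symm.trans (h6 1 one_ne_zero))
  have h8 := dim_ge (R := R) (y := x 10) (U := FZ R x Y [6, 11]) fun s hs => one_le_finrank (ne_bot_conj hv' _ fun v hv =>
    ⟨hZ hx hs hv.1 ((hS 6 (by decide)).hE (hS 5 (by decide)) _ hv.1.1.1), by simpa using hW (r := 6) (a := 1) hx hs hv.2⟩)
  have h9 : finrank ℂ (FZ R x Y [6, 11]) ≤ finrank ℂ (FZ R x ⊤ [10, 11]) := finrank_le_conj _ fun v hv => nZ (r := 7) hx hv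
  have h10 := (base hx h3 hq hnt hk).1
  have h11 := fun h => indep hx hS (Submodule.finrank_eq_zero.1 h)
  rw [h4 1 one_ne_zero] at h2
  refine ⟨_, hY4.trans (Subgroup.card_subgroup_dvd_card _), ?_⟩
  change finrank ℂ (FZ R x Y [10, 6, 11]) + _ ≤ _ at h8
  generalize finrank ℂ (FZ R x Y [10, 6, 11]) = e at *
  generalize finrank ℂ (FZ R x Y [6, 11]) = n at *
  generalize Fintype.card F = q at *
  obtain ⟨m, rfl⟩ := Nat.exists_eq_add_of_lt hq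
  rw [Nat.add_sub_cancel] at h2 h7 h8 h10
  have h12 : n ≤ 4 + m + 1 := by nlinarith
  rcases e.eq_zero_or_pos with rfl | h
  · have := (Nat.mul_le_mul_left _ h8).trans (h11 rfl)
    have := Nat.mul_le_mul_left (4 + m) hD
    nlinarith
  obtain rfl : n = 4 + m + 1 := by omega
  rcases Nat.le_one_iff_eq_zero_or_eq_one.1 hD with rfl | rfl
  · obtain rfl : μ = 1 := by omega
    exact Or.inl (by rw [h7]; ring)
  · exact Or.inr (by rw [h7]; nlinarith)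

end Cfsg.Agent.H2.G2
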