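import Cfsg.Agent.H2.G2c

/-! Small representations of `G₂` in characteristic three. -/

set_option autoImplicit false
set_option linter.unusedSectionVars false

namespace Cfsg.Agent.H2.G2

open Module Cfsg.Lie Cfsg.Agent.H1 Cfsg.Agent.H8

variable {G : Type*} [Group G] [Finite G] {V : Type*} [AddCommGroup V] [Module ℂ V] [FiniteDimensional ℂ V]
  {F : Type*} [Field F] [Fintype F] [DecidableEq F] {R : G →* Module.End ℂ V} {x : ℕ → F → G}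
  {Y : Submodule ℂ V} {v : V} {c : F}

open Polynomial in
theorem card_le_image (S : Finset F) (p : F[X]) (hp : 0 < p.natDegree) : S.card ≤ p.natDegree * (S.image p.eval).card :=
  Finset.card_le_mul_card_image S _ fun b _ => by
    have h : (p - C b).natDegree = p.natDegree := natDegree_sub_C
    refine h ▸ card_le_degree_of_subset_roots fun t ht => (mem_roots fun e => ?_).2 ?_
    · rw [e, natDegree_zero] at h; omega
    · simpa [sub_eq_zero] using (Finset.mem_filter.1 ht).2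

theorem cube_surj (h3 : ((3 : ℕ) : F) = 0) : Function.Surjective fun t : F => t ^ 3 :=
  Finite.injective_iff_surjective.1 fun t u (e : t ^ 3 = u ^ 3) => sub_eq_zero.1 (pow_eq_zero_iff three_ne_zero |>.1 (by
    push_cast at h3; linear_combination e + (t * u ^ 2 - t ^ 2 * u) * h3))

variable (hx : IsSt chevG2 x)
include hx

theorem nWi {r s s' : ℕ} (hv : R (nE chevG2 x r 1) v ∈ Wy R (x s') 0) (h : Rf r s s' := by decide +kernel) :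
    v ∈ Wy R (x s) 0 := mem_Wy_zero.2 fun t => rep_injective R (nE chevG2 x r 1) (by
  have := hx.nE_conj h.1 one_ne_zero s t
  rw [mul_inv_eq_iff_eq_mul, h.eq] at this
  rw [← rmul, this, rmul, mem_Wy_zero.1 hv])

theorem hW0 {r s : ℕ} {l : F} (hl : l ≠ 0) (hv : v ∈ Wy R (x s) c) (h : r < 12 ∧ A chevG2 r s = -0 := by decide +kernel) :
    R (hE chevG2 x r l) v ∈ Wy R (x s) c := by simpa using hW hx hl hv h

theorem hW1 {r s : ℕ} {d : F} (hc : c ≠ 0) (hd : d ≠ 0) (hv : v ∈ Wy R (x s) c) (h : r < 12 ∧ A chevG2 r s = -1 := by decide +kernel) :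
    R (hE chevG2 x r (d / c)) v ∈ Wy R (x s) d := by simpa [mul_div_cancel₀ _ hc] using hW (a := 1) hx (div_ne_zero hd hc) hv h

theorem mv76 {β γ ε : F} (hv : v ∈ FZ R x ⊤ [9, 11]) (h8 : v ∈ Wy R (x 8) γ) (h10 : v ∈ Wy R (x 10) ε) (h6 : v ∈ Wy R (x 6) β)
    (t : F) : R (x 7 t) v ∈ Wy R (x 6) (β + (γ * t - ε * t ^ 3)) :=
  mvx hx (by decide) (by decide) h6 (fun k => if k = 8 then γ else if k = 10 then ε else 0)
    (T := [(8, -1, 1, 1), (9, 1, 2, 1), (10, 1, 3, 1), (11, 1, 3, 2)]) (by decide +kernel)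
    (by simpa using ⟨h8, FZ_fix hv 9, h10, FZ_fix hv 11⟩) fun u => by simp; ring

theorem ne_scale {Z : List ℕ} {r k : ℕ} (hc : c ≠ 0) (h0 : FZ R x ⊤ Z ⊓ Wy R (x r) c ≠ ⊥) (h : k < 12 ∧ A chevG2 k r = -1) :
    ∀ s ≠ 0, FZ R x ⊤ Z ⊓ Wy R (x r) s ≠ ⊥ := fun s hs => ne_bot_conj h0 _ fun v hv =>
  ⟨hZ hx (div_ne_zero hs hc) hv.1 trivial h.1, hW1 hx hc hs hv.2 h⟩

theorem ne_of_not_le {Z : List ℕ} {r k : ℕ} (h0 : ¬ FZ R x ⊤ Z ≤ Wy R (x r) 0) (h : k < 12 ∧ A chevG2 k r = -1)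
    (h1 : ∀ s ∈ Z, Ok 0 r Z s := by decide +kernel) : ∀ s ≠ 0, FZ R x ⊤ Z ⊓ Wy R (x r) s ≠ ⊥ := fun s hs e =>
  h0 (le_of_Wy (hx.add r) (stZ hx c0 (St_top r) h1) fun c => by
    by_cases hc : c = 0
    · exact hc ▸ inf_le_right
    · exact (not_not.1 fun h2 => ne_scale hx hc h2 h s hs e).trans_le bot_le)

variable (h3 : ((3 : ℕ) : F) = 0)
include h3

theorem mv78 {γ δ : F} (h8 : v ∈ Wy R (x 8) γ) (h9 : v ∈ Wy R (x 9) δ) (t : F) : R (x 7 t) v ∈ Wy R (x 8) (γ + -δ * t) :=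
  mvx hx (by decide) (by decide) h8 (fun _ => δ) (T := [(9, -2, 1, 1), (10, -3, 2, 1), (11, 3, 1, 2)]) (by decide +kernel)
    (by simpa [show (3 : F) = 0 from h3] using Or.inr h9) fun u => by
      have h : (3 : F) = 0 := h3
      simp [h]; linear_combination δ * t * u * h

theorem ge_d {Z : List ℕ} {r : ℕ} {δ : F} (hδ : δ ≠ 0) (h0 : FZ R x ⊤ Z ⊓ Wy R (x r) c ⊓ Wy R (x 9) δ ≠ ⊥)
    (h : (∀ z ∈ 9 :: r :: Z, Ok 3 8 Z z) ∧ ∀ z ∈ 9 :: r :: Z, Ok 3 7 Z z := by decide +kernel) :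
    Fintype.card F ≤ finrank ℂ ↥(FZ R x ⊤ Z ⊓ Wy R (x r) c ⊓ Wy R (x 9) δ) ∧
      FZ R x ⊤ Z ⊓ Wy R (x r) c ⊓ Wy R (x 9) δ ⊓ Wy R (x 8) 0 ≠ ⊥ :=
  have h1 := fun t _ v hv => (⟨st2 hx h3 (St_top 7) h.2 t v hv.1, mv78 hx h3 hv.2 hv.1.2 t⟩ :
    R (x 7 t) v ∈ FZ R x ⊤ Z ⊓ Wy R (x r) c ⊓ Wy R (x 9) δ ⊓ Wy R (x 8) _)
  ⟨shift_ge (hx.add 8) (st2 hx h3 (St_top 8) h.1) (mul_left_surjective₀ (neg_ne_zero.2 hδ)) h1 h0,
    shift_ne (hx.add 8) (st2 hx h3 (St_top 8) h.1) (mul_left_surjective₀ (neg_ne_zero.2 hδ)) h1 h0 0⟩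

theorem dim_e (hc : c ≠ 0) : finrank ℂ ↥(FZ R x ⊤ [8, 9, 11] ⊓ Wy R (x 10) c) =
    Fintype.card F * finrank ℂ ↥(FZ R x ⊤ [8, 9, 11] ⊓ Wy R (x 10) c ⊓ Wy R (x 6) 0) :=
  shift_dim (U := FZ R x ⊤ [8, 9, 11] ⊓ Wy R (x 10) c) (hx.add 6) (st1 hx h3 (St_top 6)) (f := fun t => 0 * t - c * t ^ 3)
    (by simpa [Function.comp_def] using (mul_left_surjective₀ (neg_ne_zero.2 hc)).comp (cube_surj h3))
    (fun t _ v hv => ⟨st1 hx h3 (St_top 7) (by decide +kernel) t v hv.1, mv76 hx hv.1.1.1 hv.1.1.2 hv.1.2 hv.2 t⟩) 0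

variable (hq : 8 < Fintype.card F) (hnt : ¬ ∀ r t, R (x r t) = 1)
include hq hnt

theorem exists_dθ : ∃ s ≠ 0, ∃ δ ≠ 0, FZ R x ⊤ [] ⊓ Wy R (x 11) s ⊓ Wy R (x 9) δ ≠ ⊥ := by
  by_contra h
  push Not at h
  have h1 : ∀ s ≠ 0, ∀ v ∈ Wy R (x 11) s, v ∈ Wy R (x 9) 0 := fun s hs v hv =>
    le_of_Wy (hx.add 9) (st1 (Z := []) hx h3 (St_top 9)) (fun δ => by
      by_cases hδ : δ = 0
      · exact hδ ▸ inf_le_right
      · exact (h s hs δ hδ).trans_le bot_le) ⟨trivial, hv⟩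
  have h2 : ∀ s ≠ 0, ∀ v ∈ Wy R (x 11) s, v ∈ Wy R (x 8) 0 := fun s hs v hv =>
    nWi (r := 7) hx (h1 _ (mul_ne_zero hs (eta_ne 7 11)) _ (nW hx hv))
  have h4 : ∀ s ≠ 0, ∀ v ∈ Wy R (x 10) s, v ∈ Wy R (x 7) 0 := fun s hs v hv =>
    nWi (r := 6) hx (h2 _ (mul_ne_zero hs (eta_ne 6 10)) _ (nW hx hv))
  have h5 : ∀ {t c : F} {v}, v ∈ Wy R (x 11) 1 → v ∈ Wy R (x 10) c → R (x 6 t) v ∈ Wy R (x 10) (c + -((1 : ℤ) * 1) * t) :=
    fun h h' => mv1 hx (by decide +kernel) h' h _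
  obtain ⟨v, hv, h0⟩ := (Submodule.ne_bot_iff _).1 (shift_ne (hx.add 10) (st1 (Z := []) hx h3 (St_top 10))
    (mul_left_surjective₀ (by simp)) (fun t _ v hv => ⟨st1 (Z := []) hx h3 (St_top 6) (by decide +kernel) t v hv.1, h5 hv.1.2 hv.2⟩)
    (W11_ne hx (by omega) hnt one_ne_zero) 1)
  obtain ⟨u, hu, hu'⟩ := exists_pow_ne (F := F) (n := 2) (by omega) (by omega)
  have h6 := h4 _ (fun e => hu' (by rw [show u = 1 by push_cast at e; linear_combination -e]; simp)) _ (h5 (t := u) hv.1.2 hv.2)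
  refine hu (by_contra fun _ => hu' ?_)
  have h7 := eq_zero_of_chi (a := u - 2 * u ^ 2) fun w => by
    obtain ⟨t, rfl⟩ := cube_surj h3 w
    have h7 := congrArg (R · v) ((hx.comm' (r := 6) (s := 7) (by decide) (by decide)).conj u t)
    simp only [rmul] at h7
    rw [mem_Wy_zero.1 h6, rinv, ChevalleyDatum.commWord, show chevG2.commTerms 6 7 =
      [(8, 1, 1, 1), (9, 1, 1, 2), (10, -1, 1, 3), (11, -2, 2, 3)] from by decide +kernel, ev_act hx (fun k => if k < 10 then 0 else 1) _ _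
      (by simpa using ⟨h2 1 one_ne_zero v hv.1.2, h1 1 one_ne_zero v hv.1.2, hv.2, Or.inr hv.1.2⟩), map_smul,
      mem_Wy_zero.1 (h4 1 one_ne_zero v hv.2)] at h7
    refine (chi_eq ?_).trans (not_not.1 fun e => h0 (eq_zero_of_smul e h7.symm))
    simp; ring
  have h8 : u + 1 = 0 := mul_left_cancel₀ hu (by push_cast at h3; linear_combination h7 + u ^ 2 * h3)
  rw [eq_neg_of_add_eq_zero_left h8]; simp

theorem ne_ed : (∀ δ ≠ 0, Fintype.card F ≤ finrank ℂ ↥(FZ R x ⊤ [11] ⊓ Wy R (x 10) 1 ⊓ Wy R (x 9) δ)) ∧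
    FZ R x ⊤ [9, 11] ⊓ Wy R (x 10) 1 ≠ ⊥ := by
  obtain ⟨s, hs, δ, hδ, h⟩ := exists_dθ hx h3 hq hnt
  have h1 : ∀ {s δ}, s ≠ 0 → FZ R x ⊤ [] ⊓ Wy R (x 11) s ⊓ Wy R (x 9) δ ≠ ⊥ →
      FZ R x ⊤ [11] ⊓ Wy R (x 10) 1 ⊓ Wy R (x 9) (δ * eta chevG2 6 9) ≠ ⊥ := fun {s δ} hs h =>
    have h1 := mul_ne_zero hs (eta_ne 6 11)
    have h2 := div_ne_zero one_ne_zero h1
    ne_bot_conj (ne_bot_conj (T := FZ R x ⊤ [11] ⊓ Wy R (x 10) _ ⊓ Wy R (x 9) _) (shift_ne (hx.add 10) (st2 hx h3 (St_top 10))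
      (mul_left_surjective₀ (neg_ne_zero.2 (mul_ne_zero (by simp) hs))) (fun t _ v hv => ⟨st2 hx h3 (St_top 6) (by decide +kernel) t v hv.1,
        mv1 (n := 1) hx (by decide +kernel) hv.2 hv.1.1.2 t⟩) h 0) _ fun v hv =>
      ⟨⟨nZ (r := 6) (Y := ⊤) (Z := [10]) hx ⟨trivial, hv.2⟩, nW hx hv.1.1.2⟩, nW hx hv.1.2⟩) _ fun v hv =>
      ⟨⟨hZ (r := 6) hx h2 hv.1.1, hW1 hx h1 one_ne_zero hv.1.2⟩, hW0 hx h2 hv.2⟩
  refine ⟨fun δ' hδ' => (ge_d hx h3 hδ' ?_).1, ?_⟩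
  · have h2 := mul_ne_zero hδ (eta_ne 6 9)
    have h4 := div_ne_zero hδ' h2
    exact ne_bot_conj (h1 hs h) _ fun v hv => ⟨⟨hZ (r := 3) hx h4 hv.1.1, hW0 hx h4 hv.1.2⟩, hW1 hx h2 hδ' hv.2⟩
  · have := h1 (δ := 0) (mul_ne_zero hs (eta_ne 7 11)) (ne_bot_conj (ge_d hx h3 hδ h).2 _ fun v hv =>
      ⟨⟨trivial, nW hx hv.1.1.2⟩, by simpa using nW (r := 7) hx hv.2⟩)
    rwa [zero_mul, inf_right_comm] at this

theorem mu_ge : ∃ μ, finrank ℂ ↥(FZ R x ⊤ [9, 11] ⊓ Wy R (x 10) 1) + (Fintype.card F - 1) * Fintype.card F ≤ μ ∧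
    finrank ℂ V = finrank ℂ (FZ R x ⊤ [10, 11]) + (Fintype.card F - 1) * μ + (Fintype.card F - 1) * (Fintype.card F * μ) := by
  obtain ⟨μ, h1, -, h2⟩ := nat_col (R := R) hx fun r _ => St_top r
  have h4 := dim_ge (ne_ed hx h3 hq hnt).1
  rw [inf_right_comm, h1 1 one_ne_zero] at h4
  exact ⟨μ, h4, finrank_top ℂ V ▸ h2⟩

theorem side (hk : finrank ℂ V + 2 < Fintype.card F ^ 4 + Fintype.card F ^ 2) : ¬ FZ R x ⊤ [7, 8, 9, 10, 11] ≤ Wy R (x 6) 0 := by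
  obtain ⟨μ, h1, h2⟩ := mu_ge hx h3 hq hnt
  have h4 : finrank ℂ ↥(FZ R x ⊤ [9, 11] ⊓ Wy R (x 10) 1) ≤ Fintype.card F + 1 := by
    generalize Fintype.card F = q at *
    obtain ⟨n, rfl⟩ := Nat.exists_eq_add_of_lt hq
    rw [Nat.add_sub_cancel] at h1 h2
    by_contra h
    have := Nat.mul_le_mul_left ((8 + n) * (8 + n + 2)) ((Nat.add_le_add_right (not_le.1 h) _).trans h1)
    nlinarith
  have h5 : FZ R x ⊤ [9, 11] ⊓ Wy R (x 10) 1 ≤ Wy R (x 8) 0 := le_of_Wy (hx.add 8) (st1 hx h3 (St_top 8)) fun γ => by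
    by_cases hγ : γ = 0
    · exact hγ ▸ inf_le_right
    refine (not_not.1 fun h => ?_ : _ = ⊥).trans_le bot_le
    have h5 := card_le_image (Finset.univ.erase 0) (Polynomial.C γ * Polynomial.X ^ 2) (by simp [Polynomial.natDegree_C_mul hγ])
    have h6 := card_le_dim (R := R) (y := x 8) (U := FZ R x ⊤ [9, 11] ⊓ Wy R (x 10) 1) (m := (Fintype.card F + 2) / 3)
      (S := (Finset.univ.erase 0).image (Polynomial.C γ * Polynomial.X ^ 2).eval) fun γ' h' => by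
      obtain ⟨l, hl, rfl⟩ := Finset.mem_image.1 h'
      have hl' := inv_ne_zero (Finset.ne_of_mem_erase hl)
      obtain ⟨β, hβ⟩ := exists_Wy (hx.add 6) (st2 hx h3 (St_top 6)) (ne_bot_conj
        (T := FZ R x ⊤ [9, 11] ⊓ Wy R (x 10) 1 ⊓ Wy R (x 8) ((Polynomial.C γ * Polynomial.X ^ 2).eval l)) h _ fun v hv =>
        ⟨⟨hZ (r := 8) hx hl' hv.1.1, hW0 hx hl' hv.1.2⟩, by simpa using hW (a := -2) hx hl' hv.2⟩)
      generalize (Polynomial.C γ * Polynomial.X ^ 2).eval l = γ' at *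
      have h6 : (Polynomial.C β + (Polynomial.C γ' * Polynomial.X - Polynomial.X ^ 3)).natDegree = 3 := by compute_degree!
      have h7 := card_le_image Finset.univ _ (h6 ▸ three_pos)
      have h8 := card_le_dim (R := R) (y := x 6) (U := FZ R x ⊤ [9, 11] ⊓ Wy R (x 10) 1 ⊓ Wy R (x 8) γ') (m := 1)
        (S := Finset.univ.image (Polynomial.C β + (Polynomial.C γ' * Polynomial.X - Polynomial.X ^ 3)).eval) fun β' h' => by
        obtain ⟨t, -, rfl⟩ := Finset.mem_image.1 h'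
        exact one_le_finrank (ne_bot_conj hβ _ fun v hv => ⟨st2 hx h3 (St_top 7) (by decide +kernel) t v hv.1,
          by simpa using mv76 hx hv.1.1.1 hv.1.2 hv.1.1.2 hv.2 t⟩)
      rw [h6, Finset.card_univ] at h7
      omega
    rw [card_erase, Polynomial.natDegree_C_mul hγ, Polynomial.natDegree_X_pow] at h5
    have h7 := Nat.mul_le_mul h5 (by omega : Fintype.card F ≤ 3 * ((Fintype.card F + 2) / 3))
    generalize Fintype.card F = q at *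
    obtain ⟨n, rfl⟩ := Nat.exists_eq_add_of_lt hq
    rw [Nat.add_sub_cancel] at h7
    nlinarith
  have h6 : FZ R x ⊤ [8, 9, 11] ⊓ Wy R (x 10) 1 = FZ R x ⊤ [9, 11] ⊓ Wy R (x 10) 1 :=
    (inf_right_comm _ _ _).trans (inf_eq_left.2 h5)
  have h7 := dim_e (R := R) hx h3 one_ne_zero
  rw [h6] at h7
  have h8 := one_le_finrank (ne_ed hx h3 hq hnt).2
  have h9 : finrank ℂ ↥(FZ R x ⊤ [8, 9, 10, 11] ⊓ Wy R (x 6) (1 * eta chevG2 7 6)) ≤ 1 := by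
    refine le_trans (finrank_le_conj (T := FZ R x ⊤ [9, 11] ⊓ Wy R (x 10) 1 ⊓ Wy R (x 6) 0) _ fun v hv =>
      ⟨⟨nZ (r := 7) hx hv.1, nW' hx hv.2⟩, by simpa using nW (r := 7) (s' := 6) hx (FZ_fix hv.1 10)⟩) (by nlinarith)
  obtain ⟨l, hl, hl'⟩ := exists_pow_ne (F := F) one_pos (by omega)
  have h10 := fix_line (k := 9) hx h9 (st1 hx h3 (St_top 7)) hl hl' fun v hv => ⟨hZ hx hl hv.1, hW0 hx hl hv.2⟩
  intro h
  refine ne_scale (Z := [8, 9, 10, 11]) (r := 6) (k := 10) hx (mul_ne_zero one_ne_zero (eta_ne 7 10)) (ne_bot_conj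
    (S := FZ R x ⊤ [9, 11] ⊓ Wy R (x 10) 1 ⊓ Wy R (x 6) 0) (fun e => by rw [h7, e, finrank_bot] at h8; omega) _ fun v hv =>
    ⟨nZ (r := 7) (Z := [6, 8, 9, 11]) hx ⟨⟨hv.1.1, h5 hv.1⟩, hv.2⟩, nW hx hv.1.2⟩) (by decide +kernel) _
    (mul_ne_zero one_ne_zero (eta_ne 7 6)) (eq_bot_iff.2 fun v hv => by_contra fun h0 => ?_)
  exact mul_ne_zero one_ne_zero (eta_ne 7 6) (eq_of_Wy hv.2 (h ⟨hv.1, h10 hv⟩) h0)

theorem bound3 (h6 : ¬ FZ R x ⊤ [7, 8, 9, 10, 11] ≤ Wy R (x 6) 0) (h7 : ¬ FZ R x ⊤ [6, 8, 9, 10, 11] ≤ Wy R (x 7) 0) :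
    Fintype.card F ^ 4 + Fintype.card F ^ 2 ≤ finrank ℂ V + 2 := by
  obtain ⟨μ, h1, h2⟩ := mu_ge hx h3 hq hnt
  replace h6 := ne_of_not_le (k := 10) hx h6 (by decide +kernel)
  replace h7 := ne_of_not_le (k := 6) hx h7 (by decide +kernel)
  have h4 := dim_ge fun s hs => one_le_finrank (h7 s hs)
  have h5 := dim_ge (R := R) (y := x 6) (U := FZ R x ⊤ [8, 9, 10, 11]) fun s hs =>
    one_le_finrank fun e => h6 s hs (eq_bot_iff.2 fun v hv => e.le ⟨hv.1.1, hv.2⟩)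
  have h8 : ∀ s ≠ 0, FZ R x ⊤ [9, 10, 11] ⊓ Wy R (x 8) s ≠ ⊥ := fun s hs =>
    ne_bot_conj (h7 _ (mul_ne_zero hs (eta_ne 6 7))) _ fun v hv => ⟨nZ (r := 6) hx hv.1, nW' hx hv.2⟩
  have h9 : ∀ s t β : F, ∀ v ∈ FZ R x ⊤ [9, 10, 11] ⊓ Wy R (x 8) s ⊓ Wy R (x 6) β,
      R (x 7 t) v ∈ FZ R x ⊤ [9, 10, 11] ⊓ Wy R (x 8) s ⊓ Wy R (x 6) (β + s * t) := fun s t β v hv =>
    ⟨st1 hx h3 (St_top 7) (by decide +kernel) t v hv.1, by
      simpa using mv76 hx (FZ_mono hv.1.1) hv.1.2 (FZ_fix hv.1.1 10) hv.2 t⟩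
  have h10 := dim_ge fun s hs => shift_ge (hx.add 6) (st1 hx h3 (St_top 6)) (mul_left_surjective₀ hs) (h9 s) (h8 s hs)
  have h11 := dim_ge (R := R) (y := x 9) (U := FZ R x ⊤ [10, 11]) fun s hs => (ge_d (Z := [11]) hx h3 hs (ne_bot_conj
    (shift_ne (hx.add 6) (st1 hx h3 (St_top 6)) (mul_left_surjective₀ (mul_ne_zero hs (eta_ne 7 8))) (h9 _)
      (h8 _ (mul_ne_zero hs (eta_ne 7 8))) 0) _ fun v hv =>
    ⟨nZ (r := 7) (Z := [6, 9, 10, 11]) (Z' := [10, 11]) hx ⟨hv.1.1, hv.2⟩, nW' hx hv.1.2⟩)).1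
  have h12 : Fintype.card F ≤ finrank ℂ ↥(FZ R x ⊤ [9, 11] ⊓ Wy R (x 10) 1) := by
    have h12 := dim_e (R := R) hx h3 one_ne_zero
    have h13 := one_le_finrank (ne_bot_conj (T := FZ R x ⊤ [8, 9, 11] ⊓ Wy R (x 10) 1 ⊓ Wy R (x 6) 0)
      (h6 _ (mul_ne_zero one_ne_zero (eta_ne 7 6))) _ fun v hv =>
      ⟨⟨nZ (r := 7) hx hv.1, nW' hx hv.2⟩, by simpa using nW (r := 7) (s' := 6) hx (FZ_fix hv.1 10)⟩)
    exact ((Nat.le_mul_of_pos_right _ h13).trans h12.ge).trans (Submodule.finrank_mono (inf_le_inf_right _ inf_le_left))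
  change finrank ℂ (FZ R x ⊤ [6, 8, 9, 10, 11]) + _ ≤ _ at h5
  change finrank ℂ (FZ R x ⊤ [8, 9, 10, 11]) + _ ≤ _ at h10
  change finrank ℂ (FZ R x ⊤ [9, 10, 11]) + _ ≤ _ at h11
  generalize Fintype.card F = q at *
  obtain ⟨n, rfl⟩ := Nat.exists_eq_add_of_lt hq
  rw [Nat.add_sub_cancel] at h1 h2 h4 h5 h10 h11
  have := Nat.mul_le_mul_left ((8 + n) * (8 + n + 2)) ((Nat.add_le_add_right h12 _).trans h1)
  nlinarith

end Cfsg.Agent.H2.G2
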