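import Cfsg.Agent.H2.SzSol2

/-! Products of two conjugates in the Suzuki groups. -/

set_option autoImplicit false
set_option linter.unusedSectionVars false
set_option linter.unusedSimpArgs false

namespace Cfsg.Agent.H2

open Matrix
open scoped MatrixGroups Pointwise

/-- `g` is a product of two conjugates of `x` -/
def PC {G : Type*} [Group G] (x g : G) : Prop := ∃ y z, IsConj x y ∧ IsConj x z ∧ g = y * z

theorem PC.conj_right {G : Type*} [Group G] {x g g' : G} (h : PC x g) (hc : IsConj g g') : PC x g' := by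
  obtain ⟨y, z, a, b, rfl⟩ := h
  obtain ⟨t, rfl⟩ := isConj_iff.1 hc
  exact ⟨t * y * t⁻¹, t * z * t⁻¹, a.trans (isConj_iff.2 ⟨t, rfl⟩), b.trans (isConj_iff.2 ⟨t, rfl⟩), by group⟩

theorem PC.conj_left {G : Type*} [Group G] {x x' g : G} (h : PC x g) (hc : IsConj x' x) : PC x' g := by
  obtain ⟨y, z, a, b, rfl⟩ := h
  exact ⟨y, z, hc.trans a, hc.trans b, rfl⟩

theorem isConj_inv' {G : Type*} [Group G] {x y : G} (h : IsConj x y) : IsConj x⁻¹ y⁻¹ := by
  obtain ⟨t, rfl⟩ := isConj_iff.1 h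
  exact isConj_iff.2 ⟨t, by group⟩

theorem PC.inv {G : Type*} [Group G] {x g : G} (h : PC x g) : PC x⁻¹ g⁻¹ := by
  obtain ⟨y, z, a, b, rfl⟩ := h
  exact ⟨z⁻¹, y⁻¹, isConj_inv' b, isConj_inv' a, by group⟩

namespace Suz

variable {F : Type*} [Field F] {m : ℕ} [hF : SzF F m]
include hF

omit hF in
/-- the trace in the natural representation -/
def T4 (g : Sz F m) : F := (mat g).trace

omit hF in
theorem T4_conj {g g' : Sz F m} (h : IsConj g g') : T4 g = T4 g' := by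
  obtain ⟨t, rfl⟩ := isConj_iff.1 h
  rw [T4, T4, mat_mul, Matrix.trace_mul_comm, ← mat_mul, inv_mul_cancel_left]

theorem T4_u (a b : F) : T4 (u m a b) = 0 := by
  have h2 := two_eq_zero F m
  simp [T4, mat_u, uM, Matrix.trace, Fin.sum_univ_four]
  linear_combination 2 * h2

theorem T4_uw (a b : F) : T4 (u m a b * w F m) = ff m a b + th m a := by
  simp [T4, mat_mul, mat_u, mat_w, uM, wM, Matrix.trace, Fin.sum_univ_four]

theorem T4_uwuw (a b c d : F) : T4 (u m a b * (w F m * u m c d * w F m)) =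
    th m a * th m c + th m a * a * d + b * (th m c * c) + ff m a b * ff m c d := by
  have h2 := two_eq_zero F m
  simp [T4, mat_mul, mat_u, mat_w, uM, wM, Matrix.trace, Fin.sum_univ_four]
  linear_combination (2 + a * c + b * d) * h2

theorem T4_sq (μ : F) : T4 ((w F m * u m 0 μ * w F m * u m 0 1) * (w F m * u m 0 μ * w F m * u m 0 1)) =
    th m μ ^ 2 := by
  have h2 := two_eq_zero F m
  simp [T4, mat_mul, mat_u, mat_w, uM, wM, Matrix.trace, Fin.sum_univ_four, ff]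
  grind

theorem oddE_of_T4 {g : Sz F m} (h : T4 g ≠ 0) : OddE g := fun p hp => by
  obtain ⟨t, rfl⟩ := exists_smul_inf_eq p
  obtain ⟨a, b, e⟩ := mem_Qp_inf.1 (mem_Qp_smul.1 hp)
  apply h
  rw [← T4_u (m := m) a b, ← e]
  exact T4_conj (isConj_iff.2 ⟨t⁻¹, by simp⟩)

theorem OddE.exists_invol {z : Sz F m} (hz : OddE z) : ∃ t, t ≠ 1 ∧ t ^ 2 = 1 ∧ t * z * t⁻¹ = z⁻¹ := by
  have := finite_Sz F m
  rcases hz.cases with ⟨p, p', hne, h⟩ | h
  · obtain ⟨t, a, b⟩ := exists_two_trans hne hne.symm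
    exact ⟨t, by rintro rfl; exact hne (by simpa using a), (swap_facts hne a b).1, (swap_facts hne a b).2 z h⟩
  · obtain ⟨t, ht⟩ := exists_prime_orderOf_dvd_card' (G := NC z) 2 (by
      rw [h.card_normalizer]; exact Dvd.dvd.mul_right (by norm_num) _)
    have a : (t : Sz F m) ≠ 1 := fun e => by
      rw [show t = 1 from Subtype.ext e, orderOf_one] at ht; omega
    have b : (t : Sz F m) ^ 2 = 1 := congrArg Subtype.val (orderOf_dvd_iff_pow_eq_one.1 ht.dvd)
    exact ⟨t, a, b, hz.inv_of_invol t.2 b a (self_mem_Cen z)⟩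

theorem exists_lam {b : F} (hb : b ≠ 0) (b' : F) (hb' : b' ≠ 0) : ∃ k : Fˣ, th m (k : F) * (k : F) ^ 2 * b = b' := by
  have := finite F m
  obtain ⟨k, hk⟩ := Finite.surjective_of_injective (lam_injective (F := F) (m := m)) (b' / b)
  have h0 : k ≠ 0 := by
    rintro rfl
    simp only [th_zero, zero_mul] at hk
    exact div_ne_zero hb' hb hk.symm
  exact ⟨Units.mk0 k h0, by simp only at hk; rw [Units.val_mk0, hk]; field_simp⟩

theorem OddE.isConj_std {z : Sz F m} (hz : OddE z) :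
    ∃ c, c ≠ 0 ∧ IsConj z (u m 0 c * (w F m * u m 0 1 * w F m)) := by
  obtain ⟨t, t1, t2, ht⟩ := hz.exists_invol
  have s2 : (z * t) ^ 2 = 1 := by
    rw [sq] at t2 ⊢
    rw [← eq_inv_of_mul_eq_one_left t2] at ht
    rw [mul_assoc, ← mul_assoc t, ht, mul_inv_cancel]
  obtain ⟨p, hp⟩ := exists_mem_Qp_of_pow (n := 1) s2
  obtain ⟨p', hp'⟩ := exists_mem_Qp_of_pow (n := 1) t2
  have hne : p ≠ p' := by
    rintro rfl
    exact hz p ((Subgroup.mul_mem_cancel_right _ hp').1 hp)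
  obtain ⟨g, rfl, rfl⟩ := exists_smul_pair hne
  rw [← w_smul_inf, mem_Qp_smul, mem_Qp_smul] at hp'
  obtain ⟨b, hb⟩ := eq_u_zero_of_sq (mem_Qp_smul.1 hp) (conj_pow_eq_one s2)
  obtain ⟨b', hb'⟩ := eq_u_zero_of_sq hp' (conj_pow_eq_one (conj_pow_eq_one t2))
  have e1 : z * t = g * u m 0 b * g⁻¹ := by rw [← hb]; group
  have e2 : t = g * (w F m * u m 0 b' * (w F m)⁻¹) * g⁻¹ := by rw [← hb']; group
  have b0 : b ≠ 0 := by
    rintro rfl
    rw [u_zero, mul_one, mul_inv_cancel, mul_eq_one_iff_eq_inv] at e1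
    obtain ⟨r, hr⟩ := exists_mem_Qp_of_pow (n := 1) t2
    exact hz r (e1 ▸ inv_mem hr)
  have b1 : b' ≠ 0 := by
    rintro rfl
    apply t1; rw [e2, u_zero]; group
  obtain ⟨k, hk⟩ := exists_lam (m := m) b1 1 one_ne_zero
  refine ⟨th m ((k⁻¹ : Fˣ) : F) * ((k⁻¹ : Fˣ) : F) ^ 2 * b,
    mul_ne_zero (mul_ne_zero (th_ne_zero m (Units.ne_zero _)) (pow_ne_zero 2 (Units.ne_zero _))) b0,
    isConj_iff.2 ⟨h m k⁻¹ * g⁻¹, ?_⟩⟩
  have a1 := h_conj_u (m := m) k⁻¹ 0 b
  have a2 := h_conj_u (m := m) k 0 b'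
  rw [mul_zero] at a1 a2
  rw [hk] at a2
  have a3 : z = z * t * t := by rw [mul_assoc, ← sq, t2, mul_one]
  have a4 : w F m * h m k = h m k⁻¹ * w F m := w_mul_h k
  rw [← a1, ← a2, a3, e1]
  conv_lhs => rw [e2]
  calc _ = h m k⁻¹ * u m 0 b * (h m k⁻¹)⁻¹ * ((h m k⁻¹ * w F m) * u m 0 b' * (h m k⁻¹ * w F m)⁻¹) := by group
    _ = _ := by rw [← a4, _root_.mul_inv_rev, w_inv]; group

theorem T4_std (c : F) : T4 (u m 0 c * (w F m * u m 0 1 * w F m)) = th m c := by
  rw [T4_uwuw]; simp [ff]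

theorem OddE.T4_ne {z : Sz F m} (hz : OddE z) : T4 z ≠ 0 := by
  obtain ⟨c, h0, hc⟩ := hz.isConj_std
  rw [T4_conj hc, T4_std]; exact th_ne_zero m h0

theorem OddE.isConj_of_T4 {z y : Sz F m} (hz : OddE z) (h : T4 z = T4 y) : IsConj z y := by
  obtain ⟨c, -, hc⟩ := hz.isConj_std
  obtain ⟨d, -, hd⟩ := (oddE_of_T4 (h ▸ hz.T4_ne)).isConj_std
  rw [T4_conj hc, T4_conj hd, T4_std, T4_std] at h
  rw [th_injective m h] at hc
  exact hc.trans hd.symm

theorem OddE.isConj_inv {z : Sz F m} (hz : OddE z) : IsConj z z⁻¹ := by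
  obtain ⟨t, -, -, ht⟩ := hz.exists_invol
  exact isConj_iff.2 ⟨t, ht⟩

theorem isConj_invol {g : Sz F m} (h1 : g ≠ 1) (h2 : g ^ 2 = 1) {c : F} (hc : c ≠ 0) : IsConj (u m 0 c) g := by
  obtain ⟨p, hp⟩ := exists_mem_Qp_of_pow (n := 1) h2
  obtain ⟨t, rfl⟩ := exists_smul_inf_eq p
  obtain ⟨b, hb⟩ := eq_u_zero_of_sq (mem_Qp_smul.1 hp) (conj_pow_eq_one h2)
  have e : g = t * u m 0 b * t⁻¹ := by rw [← hb]; group
  obtain ⟨k, hk⟩ := exists_lam (m := m) hc b (by rintro rfl; apply h1; rw [e, u_zero]; group)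
  have a1 := h_conj_u (m := m) k 0 c
  rw [mul_zero, hk] at a1
  exact isConj_iff.2 ⟨t * h m k, by rw [e, ← a1]; group⟩

theorem isConj_four {g : Sz F m} {p : Pt F m} (hp : g ∈ Qp p) (h2 : g ^ 2 ≠ 1) {a : F} (ha : a ≠ 0) :
    ∃ b, IsConj (u m a b) g := by
  obtain ⟨t, rfl⟩ := exists_smul_inf_eq p
  obtain ⟨c, d, hb⟩ := mem_Qp_inf.1 (mem_Qp_smul.1 hp)
  have e : g = t * u m c d * t⁻¹ := by rw [← hb]; group
  have hc : c ≠ 0 := by
    rintro rfl
    apply h2; rw [e, conj_pow, u_zero_sq]; group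
  obtain ⟨k, hk⟩ := th_surjective m (a / c)
  have k0 : k ≠ 0 := by
    rintro rfl
    exact div_ne_zero ha hc (by rw [← hk, th_zero])
  have a1 := h_conj_u (m := m) (Units.mk0 k k0) c d
  rw [Units.val_mk0, hk, div_mul_cancel₀ _ hc] at a1
  exact ⟨_, (isConj_iff.2 ⟨h m (Units.mk0 k k0) * t⁻¹, by rw [e, ← a1]; group⟩).symm⟩

omit hF in
variable (m) in
/-- the elements of absolute trace zero -/
def InA (z : F) : Prop := ∃ s, z = th m s + s

theorem InA.add {a b : F} (ha : InA m a) (hb : InA m b) : InA m (a + b) := by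
  obtain ⟨s, rfl⟩ := ha
  obtain ⟨t, rfl⟩ := hb
  exact ⟨s + t, by rw [th_add]; ring⟩

theorem InA.th {a : F} (ha : InA m a) : InA m (th m a) := by
  obtain ⟨s, rfl⟩ := ha
  exact ⟨_, th_add m _ _⟩

theorem not_InA_one : ¬ InA m (1 : F) := by
  have h2 := two_eq_zero F m
  rintro ⟨c, hc⟩
  have a : th m c = c + 1 := by linear_combination -hc - c * h2
  have b := th_th m c
  rw [a, th_add, th_one, a] at b
  have : c * (c + 1) = 0 := by grind
  rcases mul_eq_zero.1 this with h | h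
  · subst h; simp at hc
  · have : c = 1 := by linear_combination h - h2
    subst this
    rw [th_one] at hc
    exact one_ne_zero (by linear_combination hc + h2 : (1 : F) = 0)

theorem InA_add_one {a : F} (ha : ¬ InA m a) : InA m (a + 1) := by
  have h2 := two_eq_zero F m
  obtain ⟨c, h | h⟩ := exists_th_add (m := m) a
  · exact absurd ⟨c, h⟩ ha
  · exact ⟨c, by linear_combination h + h2⟩

theorem exists_sqrt (a : F) : ∃ r : F, r ^ 2 = a := by
  obtain ⟨b, rfl⟩ := th_surjective m a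
  obtain ⟨c, rfl⟩ := th_surjective m b
  exact ⟨c, (th_th m c).symm⟩

theorem eq_zero_of_InA {c : F} (h : ∀ s, InA m (c * s)) : c = 0 := by
  by_contra hc
  exact not_InA_one (m := m) (by simpa [hc] using h c⁻¹)

theorem exists_quad {c : F} (hc : c ≠ 0) : ∃ a s : F, a ≠ 0 ∧ c * (th m a * a ^ 2) + a ^ 2 = th m s + s + 1 := by
  have h2 := two_eq_zero F m
  by_contra hn
  have h1 : ∀ a : F, InA m (c * (th m a * a ^ 2) + a ^ 2) := fun a => by
    by_contra h
    obtain ⟨s, hs⟩ := InA_add_one h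
    refine hn ⟨a, s, ?_, by linear_combination hs - h2⟩
    rintro rfl
    exact h ⟨0, by simp⟩
  have h3 : ∀ b : F, th m c * th m b ^ 2 + c * th m b = 0 := fun b => eq_zero_of_InA (m := m) fun s => by
    obtain ⟨a, rfl⟩ := exists_sqrt (m := m) s
    have := (((h1 (a + b)).add (h1 a)).add (h1 b)).add ⟨c * th m a * b ^ 2, rfl⟩
    simp only [th_add, th_mul, th_pow, th_th] at this
    convert this using 1
    grind
  obtain ⟨y, y0, y1⟩ := exists_ne_zero_one F m
  have a1 := h3 1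
  obtain ⟨b, rfl⟩ := th_surjective m y
  have a2 := h3 b
  rw [th_one] at a1
  apply y1
  apply mul_left_cancel₀ (mul_ne_zero hc y0)
  grind

theorem exists_not_InA {μ : F} (h0 : μ ≠ 0) (h1 : μ ≠ 1) : ∃ s, InA m s ∧ ¬ InA m (μ * s) := by
  have h2 := two_eq_zero F m
  by_contra hn
  push Not at hn
  have : th m μ + μ = 0 := eq_zero_of_InA (m := m) fun s => by
    obtain ⟨a, rfl⟩ := th_surjective m s
    have := (hn _ ⟨a, rfl⟩).add ⟨μ * a, rfl⟩
    rw [th_mul] at this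
    convert this using 1
    grind
  rcases eq_of_th_eq_self m (y := μ) (by linear_combination this - μ * h2) with h | h
  · exact h0 h
  · exact h1 h

theorem OddE.pc {x : Sz F m} (hx : OddE x) {g : Sz F m} (hg : g ≠ 1) : PC x g := by
  have h2 := two_eq_zero F m
  have hc := hx.T4_ne
  by_cases ho : OddE g
  · obtain ⟨r, hr⟩ := exists_sqrt (m := m) (T4 g)
    obtain ⟨μ, rfl⟩ := th_surjective m r
    have μ0 : th m μ ≠ 0 := fun h => ho.T4_ne (by rw [← hr, h]; ring)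
    obtain ⟨β, hβ⟩ := th_surjective m (T4 x / th m μ)
    have a1 : IsConj x (u m 0 β * (w F m * u m 0 μ * w F m)) := hx.isConj_of_T4 (by
      rw [T4_uwuw]; simp [ff, hβ, μ0])
    refine PC.conj_right ⟨_, _, a1.trans (isConj_iff.2 ⟨(u m 0 β)⁻¹, rfl⟩), a1.trans (isConj_iff.2 ⟨u m 0 1, rfl⟩), rfl⟩
      (ho.isConj_of_T4 ?_).symm
    rw [← hr, ← T4_sq]
    congr 1
    have b1 := u_zero_sq (m := m) β
    have b2 := u_zero_sq (m := m) (1 : F)
    rw [sq] at b1 b2
    rw [← eq_inv_of_mul_eq_one_left b2, inv_inv, inv_mul_cancel_left, ← mul_assoc (u m 0 1), u_zero_comm 1 0 β]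
    simp only [mul_assoc]
    rw [← mul_assoc (u m 0 β), b1, one_mul]
  · obtain ⟨α, s, α0, hs⟩ := exists_quad (m := m) hc
    have t0 := th_ne_zero m α0
    have key : ∀ a b, ff m a b + th m a = T4 x → IsConj x (u m a b * w F m) ∧ IsConj x (u m a b * w F m)⁻¹ :=
      fun a b h => ⟨hx.isConj_of_T4 (by rw [T4_uw, h]), hx.isConj_inv.trans
        (isConj_inv' (hx.isConj_of_T4 (by rw [T4_uw, h])))⟩
    have k1 : ff m α⁻¹ (th m α⁻¹ * α⁻¹ * s) + th m α⁻¹ = T4 x := by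
      simp only [ff, th_mul, th_th, th_inv]
      field_simp
      grind
    generalize th m α⁻¹ * α⁻¹ * s = b at k1
    have a0 := inv_ne_zero α0
    generalize α⁻¹ = a at k1 a0
    by_cases hg2 : g ^ 2 = 1
    · have k2 : ff m a (b + th m a * a) + th m a = T4 x := by
        rw [← k1]; simp only [ff, th_add, th_mul, th_th]; grind
      refine PC.conj_right ⟨_, _, (key _ _ k1).1, (key _ _ k2).2, ?_⟩
        (isConj_invol hg hg2 (mul_ne_zero (th_ne_zero m a0) a0))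
      rw [← u_inv, ← u_sq a b, sq]; group
    · obtain ⟨p, hp⟩ : ∃ p, g ∈ Qp p := by simpa [OddE] using ho
      obtain ⟨d, hd⟩ := isConj_four hp hg2 a0
      obtain ⟨e, he⟩ := th_surjective m (T4 x)
      have k2 : ff m 0 e + th m 0 = T4 x := by simp [ff, he]
      have k3 : PC x (u m a (b + e)) := ⟨_, _, (key _ _ k1).1, (key _ _ k2).2, by
        rw [_root_.mul_inv_rev, mul_assoc, mul_inv_cancel_left, u_inv, u_mul]; simp⟩
      obtain ⟨t, ht | ht⟩ := conj_of_same_fst (m := m) a0 (b + e) d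
      · exact k3.conj_right ((isConj_iff.2 ⟨t, ht.symm⟩).trans hd)
      · exact (k3.inv.conj_left hx.isConj_inv).conj_right ((isConj_iff.2 ⟨t, ht.symm⟩).trans hd)

theorem isConj_u_one {a s : F} (ha : a ≠ 0) (hs : InA m s) : IsConj (u m (1 : F) 0) (u m a (th m a * a * s)) := by
  have h2 := two_eq_zero F m
  obtain ⟨r, rfl⟩ := hs
  obtain ⟨k, rfl⟩ := th_surjective m a
  have k0 : k ≠ 0 := by rintro rfl; simp at ha
  refine isConj_iff.2 ⟨h m (Units.mk0 k k0) * u m r 0, ?_⟩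
  have : u m r 0 * u m 1 0 * (u m r 0)⁻¹ = u m 1 (th m r + r) := by
    rw [u_inv, u_mul, u_mul, th_add, th_one]
    congr 1 <;> grind
  calc _ = h m (Units.mk0 k k0) * (u m r 0 * u m 1 0 * (u m r 0)⁻¹) * (h m (Units.mk0 k k0))⁻¹ := by group
    _ = _ := by rw [this, h_conj_u, Units.val_mk0, th_th, mul_one, mul_comm (k ^ 2)]

theorem pc_u_one {g : Sz F m} (hg : g ≠ 1) : PC (u m (1 : F) 0) g := by
  have h2 := two_eq_zero F m
  by_cases ho : OddE g
  · obtain ⟨τ, s0, τ0, hs⟩ := exists_quad (m := m) ho.T4_ne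
    have t0 := th_ne_zero m τ0
    obtain ⟨c, hc⟩ := exists_th_add (m := m) s0
    have e1 : th m s0 + s0 = c ^ 2 + c := by
      rcases hc with rfl | rfl <;> simp only [th_add, th_th, th_one] <;> grind
    obtain ⟨r, rfl⟩ := exists_sqrt (m := m) c
    have a1 := isConj_u_one (m := m) (inv_ne_zero τ0) ⟨r, rfl⟩
    have a2 := isConj_u_one (m := m) (one_ne_zero (α := F)) ⟨r, rfl⟩
    refine PC.conj_right ⟨_, _, a1, a2.trans (isConj_iff.2 ⟨w F m, rfl⟩), rfl⟩ (ho.isConj_of_T4 ?_).symm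
    rw [w_inv, T4_uwuw]
    simp only [ff, th_add, th_mul, th_th, th_inv, th_one]
    rw [e1] at hs
    field_simp
    grind
  by_cases hg2 : g ^ 2 = 1
  · refine PC.conj_right ⟨_, _, IsConj.refl _, IsConj.refl _, ?_⟩ (isConj_invol hg hg2 (c := 1) one_ne_zero)
    rw [← sq, u_sq]; simp
  obtain ⟨p, hp⟩ : ∃ p, g ∈ Qp p := by simpa [OddE] using ho
  obtain ⟨β, hβ⟩ := isConj_four hp hg2 (one_ne_zero (α := F))
  refine PC.conj_right ?_ hβ
  obtain ⟨a, a0, a1⟩ := exists_ne_zero_one F m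
  have a2 : a + 1 ≠ 0 := fun h => a1 (by linear_combination h - h2)
  have l0 := mul_ne_zero (th_ne_zero m a0) a0
  have l1 := mul_ne_zero (th_ne_zero m a2) a2
  obtain ⟨s0, b1, b2⟩ := exists_not_InA (m := m) (div_ne_zero l0 l1) fun h => not_InA_one (m := m) ⟨a, by
    rw [div_eq_one_iff_eq l1, th_add, th_one] at h
    grind⟩
  obtain ⟨s, s', c1, c2, c3⟩ : ∃ s s', InA m s ∧ InA m s' ∧
      β = th m a * a * s + th m (a + 1) * (a + 1) * s' + th m a * (a + 1) := by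
    by_cases hγ : InA m ((β + th m a * (a + 1)) / (th m (a + 1) * (a + 1)))
    · refine ⟨0, _, ⟨0, by simp⟩, hγ, ?_⟩
      rw [mul_div_cancel₀ _ l1]; grind
    · refine ⟨s0, _, b1, (InA_add_one hγ).add (InA_add_one b2), ?_⟩
      generalize th m (a + 1) * (a + 1) = l at *
      field_simp
      grind
  refine ⟨_, _, isConj_u_one a0 c1, isConj_u_one a2 c2, ?_⟩
  rw [u_mul, ← c3]
  congr 1
  grind

theorem pc_of_order {x : Sz F m} (hx : x ^ 2 ≠ 1) {g : Sz F m} (hg : g ≠ 1) : PC x g := by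
  by_cases ho : OddE x
  · exact ho.pc hg
  obtain ⟨p, hp⟩ : ∃ p, x ∈ Qp p := by simpa [OddE] using ho
  obtain ⟨β, hβ⟩ := isConj_four hp hx (one_ne_zero (α := F))
  obtain ⟨t, ht | ht⟩ := conj_of_same_fst (m := m) (one_ne_zero (α := F)) 0 β
  · exact (pc_u_one hg).conj_left ((isConj_iff.2 ⟨t, ht.symm⟩).trans hβ).symm
  · have := (pc_u_one (inv_ne_one.2 hg)).inv
    rw [inv_inv] at this
    exact this.conj_left ((isConj_iff.2 ⟨t, ht.symm⟩).trans hβ).symm

end Suz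

end Cfsg.Agent.H2
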