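import Cfsg.Agent.H1.DefZero
import Cfsg.Agent.H2.SzProd
import Cfsg.Agent.H2.ReeRep

/-! Products of two conjugates: the character bound and Gow's theorem in rank one. -/

set_option autoImplicit false
set_option linter.unusedSectionVars false
set_option linter.unusedSimpArgs false

namespace Cfsg.Agent.H2

open Cfsg.Agent.H1
open scoped ComplexConjugate

section

variable {G : Type*} [Group G] [Fintype G]

theorem sum_eq_zero_of_not_pc {x g : G} (h : ¬ PC x g) :
    ∑ χ : IrrCharacter G, (χ : G → ℂ) x ^ 2 * (χ : G → ℂ) g⁻¹ / (χ : G → ℂ) 1 = 0 := by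
  have hc := isCF_classInd ℂ x
  have h0 : conv (classInd ℂ x) (classInd ℂ x) g = 0 := Finset.sum_eq_zero fun y _ => by
    simp only [classInd]
    split_ifs with h1 h2
    · exact absurd ⟨y, _, h1, h2, by group⟩ h
    all_goals simp
  have hF : IsClassFunction G fun y => conv (classInd ℂ x) (classInd ℂ x) y⁻¹ := fun a b => by
    beta_reduce; rw [← hc.conv hc a⁻¹ b]; congr 1; group
  have h1 := congrFun (IsClassFunction.eq_sum hF) g⁻¹
  rw [inv_inv, h0, Finset.sum_apply] at h1
  have hi : ((Subgroup.centralizer ({x} : Set G)).index : ℂ) ≠ 0 := by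
    exact_mod_cast (Subgroup.centralizer ({x} : Set G)).index_ne_zero_of_finite
  have hG := card_ne_zero' (G := G)
  refine mul_left_cancel₀ (mul_ne_zero (inv_ne_zero hG) (pow_ne_zero 2 hi)) ?_
  rw [mul_zero, h1, Finset.mul_sum]
  refine Finset.sum_congr rfl fun χ _ => ?_
  have h2 := om_conv χ.2 hc (classInd ℂ x)
  have hχ := IsIrrCharacter.isCharacter χ.2
  have h3 := IsIrrCharacter.one_ne_zero χ.2
  rw [om_classInd (IsCharacter.isClassFunction hχ), om, div_eq_iff h3] at h2
  simp only [Pi.smul_apply, smul_eq_mul, classInner, ← IsCharacter.apply_inv hχ]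
  rw [← Equiv.sum_comp (Equiv.inv G)]
  simp only [Equiv.inv_apply, inv_inv]
  rw [h2, centralChar]
  field_simp

theorem sum_normSq_irr (g : G) :
    ∑ χ : IrrCharacter G, ‖(χ : G → ℂ) g‖ ^ 2 = Nat.card (Subgroup.centralizer ({g} : Set G)) := by
  have := sum_irr_mul_conj g g
  rw [if_pos (IsConj.refl g)] at this
  simp only [Complex.mul_conj, Complex.normSq_eq_norm_sq] at this
  exact_mod_cast this

theorem pc_of_degree {D : ℕ} (hD : ∀ χ, IsIrrCharacter G χ → χ ≠ (fun _ => 1) → ∀ n : ℕ, χ 1 = n → D ≤ n) {x g : G}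
    (h : Nat.card (Subgroup.centralizer ({x} : Set G)) ^ 2 * Nat.card (Subgroup.centralizer ({g} : Set G)) < D ^ 2) :
    PC x g := by
  classical
  by_contra hc
  have h1 := sum_eq_zero_of_not_pc hc
  have hD0 : (0 : ℝ) < D := by
    have : D ≠ 0 := by rintro rfl; simp at h
    positivity
  rw [← Finset.add_sum_erase _ _ (Finset.mem_univ ⟨_, isIrrCharacter_one⟩)] at h1
  simp only [one_pow, mul_one, div_one] at h1
  have h2 := congrArg norm (eq_neg_of_add_eq_zero_left h1)
  rw [norm_one, norm_neg] at h2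
  set s := Real.sqrt (Nat.card (Subgroup.centralizer ({g} : Set G))) with hs
  have h3 : 1 ≤ (Nat.card (Subgroup.centralizer ({x} : Set G)) : ℝ) * (s / D) := by
    rw [h2, ← sum_normSq_irr, Finset.sum_mul]
    refine (norm_sum_le _ _).trans ((Finset.sum_le_sum fun χ hχ => ?_).trans
      (Finset.sum_le_sum_of_subset_of_nonneg (Finset.erase_subset _ _) fun _ _ _ => by positivity))
    obtain ⟨n, hn, e⟩ := IsIrrCharacter.exists_one_eq χ.2
    have h4 : (D : ℝ) ≤ n := by
      exact_mod_cast hD _ χ.2 (fun e => (Finset.mem_erase.1 hχ).1 (Subtype.ext e)) n e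
    rw [norm_div, norm_mul, norm_pow, e, Complex.norm_natCast, mul_div_assoc,
      IsCharacter.apply_inv (IsIrrCharacter.isCharacter χ.2), Complex.norm_conj]
    gcongr
    refine Real.le_sqrt_of_sq_le ?_
    rw [← sum_normSq_irr]
    exact Finset.single_le_sum (f := fun χ : IrrCharacter G => ‖(χ : G → ℂ) g‖ ^ 2) (fun _ _ => by positivity)
      (Finset.mem_univ χ)
  rw [← mul_div_assoc, le_div_iff₀ hD0, one_mul] at h3
  have h4 := pow_le_pow_left₀ hD0.le h3 2
  rw [mul_pow, hs, Real.sq_sqrt (by positivity)] at h4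
  exact absurd h (not_lt.2 (by exact_mod_cast h4))

theorem sum_ne_zero_of_defZero {p : ℕ} [hp : Fact p.Prime] {χ : G → ℂ} (hχ : IsIrrCharacter G χ) (hd : DefZero p χ)
    {U : Subgroup G} [Fintype U] (hU : IsPGroup p U) : ∑ s : U, χ s ≠ 0 := by
  classical
  intro h0
  obtain ⟨M, hM⟩ := exists_isPModular p hp.out
  have := hM.2.1
  have := charP_resF hM
  have k1 : ∀ g, ∑ s : U, χ (s * g) = 0 := by
    obtain ⟨n, ρ, -, rfl⟩ := hχ
    have hc : (Fintype.card U : ℂ) ≠ 0 := by exact_mod_cast Fintype.card_ne_zero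
    have e1 : ∀ s : U, ρ s * ∑ r : U, ρ r = ∑ r : U, ρ r := fun s => by
      rw [Finset.mul_sum, ← Equiv.sum_comp (Equiv.mulLeft s) fun r : U => ρ r]
      simp
    have e2 : IsIdempotentElem ((Fintype.card U : ℂ)⁻¹ • ∑ r : U, ρ r) := by
      rw [IsIdempotentElem, smul_mul_assoc, Finset.sum_mul]
      simp only [mul_smul_comm, e1, Finset.sum_const, Finset.card_univ]
      rw [← Nat.cast_smul_eq_nsmul ℂ, smul_smul, smul_smul, inv_mul_cancel₀ hc, one_mul]
    obtain ⟨k, h1, h2⟩ := trace_idem_nat e2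
    rw [map_smul, map_sum] at h1
    have h3 := h2 (by
      have : ∑ s : U, LinearMap.trace ℂ _ (ρ s) = 0 := h0
      rw [this, smul_zero] at h1
      exact_mod_cast h1.symm)
    rw [smul_eq_zero, inv_eq_zero] at h3
    intro g
    have h4 := congrArg (fun T => LinearMap.trace ℂ _ (T * ρ g)) (h3.resolve_left hc)
    simp only [Finset.sum_mul, ← map_mul, map_sum, zero_mul, map_zero] at h4
    exact h4
  obtain ⟨y, h1, h2, h3⟩ := exists_fixed_of_isPGroup hU ((lreg (ResF M)).comp U.subtype) _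
    (blockComp_ne_bot hχ hd) (fun s w hw => lreg_mem_blockComp hχ _ hw)
  rw [mem_blockComp] at h1
  refine h2 ((smul_eq_zero.1 (h1.symm.trans ?_)).resolve_left (hd.lam_idem hχ))
  ext z
  have := Fintype.ofFinite (G ⧸ U)
  have hb : Function.Bijective fun c : (G ⧸ U) × U => c.1.out * (c.2 : G)⁻¹ := by
    refine ⟨fun ⟨a, s⟩ ⟨b, r⟩ e => ?_, fun g => ⟨(g, ⟨g⁻¹ * (g : G ⧸ U).out, QuotientGroup.eq.1 (by simp)⟩), by simp⟩⟩
    obtain rfl : a = b := by
      have := congrArg (QuotientGroup.mk : G → G ⧸ U) e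
      rwa [QuotientGroup.mk_mul_of_mem _ (inv_mem s.2), QuotientGroup.mk_mul_of_mem _ (inv_mem r.2),
        QuotientGroup.out_eq', QuotientGroup.out_eq'] at this
    rw [show s = r from Subtype.ext (inv_injective (mul_left_cancel e))]
  rw [conv, ← hb.sum_comp, Fintype.sum_prod_type, Pi.zero_apply]
  refine Finset.sum_eq_zero fun c _ => ?_
  have e1 : ∀ s : U, y ((c.out * (s : G)⁻¹)⁻¹ * z) = y (c.out⁻¹ * z) := fun s => by
    have := congrFun (h3 s⁻¹) (c.out⁻¹ * z)
    simpa [mul_assoc] using this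
  simp only [e1, ← Finset.sum_mul, Function.comp, ← map_sum]
  rw [show ∑ s : U, idem M hχ (c.out * (s : G)⁻¹) = 0 from Subtype.ext (by
    rw [AddSubmonoidClass.coe_finsetSum]
    simpa [idem] using k1 c.out⁻¹), map_zero, zero_mul]

/-- the number of fixed points -/
noncomputable def fixN (X : Type*) [MulAction G X] (g : G) : ℕ := Nat.card {x : X // g • x = x}

theorem indFun_stab {X : Type*} [MulAction G X] [Finite X] {x₀ : X} (htr : ∀ y, ∃ g : G, g • x₀ = y) (g : G) :
    indFun (MulAction.stabilizer G x₀) (fun _ => 1) g = fixN X g := by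
  classical
  have := Fintype.ofFinite X
  have hc := card_ne_zero' (G := MulAction.stabilizer G x₀)
  rw [indFun, inv_mul_eq_iff_eq_mul₀ hc, ← Finset.sum_fiberwise (g := fun y : G => y • x₀), fixN,
    Nat.card_eq_fintype_card, Nat.card_eq_fintype_card, Fintype.card_subtype, Fintype.card_subtype,
    Finset.card_filter (fun x : X => g • x = x), Nat.cast_sum, Finset.mul_sum]
  refine Finset.sum_congr rfl fun x _ => ?_
  obtain ⟨a, rfl⟩ := htr x
  rw [Finset.sum_congr rfl (g := fun _ => ((if g • a • x₀ = a • x₀ then 1 else 0 : ℕ) : ℂ)), Finset.sum_const,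
    nsmul_eq_mul]
  · congr 2
    exact Finset.card_bijective (a⁻¹ * ·) (Group.mulLeft_bijective _) fun y => by
      simp [mul_smul, inv_smul_eq_iff]
  · intro y hy
    rw [← (Finset.mem_filter.1 hy).2]
    have : y⁻¹ * g * y ∈ MulAction.stabilizer G x₀ ↔ g • y • x₀ = y • x₀ := by
      simp [mul_smul, inv_smul_eq_iff]
    split_ifs with h
    · rw [extendByZero_of_mem _ _ (this.2 h), Nat.cast_one]
    · rw [extendByZero_of_not_mem _ _ (mt this.1 h), Nat.cast_zero]

theorem gow_rank_one {X A : Type*} [MulAction G X] [Finite X] [CommGroup A] [Finite A] {p : ℕ} [hp : Fact p.Prime]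
    {x₀ x₁ : X} (h01 : x₁ ≠ x₀) (htr : ∀ y, ∃ g : G, g • x₀ = y)
    (h2 : ∀ y, y ≠ x₀ → ∃ g : G, g • x₀ = x₀ ∧ g • x₁ = y) {U : Subgroup G} (hU : IsPGroup p U)
    (hUB : U ≤ MulAction.stabilizer G x₀) (κ : MulAction.stabilizer G x₀ →* A) (hκ : ∀ b, κ b = 1 ↔ b.1 ∈ U)
    (hn : Nat.card X = p ^ (Nat.card G).factorization p + 1) (hpG : p ∣ Nat.card G)
    (hperf : ∀ (l : G →* ℂ) g, l g = 1) (hL : LocChar p G) (hZ : Subgroup.center G = ⊥) {x g : G}
    (hg : ∀ n, g ^ p ^ n ≠ 1) (hx : fixN X x = 0 ∨ fixN X x = 2) {k f : ℕ} (hk : ¬ p ∣ k) (hf : fixN X g = f + 1)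
    (hg' : (Subgroup.centralizer ({g} : Set G)).index * f = k * p ^ (Nat.card G).factorization p) : PC x g := by
  classical
  have := Fintype.ofFinite (MulAction.stabilizer G x₀)
  have := Fintype.ofFinite A
  have := Fintype.ofFinite U
  have hn1 : 1 < p ^ (Nat.card G).factorization p :=
    Nat.one_lt_pow (hp.out.factorization_pos_of_dvd Nat.card_pos.ne' hpG).ne' hp.out.one_lt
  generalize hN : p ^ (Nat.card G).factorization p = N at *
  set π := indFun (MulAction.stabilizer G x₀) (fun _ => (1 : ℂ)) with hπ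
  have π1 : ∀ g, π g = fixN X g := indFun_stab htr
  have π2 : IsCharacter G π := IsCharacter.indFun _ isCharacter_one
  have π3 : π 1 = (N + 1 : ℕ) := by rw [π1, fixN, ← hn]; simp
  have π4 : ((MulAction.stabilizer G x₀).index : ℂ) = (N + 1 : ℕ) := by rw [← π3, hπ, indFun_one, mul_one]
  have c1 : IsClassFunction G fun _ => (1 : ℂ) := fun _ _ => rfl
  have key : ∀ χ, IsIrrCharacter G χ → DefZero p χ → χ = π - fun _ => 1 := by
    intro χ hχ hd
    have hcf := IsCharacter.isClassFunction (IsIrrCharacter.isCharacter hχ)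
    obtain ⟨θ, hθ⟩ : ∃ θ : A →* ℂ, classInner (fun b => θ (κ b)) (fun b : MulAction.stabilizer G x₀ => χ b) ≠ 0 := by
      by_contra hc
      push Not at hc
      have e1 : classInner (fun b => regChar A (κ b)) (fun b : MulAction.stabilizer G x₀ => χ b) = 0 := by
        have : (fun b => regChar A (κ b)) = ∑ θ : IrrCharacter A, (θ : A → ℂ) 1 • fun b => (θ : A → ℂ) (κ b) := by
          ext b; rw [regChar_eq_sum]; simp
        rw [this, classInner_sum_left]
        refine Finset.sum_eq_zero fun θ _ => ?_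
        obtain ⟨l, hl⟩ := IsIrrCharacter.exists_hom_of_comm θ.2
        rw [classInner_smul_left, hl, hc, mul_zero]
      rw [classInner, mul_eq_zero, inv_eq_zero] at e1
      apply sum_ne_zero_of_defZero hχ hd hU
      have e2 := e1.resolve_left card_ne_zero'
      rw [← Fintype.sum_of_injective (Subgroup.inclusion hUB) (Subgroup.inclusion_injective _)
        (fun s : U => (Nat.card A : ℂ) * conj (χ s)) _ (fun b hb => by
          rw [regChar, if_neg (fun e => hb ⟨⟨_, (hκ b).1 e⟩, rfl⟩), zero_mul])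
        (fun s => by rw [regChar, if_pos ((hκ _).2 s.2)]; rfl), ← Finset.mul_sum, ← map_sum] at e2
      simpa only [mul_eq_zero, map_eq_zero, card_ne_zero', false_or] using e2
    rw [← classInner_indFun _ _ hcf] at hθ
    have i1 := isIrrCharacter_hom (θ.comp κ)
    have e1 := IsCharacter.sub_irr (IsCharacter.indFun _ (IsIrrCharacter.isCharacter i1)) hχ hθ
    obtain ⟨n, hn0, e2⟩ := IsIrrCharacter.exists_one_eq hχ
    obtain ⟨j, e3⟩ := IsCharacter.exists_one_eq e1
    rw [DefZero, charDegree_eq e2, hN] at hd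
    obtain ⟨r, rfl⟩ := hd
    have e4 := e3
    rw [Pi.sub_apply, indFun_one, π4, map_one, mul_one, e2, sub_eq_iff_eq_add] at e4
    have e5 : N + 1 = j + N * r := by exact_mod_cast e4
    obtain rfl : r = 1 := by
      rcases r with _ | _ | r
      · simp at hn0
      · rfl
      · nlinarith
    obtain rfl : j = 1 := by omega
    obtain ⟨l, hl⟩ := IsCharacter.exists_hom_of_one_eq_one e1 (by rw [e3, Nat.cast_one])
    rw [show (l : G → ℂ) = fun _ => 1 from funext (hperf l), sub_eq_iff_eq_add] at hl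
    have e6 := classInner_indFun (MulAction.stabilizer G x₀) (θ.comp κ) c1
    rw [hl, classInner_add_left, IsIrrCharacter.classInner_self isIrrCharacter_one,
      IsIrrCharacter.classInner_of_ne hχ isIrrCharacter_one (fun e => by
        rw [e] at e2
        have : 1 = N * 1 := by exact_mod_cast (show (1 : ℂ) = _ from e2)
        omega)] at e6
    rw [IsIrrCharacter.eq_of_classInner_ne_zero i1 isIrrCharacter_one (by rw [← e6]; simp)] at hl
    rw [hπ, hl]; simp
  have hSt : IsIrrCharacter G (π - fun _ => 1) := by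
    refine (IsCharacter.isIrr_sub_of_norm_two π2 ?_ isIrrCharacter_one ?_).1
    · have := Fintype.ofFinite X
      have := Fintype.ofFinite (MulAction.orbitRel.Quotient (MulAction.stabilizer G x₀) X)
      have e1 := MulAction.sum_card_fixedBy_eq_card_orbits_mul_card_group (MulAction.stabilizer G x₀) X
      have e2 : Nat.card (MulAction.orbitRel.Quotient (MulAction.stabilizer G x₀) X) = 2 := by
        refine Nat.card_eq_two_iff.2 ⟨Quotient.mk _ x₁, Quotient.mk _ x₀, fun e => ?_, Set.eq_univ_of_forall fun y => ?_⟩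
        · obtain ⟨b, hb⟩ := Quotient.exact e
          exact h01 (hb.symm.trans b.2)
        · obtain ⟨y, rfl⟩ := Quotient.exists_rep y
          by_cases hy : y = x₀
          · exact Or.inr (by rw [hy]; rfl)
          · obtain ⟨b, h3, h4⟩ := h2 y hy
            exact Or.inl (Quotient.sound ⟨⟨b, h3⟩, h4⟩)
      simp only [← Nat.card_eq_fintype_card] at e1
      rw [e2] at e1
      nth_rewrite 1 [hπ]
      rw [classInner_indFun _ _ (IsCharacter.isClassFunction π2), classInner, inv_mul_eq_iff_eq_mul₀ card_ne_zero']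
      simp only [π1, one_mul, map_natCast]
      rw [mul_comm]
      exact_mod_cast e1
    · rw [hπ, classInner_indFun _ _ c1, IsIrrCharacter.classInner_self isIrrCharacter_one]; simp
  by_contra hc
  obtain ⟨M, hM⟩ := exists_isPModular p hp.out
  have := hM.2.1
  have := charP_resF hM
  have e1 := congrArg (fun z => redC M ((Subgroup.centralizer ({g⁻¹} : Set G)).index * z)) (sum_eq_zero_of_not_pc hc)
  have m1 : ∀ χ : IrrCharacter G, (χ : G → ℂ) x ^ 2 ∈ locRing M := fun χ =>
    pow_mem (char_mem (IsIrrCharacter.isCharacter χ.2) _) 2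
  have e2 : ∀ χ : IrrCharacter G, (Subgroup.centralizer ({g⁻¹} : Set G)).index *
      ((χ : G → ℂ) x ^ 2 * (χ : G → ℂ) g⁻¹ / (χ : G → ℂ) 1) = (χ : G → ℂ) x ^ 2 * centralChar χ g⁻¹ := fun χ => by
    rw [centralChar]; ring
  simp only [Finset.mul_sum, e2, mul_zero, redC_zero] at e1
  rw [redC_sum _ _ fun χ _ => mul_mem (m1 χ) (centralChar_mem χ.2 _), Finset.sum_eq_single ⟨_, hSt⟩] at e1
  · have e3 : fixN X g⁻¹ = fixN X g := 
      Nat.card_congr (Equiv.subtypeEquivRight fun y => by rw [inv_smul_eq_iff, eq_comm])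
    have e4 : Subgroup.centralizer ({g⁻¹} : Set G) = Subgroup.centralizer {g} := by
      ext y; simp only [Subgroup.mem_centralizer_singleton_iff]
      exact ⟨fun h => (Commute.inv_right_iff.1 h).eq, fun h => (Commute.inv_right h).eq⟩
    have e5 : centralChar (π - fun _ => 1) g⁻¹ = k := by
      have : (N : ℂ) ≠ 0 := by exact_mod_cast (by omega : N ≠ 0)
      simp only [centralChar, Pi.sub_apply, π3, π1 g⁻¹, e3, e4, hf]
      push_cast
      rw [add_sub_cancel_right, add_sub_cancel_right, div_eq_iff this]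
      exact_mod_cast hg'
    have e6 : (π - fun _ => 1 : G → ℂ) x ^ 2 = 1 := by
      rcases hx with h | h <;> simp only [Pi.sub_apply, π1, h] <;> norm_num
    simp only [e5, e6, one_mul, redC_natCast] at e1
    exact hk ((CharP.cast_eq_zero_iff _ p _).1 e1)
  · intro χ _ hχ
    rw [redC_mul (m1 χ) (centralChar_mem χ.2 _), (redC_centralChar M hL (by
      rw [hZ, Subgroup.card_bot]; exact hp.out.one_lt.ne' ∘ Nat.dvd_one.1) χ.2
      (fun hd => hχ (Subtype.ext (key _ χ.2 hd))) _).2, mul_zero]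
    rintro ⟨z, hz, s, n, h1, h3⟩
    rw [hZ, Subgroup.mem_bot] at hz
    rw [hz, one_mul] at h3
    exact hg n (by rw [← inv_eq_one, ← inv_pow, h3, h1])
  · simp

end

end Cfsg.Agent.H2
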