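import Mathlib

/-! A ping-pong type degree argument: nontrivial words are not laws over large fields. -/

set_option autoImplicit false
set_option linter.unusedSectionVars false
set_option linter.unusedSimpArgs false

namespace Cfsg.Agent.H2.Laws

open Polynomial

universe v

theorem tele {A : Type*} [AddCommGroup A] (J : List A) : ∀ j0 : A, List.IsChain (· ≠ ·) (j0 :: J) →
    ∃ (Γ : List A) (δ : A), (∀ γ ∈ Γ, γ ≠ 0) ∧ Γ.length = J.length ∧
      ∀ (G : Type v) [Group G] (u : A → G) (w : G), (∀ a b, u (a + b) = u a * u b) →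
        ((j0 :: J).map (fun c => u c * w * u (-c))).prod =
          u j0 * (Γ.map (fun γ => w * u γ)).prod * w * u δ := by
  induction J with
  | nil => intro j0 _; exact ⟨[], -j0, by simp, rfl, fun G _ u w hu => by simp⟩
  | cons j1 J ih =>
    intro j0 h
    rw [List.isChain_cons_cons] at h
    obtain ⟨Γ, δ, h1, h2, h3⟩ := ih j1 h.2
    refine ⟨(-j0 + j1) :: Γ, δ, ?_, by simp [h2], fun G _ u w hu => ?_⟩
    · intro γ hγ
      rcases List.mem_cons.1 hγ with rfl | hγ
      · intro h0
        exact h.1 (by rw [neg_add_eq_zero] at h0; exact h0)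
      · exact h1 γ hγ
    · rw [List.map_cons, List.prod_cons, h3 G u w hu, List.map_cons, List.prod_cons, hu]
      group

/-- the list of indices of involutions attached to a word -/
def idx (L : List (ℕ × Bool)) : List ℕ :=
  L.flatMap fun x => if x.2 then [2 * x.1, 2 * x.1 + 1] else [2 * x.1 + 1, 2 * x.1]

theorem length_idx (L : List (ℕ × Bool)) : (idx L).length = 2 * L.length := by
  induction L with
  | nil => rfl
  | cons x L ih =>
    unfold idx at ih ⊢
    rw [List.flatMap_cons, List.length_append, ih]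
    split_ifs <;> simp <;> omega

theorem isChain_idx : ∀ (L : List (ℕ × Bool)), FreeGroup.IsReduced L → List.IsChain (· ≠ ·) (idx L)
  | [], _ => by simp [idx]
  | [(i, b)], _ => by cases b <;> simp [idx]
  | (i, b) :: (j, c) :: L, h => by
    rw [FreeGroup.isReduced_cons_cons] at h
    have ih := isChain_idx ((j, c) :: L) h.2
    have h1 := h.1
    unfold idx at ih ⊢
    rw [List.flatMap_cons]
    rw [List.flatMap_cons] at ih ⊢
    cases b <;> cases c <;> simp at h1 ih ⊢ <;> refine ⟨by omega, ih⟩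

theorem isChain_map {B : Type*} (β : ℕ → B) : ∀ (J : List ℕ), List.IsChain (· ≠ ·) J →
    (∀ a ∈ J, ∀ b ∈ J, β a = β b → a = b) → List.IsChain (· ≠ ·) (J.map β)
  | [], _, _ => by simp
  | [a], _, _ => by simp
  | a :: b :: J, h, hβ => by
    rw [List.isChain_cons_cons] at h
    rw [List.map_cons, List.map_cons, List.isChain_cons_cons]
    refine ⟨fun h' => h.1 (hβ a (by simp) b (by simp) h'), ?_⟩
    exact isChain_map β (b :: J) h.2 fun x hx y hy =>
      hβ x (List.mem_cons_of_mem _ hx) y (List.mem_cons_of_mem _ hy)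

theorem lift_eq_prod {G : Type*} [Group G] (a : ℕ → G) (ha : ∀ i, (a i)⁻¹ = a i) (L : List (ℕ × Bool)) :
    FreeGroup.lift (fun i => a (2 * i) * a (2 * i + 1)) (FreeGroup.mk L) = ((idx L).map a).prod := by
  rw [FreeGroup.lift_mk]
  induction L with
  | nil => rfl
  | cons x L ih =>
    unfold idx at ih ⊢
    rw [List.map_cons, List.prod_cons, ih, List.flatMap_cons, List.map_append, List.prod_append]
    congr 1
    obtain ⟨i, b⟩ := x
    cases b <;> simp [ha]

theorem exists_gamma (W : FreeGroup ℕ) (hW : W ≠ 1) {A : Type*} [AddCommGroup A] [Finite A]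
    (hA : 2 * W.toWord.length ≤ Nat.card A) :
    ∃ (β : ℕ → A) (Γ : List A) (δ₁ δ₂ : A), (∀ γ ∈ Γ, γ ≠ 0) ∧ Γ.length < 2 * W.toWord.length ∧
      ∀ (G : Type v) [Group G] (u : A → G) (w : G), (∀ a b, u (a + b) = u a * u b) → w * w = 1 →
        FreeGroup.lift (fun i => (u (β (2 * i)) * w * u (-β (2 * i))) *
          (u (β (2 * i + 1)) * w * u (-β (2 * i + 1)))) W =
          u δ₁ * (Γ.map (fun γ => w * u γ)).prod * w * u δ₂ := by
  classical
  have := Fintype.ofFinite A
  set L := W.toWord with hL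
  have hL0 : L ≠ [] := fun h => hW (FreeGroup.toWord_eq_nil_iff.1 h)
  have hcard : (idx L).toFinset.card ≤ (Finset.univ : Finset A).card := by
    refine (List.toFinset_card_le _).trans ?_
    rw [length_idx, Finset.card_univ, ← Nat.card_eq_fintype_card]; exact hA
  obtain ⟨β, -, hβ⟩ := Set.Finite.exists_injOn_of_encard_le (s := ((idx L).toFinset : Set ℕ))
    (t := ((Finset.univ : Finset A) : Set A)) (Finset.finite_toSet _) (by
      rw [Set.encard_coe_eq_coe_finsetCard, Set.encard_coe_eq_coe_finsetCard]; exact_mod_cast hcard)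
  have hch := isChain_map β (idx L) (isChain_idx L FreeGroup.isReduced_toWord) (fun a ha b hb h =>
    hβ (by simpa using ha) (by simpa using hb) h)
  have hlen : ((idx L).map β).length = 2 * L.length := by rw [List.length_map, length_idx]
  obtain ⟨j0, J, hJ⟩ : ∃ j0 J, (idx L).map β = j0 :: J := by
    apply List.exists_cons_of_ne_nil
    intro h
    rw [h] at hlen
    have := List.length_pos_iff.2 hL0
    rw [List.length_nil] at hlen; omega
  rw [hJ] at hch hlen
  obtain ⟨Γ, δ, h1, h2, h3⟩ := tele.{v} J j0 hch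
  refine ⟨β, Γ, j0, δ, h1, by simp at hlen; omega, fun G _ u w hu hw => ?_⟩
  have hu0 : u 0 = 1 := by
    have := hu 0 0
    rw [add_zero] at this
    exact (mul_eq_left.1 this.symm)
  have hinv : ∀ c, u (-c) = (u c)⁻¹ := fun c => by
    rw [eq_inv_iff_mul_eq_one, ← hu, neg_add_cancel, hu0]
  have hw' : w⁻¹ = w := inv_eq_of_mul_eq_one_right hw
  rw [← h3 G u w hu, ← hJ, List.map_map, ← FreeGroup.mk_toWord (x := W)]
  exact lift_eq_prod (fun j => u (β j) * w * u (-β j)) (fun j => by simp [hinv, hw', mul_assoc]) L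

theorem degree_prod {F ι : Type*} [Field F] [Fintype ι] [DecidableEq ι] (i0 : ι) (e : ℕ)
    (M : F → Matrix ι ι F[X]) (h0 : ∀ γ ≠ 0, (M γ i0 i0).degree = e)
    (h1 : ∀ γ i j, (i ≠ i0 ∨ j ≠ i0) → (M γ i j).degree < e) (Γ : List F) (hΓ : ∀ γ ∈ Γ, γ ≠ 0) :
    ((Γ.map M).prod i0 i0).degree = (e * Γ.length : ℕ) ∧
      ∀ i ≠ i0, ((Γ.map M).prod i i0).degree < (e * Γ.length : ℕ) := by
  induction Γ with
  | nil =>
    refine ⟨by simp, fun i hi => ?_⟩
    simp [Matrix.one_apply_ne hi]
  | cons γ Γ ih =>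
    obtain ⟨ih1, ih2⟩ := ih fun x hx => hΓ x (List.mem_cons_of_mem _ hx)
    have hγ := hΓ γ List.mem_cons_self
    set P := (Γ.map M).prod
    have hle : ∀ j, (P j i0).degree ≤ (e * Γ.length : ℕ) := fun j => by
      by_cases hj : j = i0
      · rw [hj, ih1]
      · exact (ih2 j hj).le
    have hcast : ((e * (γ :: Γ).length : ℕ) : WithBot ℕ) = (e : WithBot ℕ) + (e * Γ.length : ℕ) := by
      rw [List.length_cons]; push_cast; ring
    have hsmall : ∀ i j, (i ≠ i0 ∨ j ≠ i0) → (M γ i j * P j i0).degree < (e * (γ :: Γ).length : ℕ) := by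
      intro i j hij
      rw [hcast]
      refine (degree_mul_le _ _).trans_lt ((add_le_add_right (hle j) _).trans_lt ?_)
      exact WithBot.add_lt_add_right (WithBot.natCast_ne_bot _) (h1 γ i j hij)
    rw [List.map_cons, List.prod_cons]
    constructor
    · rw [Matrix.mul_apply, ← Finset.add_sum_erase _ _ (Finset.mem_univ i0)]
      have h2 : (M γ i0 i0 * P i0 i0).degree = (e * (γ :: Γ).length : ℕ) := by
        rw [degree_mul, h0 γ hγ, ih1, hcast]
      rw [degree_add_eq_left_of_degree_lt, h2]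
      rw [h2]
      refine (degree_sum_le _ _).trans_lt ?_
      rw [Finset.sup_lt_iff (WithBot.bot_lt_coe _)]
      intro j hj
      exact hsmall i0 j (Or.inr (Finset.ne_of_mem_erase hj))
    · intro i hi
      rw [Matrix.mul_apply]
      refine (degree_sum_le _ _).trans_lt ?_
      rw [Finset.sup_lt_iff (WithBot.bot_lt_coe _)]
      intro j _
      exact hsmall i j (Or.inl hi)

theorem exists_eval_ne_zero {F ι : Type*} [Field F] [Finite F] [Fintype ι] [DecidableEq ι] (i0 : ι) (e : ℕ)
    (M : F → Matrix ι ι F[X]) (h0 : ∀ γ ≠ 0, (M γ i0 i0).degree = e)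
    (h1 : ∀ γ i j, (i ≠ i0 ∨ j ≠ i0) → (M γ i j).degree < e) (Γ : List F) (hΓ : ∀ γ ∈ Γ, γ ≠ 0)
    (hcard : e * Γ.length < Nat.card F) :
    ∃ s : F, (Γ.map fun γ => (M γ).map (eval s)).prod i0 i0 ≠ 0 := by
  obtain ⟨h2, -⟩ := degree_prod i0 e M h0 h1 Γ hΓ
  by_contra h
  push Not at h
  have h3 : (Γ.map M).prod i0 i0 = 0 := by
    apply eq_zero_of_forall_eval_zero_of_natDegree_lt_card
    · intro s
      have := h s
      have h4 : (Γ.map fun γ => (M γ).map (eval s)).prod = ((Γ.map M).prod).map (eval s) := by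
        have := map_list_prod (evalRingHom s).mapMatrix (Γ.map M)
        rw [List.map_map] at this
        exact this.symm
      rw [h4] at this
      exact this
    · rw [natDegree_eq_of_degree_eq_some h2, ← Nat.cast_card]
      exact_mod_cast hcard
  rw [h3, degree_zero] at h2
  exact WithBot.natCast_ne_bot _ h2.symm

end Cfsg.Agent.H2.Laws
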