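import Cfsg.Agent.H6.PresSL2
import Cfsg.Agent.H2.PSL2

/-! Bounded presentations of `SL₂(q)` and `PSL₂(q)`. -/

set_option autoImplicit false
set_option linter.unusedSectionVars false
set_option linter.unusedSimpArgs false

namespace Cfsg.Agent.H2

open Polynomial Cfsg.Agent.H6 Cfsg.Agent.H3 Subgroup
open scoped commutatorElement MatrixGroups

variable {J K : Type*} [Group J] [Field K]

theorem baumslag {a b u : J} (hab : Commute a b) (h1 : Commute u (a * u * a⁻¹))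
    (h2 : b * u * b⁻¹ = u * (a * u * a⁻¹)) (i : ℕ) : Commute u (a ^ i * u * (a ^ i)⁻¹) := by
  have e1 : ∀ i : ℕ, a * (a ^ i * u * (a ^ i)⁻¹) * a⁻¹ = a ^ (i + 1) * u * (a ^ (i + 1))⁻¹ := fun i => by
    rw [pow_succ']; group
  have e2 : ∀ i : ℕ, b * (a ^ i * u * (a ^ i)⁻¹) * b⁻¹ =
      (a ^ i * u * (a ^ i)⁻¹) * (a ^ (i + 1) * u * (a ^ (i + 1))⁻¹) := fun i => by
    have := (hab.pow_left i).eq
    calc _ = (b * a ^ i) * u * (b * a ^ i)⁻¹ := by group
      _ = a ^ i * (b * u * b⁻¹) * (a ^ i)⁻¹ := by rw [← this]; group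
      _ = _ := by rw [h2, pow_succ]; group
  induction i using Nat.twoStepInduction with
  | zero => simp
  | one => simpa using h1
  | more i ih1 ih2 =>
    have a1 := ih1.map (MulAut.conj a)
    have a2 := ih2.map (MulAut.conj a)
    have a3 := ih2.map (MulAut.conj b)
    simp only [MulAut.conj_apply, e1, e2, h2] at a1 a2 a3
    have a4 := a3.mul_left (a1.mul_right a2).inv_left
    rw [mul_inv_cancel_right] at a4
    have a5 := ih2.inv_right.mul_right a4
    rwa [inv_mul_cancel_left] at a5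

theorem comm_of_sq_conj {a u : J} {α : ℤ} (h1 : Commute u (a * u * a⁻¹)) (h2 : a ^ 2 * u * (a ^ 2)⁻¹ = u ^ α)
    (i : ℕ) : Commute u (a ^ i * u * (a ^ i)⁻¹) := by
  induction i using Nat.twoStepInduction with
  | zero => simp
  | one => simpa using h1
  | more i ih1 _ =>
    have : a ^ (i + 2) * u * (a ^ (i + 2))⁻¹ = (a ^ i * u * (a ^ i)⁻¹) ^ α := by
      rw [conj_zpow, ← h2, pow_add]; group
    rw [this]
    exact ih1.zpow_right α

/-- the opposite root family -/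
def opF (t : J) (x : K → J) (s : K) : J := t * x (-s) * t⁻¹

section core

variable {ζ : K} (hζ : ζ ≠ 0) {x : K → J} {h t : J} (hh : Scales h x (ζ ^ 2)) (ht : t * h * t⁻¹ = h⁻¹)
include hζ hh ht

theorem scales_opF : Scales h (opF t x) (ζ ^ 2)⁻¹ := fun s => by
  have h1 : h = t * h⁻¹ * t⁻¹ := inv_injective (ht.symm.trans (by group))
  rw [opF, opF, ← mul_neg, ← hh.inv (pow_ne_zero 2 hζ)]
  conv_lhs => rw [h1]
  group

theorem w_step {n : ℕ} (hn : stW x (opF t x) (ζ ^ n) = h ^ n * t) :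
    stW x (opF t x) (ζ ^ (n + 2)) = h ^ (n + 2) * t := by
  have h1 : h = t * h⁻¹ * t⁻¹ := inv_injective (ht.symm.trans (by group))
  have e : -(ζ ^ (n + 2))⁻¹ = (ζ ^ 2)⁻¹ * -(ζ ^ n)⁻¹ := by rw [pow_add, mul_inv]; ring
  rw [stW, e, pow_add, mul_comm (ζ ^ n), ← hh, ← scales_opF hζ hh ht]
  calc _ = h * stW x (opF t x) (ζ ^ n) * h⁻¹ := by rw [stW]; group
    _ = h ^ (n + 1) * (t * h⁻¹ * t⁻¹) * t := by rw [hn]; group
    _ = _ := by rw [← h1]; group

theorem isR1_core (hx : AddF x) (hw : ∀ s, s ≠ 0 → ∃ n : ℕ, ζ ^ n = s ∧ stW x (opF t x) s = h ^ n * t) :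
    IsR1 x (opF t x) where
  addx := hx
  addy s r := by rw [opF, opF, opF, neg_add, hx]; group
  wx s hs r := by
    obtain ⟨n, rfl, e⟩ := hw s hs
    have := (scales_opF hζ hh ht).pow n (-r)
    rw [e, show -((ζ ^ n)⁻¹ ^ 2 * r) = (ζ ^ 2)⁻¹ ^ n * -r by ring, ← this, opF, neg_neg]
    group

end core

theorem inj_of_isR1 [Finite K] {x y : K → J} (H : IsR1 x y) (π : J →* SL(2, K)) (hx : ∀ s, π (x s) = slX K 0 1 s)
    (hy : ∀ s, π (y s) = slX K 1 0 s) (hg : ∀ L : Subgroup J, (∀ s, x s ∈ L) → (∀ s, y s ∈ L) → L = ⊤) :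
    Function.Injective π := by
  obtain ⟨ψ, hψ⟩ := H.isSt_fin_two.exists_hom
  have h1 : π.comp ψ = MonoidHom.id _ := slX_hom_ext fun i j hij t => by
    rw [MonoidHom.comp_apply, hψ i j hij]
    fin_cases i <;> fin_cases j
    · exact absurd rfl hij
    · exact hx t
    · exact hy t
    · exact absurd rfl hij
  have h2 := MonoidHom.range_eq_top.1 (hg ψ.range (fun s => ⟨_, hψ 0 1 (by decide) s⟩) fun s => ⟨_, hψ 1 0 (by decide) s⟩)
  intro a b hab
  obtain ⟨a, rfl⟩ := h2 a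
  obtain ⟨b, rfl⟩ := h2 b
  exact congrArg ψ ((DFunLike.congr_fun h1 a).symm.trans (hab.trans (DFunLike.congr_fun h1 b)))

theorem stH_pow [Finite K] {x y : K → J} (H : IsR1 x y) {s : K} (hs : s ≠ 0) (n : ℕ) :
    stH x y s ^ n = stH x y (s ^ n) := by
  induction n with
  | zero => rw [pow_zero, pow_zero, H.h_one]
  | succ n ih => rw [pow_succ, pow_succ, ih, H.h_mul (pow_ne_zero n hs) hs]

theorem opF_w {x y : K → J} (H : IsR1 x y) : opF (stW x y 1) x = y := by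
  ext s; rw [opF, H.wx 1 one_ne_zero]; simp

theorem w_conj_h [Finite K] {x y : K → J} (H : IsR1 x y) {s : K} (hs : s ≠ 0) :
    stW x y 1 * stH x y s * (stW x y 1)⁻¹ = (stH x y s)⁻¹ := by
  rw [H.w_mul_h one_ne_zero hs, one_mul, ← H.h_mul_w_one, mul_inv_cancel_right, H.h_inv hs]

/-- three generators, no base group -/
theorem hasPres_three_of {G : Type*} [Group G] (u h t : G) (rel : ∀ {J : Type} [Group J], J → J → J → List J)
    (hR : ∀ r ∈ rel (FreeGroup.of (0 : Fin 3)) (.of 1) (.of 2), FreeGroup.lift ![u, h, t] r = 1)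
    (hmap : ∀ {J J' : Type} [Group J] [Group J'] (f : J →* J') (a b c : J), (rel a b c).map f = rel (f a) (f b) (f c))
    (gen : ∀ L : Subgroup G, u ∈ L → h ∈ L → t ∈ L → L = ⊤)
    (univ : ∀ (J : Type) [Group J] (a b c : J) (π : J →* G), (∀ r ∈ rel a b c, r = 1) → π a = u → π b = h →
      π c = t → (∀ L : Subgroup J, a ∈ L → b ∈ L → c ∈ L → L = ⊤) → Function.Injective π) :
    HasPres G 3 (rel (FreeGroup.of (0 : Fin 3)) (.of 1) (.of 2)).length := by
  have := hasPres_ext (G := G) hasPres_unit 1 ![u, h, t]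
    ((rel (FreeGroup.of (0 : Fin 3)) (.of 1) (.of 2)).map (FreeGroup.map Sum.inr)) (fun r hr => by
      obtain ⟨r, hr', rfl⟩ := List.mem_map.1 hr
      rw [← hR r hr', FreeGroup.map_eq_lift, map_lift]
      simp)
    (gen _ (subset_closure (Or.inr ⟨0, rfl⟩)) (subset_closure (Or.inr ⟨1, rfl⟩)) (subset_closure (Or.inr ⟨2, rfl⟩)))
    (fun J _ ι y π h1 _ h3 h4 => univ J (y 0) (y 1) (y 2) π (by
      rw [forall_lift_iff, hmap, hmap] at h1
      simpa using h1) (h3 0) (h3 1) (h3 2) fun L a b c => by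
        rw [eq_top_iff, ← h4, closure_le]
        rintro _ (⟨z, rfl⟩ | ⟨i, rfl⟩)
        · rw [Subsingleton.elim z 1, map_one]; exact one_mem _
        · fin_cases i <;> assumption)
  simpa using this

/-- relators in odd characteristic -/
def relO (p k l : ℕ) (α β : ℤ) (m g g1 g2 : ℤ[X]) {J : Type*} [Group J] (u h t : J) : List J :=
  [u ^ p, ⁅u, h ^ k * u * (h ^ k)⁻¹⁆, (h ^ l * u * (h ^ l)⁻¹)⁻¹ * (u ^ α * (h ^ k * u * (h ^ k)⁻¹) ^ β),
    polyWord m (h ^ k) u, (h * u * h⁻¹)⁻¹ * polyWord g (h ^ k) u, t * h * t⁻¹ * h, t⁻¹ * (u * (t * u * t⁻¹) * u),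
    (h * t)⁻¹ * (polyWord g1 (h ^ k) u * (t * polyWord g2 (h ^ k) u * t⁻¹) * polyWord g1 (h ^ k) u)]

theorem map_relO (p k l : ℕ) (α β : ℤ) (m g g1 g2 : ℤ[X]) {J J' : Type*} [Group J] [Group J'] (f : J →* J')
    (u h t : J) : (relO p k l α β m g g1 g2 u h t).map f = relO p k l α β m g g1 g2 (f u) (f h) (f t) := by
  simp [relO, map_polyWord, map_commutatorElement]

theorem gen_SL2 [Finite K] {ζ : K} (hζ0 : ζ ≠ 0) (hζ : ∀ s : K, s ≠ 0 → ∃ n : ℕ, ζ ^ n = s) (L : Subgroup SL(2, K))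
    (hu : slX K 0 1 1 ∈ L) (hh : stH (slX K 0 1) (slX K 1 0) ζ ∈ L) (ht : stW (slX K 0 1) (slX K 1 0) 1 ∈ L) :
    L = ⊤ := by
  have H := (isSt_slX (K := K)).r1 (show (0 : Fin 2) ≠ 1 by decide)
  have h1 : ∀ s, slX K 0 1 s ∈ L := span_induction_of_surj (aeval_sq_surj_of_gen hζ) (famSub H.addx L) hu fun s hs => by
    change slX K 0 1 _ ∈ L
    rw [← H.hx hζ0]
    exact L.mul_mem (L.mul_mem hh hs) (L.inv_mem hh)
  rw [eq_top_iff, ← stGG_slX_univ]
  refine stGG_le fun i _ j _ hij s => ?_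
  fin_cases i <;> fin_cases j
  · exact absurd rfl hij
  · exact h1 s
  · change slX K 1 0 s ∈ L
    rw [← opF_w H]
    exact L.mul_mem (L.mul_mem ht (h1 _)) (L.inv_mem ht)
  · exact absurd rfl hij

theorem hasPres_SL2_of [Finite K] {ζ : K} (hζ0 : ζ ≠ 0) (hζ : ∀ s : K, s ≠ 0 → ∃ n : ℕ, ζ ^ n = s) {k l : ℕ} {α β : ℤ}
    (hθ : Function.Surjective (aeval ((ζ ^ 2) ^ k) : ℤ[X] → K)) (hl : (ζ ^ 2) ^ l = α + β * (ζ ^ 2) ^ k)
    (hc : (α = 1 ∧ β = 1) ∨ (l = k * 2 ∧ β = 0)) : HasPres SL(2, K) 3 8 := by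
  have H := (isSt_slX (K := K)).r1 (show (0 : Fin 2) ≠ 1 by decide)
  obtain ⟨m, hm0, hm⟩ := exists_int_minpoly ((ζ ^ 2) ^ k)
  obtain ⟨g, hg⟩ := hθ (ζ ^ 2)
  obtain ⟨g1, hg1⟩ := hθ ζ
  obtain ⟨g2, hg2⟩ := hθ ζ⁻¹
  have hS : Scales (stH (slX K (0 : Fin 2) 1) (slX K 1 0) ζ) (slX K 0 1) (ζ ^ 2) := H.hx hζ0
  refine hasPres_three_of (slX K 0 1 1) (stH (slX K 0 1) (slX K 1 0) ζ) (stW (slX K 0 1) (slX K 1 0) 1)
    (relO (ringChar K) k l α β m g g1 g2) ?_ (map_relO _ _ _ _ _ _ _ _ _) (gen_SL2 hζ0 hζ)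
    fun J _ u h t π hR hu hh ht hgen => ?_
  · rw [forall_lift_iff, map_relO]
    simp only [FreeGroup.lift_apply_of, Matrix.cons_val_zero, Matrix.cons_val_one, Matrix.cons_val_two,
      Matrix.head_cons, Matrix.tail_cons, relO, List.forall_mem_cons, commutatorElement_eq_one_iff_commute, inv_mul_eq_one,
      polyWord_eq H.addx (hS.pow k), hS.pow k 1, hS.pow l 1, hS 1, hm0, hg, hg1, hg2, mul_one, zero_mul, H.x_zero,
      w_conj_h H hζ0, inv_mul_cancel, true_and, H.h_mul_w_one]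
    refine ⟨?_, add_fam_commute H.addx _ _, ?_, ?_, ?_, by simp⟩
    · rw [← zpow_natCast, ← add_fam_zsmul H.addx]
      simpa using H.x_zero
    · rw [hl, H.addx, ← add_fam_zsmul H.addx, ← add_fam_zsmul H.addx]; simp
    · rw [H.wx 1 one_ne_zero, stW]; simp
    · rw [H.wx 1 one_ne_zero, stW]; simp
  simp only [relO, List.forall_mem_cons, commutatorElement_eq_one_iff_commute, inv_mul_eq_one] at hR
  obtain ⟨r1, r2, r3, r4, r5, r6, r7, r8, -⟩ := hR
  rw [mul_eq_one_iff_eq_inv] at r6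
  have hc' : ∀ i : ℕ, Commute u ((h ^ k) ^ i * u * ((h ^ k) ^ i)⁻¹) := by
    rcases hc with ⟨rfl, rfl⟩ | ⟨rfl, rfl⟩
    · exact baumslag (Commute.pow_pow_self h k l) r2 (by simpa using r3)
    · exact comm_of_sq_conj r2 (by simpa [pow_mul] using r3)
  obtain ⟨x, hx, rfl, hk⟩ := exists_addFam hc' hθ hm r1 r4
  simp only [polyWord_eq hx hk, hg, hg1, hg2, mul_one] at r5 r8
  have hs : Scales h x (ζ ^ 2) := AddF.scales hθ hx hk (Commute.self_pow h k) r5
  have w0 : stW x (opF t x) (ζ ^ 0) = h ^ 0 * t := by simpa [stW, opF] using r7.symm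
  have w1 : stW x (opF t x) (ζ ^ 1) = h ^ 1 * t := by simpa [stW, opF] using r8.symm
  have hπ : ∀ s, π (x s) = slX K 0 1 s := AddF.ext hθ (fun a b => by rw [hx, map_mul]) H.addx hu
    (g := π (h ^ k)) (fun s => by rw [← hk]; simp) (by rw [map_pow, hh]; exact hS.pow k)
  refine inj_of_isR1 (isR1_core hζ0 hs r6 hx fun s hs0 => ?_) π hπ (fun s => ?_) fun L a b => ?_
  · obtain ⟨n, rfl⟩ := hζ s hs0
    refine ⟨n, rfl, ?_⟩
    clear hs0
    induction n using Nat.twoStepInduction with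
    | zero => exact w0
    | one => exact w1
    | more n ih _ => exact w_step hζ0 hs r6 ih
  · rw [← opF_w H, opF, opF, map_mul, map_mul, map_inv, hπ, ht]
  · have c : ∀ s, stW x (opF t x) s ∈ L := fun s => L.mul_mem (L.mul_mem (a _) (b _)) (a _)
    have c0 : t ∈ L := by have := c (ζ ^ 0); rwa [w0, pow_zero, one_mul] at this
    exact hgen L (a 1) ((L.mul_mem_cancel_right c0).1 (by have := c (ζ ^ 1); rwa [w1, pow_one] at this)) c0

theorem aeval_surj_half [Finite K] (h2 : (2 : K) ≠ 0) {ζ : K} (hζ0 : ζ ≠ 0) (hζ : ∀ s : K, s ≠ 0 → ∃ n : ℕ, ζ ^ n = s)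
    (h8 : ζ ^ 8 ≠ 1) : Function.Surjective (aeval (((ζ - ζ⁻¹) / 2) ^ 2) : ℤ[X] → K) := by
  classical
  have := Fintype.ofFinite K
  set s := ((ζ - ζ⁻¹) / 2) ^ 2 with hs
  let L : Subfield K := { (aeval s : ℤ[X] →ₐ[ℤ] K).range.toSubring with
    inv_mem' := fun z hz => by
      by_cases h0 : z = 0
      · rw [h0, inv_zero]; exact zero_mem (aeval s : ℤ[X] →ₐ[ℤ] K).range
      · have h1 := FiniteField.pow_card_sub_one_eq_one z h0
        have h3 : 1 < Fintype.card K := Fintype.one_lt_card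
        rw [show Fintype.card K - 1 = (Fintype.card K - 2) + 1 by omega, pow_succ] at h1
        rw [← eq_inv_of_mul_eq_one_left h1]
        exact pow_mem (show z ∈ (aeval s : ℤ[X] →ₐ[ℤ] K).range from hz) _ }
  suffices h : L = ⊤ from fun z => (show z ∈ L from h ▸ Subfield.mem_top z)
  have hc := Module.natCard_eq_pow_finrank (K := L) (V := K)
  have h1 : 1 < Nat.card L := Finite.one_lt_card
  by_contra hne
  have h3 : 2 ≤ Module.finrank L K := by
    by_contra h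
    have h4 : Module.finrank L K = 1 := by have := Module.finrank_pos (R := L) (M := K); omega
    rw [h4, pow_one] at hc
    apply hne
    have : (L : Set K) = Set.univ := Set.eq_of_subset_of_ncard_le (Set.subset_univ _) (by
      rw [Set.ncard_univ, hc]; rfl)
    exact SetLike.coe_injective this
  have h4 : Nat.card L ^ 2 ≤ Nat.card K := hc ▸ Nat.pow_le_pow_right (by omega) h3
  have key : ∀ n, n ≠ 0 → ζ ^ n = 1 → Nat.card K ≤ n + 1 := fun n hn e => by
    by_contra h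
    obtain ⟨a, ha⟩ := exists_pow_ne_one (F := K) hn (not_le.1 h)
    obtain ⟨k, hk⟩ := hζ a a.ne_zero
    exact ha (by rw [← hk, ← pow_mul, mul_comm, pow_mul, e, one_pow])
  have hm : ζ ^ 2 + (ζ ^ 2)⁻¹ ∈ L := ⟨4 * X + 2, by
    change aeval s (4 * X + 2 : ℤ[X]) = _
    simp only [map_add, map_mul, aeval_X, map_ofNat, hs]
    field_simp; ring⟩
  have h5 := congrArg Subtype.val (FiniteField.pow_card (⟨_, hm⟩ : L))
  obtain ⟨p, hp, e, hp', he⟩ := FiniteField.card' L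
  have : CharP K p := (algebraMap L K).charP_iff_charP p |>.1 hp
  have := Fact.mk hp'
  simp only [SubmonoidClass.coe_pow] at h5
  rw [he, add_pow_char_pow, ← he, ← Nat.card_eq_fintype_card, inv_pow] at h5
  generalize Nat.card L = q at *
  have h6 : ((ζ ^ 2) ^ q - ζ ^ 2) * ((ζ ^ 2) ^ q * ζ ^ 2 - 1) = 0 := by
    have : (ζ ^ 2) ^ q ≠ 0 := by positivity
    generalize (ζ ^ 2) ^ q = a at *
    field_simp at h5
    linear_combination h5
  rcases mul_eq_zero.1 h6 with h | h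
  · obtain ⟨r, rfl⟩ : ∃ r, q = r + 1 := ⟨q - 1, by omega⟩
    have := key (2 * r) (by omega) (mul_right_cancel₀ (pow_ne_zero 2 hζ0) (by
      rw [pow_mul, one_mul, ← pow_succ]; exact sub_eq_zero.1 h))
    nlinarith
  · rw [sub_eq_zero, ← pow_succ, ← pow_mul] at h
    have h7 := key _ (by omega) h
    have h9 : q ≤ 3 := by nlinarith
    have h10 : q ≠ 2 := by
      rintro rfl
      have := odd_card_of_two_ne_zero h2
      rw [hc, Nat.pow_mod] at this
      simp [Nat.ne_of_gt (show 0 < Module.finrank L K by omega)] at this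
    obtain rfl : q = 3 := by omega
    exact h8 h

theorem hasPres_SL2_odd [Finite K] (h2 : (2 : K) ≠ 0) : HasPres SL(2, K) 3 8 := by
  obtain ⟨ζ, hζ0, hζ⟩ := exists_gen K
  by_cases h8 : ζ ^ 8 = 1
  · have h : ((ζ ^ 2) ^ 2) ^ 2 = 1 := by rw [← h8]; ring
    rcases sq_eq_one_iff.1 h with h | h
    · exact hasPres_SL2_of hζ0 hζ (k := 1) (l := 2) (α := 1) (β := 0) (by simpa using aeval_sq_surj_of_gen hζ)
        (by simpa using h) (Or.inr ⟨rfl, rfl⟩)
    · exact hasPres_SL2_of hζ0 hζ (k := 1) (l := 2) (α := -1) (β := 0) (by simpa using aeval_sq_surj_of_gen hζ)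
        (by simpa using h) (Or.inr ⟨rfl, rfl⟩)
  · obtain ⟨k, hk⟩ := hζ ((ζ - ζ⁻¹) / 2) fun h => h8 (by
      field_simp at h
      linear_combination (ζ ^ 6 + ζ ^ 4 + ζ ^ 2 + 1) * h)
    obtain ⟨l, hl⟩ := hζ ((ζ + ζ⁻¹) / 2) fun h => h8 (by
      field_simp at h
      linear_combination (ζ ^ 6 - ζ ^ 4 + ζ ^ 2 - 1) * h)
    have e : ∀ n, (ζ ^ 2) ^ n = (ζ ^ n) ^ 2 := fun n => by ring
    refine hasPres_SL2_of hζ0 hζ (k := k) (l := l) (α := 1) (β := 1) ?_ ?_ (Or.inl ⟨rfl, rfl⟩)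
    · rw [e, hk]; exact aeval_surj_half h2 hζ0 hζ h8
    · rw [e, e, hk, hl]; field_simp; ring

/-- relators in characteristic two -/
def relE (E : Bool) (n l : ℕ) (m : ℤ[X]) {J : Type*} [Group J] (u h t : J) : List J :=
  [t ^ 2, (t * u * t)⁻¹ * (u * t * u), t * h * t⁻¹ * h,
    if E then h else (h ^ l * u * (h ^ l)⁻¹)⁻¹ * (u * (h * u * h⁻¹)), (h ^ n)⁻¹ * polyWord m h u]

theorem map_relE (E : Bool) (n l : ℕ) (m : ℤ[X]) {J J' : Type*} [Group J] [Group J'] (f : J →* J')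
    (u h t : J) : (relE E n l m u h t).map f = relE E n l m (f u) (f h) (f t) := by
  cases E <;> simp [relE, map_polyWord]

theorem hasPres_SL2_even [Finite K] (h2 : (2 : K) = 0) : HasPres SL(2, K) 3 5 := by
  have H := (isSt_slX (K := K)).r1 (show (0 : Fin 2) ≠ 1 by decide)
  obtain ⟨ζ, hζ0, hζ⟩ := exists_gen K
  have hθ := aeval_sq_surj_of_gen hζ
  have hch := ringChar_eq_two_of h2
  have hζ' : ∀ s : K, s ≠ 0 → ∃ n : ℕ, ζ ^ (n * 2) = s := fun s hs => by
    have := Fintype.ofFinite K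
    obtain ⟨r, rfl⟩ := FiniteField.isSquare_of_char_two hch s
    obtain ⟨n, rfl⟩ := hζ r (left_ne_zero_of_mul hs)
    exact ⟨n, by ring⟩
  obtain ⟨E, l, hE⟩ : ∃ (E : Bool) (l : ℕ), (E = true ∧ ζ = 1) ∨ (E = false ∧ (ζ ^ 2) ^ l = 1 + ζ ^ 2) := by
    by_cases h : ζ = 1
    · exact ⟨true, 0, Or.inl ⟨rfl, h⟩⟩
    · obtain ⟨n, hn⟩ := hζ' (1 + ζ ^ 2) fun h' => h (sub_eq_zero.1 (pow_eq_zero_iff two_ne_zero |>.1
        (show (ζ - 1) ^ 2 = 0 by linear_combination h' - ζ * h2)))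
      exact ⟨false, n, Or.inr ⟨rfl, by rw [← hn]; ring⟩⟩
  obtain ⟨m, hm0, hm⟩ := exists_int_minpoly (ζ ^ 2)
  obtain ⟨N, hN⟩ : ∃ N, Nat.card K - 1 + 1 = 2 * N := by
    have := even_card_of_two_eq_zero h2
    have : 0 < Nat.card K := Nat.card_pos
    exact ⟨Nat.card K / 2, by omega⟩
  have hS : Scales (stH (slX K (0 : Fin 2) 1) (slX K 1 0) ζ) (slX K 0 1) (ζ ^ 2) := H.hx hζ0
  have n1 : (-1 : K) = 1 := by linear_combination -h2
  refine hasPres_three_of (slX K 0 1 1) (stH (slX K 0 1) (slX K 1 0) ζ) (stW (slX K 0 1) (slX K 1 0) 1)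
    (relE E (Nat.card K - 1) l m) ?_ (map_relE _ _ _ _) (gen_SL2 hζ0 hζ)
    fun J _ u h t π hR hu hh ht hgen => ?_
  · rw [forall_lift_iff, map_relE]
    have t2 : stW (slX K (0 : Fin 2) 1) (slX K 1 0) 1 * stW (slX K (0 : Fin 2) 1) (slX K 1 0) 1 = 1 := by
      rw [H.w_mul_w one_ne_zero one_ne_zero, n1, inv_one, mul_one, H.h_one]
    simp only [FreeGroup.lift_apply_of, Matrix.cons_val_zero, Matrix.cons_val_one, Matrix.cons_val_two,
      Matrix.head_cons, Matrix.tail_cons, relE, List.forall_mem_cons, inv_mul_eq_one,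
      polyWord_eq H.addx hS, hS.pow l 1, hS 1, hm0, mul_one, zero_mul, H.x_zero,
      w_conj_h H hζ0, inv_mul_cancel, true_and, sq (stW _ _ _), t2]
    refine ⟨?_, ?_, ?_, by simp⟩
    · have e := H.wx 1 one_ne_zero 1
      rw [← eq_inv_of_mul_eq_one_left t2] at e
      have x2 : slX K (0 : Fin 2) 1 1 * slX K (0 : Fin 2) 1 1 = 1 := by
        rw [← H.addx, one_add_one_eq_two, h2, H.x_zero]
      rw [e, stW]
      simp only [inv_one, one_pow, mul_one, ← mul_assoc, x2, one_mul]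
      rw [mul_assoc, x2, mul_one]
    · rcases hE with ⟨rfl, rfl⟩ | ⟨rfl, e⟩
      · exact H.h_one
      · simp [e, H.addx]
    · have := Fintype.ofFinite K
      rw [stH_pow H hζ0, Nat.card_eq_fintype_card, FiniteField.pow_card_sub_one_eq_one ζ hζ0, H.h_one, inv_one]
  simp only [relE, List.forall_mem_cons, inv_mul_eq_one] at hR
  obtain ⟨r1, r2, r3, r4, r5, -⟩ := hR
  rw [mul_eq_one_iff_eq_inv] at r3
  have u2 : u ^ 2 = 1 := by
    have : u * t * u * (u * t)⁻¹ = t := by rw [← r2]; group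
    rw [← this, conj_pow, conj_eq_one_iff] at r1
    exact r1
  have hc : (∀ i : ℕ, Commute u (h ^ i * u * (h ^ i)⁻¹)) ∧ polyWord m h u = 1 := by
    rcases hE with ⟨rfl, -⟩ | ⟨rfl, -⟩
    · obtain rfl : h = 1 := r4
      exact ⟨by simp, by simpa using r5.symm⟩
    · have r4' : h ^ l * u * (h ^ l)⁻¹ = u * (h * u * h⁻¹) := inv_mul_eq_one.1 r4
      have c1 : Commute u (h * u * h⁻¹) := by
        have a1 : (h * u * h⁻¹) ^ 2 = 1 := by rw [conj_pow, u2]; simp
        have a2 : (u * (h * u * h⁻¹)) ^ 2 = 1 := by rw [← r4', conj_pow, u2]; simp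
        generalize h * u * h⁻¹ = v at *
        rw [sq] at u2 a1 a2
        change u * v = v * u
        rw [eq_inv_of_mul_eq_one_left a2, _root_.mul_inv_rev, ← eq_inv_of_mul_eq_one_left a1,
          ← eq_inv_of_mul_eq_one_left u2]
      have c2 := baumslag (Commute.self_pow h l) c1 r4'
      refine ⟨c2, ?_⟩
      obtain ⟨x, hx, rfl, hk⟩ := exists_polyFam c2
      have a1 := map_polyWord (MulAut.conj (h ^ l)).toMonoidHom m h (x 1)
      simp only [MulEquiv.coe_toMonoidHom, MulAut.conj_apply] at a1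
      rw [r4', hk, ← hx, ← (Commute.self_pow h l).eq, mul_inv_cancel_right, polyWord_eq hx hk _ (_ + _), mul_add, hx,
        mul_left_comm, ← hk, ← polyWord_eq hx hk, ← r5] at a1
      rw [← r5]
      rw [(Commute.pow_pow_self h l _).eq, (Commute.self_pow h _).eq, mul_inv_cancel_right, mul_inv_cancel_right] at a1
      exact left_eq_mul.1 a1
  obtain ⟨x, hx, rfl, hk⟩ := exists_addFam hc.1 hθ hm (hch ▸ u2) hc.2
  have w0 : stW x (opF t x) (ζ ^ 0) = h ^ 0 * t := by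
    rw [sq] at r1 u2
    simp only [stW, opF, pow_zero, inv_one, neg_neg, one_mul, ← eq_inv_of_mul_eq_one_left r1, r2, ← mul_assoc, u2]
    rw [mul_assoc, u2, mul_one]
  have hw : ∀ n, stW x (opF t x) (ζ ^ (n * 2)) = h ^ (n * 2) * t := fun n => by
    induction n with
    | zero => exact w0
    | succ n ih => rw [add_mul, one_mul]; exact w_step hζ0 hk r3 ih
  have hπ : ∀ s, π (x s) = slX K 0 1 s := AddF.ext hθ (fun a b => by rw [hx, map_mul]) H.addx hu
    (g := π h) (fun s => by rw [← hk]; simp) (by rw [hh]; exact hS)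
  refine inj_of_isR1 (isR1_core hζ0 hk r3 hx fun s hs0 => ?_) π hπ (fun s => ?_) fun L a b => ?_
  · obtain ⟨n, rfl⟩ := hζ' s hs0
    exact ⟨_, rfl, hw n⟩
  · rw [← opF_w H, opF, opF, map_mul, map_mul, map_inv, hπ, ht]
  · have c : ∀ s, stW x (opF t x) s ∈ L := fun s => L.mul_mem (L.mul_mem (a _) (b _)) (a _)
    have c0 : t ∈ L := by have := c (ζ ^ 0); rwa [w0, pow_zero, one_mul] at this
    refine hgen L (a 1) ((L.mul_mem_cancel_right c0).1 ?_) c0
    have := c (ζ ^ (N * 2))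
    rwa [hw, mul_comm N, ← hN, pow_succ, r5, hc.2, one_mul] at this

theorem hasPres_SL2 [Finite K] : HasPres SL(2, K) 3 8 := by
  by_cases h2 : (2 : K) = 0
  · exact (hasPres_SL2_even h2).mono (by norm_num)
  · exact hasPres_SL2_odd h2

theorem hasPres_PSL2 [Finite K] : HasPres PSL(2, K) 3 9 := by
  have := Fintype.ofFinite K
  exact hasPres_PSL_of_SL (by norm_num) hasPres_SL2

theorem hasPres_PSL2_even [Finite K] (h2 : (2 : K) = 0) : HasPres PSL(2, K) 3 5 :=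
  hasPres_of_equiv (MulEquiv.ofBijective (pj K) ⟨by
    rw [← MonoidHom.ker_eq_bot_iff, QuotientGroup.ker_mk', center_eq_bot_of_eq h2], pj_surjective⟩)
    (hasPres_SL2_even h2)

end Cfsg.Agent.H2
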