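import Cfsg.Agent.H2.R3b

/-! Rank 3 groups with a Frobenius suborbit: eigenvalues and the characters on the eigenspaces. -/

set_option autoImplicit false

namespace Cfsg.Agent.H2

open Subgroup MulAction Cfsg.Agent.H1
open scoped Classical

section Mat

variable {G X : Type*} [Group G] [MulAction G X] [Fintype X]

/-- permutation matrices -/
noncomputable def permM (X : Type*) [Fintype X] [MulAction G X] : G →* Matrix X X ℂ where
  toFun g := Matrix.of (fun x y => if x = g • y then 1 else 0)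
  map_one' := by ext x y; simp [Matrix.one_apply]
  map_mul' g h := by
    ext x y
    simp [Matrix.mul_apply, mul_smul]

theorem permM_mul (g : G) (M : Matrix X X ℂ) (x y : X) : (permM X g * M) x y = M (g⁻¹ • x) y := by
  simp only [Matrix.mul_apply, permM, MonoidHom.coe_mk, OneHom.coe_mk, Matrix.of_apply, ite_mul, one_mul,
    zero_mul, ← inv_smul_eq_iff]
  simp

theorem mul_permM (g : G) (M : Matrix X X ℂ) (x y : X) : (M * permM X g) x y = M x (g • y) := by
  simp [Matrix.mul_apply, permM]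

/-- number of fixed points -/
noncomputable def al0 (X : Type*) [Fintype X] [MulAction G X] (g : G) : ℕ :=
  (Finset.univ.filter (fun x : X => g • x = x)).card

/-- number of points moved to a neighbour -/
noncomputable def al1 (adj : X → X → Prop) (g : G) : ℕ :=
  (Finset.univ.filter (fun x : X => adj x (g • x))).card

theorem char_of_idem [Fintype G] (E : Matrix X X ℂ) (hE : E * E = E)
    (hc : ∀ (g : G) x y, E (g • x) (g • y) = E x y) :
    IsCharacter G (fun g => ∑ y, E y (g • y)) ∧ ∀ a, E a a ≠ 0 → ∀ S : Subgroup G, S ≤ stabilizer G a →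
      ∃ n : ℕ, 1 ≤ n ∧ ∑ g ∈ Finset.univ.filter (fun g => g ∈ S), ∑ y, E y (g • y) = n * Nat.card S := by
  have hcm : ∀ g : G, permM X g * E = E * permM X g := fun g => by
    ext x y
    rw [permM_mul, mul_permM, ← hc g, smul_inv_smul]
  let ρ : Representation ℂ G (X → ℂ) := (Matrix.toLinAlgEquiv' (R := ℂ) (n := X)).toMonoidHom.comp (permM X)
  have hρ : ∀ g, ρ g = Matrix.toLin' (permM X g) := fun g => rfl
  let V := LinearMap.range (Matrix.toLin' E)
  have hV : ∀ g, V ≤ V.comap (ρ g) := by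
    rintro g _ ⟨v, rfl⟩
    refine ⟨ρ g v, ?_⟩
    rw [hρ, ← Matrix.toLin'_mul_apply, ← Matrix.toLin'_mul_apply, hcm]
  let σ := ρ.subrepresentation V hV
  have hσ : σ.character = fun g => ∑ y, E y (g • y) := by
    ext g
    have h1 : ∀ x, Matrix.toLin' (E * permM X g) x ∈ V := fun x => ⟨_, (Matrix.toLin'_mul_apply _ _ _).symm⟩
    have h2 := LinearMap.trace_restrict_eq_of_forall_mem V _ h1
    rw [Matrix.trace_toLin'_eq] at h2
    simp only [Matrix.trace, Matrix.diag, mul_permM] at h2
    rw [← h2]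
    unfold Representation.character
    congr 1
    refine LinearMap.ext (fun v => Subtype.ext ?_)
    obtain ⟨_, v, rfl⟩ := v
    change ρ g (Matrix.toLin' E v) = Matrix.toLin' (E * permM X g) (Matrix.toLin' E v)
    rw [hρ, ← Matrix.toLin'_mul_apply, ← Matrix.toLin'_mul_apply, ← hcm, mul_assoc, hE]
  refine ⟨hσ ▸ isCharacter_of_rep σ, fun a ha S hS => ?_⟩
  let τ : Representation ℂ S V := σ.comp S.subtype
  have h1 := classInner_one_rep τ
  refine ⟨Module.finrank ℂ τ.invariants, ?_, ?_⟩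
  · refine (Module.finrank_pos_iff_exists_ne_zero (R := ℂ) (M := τ.invariants)).mpr
      ⟨⟨⟨Matrix.toLin' E (Pi.single a 1), _, rfl⟩, ?_⟩, ?_⟩
    · intro g
      apply Subtype.ext
      change ρ g (Matrix.toLin' E (Pi.single a 1)) = Matrix.toLin' E (Pi.single a 1)
      rw [hρ, ← Matrix.toLin'_mul_apply]
      ext x
      have : (g : G) • a = a := hS g.2
      simp only [Matrix.toLin'_apply, Matrix.mulVec_single_one, Matrix.col_apply, permM_mul]
      rw [← hc g, smul_inv_smul, this]
    · intro e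
      apply ha
      have := congrArg (fun v : τ.invariants => ((v : V) : X → ℂ) a) e
      simpa using this
  · rw [← h1]
    simp only [Cfsg.classInner, map_one, mul_one]
    rw [mul_comm, mul_inv_cancel_left₀ card_ne_zero']
    rw [Finset.sum_subtype (p := fun g => g ∈ S) _ (by simp)]
    refine Finset.sum_congr rfl (fun g _ => ?_)
    exact (congrFun hσ g).symm

end Mat

namespace R3

variable {G X : Type*} [Group G] [MulAction G X] {adj : X → X → Prop} (R : R3 G adj) [Fintype X]
include R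

theorem eig [Fintype G] {a b c : X} (hb : adj a b) (hc : a ≠ c ∧ ¬ adj a c) (ρ σ : ℂ)
    (hs : ρ + σ = (nbF adj a ∩ nbF adj b).card - (nbF adj a ∩ nbF adj c).card)
    (hp : ρ * σ = (nbF adj a ∩ nbF adj c).card - (nbF adj a).card) (hne : ρ - σ ≠ 0) :
    IsCharacter G (fun g => (ρ * al0 X g - al1 adj g + (nbF adj a).card - ρ) / (ρ - σ)) ∧
      ((Fintype.card X * ρ + (nbF adj a).card - ρ ≠ 0) → ∀ S : Subgroup G, S ≤ stabilizer G a →
      ∃ n : ℕ, 1 ≤ n ∧ ∑ g ∈ Finset.univ.filter (fun g => g ∈ S),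
        (ρ * al0 X g - al1 adj g + (nbF adj a).card - ρ) / (ρ - σ) = n * Nat.card S) := by
  set k : ℂ := ((nbF adj a).card : ℂ) with hk
  set lam : ℂ := ((nbF adj a ∩ nbF adj b).card : ℂ) with hlam
  set mu : ℂ := ((nbF adj a ∩ nbF adj c).card : ℂ) with hmu
  set v : ℂ := (Fintype.card X : ℂ) with hv
  have hv0 : v ≠ 0 := by
    have : Nonempty X := ⟨a⟩
    exact Nat.cast_ne_zero.mpr Fintype.card_ne_zero
  let A : Matrix X X ℂ := Matrix.of (fun x y => if adj x y then 1 else 0)
  let J : Matrix X X ℂ := Matrix.of (fun _ _ => 1)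
  have hAJ : A * J = k • J := by
    ext x y
    simp only [A, J, Matrix.mul_apply, Matrix.of_apply, mul_one, Finset.sum_boole, Matrix.smul_apply,
      smul_eq_mul, hk]
    rw [R.card_nb a x]; rfl
  have hJA : J * A = k • J := by
    ext x y
    simp only [A, J, Matrix.mul_apply, Matrix.of_apply, one_mul, mul_one, Finset.sum_boole,
      Matrix.smul_apply, smul_eq_mul, hk]
    rw [R.card_nb a y]
    congr 2
    ext z
    simp only [mem_nbF, Finset.mem_filter, Finset.mem_univ, true_and]
    exact ⟨R.symm, R.symm⟩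
  have hJJ : J * J = v • J := by
    ext x y
    simp [J, Matrix.mul_apply, hv]
  have hAA : A * A = (lam - mu) • A + (k - mu) • (1 : Matrix X X ℂ) + mu • J := by
    ext x y
    have e : (A * A) x y = (nbF adj x ∩ nbF adj y).card := by
      simp only [A, Matrix.mul_apply, Matrix.of_apply, ite_mul, one_mul, zero_mul, ← ite_and,
        Finset.sum_boole]
      congr 2
      ext z
      simp only [mem_nbF, Finset.mem_filter, Finset.mem_univ, true_and, Finset.mem_inter]
      exact ⟨fun h => ⟨h.1, R.symm h.2⟩, fun h => ⟨h.1, R.symm h.2⟩⟩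
    rw [e]
    simp only [A, J, Matrix.add_apply, Matrix.smul_apply, Matrix.of_apply, smul_eq_mul, Matrix.one_apply]
    by_cases h1 : x = y
    · subst h1
      simp [R.irrefl, hk, R.card_nb a x]
    · by_cases h2 : adj x y
      · simp [h1, h2, hlam, R.card_lam hb h2]
      · simp [h1, h2, hmu, R.card_mu hc ⟨h1, h2⟩]
  have hkv : (k - ρ) * (k - σ) = mu * v := by
    have h1 : A * A * J = A * (A * J) := mul_assoc _ _ _
    rw [hAA, hAJ, Matrix.mul_smul, hAJ, add_mul, add_mul, Matrix.smul_mul, Matrix.smul_mul,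
      Matrix.smul_mul, hAJ, hJJ, one_mul] at h1
    have h2 := congrFun (congrFun h1 a) a
    simp only [J, Matrix.add_apply, Matrix.smul_apply, Matrix.of_apply, smul_eq_mul, mul_one] at h2
    linear_combination (-1 : ℂ) * h2 - k * hs + hp
  let N : Matrix X X ℂ := (v * ρ) • (1 : Matrix X X ℂ) - v • A + (k - ρ) • J
  have hNN : N * N = (v * (ρ - σ)) • N := by
    simp only [N, add_mul, mul_add, sub_mul, mul_sub, Matrix.smul_mul, Matrix.mul_smul, one_mul, mul_one,
      hAA, hAJ, hJA, hJJ, smul_add, smul_sub, smul_smul]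
    ext x y
    simp only [Matrix.add_apply, Matrix.sub_apply, Matrix.smul_apply, smul_eq_mul]
    linear_combination (-(v ^ 2) * A x y) * hs + (v ^ 2 * (1 : Matrix X X ℂ) x y) * hp -
      (v * J x y) * hkv
  have hd : v * (ρ - σ) ≠ 0 := mul_ne_zero hv0 hne
  let E : Matrix X X ℂ := (v * (ρ - σ))⁻¹ • N
  have hE : E * E = E := by
    simp only [E, Matrix.smul_mul, Matrix.mul_smul, hNN, smul_smul]
    rw [inv_mul_cancel₀ hd, mul_one]
  have hEe : ∀ x y, E x y = (v * (ρ - σ))⁻¹ *
      (v * ρ * (if x = y then 1 else 0) - v * (if adj x y then 1 else 0) + (k - ρ)) := by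
    intro x y
    simp only [E, N, A, J, Matrix.add_apply, Matrix.sub_apply, Matrix.smul_apply, Matrix.of_apply,
      smul_eq_mul, Matrix.one_apply, mul_one]
  have htr : ∀ g : G, ∑ y, E y (g • y) = (ρ * al0 X g - al1 adj g + k - ρ) / (ρ - σ) := by
    intro g
    simp only [hEe, ← Finset.mul_sum, Finset.sum_add_distrib, Finset.sum_sub_distrib, Finset.sum_boole,
      Finset.sum_const, Finset.card_univ, nsmul_eq_mul, al0, al1, ← hv, eq_comm (b := g • _)]
    field_simp
    ring
  obtain ⟨h1, h2⟩ := char_of_idem (G := G) E hE (fun g x y => by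
    rw [hEe, hEe, R.inv_iff, smul_left_cancel_iff])
  simp only [htr] at h1 h2
  refine ⟨h1, fun h3 => h2 a ?_⟩
  rw [hEe]
  refine mul_ne_zero (inv_ne_zero hd) ?_
  simpa [R.irrefl, add_sub_assoc] using h3

omit R in
theorem al0_one : al0 X (1 : G) = Fintype.card X := by simp [al0]

theorem al1_one : al1 adj (1 : G) = 0 := by simp [al1, R.irrefl]

theorem exists_eigs [Finite G] {a b c : X} (hb : adj a b) (hc : a ≠ c ∧ ¬ adj a c)
    (hv : Even (Fintype.card X)) :
    ∃ r y : ℕ, 1 ≤ r ∧ 1 ≤ y ∧ r + (nbF adj a ∩ nbF adj c).card = y + (nbF adj a ∩ nbF adj b).card ∧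
      r * y + (nbF adj a ∩ nbF adj c).card = (nbF adj a).card := by
  have := Fintype.ofFinite G
  have h1 := R.card_nb_non' hc
  have h2 := R.nb_non_pos' hc
  set k := (nbF adj a).card with hk
  set lam := (nbF adj a ∩ nbF adj b).card with hlam
  set mu := (nbF adj a ∩ nbF adj c).card with hmu
  set n := (nbF adj c ∩ nonF adj a).card
  let e : ℤ := lam - mu
  let D : ℕ := e.natAbs ^ 2 + 4 * n
  have hD : (D : ℝ) = (e : ℝ) ^ 2 + 4 * n := by
    simp only [D]; push_cast
    rw [Nat.cast_natAbs, Int.cast_abs, sq_abs]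
  have hD0 : (0 : ℝ) < D := by
    rw [hD]
    have : (0 : ℝ) < n := by exact_mod_cast h2
    positivity
  have hsq : IsSquare D := by
    by_contra hns
    have hirr := irrational_sqrt_natCast_iff.mpr hns
    set s := Real.sqrt D with hs
    have hss : s * s = D := Real.mul_self_sqrt hD0.le
    have hs0 : 0 < s := Real.sqrt_pos.mpr hD0
    have he : (e : ℝ) = lam - mu := by simp [e]
    have hkn : (k : ℝ) = n + mu := by exact_mod_cast h1.symm
    obtain ⟨h3, -⟩ := R.eig hb hc (((e + s) / 2 : ℝ) : ℂ) (((e - s) / 2 : ℝ) : ℂ) (by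
      rw [← hlam, ← hmu]
      have : ((e + s) / 2 + (e - s) / 2 : ℝ) = lam - mu := by rw [← he]; ring
      exact_mod_cast this) (by
      rw [← hk, ← hmu]
      have : ((e + s) / 2 * ((e - s) / 2) : ℝ) = mu - k := by
        rw [hkn]; linear_combination (-1 / 4 : ℝ) * hss - (1 / 4 : ℝ) * hD
      exact_mod_cast this) (by
      have : ((e + s) / 2 - (e - s) / 2 : ℝ) ≠ 0 := by
        have : ((e + s) / 2 - (e - s) / 2 : ℝ) = s := by ring
        rw [this]; exact hs0.ne'
      exact_mod_cast this)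
    obtain ⟨g, hg⟩ := IsCharacter.exists_one_eq h3
    simp only [al0_one, R.al1_one, ← hk] at hg
    have h4 : ((e + s) / 2 * Fintype.card X - (0 : ℕ) + k - (e + s) / 2) / ((e + s) / 2 - (e - s) / 2 : ℝ)
        = g := by exact_mod_cast hg
    rw [show ((e + s) / 2 - (e - s) / 2 : ℝ) = s by ring, div_eq_iff hs0.ne'] at h4
    obtain ⟨w, hw⟩ := hv
    have h5 : ((2 * g - 2 * w + 1 : ℤ) : ℝ) * s = ((e * (2 * w - 1) + 2 * k : ℤ) : ℝ) := by
      rw [hw] at h4
      push_cast at h4 ⊢
      linear_combination (-2 : ℝ) * h4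
    exact (hirr.intCast_mul (by omega : (2 * g - 2 * w + 1 : ℤ) ≠ 0)).ne_int _ h5
  obtain ⟨s, hs⟩ := hsq
  have hs' : (s : ℤ) * s = e ^ 2 + 4 * n := by
    have : (D : ℤ) = e ^ 2 + 4 * n := by simp [D]
    rw [← this, hs]; push_cast; ring
  have hn : (0 : ℤ) < n := by exact_mod_cast h2
  have h3 : e < s := by nlinarith [Int.natCast_nonneg s]
  have h4 : -e < s := by nlinarith [Int.natCast_nonneg s]
  have h5 : Even ((s : ℤ) + e) := by
    by_contra h6
    obtain ⟨j, hj⟩ := Int.not_even_iff_odd.mp h6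
    have : (s : ℤ) = 2 * j + 1 - e := by linarith
    rw [this] at hs'
    have h7 : 2 * (2 * j ^ 2 + 2 * j - (2 * j + 1) * e - 2 * n) = -1 := by linear_combination hs'
    omega
  obtain ⟨r, hr⟩ := h5
  have hr0 : 0 < r := by omega
  have hy0 : 0 < r - e := by omega
  refine ⟨r.toNat, (r - e).toNat, by omega, by omega, by omega, ?_⟩
  zify
  rw [Int.toNat_of_nonneg hr0.le, Int.toNat_of_nonneg hy0.le]
  have : (s : ℤ) = 2 * r - e := by omega
  rw [this] at hs'
  have h6 : (k : ℤ) = n + mu := by exact_mod_cast h1.symm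
  nlinarith

theorem eig_int [Fintype G] {a b c : X} (hb : adj a b) (hc : a ≠ c ∧ ¬ adj a c) {r y : ℕ} (hr : 1 ≤ r)
    (h1 : r + (nbF adj a ∩ nbF adj c).card = y + (nbF adj a ∩ nbF adj b).card)
    (h2 : r * y + (nbF adj a ∩ nbF adj c).card = (nbF adj a).card) :
    ∃ χ : G → ℤ, (∀ g, χ g * (r + y) = r * al0 X g - al1 adj g + (nbF adj a).card - r) ∧
      ∀ S : Subgroup G, S ≤ stabilizer G a →
        ∃ n : ℕ, 1 ≤ n ∧ ∑ g ∈ Finset.univ.filter (fun g => g ∈ S), χ g = n * Nat.card S := by
  have hne : (r : ℂ) - -(y : ℂ) ≠ 0 := by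
    rw [sub_neg_eq_add]
    exact_mod_cast (by omega : r + y ≠ 0)
  obtain ⟨h3, h4⟩ := R.eig hb hc (r : ℂ) (-(y : ℂ)) (by
    have := congrArg (Nat.cast : ℕ → ℂ) h1
    push_cast at this
    linear_combination this) (by
    have := congrArg (Nat.cast : ℕ → ℂ) h2
    push_cast at this
    linear_combination -this) hne
  have key : ∀ g : G, ∃ n : ℤ, (n : ℂ) =
      ((r : ℂ) * al0 X g - al1 adj g + (nbF adj a).card - r) / (r - -(y : ℂ)) := by
    intro g
    have h5 := IsCharacter.isIntegral h3 g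
    let q : ℚ := ((r : ℚ) * al0 X g - al1 adj g + (nbF adj a).card - r) / (r - -(y : ℚ))
    have e : algebraMap ℚ ℂ q = ((r : ℂ) * al0 X g - al1 adj g + (nbF adj a).card - r) / (r - -(y : ℂ)) := by
      simp [q]
    rw [← e, isIntegral_algebraMap_iff (algebraMap ℚ ℂ).injective] at h5
    obtain ⟨n, hn⟩ := IsIntegrallyClosed.isIntegral_iff.mp h5
    exact ⟨n, by rw [← e, ← hn]; simp⟩
  choose χ hχ using key
  refine ⟨χ, fun g => ?_, fun S hS => ?_⟩
  · have := hχ g
    rw [eq_div_iff hne, sub_neg_eq_add] at this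
    exact_mod_cast this
  · obtain ⟨n, hn, e⟩ := h4 (by
      have : 1 ≤ Fintype.card X := Fintype.card_pos_iff.mpr ⟨a⟩
      have h6 : 0 < (nbF adj a).card := Finset.card_pos.mpr ⟨b, mem_nbF.mpr hb⟩
      have h5 : (Fintype.card X * r + (nbF adj a).card - r : ℤ) ≠ 0 := by
        have : (r : ℤ) ≤ Fintype.card X * r := by nlinarith
        omega
      exact_mod_cast h5) S hS
    simp only [← hχ] at e
    exact ⟨n, hn, by exact_mod_cast e⟩

end R3

end Cfsg.Agent.H2
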