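import Cfsg.Agent.H2.R3c

/-! Rank 3 groups with a Frobenius suborbit: involutions, and the Petersen case. -/

set_option autoImplicit false

namespace Cfsg.Agent.H2

open Subgroup MulAction
open scoped Classical

theorem card_coset_le {G X : Type*} [Group G] [Fintype G] [MulAction G X] (S : Subgroup G) (T : Finset G)
    (h : ∀ g ∈ T, ∀ g' ∈ T, g⁻¹ * g' ∈ S) : T.card ≤ Nat.card S := by
  rcases T.eq_empty_or_nonempty with rfl | ⟨g, hg⟩
  · simp
  rw [natCard_eq_filter]
  exact Finset.card_le_card_of_injOn (fun g' => g⁻¹ * g') (fun g' hg' => by simpa using h g hg g' hg')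
    (fun _ _ _ _ e => mul_left_cancel e)

theorem iso_A5_num {n : ℕ} (h3 : 4 < n) (h4 : 4 ∣ n) (h5 : n ∣ 60) (h6 : ¬ 5 ∣ n) : n = 12 := by
  have := Nat.le_of_dvd (by norm_num) h5
  interval_cases n <;> omega

theorem petersen_num {k l h m lam mu n1 n2 n3 s t r y : ℕ} {g : ℤ} (h1 : lam + n3 ≤ 2 * h)
    (h2 : n3 + n1 = l) (h3 : n2 + mu = k) (h4 : k * h = l * m) (h5 : m < n2) (h6 : 2 ≤ h)
    (e1 : lam = h * s) (e2 : n1 = h * t) (e3 : k = 1 + h * (s + t)) (e4 : mu = m * t) (hr : 1 ≤ r)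
    (e5 : r + mu = y + lam) (e6 : r * y + mu = k) (hmu : Odd mu) (e8 : k * n1 = l * mu)
    (e7 : g * (r + y) = r * ((1 + k + l : ℕ) : ℤ) - (0 : ℕ) + k - r) :
    k = 3 ∧ l = 6 ∧ h = 2 ∧ n3 = 4 := by
  have a1 : h * (n2 + m * s) ≤ h * (2 * m) := by
    have : m * (lam + n3) ≤ m * (2 * h) := Nat.mul_le_mul_left m h1
    subst e1 e2 e4 h3 h2
    nlinarith
  have a2 : n2 + m * s ≤ 2 * m := Nat.le_of_mul_le_mul_left a1 (by omega)
  have a3 : s = 0 := by
    rcases s with _ | s
    · rfl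
    · nlinarith
  subst a3
  simp only [zero_add, mul_zero, add_zero] at e1 e3 a2
  have a4 : r = 1 := by
    by_contra h7
    have b1 : 2 ≤ r := by omega
    have b2 : y = r + m * t := by omega
    have b3 : 1 ≤ t := by
      rcases t with _ | t
      · simp [e4] at hmu
      · omega
    have b4 : m ≤ m * t := Nat.le_mul_of_pos_right _ b3
    have b5 : 2 * y ≤ r * y := Nat.mul_le_mul_right _ b1
    omega
  subst a4
  have a5 : k = 2 * mu + 1 := by omega
  have a6 : 0 < mu := by obtain ⟨j, hj⟩ := hmu; omega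
  have a7 : l = 2 * k := by
    apply Nat.eq_of_mul_eq_mul_right a6
    rw [← e8]
    have : n1 = 2 * mu := by omega
    rw [this]; ring
  have a8 : ((mu : ℤ) + 2) ∣ 12 := by
    refine ⟨8 - g, ?_⟩
    have : (y : ℤ) = 1 + mu := by omega
    rw [this, a7, a5] at e7
    push_cast at e7
    linear_combination e7
  have a9 : mu + 2 ∣ 12 := by exact_mod_cast a8
  have a10 := Nat.le_of_dvd (by norm_num) a9
  have a11 : mu = 1 := by
    obtain ⟨j, rfl⟩ := hmu
    have : j ≤ 4 := by omega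
    interval_cases j <;> omega
  have a12 : h * t = 2 := by omega
  have a13 : h = 2 := by
    have := Nat.le_of_dvd (by norm_num) (Dvd.intro _ a12)
    omega
  omega

theorem iso_A5 {G : Type*} [Group G] [Finite G] (hG : Nat.card G = 60)
    (hN : ∀ N : Subgroup G, N.Normal → N ≠ ⊥ → 10 ∣ Nat.card N) {z z1 g : G} (hz : z * z = 1) (hz0 : z ≠ 1)
    (hg : g * z * g⁻¹ = z1) (h1 : z1 ≠ z) (h2 : z1 * z = z * z1)
    (hC : Nat.card (centralizer ({z} : Set G)) ≤ 4) : Nonempty (G ≃* alternatingGroup (Fin 5)) := by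
  have := Fintype.ofFinite G
  set V := centralizer ({z} : Set G) with hV
  have hm : ∀ x, x ∈ V ↔ x * z = z * x := fun x => mem_centralizer_singleton_iff
  have hz1 : z1 * z1 = 1 := by rw [← hg]; calc _ = g * (z * z) * g⁻¹ := by group
    _ = 1 := by rw [hz]; simp
  have hz10 : z1 ≠ 1 := by rw [← hg]; simpa using hz0
  have hzV : z ∈ V := (hm z).mpr rfl
  have hV4 : Nat.card V = 4 := by
    have h3 : 2 < Nat.card V := by
      rw [natCard_eq_filter, Finset.two_lt_card_iff]
      exact ⟨1, z, z1, by simp, by simpa using hzV, by simpa using (hm z1).mpr h2, hz0.symm, hz10.symm,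
        h1.symm⟩
    have h4 : 2 ∣ Nat.card V := by
      have := V.orderOf_dvd_natCard hzV
      rwa [orderOf_eq_prime (p := 2) (by rw [pow_two, hz]) hz0] at this
    omega
  have hVc : ∀ x ∈ V, ∀ y ∈ V, x * y = y * x := by
    intro x hx y hy
    have := Fact.mk Nat.prime_two
    let _ := IsPGroup.commGroupOfCardEqPrimeSq (p := 2) (G := V) hV4
    exact congrArg Subtype.val (mul_comm (⟨x, hx⟩ : V) ⟨y, hy⟩)
  set M := normalizer (V : Set G) with hM
  have hgM : g ∈ M := by
    rw [hM, mem_normalizer_iff_map]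
    symm
    apply eq_of_le_of_card_ge
    · intro x hx
      refine ⟨g⁻¹ * x * g, (hm _).mpr ?_, by simp [mul_assoc]⟩
      have h3 := hVc x hx z1 ((hm z1).mpr h2)
      rw [← hg] at h3
      calc g⁻¹ * x * g * z = g⁻¹ * (x * (g * z * g⁻¹)) * g := by group
        _ = z * (g⁻¹ * x * g) := by rw [h3]; group
    · rw [card_map_of_injective (MulAut.conj g).injective]
  have hgV : g ∉ V := fun h => h1 (by rw [← hg, (hm g).mp h]; simp)
  have hlt : V < M := lt_of_le_of_ne le_normalizer (fun e => hgV (e ▸ hgM))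
  have h3 := card_lt_of_lt hlt
  have h4 := card_dvd_of_le hlt.le
  have h5 := card_subgroup_dvd_card M
  have h6 : ¬ 5 ∣ Nat.card M := by
    intro h
    have := Fact.mk Nat.prime_five
    obtain ⟨u, hu⟩ := exists_prime_orderOf_dvd_card' 5 h
    have hu' : orderOf (u : G) = 5 := by rw [orderOf_coe, hu]
    let P := zpowers (ConjAct.toConjAct (u : G))
    have h7 := orbF_card P z
    have h8 : Nat.card P = 5 := by
      rw [Nat.card_zpowers]
      exact (MulEquiv.orderOf_eq ConjAct.toConjAct (u : G)).trans hu'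
    have h9 : (orbF P z).card ≤ 4 := by
      rw [← hV4, natCard_eq_filter]
      refine Finset.card_le_card (fun y hy => ?_)
      obtain ⟨_, ⟨i, rfl⟩, rfl⟩ := mem_orbF.mp hy
      simp only [Finset.mem_filter, Finset.mem_univ, true_and, ← map_zpow, ConjAct.toConjAct_smul]
      exact (mem_normalizer_iff.mp (M.zpow_mem u.2 i) z).mp hzV
    have h10 : (orbF P z).card = 1 := by
      rcases (Nat.dvd_prime Nat.prime_five).mp (h8 ▸ Dvd.intro _ h7) with h | h <;> omega
    have h11 := Finset.card_le_one.mp h10.le _ (mem_orbF.mpr ⟨_, mem_zpowers _, rfl⟩) _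
      (mem_orbF.mpr ⟨1, P.one_mem, one_smul _ _⟩)
    rw [ConjAct.toConjAct_smul, mul_inv_eq_iff_eq_mul] at h11
    have h12 := V.orderOf_dvd_natCard ((hm u).mpr h11)
    rw [hu', hV4] at h12
    omega
  have hM12 : Nat.card M = 12 := by
    rw [hV4] at h3 h4
    rw [hG] at h5
    exact iso_A5_num h3 h4 h5 h6
  have hidx : Nat.card (G ⧸ M) = 5 := by
    have := card_eq_card_quotient_mul_card_subgroup M
    rw [hG, hM12] at this
    omega
  have hker : (MulAction.toPermHom G (G ⧸ M)).ker = ⊥ := by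
    by_contra h
    have h7 := hN _ inferInstance h
    rw [← normalCore_eq_ker] at h7
    have h8 := h7.trans (card_dvd_of_le M.normalCore_le)
    rw [hM12] at h8
    omega
  let e : (G ⧸ M) ≃ Fin 5 := (Finite.equivFinOfCardEq hidx)
  let ψ : G →* Equiv.Perm (Fin 5) := e.permCongrHom.toMonoidHom.comp (MulAction.toPermHom G (G ⧸ M))
  have hψ : Function.Injective ψ :=
    e.permCongrHom.injective.comp ((MonoidHom.ker_eq_bot_iff _).mp hker)
  have hr : ψ.range = alternatingGroup (Fin 5) := by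
    apply Equiv.Perm.eq_alternatingGroup_of_index_eq_two
    have h7 := card_mul_index ψ.range
    rw [← Nat.card_congr (MonoidHom.ofInjective hψ).toEquiv, hG, Nat.card_perm] at h7
    simp only [Nat.card_eq_fintype_card, Fintype.card_fin, Nat.factorial] at h7
    omega
  exact ⟨(MonoidHom.ofInjective hψ).trans (MulEquiv.subgroupCongr hr)⟩

namespace R3

variable {G X : Type*} [Group G] [MulAction G X] {adj : X → X → Prop} (R : R3 G adj)
include R

variable [Finite G] [Fintype X]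

omit [Fintype X] in
theorem inverts {x y : X} (h : adj x y) {z : G} (hz : z * z = 1) (hz0 : z ≠ 1) (hx : z • x = x)
    (hy : z • y = y) : (∀ u ∈ R.Ker x, z * u * z = u⁻¹) ∧ (∀ u ∈ R.Ker x, ∀ v ∈ R.Ker x, u * v = v * u) ∧
      Odd (Nat.card (R.Ker x)) := by
  let φ := Fpf.res (MulAut.conj z).toMonoidHom (R.Ker x) (fun u hu => R.Ker_conj' hu hx)
  have hzi : z⁻¹ = z := inv_eq_of_mul_eq_one_right hz
  have hφ : ∀ u : R.Ker x, (φ u : G) = z * u * z := fun u => by
    change z * u * z⁻¹ = _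
    rw [hzi]
  have h1 : MonoidHom.FixedPointFree φ := by
    intro u e
    by_contra hu
    have e' : z * u * z⁻¹ = u := congrArg Subtype.val e
    exact hz0 ((R.mem_Ker_of_commute hx u.2 (fun h => hu (Subtype.ext h))
      (mul_inv_eq_iff_eq_mul.mp e')).2 y h hy)
  have h2 : Function.Involutive φ := fun u => Subtype.ext (by
    rw [hφ, hφ]
    calc z * (z * u * z) * z = (z * z) * u * (z * z) := by group
      _ = u := by rw [hz]; simp)
  refine ⟨fun u hu => ?_, fun u hu v hv => congrArg Subtype.val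
    (h1.commute_all_of_involutive h2 ⟨u, hu⟩ ⟨v, hv⟩), h1.odd_card_of_involutive h2⟩
  have := congrFun (h1.coe_eq_inv_of_involutive h2) ⟨u, hu⟩
  exact (hφ ⟨u, hu⟩).symm.trans (congrArg Subtype.val this)

theorem exists_Ker_ne (x : X) : ∃ u ∈ R.Ker x, u ≠ 1 := by
  obtain ⟨y, hy⟩ := R.exists_adj x
  have h1 := R.card_nb_non hy
  have h2 := R.nb_non_pos hy
  obtain ⟨⟨u, hu⟩, hu1⟩ := (ne_bot_iff_exists_ne_one (H := R.Ker x)).mp
    ((one_lt_card_iff_ne_bot _).mp (by rw [R.card_Ker]; omega))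
  exact ⟨u, hu, fun e => hu1 (Subtype.ext e)⟩

theorem card_normal {N : Subgroup G} (hN : N.Normal) (h : N ≠ ⊥) (a : X) :
    Fintype.card X * Nat.card (N ⊓ stabilizer G a : Subgroup G) = Nat.card N :=
  orb_stab N a Finset.univ (fun y => by
    simp only [Finset.mem_univ, true_iff]
    exact R.prim N hN h a y)

section Even

variable {a0 b0 : X} (h0 : adj a0 b0) (hev : 2 ∣ Nat.card (St2 G a0 b0))
include h0 hev

omit [Fintype X] in
theorem exists_invol {x y : X} (h : adj x y) : ∃ z : G, z * z = 1 ∧ z ≠ 1 ∧ z • x = x ∧ z • y = y := by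
  rw [R.card_St2_adj h0 h] at hev
  have := Nat.fact_prime_two
  obtain ⟨z, hz⟩ := exists_prime_orderOf_dvd_card' 2 hev
  rw [← orderOf_coe] at hz
  refine ⟨z, by rw [← pow_two, ← hz, pow_orderOf_eq_one], fun e => ?_, z.2.1, z.2.2⟩
  rw [e, orderOf_one] at hz
  omega

omit [Fintype X] in
theorem Ker_comm (x : X) : ∀ u ∈ R.Ker x, ∀ v ∈ R.Ker x, u * v = v * u := by
  obtain ⟨y, hy⟩ := R.exists_adj x
  obtain ⟨z, h1, h2, h3, h4⟩ := R.exists_invol h0 hev hy
  exact (R.inverts hy h1 h2 h3 h4).2.1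

theorem odd_k (x : X) : Odd (nbF adj x).card := by
  obtain ⟨y, hy⟩ := R.exists_adj x
  obtain ⟨z, h1, h2, h3, h4⟩ := R.exists_invol h0 hev hy
  rw [← R.card_Ker]
  exact (R.inverts hy h1 h2 h3 h4).2.2

theorem Ker_sq {x : X} {u : G} (hu : u ∈ R.Ker x) (h : u * u = 1) : u = 1 :=
  eq_one_of_coprime (Nat.coprime_two_right.mpr (R.odd_k h0 hev x)) (R.Ker_pow hu x) (by rw [pow_two, h])

theorem partner {x : X} {z : G} (hz : z * z = 1) (hz0 : z ≠ 1) (hx : z • x = x) :
    ∃ y, adj x y ∧ z • y = y := by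
  by_contra h
  push Not at h
  exact hz0 (R.Ker_sq h0 hev (x := x) ⟨hx, fun y hy e => absurd e (h y hy)⟩ hz)

theorem inverts' {x : X} {z : G} (hz : z * z = 1) (hz0 : z ≠ 1) (hx : z • x = x) :
    ∀ u ∈ R.Ker x, z * u * z = u⁻¹ := by
  obtain ⟨y, hy, hy'⟩ := R.partner h0 hev hz hz0 hx
  exact (R.inverts hy hz hz0 hx hy').1

theorem mul_mem_Ker {x : X} {z z' : G} (hz : z * z = 1) (hz0 : z ≠ 1) (hx : z • x = x)
    (hz' : z' * z' = 1) (hz0' : z' ≠ 1) (hx' : z' • x = x) : z * z' ∈ R.Ker x := by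
  obtain ⟨u, hu, hu1⟩ := R.exists_Ker_ne x
  refine R.mem_Ker_of_commute (by rw [mul_smul, hx', hx]) hu hu1 ?_
  have h1 := R.inverts' h0 hev hz hz0 hx _ (inv_mem hu)
  have h2 := R.inverts' h0 hev hz' hz0' hx' u hu
  rw [inv_inv, ← h2] at h1
  calc z * z' * u = (z * (z' * u * z') * z) * (z * z') := by
        rw [show z * (z' * u * z') * z * (z * z') = z * z' * u * (z' * (z * z) * z') by group, hz, mul_one,
          hz', mul_one]
    _ = u * (z * z') := by rw [h1]

theorem invol_uniq {x y : X} (h : adj x y) {z z' : G} (hz : z * z = 1) (hz0 : z ≠ 1) (hx : z • x = x)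
    (hy : z • y = y) (hz' : z' * z' = 1) (hz0' : z' ≠ 1) (hx' : z' • x = x) (hy' : z' • y = y) : z = z' := by
  have := (R.mul_mem_Ker h0 hev hz hz0 hx hz' hz0' hx').2 y h (by rw [mul_smul, hy', hy])
  rw [← mul_left_cancel_iff (a := z), this, hz]

omit h0 hev R [Finite G] [Fintype X] in
theorem conj_invol {z : G} (hz : z * z = 1) (g : G) : g * z * g⁻¹ * (g * z * g⁻¹) = 1 := by
  calc _ = g * (z * z) * g⁻¹ := by group
    _ = 1 := by rw [hz]; simp

omit h0 hev R [Finite G] [Fintype X] in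
theorem conj_smul {z g : G} {x : X} (hx : z • x = x) : (g * z * g⁻¹) • g • x = g • x := by
  rw [mul_smul, mul_smul, inv_smul_smul, hx]

theorem commute_of_edge {x y : X} (h : adj x y) {z g : G} (hz : z * z = 1) (hz0 : z ≠ 1) (hx : z • x = x)
    (hy : z • y = y) (hg : (g • x = x ∧ g • y = y) ∨ (g • x = y ∧ g • y = x)) : g * z = z * g := by
  have h1 := conj_smul (g := g) hx
  have h2 := conj_smul (g := g) hy
  rw [← mul_inv_eq_iff_eq_mul]
  rcases hg with ⟨e1, e2⟩ | ⟨e1, e2⟩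
  · rw [e1] at h1; rw [e2] at h2
    exact R.invol_uniq h0 hev h (conj_invol hz g) (by simpa using hz0) h1 h2 hz hz0 hx hy
  · rw [e1] at h1; rw [e2] at h2
    exact R.invol_uniq h0 hev h (conj_invol hz g) (by simpa using hz0) h2 h1 hz hz0 hx hy

omit h0 hev [Finite G] [Fintype X] in
theorem fix_partner {x y : X} (h : adj x y) {z g : G} (hz0 : z ≠ 1) (hx : z • x = x) (hy : z • y = y)
    (hg : g • x = x) (hc : g * z = z * g) : g • y = y := by
  by_contra h1
  exact hz0 (R.frob (R.adj_smul hg h) h h1 hx (by rw [← mul_smul, ← hc, mul_smul, hy]) hy)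

theorem invol_eq_of_commute {x : X} {z z' : G} (hz : z * z = 1) (hz0 : z ≠ 1) (hx : z • x = x)
    (hz' : z' * z' = 1) (hz0' : z' ≠ 1) (hx' : z' • x = x) (hc : z' * z = z * z') : z = z' := by
  obtain ⟨y, hy, hy'⟩ := R.partner h0 hev hz hz0 hx
  exact R.invol_uniq h0 hev hy hz hz0 hx hy' hz' hz0' hx' (R.fix_partner hy hz0 hx hy' hx' hc)

theorem invol_conj {x x' : X} {z z' : G} (hz : z * z = 1) (hz0 : z ≠ 1) (hx : z • x = x)
    (hz' : z' * z' = 1) (hz0' : z' ≠ 1) (hx' : z' • x' = x') : ∃ g : G, g • x = x' ∧ g * z * g⁻¹ = z' := by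
  obtain ⟨y, hy, e⟩ := R.partner h0 hev hz hz0 hx
  obtain ⟨y', hy', e'⟩ := R.partner h0 hev hz' hz0' hx'
  obtain ⟨g, rfl, rfl⟩ := R.tE hy hy'
  exact ⟨g, rfl, R.invol_uniq h0 hev hy' (conj_invol hz g) (by simpa using hz0) (conj_smul hx) (conj_smul e)
    hz' hz0' hx' e'⟩

theorem even_al0 {z : G} (hz : z * z = 1) (hz0 : z ≠ 1) : Even (al0 X z) := by
  refine R.even_of_matching _ (fun x hx => ?_) (fun x hx y hy y' hy' h1 h2 => ?_)
  · obtain ⟨y, hy, e⟩ := R.partner h0 hev hz hz0 (Finset.mem_filter.mp hx).2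
    exact ⟨y, Finset.mem_filter.mpr ⟨Finset.mem_univ _, e⟩, hy⟩
  · by_contra h3
    exact hz0 (R.frob h1 h2 h3 (Finset.mem_filter.mp hx).2 (Finset.mem_filter.mp hy).2
      (Finset.mem_filter.mp hy').2)

theorem even_v : Even (Fintype.card X) := by
  obtain ⟨z, h1, h2, -, -⟩ := R.exists_invol h0 hev h0
  obtain ⟨n, hn⟩ := even_card_sub_fixed Finset.univ (fun x : X => z • x) (fun _ _ => Finset.mem_univ _)
    (fun x _ => by rw [← mul_smul, h1, one_smul])
  rw [← Finset.card_univ, hn]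
  exact (R.even_al0 h0 hev h1 h2).add (even_two_mul n)

omit h0 hev in
theorem lt_of_odd {a c : X} (hm : Odd (Nat.card (St2 G a c))) (he : Even (nbF adj c ∩ nonF adj a).card)
    (hc : a ≠ c ∧ ¬ adj a c) : Nat.card (St2 G a c) < (nbF adj c ∩ nonF adj a).card := by
  have := Fintype.ofFinite G
  set T := nbF adj c ∩ nonF adj a with hT
  set S := St2 G a c with hS
  have hinv : ∀ x ∈ T, orbF S x ⊆ T := by
    intro x hx y hy
    obtain ⟨g, hg, rfl⟩ := mem_orbF.mp hy
    rw [hT, Finset.mem_inter, mem_nbF, mem_nonF] at hx ⊢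
    exact ⟨R.adj_smul hg.2 hx.1, R.non_smul hg.1 hx.2⟩
  have horb : ∀ x y : X, y ∈ orbF S x → orbF S y = orbF S x := by
    intro x y hy
    obtain ⟨g, hg, rfl⟩ := mem_orbF.mp hy
    ext w
    rw [mem_orbF, mem_orbF]
    exact ⟨fun ⟨g', h1, h2⟩ => ⟨g' * g, mul_mem h1 hg, by rw [mul_smul, h2]⟩,
      fun ⟨g', h1, h2⟩ => ⟨g' * g⁻¹, mul_mem h1 (inv_mem hg), by rw [mul_smul, inv_smul_smul, h2]⟩⟩
  have hself : ∀ x : X, x ∈ orbF S x := fun x => mem_orbF.mpr ⟨1, S.one_mem, one_smul _ _⟩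
  have hsum : ∀ x : X, ∑ y ∈ orbF S x, Nat.card (S ⊓ stabilizer G y : Subgroup G) = Nat.card S := by
    intro x
    rw [← orbF_card S x, ← smul_eq_mul, ← Finset.sum_const]
    refine Finset.sum_congr rfl (fun y hy => ?_)
    have h1 := orbF_card S y
    rw [horb x y hy, ← orbF_card S x] at h1
    exact Nat.eq_of_mul_eq_mul_left (Finset.card_pos.mpr ⟨x, hself x⟩) h1
  obtain ⟨x, hx⟩ := Finset.card_pos.mp (R.nb_non_pos' hc)
  obtain ⟨y, hy, hyx⟩ : ∃ y ∈ T, y ∉ orbF S x := by
    by_contra h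
    push Not at h
    have h1 : orbF S x = T := Finset.Subset.antisymm (hinv x hx) h
    have h2 := Odd.of_dvd_nat hm (Dvd.intro _ (orbF_card S x))
    rw [h1] at h2
    exact (Nat.not_even_iff_odd.mpr h2) he
  have hdisj : Disjoint (orbF S x) (orbF S y) := by
    rw [Finset.disjoint_left]
    intro w h1 h2
    rw [← horb x w h1, horb y w h2] at hyx
    exact hyx (hself y)
  set U := orbF S x ∪ orbF S y with hU
  have hUT : U ⊆ T := Finset.union_subset (hinv x hx) (hinv y hy)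
  have h1 : ∑ w ∈ U, Nat.card (S ⊓ stabilizer G w : Subgroup G) = 2 * Nat.card S := by
    rw [hU, Finset.sum_union hdisj, hsum, hsum]; ring
  let S' := Finset.univ.filter (fun g : G => g ∈ S)
  have h2 : ∑ w ∈ U, Nat.card (S ⊓ stabilizer G w : Subgroup G) =
      ∑ g ∈ S', (U.filter (fun w => g • w = w)).card := by
    simp only [Finset.card_filter]
    rw [Finset.sum_comm]
    refine Finset.sum_congr rfl (fun w _ => ?_)
    rw [natCard_eq_filter, ← Finset.card_filter, Finset.filter_filter]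
    congr 1
    ext g
    simp only [Finset.mem_filter, Finset.mem_univ, true_and]
    rfl
  have h3 : (1 : G) ∈ S' := by simp [S']
  rw [← Finset.add_sum_erase _ _ h3] at h2
  have h4 : ∑ g ∈ S'.erase 1, (U.filter (fun w => g • w = w)).card ≤ (S'.erase 1).card • 1 := by
    refine Finset.sum_le_card_nsmul _ _ _ (fun g hg => Finset.card_le_one.mpr (fun w hw w' hw' => ?_))
    by_contra h5
    rw [Finset.mem_erase] at hg
    rw [Finset.mem_filter] at hw hw'
    exact hg.1 (R.frob (mem_nbF.mp (Finset.mem_inter.mp (hUT hw.1)).1)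
      (mem_nbF.mp (Finset.mem_inter.mp (hUT hw'.1)).1) h5 (Finset.mem_filter.mp hg.2).2.2 hw.2 hw'.2)
  rw [Finset.card_erase_of_mem h3, ← natCard_eq_filter] at h4
  have h5 := (Finset.card_filter_le U (fun w => (1 : G) • w = w)).trans (Finset.card_le_card hUT)
  have h6 : 0 < Nat.card S := Nat.card_pos
  simp only [smul_eq_mul, mul_one] at h4
  omega

omit h0 hev [Finite G] in
theorem card_non_non {a b : X} (h : adj a b) :
    (nonF adj a ∩ nonF adj b).card + (nbF adj b ∩ nonF adj a).card = (nonF adj a).card := by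
  have h1 : nonF adj a = (nonF adj a ∩ nonF adj b) ∪ (nbF adj b ∩ nonF adj a) := by
    ext x
    simp only [Finset.mem_union, Finset.mem_inter, mem_nbF, mem_nonF]
    constructor
    · intro hx
      by_cases h' : adj b x
      · exact Or.inr ⟨h', hx⟩
      · exact Or.inl ⟨hx, fun e => hx.2 (e ▸ h), h'⟩
    · rintro (h1 | h1)
      · exact h1.1
      · exact h1.2
  conv_rhs => rw [h1]
  rw [Finset.card_union_of_disjoint (by
      rw [Finset.disjoint_left]
      intro x h1 h2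
      exact (mem_nonF.mp (Finset.mem_inter.mp h1).2).2 (mem_nbF.mp (Finset.mem_inter.mp h2).1))]

omit h0 hev in
theorem params {a b c : X} (hb : adj a b) (hc : a ≠ c ∧ ¬ adj a c) : ∃ s t : ℕ, 1 ≤ t ∧
    (nbF adj a ∩ nbF adj b).card = Nat.card (St2 G a b) * s ∧
    (nbF adj b ∩ nonF adj a).card = Nat.card (St2 G a b) * t ∧
    (nbF adj a).card = 1 + Nat.card (St2 G a b) * (s + t) ∧
    (nbF adj a ∩ nbF adj c).card = Nat.card (St2 G a c) * t := by
  obtain ⟨s, hs⟩ := R.lam_dvd hb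
  have h1 := R.card_nb_non hb
  have h2 := R.nb_non_pos hb
  obtain ⟨t, ht⟩ : Nat.card (St2 G a b) ∣ (nbF adj b ∩ nonF adj a).card := by
    have h3 := R.St2_dvd hb
    rw [← h1, Nat.add_sub_cancel] at h3
    exact (Nat.dvd_add_left (R.lam_dvd hb)).mp h3
  refine ⟨s, t, Nat.pos_of_ne_zero (by rintro rfl; omega), hs, ht, by rw [← h1, hs, ht]; ring, ?_⟩
  have h3 := R.srg_count hb hc
  have h4 := R.nb_mul hb
  rw [← R.non_mul hc] at h4
  have h5 : 0 < (nonF adj a).card := Finset.card_pos.mpr ⟨c, mem_nonF.mpr hc⟩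
  apply Nat.eq_of_mul_eq_mul_left h5
  rw [← h3, ht, ← mul_assoc, h4, mul_assoc]

theorem petersen {a c : X} (hc : a ≠ c ∧ ¬ adj a c) (hm : Odd (Nat.card (St2 G a c))) :
    Nonempty (G ≃* alternatingGroup (Fin 5)) ∧ Fintype.card X = 10 := by
  have := Fintype.ofFinite G
  obtain ⟨b, hb⟩ := R.exists_adj a
  obtain ⟨z, hz, hz0, hza, hzb⟩ := R.exists_invol h0 hev hb
  have hadj : ∀ {w : G} {x y : X}, w * w = 1 → w ≠ 1 → w • x = x → w • y = y → x ≠ y → adj x y := by
    intro w x y h1 h2 h3 h4 h5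
    by_contra h6
    have h7 := (St2 G x y).orderOf_dvd_natCard (x := w) ⟨h3, h4⟩
    rw [orderOf_eq_prime (p := 2) (by rw [pow_two, h1]) h2, R.card_St2_non ⟨h5, h6⟩ hc] at h7
    exact (Nat.not_even_iff_odd.mpr hm) (even_iff_two_dvd.mpr h7)
  have hfix : ∀ {w : G} {x y : X}, w * w = 1 → w ≠ 1 → w • x = x → w • y = y → adj x y →
      ∀ u, w • u = u → u = x ∨ u = y := by
    intro w x y h1 h2 h3 h4 h5 u hu
    by_contra h6
    push Not at h6
    exact h2 (R.frob (hadj h1 h2 h3 hu h6.1.symm) h5 h6.2 h3 hu h4)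
  have hzz : ∀ x : X, z • z • x = x := fun x => by rw [← mul_smul, hz, one_smul]
  have hpar : ∀ x : X, ∃ n, (nbF adj x ∩ nbF adj (z • x)).card =
      (({a, b} : Finset X).filter (adj x)).card + 2 * n := by
    intro x
    obtain ⟨n, hn⟩ := even_card_sub_fixed (nbF adj x ∩ nbF adj (z • x)) (fun y => z • y) (fun y hy => by
      simp only [Finset.mem_inter, mem_nbF] at hy ⊢
      exact ⟨by simpa [hzz] using R.inv z hy.2, R.inv z hy.1⟩) (fun y _ => hzz y)
    refine ⟨n, hn.trans ?_⟩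
    congr 2
    ext u
    simp only [Finset.mem_filter, Finset.mem_inter, mem_nbF, Finset.mem_insert, Finset.mem_singleton]
    constructor
    · exact fun h => ⟨hfix hz hz0 hza hzb hb u h.2, h.1.1⟩
    · rintro ⟨rfl | rfl, h⟩
      · exact ⟨⟨h, by simpa [hza] using R.inv z h⟩, hza⟩
      · exact ⟨⟨h, by simpa [hzb] using R.inv z h⟩, hzb⟩
  obtain ⟨s, t, ht, e1, e2, e3, e4⟩ := R.params hb hc
  have hh : 2 ∣ Nat.card (St2 G a b) := by rwa [← R.card_St2_adj h0 hb]
  have hlam : Even (nbF adj a ∩ nbF adj b).card := even_iff_two_dvd.mpr (hh.trans (R.lam_dvd hb))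
  have hab := R.ne_of_adj hb
  have hmu : Odd (nbF adj a ∩ nbF adj c).card := by
    obtain ⟨x, hx⟩ := Finset.card_pos.mp (R.nb_non_pos hb)
    rw [Finset.mem_inter, mem_nbF, mem_nonF] at hx
    obtain ⟨n, hn⟩ := hpar x
    have h1 : ({a, b} : Finset X).filter (adj x) = {b} := by
      ext u
      simp only [Finset.mem_filter, Finset.mem_insert, Finset.mem_singleton]
      constructor
      · rintro ⟨rfl | rfl, h⟩
        · exact absurd (R.symm h) hx.2.2
        · rfl
      · rintro rfl; exact ⟨Or.inr rfl, R.symm hx.1⟩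
    rw [h1, Finset.card_singleton] at hn
    by_cases h2 : adj x (z • x)
    · rw [R.card_lam h2 hb] at hn
      obtain ⟨j, hj⟩ := hlam
      omega
    · rw [R.card_mu ⟨fun e => ?_, h2⟩ hc] at hn
      · exact ⟨n, by omega⟩
      · rcases hfix hz hz0 hza hzb hb x e.symm with rfl | rfl
        · exact hx.2.1 rfl
        · exact R.irrefl _ hx.1
  let W := Finset.univ.filter (fun x : X => adj x (z • x))
  have hW : (nbF adj a ∩ nbF adj b) ∪ (nonF adj a ∩ nonF adj b) ⊆ W := by
    intro x hx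
    refine Finset.mem_filter.mpr ⟨Finset.mem_univ _, ?_⟩
    by_contra h2
    obtain ⟨n, hn⟩ := hpar x
    simp only [Finset.mem_union, Finset.mem_inter, mem_nbF, mem_nonF] at hx
    rw [R.card_mu ⟨fun e => ?_, h2⟩ hc] at hn
    · obtain ⟨j, hj⟩ := hmu
      rcases hx with hx | hx
      · rw [Finset.filter_true_of_mem (by
          intro u hu
          rcases Finset.mem_insert.mp hu with rfl | hu
          · exact R.symm hx.1
          · rw [Finset.mem_singleton.mp hu]; exact R.symm hx.2), Finset.card_pair hab] at hn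
        omega
      · rw [Finset.filter_false_of_mem (by
          intro u hu
          rcases Finset.mem_insert.mp hu with rfl | hu
          · exact fun h => hx.1.2 (R.symm h)
          · rw [Finset.mem_singleton.mp hu]; exact fun h => hx.2.2 (R.symm h)), Finset.card_empty] at hn
        omega
    · rcases hfix hz hz0 hza hzb hb x e.symm with rfl | rfl
      · rcases hx with hx | hx
        · exact R.irrefl _ hx.1
        · exact hx.1.1 rfl
      · rcases hx with hx | hx
        · exact R.irrefl _ hx.2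
        · exact hx.2.1 rfl
  have hζ : ∀ x ∈ W, ∃ w : G, w * w = 1 ∧ w ≠ 1 ∧ w • x = x ∧ w • z • x = z • x :=
    fun x hx => R.exists_invol h0 hev (Finset.mem_filter.mp hx).2
  choose! ζ hζ using hζ
  have hζc : ∀ x ∈ W, z * ζ x = ζ x * z := fun x hx => R.commute_of_edge h0 hev (Finset.mem_filter.mp hx).2
    (hζ x hx).1 (hζ x hx).2.1 (hζ x hx).2.2.1 (hζ x hx).2.2.2 (Or.inr ⟨rfl, hzz x⟩)
  have hζn : ∀ x ∈ W, ζ x ≠ z := fun x hx e =>
    R.ne_of_adj (Finset.mem_filter.mp hx).2 (by rw [← e, (hζ x hx).2.2.1])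
  have hζa : ∀ x ∈ W, ζ x • a = b ∧ ζ x • b = a := by
    intro x hx
    have h1 : ζ x • a = b := by
      rcases hfix hz hz0 hza hzb hb (ζ x • a) (by rw [← mul_smul, hζc x hx, mul_smul, hza]) with h | h
      · exact absurd (R.invol_eq_of_commute h0 hev hz hz0 hza (hζ x hx).1 (hζ x hx).2.1 h (hζc x hx).symm)
          (hζn x hx).symm
      · exact h
    exact ⟨h1, by rw [← h1, ← mul_smul, (hζ x hx).1, one_smul]⟩
  have hWc : W.card ≤ 2 * Nat.card (St2 G a b) := by
    refine (Finset.card_le_mul_card_image (f := ζ) W 2 (fun w hw => ?_)).trans (Nat.mul_le_mul_left _ ?_)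
    · obtain ⟨x, hx, rfl⟩ := Finset.mem_image.mp hw
      refine (Finset.card_le_card (t := {x, z • x}) (fun y hy => ?_)).trans Finset.card_le_two
      rw [Finset.mem_filter] at hy
      have := hfix (hζ x hx).1 (hζ x hx).2.1 (hζ x hx).2.2.1 (hζ x hx).2.2.2 (Finset.mem_filter.mp hx).2 y
        (by rw [← hy.2, (hζ y hy.1).2.2.1])
      simpa using this
    · refine card_coset_le (X := X) _ _ (fun g hg g' hg' => ?_)
      obtain ⟨x, hx, rfl⟩ := Finset.mem_image.mp hg
      obtain ⟨y, hy, rfl⟩ := Finset.mem_image.mp hg'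
      rw [mem_St2, mul_smul, mul_smul, inv_smul_eq_iff, inv_smul_eq_iff, (hζa x hx).1, (hζa x hx).2,
        (hζa y hy).1, (hζa y hy).2]
      exact ⟨rfl, rfl⟩
  have h1 := (Finset.card_le_card hW).trans hWc
  rw [Finset.card_union_of_disjoint (by
      rw [Finset.disjoint_left]
      intro x h1 h2
      exact (mem_nonF.mp (Finset.mem_inter.mp h2).1).2 (mem_nbF.mp (Finset.mem_inter.mp h1).1))] at h1
  have h2 := R.card_non_non hb
  have h3 := R.card_nb_non' hc
  have h4 := R.nb_mul hb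
  rw [← R.non_mul hc] at h4
  have h5 := R.lt_of_odd hm (by
    obtain ⟨i, hi⟩ := R.odd_k h0 hev a
    obtain ⟨j, hj⟩ := hmu
    exact ⟨i - j, by omega⟩) hc
  obtain ⟨r, y, hr, hy, e5, e6⟩ := R.exists_eigs hb hc (R.even_v h0 hev)
  obtain ⟨χ, hχ, -⟩ := R.eig_int hb hc hr e5 e6
  have e7 := hχ 1
  rw [al0_one, R.al1_one, R.card_eq a] at e7
  have e8 := R.srg_count hb hc
  have h6 := R.two_le_St2 hb
  have hG := R.card_G a
  rw [← R.nb_mul hb, R.card_eq a] at hG
  have hv := R.card_eq a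
  have hx0 : 0 < (nonF adj a ∩ nonF adj b).card → ∃ x, x ∈ W := fun h => by
    obtain ⟨x, hx⟩ := Finset.card_pos.mp h
    exact ⟨x, hW (Finset.mem_union_right _ hx)⟩
  have hC : Nat.card (centralizer ({z} : Set G)) ≤ 2 * Nat.card (St2 G a b) := by
    rw [← orbF_card _ a]
    refine Nat.mul_le_mul ((Finset.card_le_card (t := {a, b}) (fun y hy => ?_)).trans Finset.card_le_two)
      (card_le_of_le (fun g hg => ⟨hg.2, R.fix_partner hb hz0 hza hzb hg.2
        (mem_centralizer_singleton_iff.mp hg.1)⟩))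
    obtain ⟨g, hg, rfl⟩ := mem_orbF.mp hy
    have := hfix hz hz0 hza hzb hb (g • a) (by
      rw [← mul_smul, ← mem_centralizer_singleton_iff.mp hg, mul_smul, hza])
    simpa using this
  obtain ⟨a1, a2, a3, a4⟩ := petersen_num h1 h2 h3 h4 h5 h6 e1 e2 e3 e4 hr e5 e6 hmu e8 e7
  rw [a1, a2, a3] at hG
  rw [a1, a2] at hv
  rw [a3] at hC
  refine ⟨?_, by omega⟩
  obtain ⟨x, hx⟩ := hx0 (by omega)
  obtain ⟨g, -, hg⟩ := R.invol_conj h0 hev hz hz0 hza (hζ x hx).1 (hζ x hx).2.1 (hζ x hx).2.2.1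
  refine iso_A5 (by omega) (fun N hN hN0 => ?_) hz hz0 hg (hζn x hx) (hζc x hx).symm hC
  rw [← R.card_normal hN hN0 a, hv]
  exact Dvd.intro _ rfl

end Even

end R3

end Cfsg.Agent.H2
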