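import Cfsg.Agent.H2.R3d

/-! Rank 3 groups with a Frobenius suborbit: counting involutions. -/

set_option autoImplicit false

namespace Cfsg.Agent.H2

open Subgroup MulAction
open scoped Classical

section Gen

variable {G : Type*} [Group G] [Fintype G]

theorem exists_div (E : Subgroup G) (A : Finset G) (hA : ∀ x ∈ A, x ∈ E) (h : Nat.card E < 2 * A.card)
    {w : G} (hw : w ∈ E) : ∃ x ∈ A, ∃ y ∈ A, w = x * y⁻¹ := by
  obtain ⟨x, hx⟩ := Finset.inter_nonempty_of_card_lt_card_add_card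
    (s := Finset.univ.filter (fun g => g ∈ E)) (t := A) (u := A.image (fun y => w * y))
    (fun x hx => by simpa using hA x hx) (fun x hx => by
      obtain ⟨y, hy, rfl⟩ := Finset.mem_image.mp hx
      simpa using E.mul_mem hw (hA y hy)) (by
      rw [Finset.card_image_of_injective _ (mul_right_injective w), ← natCard_eq_filter]; omega)
  rw [Finset.mem_inter, Finset.mem_image] at hx
  obtain ⟨h1, y, hy, rfl⟩ := hx
  exact ⟨_, h1, y, hy, by simp⟩

theorem comm_of_three_four (E : Subgroup G) (A : Finset G) (hA : ∀ x ∈ A, x ∈ E) (t : G)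
    (ht : ∀ x ∈ A, t * x * t⁻¹ = x⁻¹) (h : 3 * Nat.card E < 4 * A.card) :
    ∀ x ∈ E, ∀ y ∈ E, x * y = y * x := by
  have key : ∀ g ∈ A, ∀ w ∈ E, w * g = g * w := by
    intro g hg w hw
    let B := A ∩ A.image (fun y => g⁻¹ * y)
    have h1 : (A ∪ A.image (fun y => g⁻¹ * y)).card ≤ Nat.card E := by
      rw [natCard_eq_filter]
      refine Finset.card_le_card (fun x hx => ?_)
      rcases Finset.mem_union.mp hx with hx | hx
      · simpa using hA x hx
      · obtain ⟨y, hy, rfl⟩ := Finset.mem_image.mp hx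
        simpa using E.mul_mem (E.inv_mem (hA g hg)) (hA y hy)
    have h2 := Finset.card_union_add_card_inter A (A.image (fun y => g⁻¹ * y))
    rw [Finset.card_image_of_injective _ (mul_right_injective g⁻¹)] at h2
    have h3 : ∀ x ∈ B, x * g = g * x := by
      intro x hx
      obtain ⟨h4, h5⟩ := Finset.mem_inter.mp hx
      obtain ⟨y, hy, rfl⟩ := Finset.mem_image.mp h5
      have e1 := ht _ h4
      have e2 := ht _ hg
      have e3 := ht _ hy
      have e4 : t * (g⁻¹ * y) * t⁻¹ = (t * g * t⁻¹)⁻¹ * (t * y * t⁻¹) := by group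
      rw [e1, e2, e3] at e4
      have e5 : y * g = g * y :=
        Commute.inv_left_iff.mp (show Commute y⁻¹ g by simpa [commute_iff_eq] using e4)
      calc g⁻¹ * y * g = g⁻¹ * (y * g) := by group
        _ = _ := by rw [e5]; group
    obtain ⟨x, hx, y, hy, rfl⟩ := exists_div E B (fun x hx => hA x (Finset.mem_inter.mp hx).1)
      (by change _ < 2 * (A ∩ _).card; omega) hw
    exact ((Commute.mul_left (h3 x hx) (Commute.inv_left (h3 y hy))) : Commute (x * y⁻¹) g)
  intro x hx y hy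
  obtain ⟨p, hp, q, hq, rfl⟩ := exists_div E A hA (by omega) hy
  exact ((Commute.mul_right (key p hp x hx) (Commute.inv_right (key q hq x hx))) : Commute x (p * q⁻¹))

theorem comm_of_two_p (E : Subgroup G) {p : ℕ} (hp : p.Prime) (h : Nat.card E = 2 * p) {z : G} (hz : z * z = 1)
    (hz0 : z ≠ 1) (hzE : z ∈ E) (hc : ∀ x ∈ E, x * z = z * x) : ∀ x ∈ E, ∀ y ∈ E, x * y = y * x := by
  intro x hx y hy
  by_cases h1 : x = 1
  · simp [h1]
  by_cases h2 : x = z
  · rw [h2, hc y hy]
  let C := E ⊓ centralizer ({x} : Set G)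
  have hm : ∀ w, w ∈ C ↔ w ∈ E ∧ w * x = x * w := fun w => by
    rw [mem_inf, mem_centralizer_singleton_iff]
  have hzC : z ∈ C := (hm z).mpr ⟨hzE, (hc x hx).symm⟩
  have h3 : 2 < Nat.card C := by
    rw [natCard_eq_filter, Finset.two_lt_card_iff]
    exact ⟨1, z, x, by simp, by simpa using hzC, by simpa using (hm x).mpr ⟨hx, rfl⟩, hz0.symm,
      fun e => h1 e.symm, fun e => h2 e.symm⟩
  obtain ⟨j, hj⟩ : 2 ∣ Nat.card C := by
    have := C.orderOf_dvd_natCard hzC
    rwa [orderOf_eq_prime (p := 2) (by rw [pow_two, hz]) hz0] at this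
  have h4 := card_dvd_of_le (inf_le_left : C ≤ E)
  rw [hj, h] at h4
  have h5 : C = E := by
    apply eq_of_le_of_card_ge inf_le_left
    rcases (Nat.dvd_prime hp).mp (Nat.dvd_of_mul_dvd_mul_left (by norm_num) h4) with h6 | h6
    · omega
    · change _ ≤ Nat.card C
      rw [hj, h, h6]
  exact ((hm y).mp (h5 ▸ hy)).2.symm

theorem two_mul_le_of_comm (E : Subgroup G) (hE : ∀ x ∈ E, ∀ y ∈ E, x * y = y * x) {z : G}
    (hz : ∀ g ∈ E, g * g = 1 → g = 1 ∨ g = z) (A : Finset G) (hA : ∀ x ∈ A, x ∈ E) (t : G)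
    (ht : ∀ x ∈ A, t * x * t⁻¹ = x⁻¹) (hc : ∀ x ∈ A, ∀ g ∈ E, (t * g * t⁻¹)⁻¹ * x * g ∈ A)
    (hlt : A.card < Nat.card E) : 2 * A.card ≤ Nat.card E := by
  by_contra h
  have h1 : ∀ w ∈ E, t * w * t⁻¹ = w⁻¹ := by
    intro w hw
    obtain ⟨x, hx, y, hy, rfl⟩ := exists_div E A hA (by omega) hw
    calc t * (x * y⁻¹) * t⁻¹ = (t * x * t⁻¹) * (t * y * t⁻¹)⁻¹ := by group
      _ = _ := by rw [ht x hx, ht y hy, inv_inv, hE _ (E.inv_mem (hA x hx)) _ (hA y hy)]; group
  set E' := Finset.univ.filter (fun g => g ∈ E) with hE'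
  have hc' : Nat.card E = E'.card := natCard_eq_filter E
  have hAE : A ⊆ E' := fun x hx => by simpa [hE'] using hA x hx
  obtain ⟨g, hg, hgA⟩ := Finset.exists_mem_notMem_of_card_lt_card (hc' ▸ hlt)
  have hgE : g ∈ E := by simpa [hE'] using hg
  have h2 : E'.image (fun x => x * g * x) ⊆ E' \ A := by
    intro y hy
    obtain ⟨x, hx, rfl⟩ := Finset.mem_image.mp hy
    have hxE : x ∈ E := by simpa [hE'] using hx
    refine Finset.mem_sdiff.mpr ⟨by simpa [hE'] using E.mul_mem (E.mul_mem hxE hgE) hxE, fun h3 => hgA ?_⟩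
    have := hc _ h3 _ (E.inv_mem hxE)
    rw [h1 _ (E.inv_mem hxE)] at this
    simpa [mul_assoc] using this
  have h3 : E'.card ≤ 2 * (E'.image (fun x => x * g * x)).card := by
    refine Finset.card_le_mul_card_image _ 2 (fun w hw => ?_)
    obtain ⟨x, hx, rfl⟩ := Finset.mem_image.mp hw
    have hxE : x ∈ E := by simpa [hE'] using hx
    refine (Finset.card_le_card (t := {x, x * z}) (fun y hy => ?_)).trans Finset.card_le_two
    rw [Finset.mem_filter] at hy
    have hyE : y ∈ E := by simpa [hE'] using hy.1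
    have e := hy.2
    rw [hE y hyE g hgE, hE x hxE g hgE, mul_assoc, mul_assoc, mul_left_cancel_iff] at e
    rcases hz (x⁻¹ * y) (E.mul_mem (E.inv_mem hxE) hyE) (by
      calc x⁻¹ * y * (x⁻¹ * y) = x⁻¹ * (y * x⁻¹) * y := by group
        _ = x⁻¹ * x⁻¹ * (y * y) := by rw [hE y hyE _ (E.inv_mem hxE)]; group
        _ = 1 := by rw [e]; group) with h4 | h4
    · simp [inv_mul_eq_one.mp h4]
    · simp [← h4]
  have h4 := Finset.card_le_card h2
  rw [Finset.card_sdiff_of_subset hAE] at h4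
  omega

/-- involutions with a fixed point -/
noncomputable def invF (G X : Type*) [Group G] [Fintype G] [MulAction G X] : Finset G :=
  Finset.univ.filter (fun z => z * z = 1 ∧ z ≠ 1 ∧ ∃ x : X, z • x = x)

theorem mem_invF {X : Type*} [MulAction G X] {z : G} :
    z ∈ invF G X ↔ z * z = 1 ∧ z ≠ 1 ∧ ∃ x : X, z • x = x := by
  simp [invF]

theorem invF_conj {X : Type*} [MulAction G X] {z : G} (h : z ∈ invF G X) (g : G) : g * z * g⁻¹ ∈ invF G X := by
  obtain ⟨h1, h2, x, h3⟩ := mem_invF.mp h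
  exact mem_invF.mpr ⟨R3.conj_invol h1 g, by simpa using h2, g • x, R3.conj_smul h3⟩

/-- number of points moved to a related point -/
noncomputable def cntR {X : Type*} [MulAction G X] [Fintype X] (P : X → X → Prop) (g : G) : ℕ :=
  (Finset.univ.filter (fun x : X => P x (g • x))).card

omit [Fintype G] in
theorem cntR_conj {X : Type*} [MulAction G X] [Fintype X] {P : X → X → Prop}
    (hP : ∀ (g : G) x y, P (g • x) (g • y) ↔ P x y) (z g : G) : cntR P (g * z * g⁻¹) = cntR P z := by
  refine (card_eq_of_smul g (fun x => ?_)).symm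
  simp only [Finset.mem_filter, Finset.mem_univ, true_and]
  rw [mul_smul, mul_smul, inv_smul_smul, hP]

theorem sum_cntR {X : Type*} [MulAction G X] [Fintype X] {P : X → X → Prop}
    (hP : ∀ (g : G) x y, P (g • x) (g • y) ↔ P x y) {a b : X}
    (ht : ∀ x y, P x y → ∃ g : G, g • a = x ∧ g • b = y) (htr : ∀ x, ∃ g : G, g • a = x) :
    ∑ z ∈ invF G X, cntR P z = Fintype.card X * ((Finset.univ.filter (P a)).card *
      ((invF G X).filter (fun z => z • a = b)).card) := by
  simp only [cntR, Finset.card_filter]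
  rw [Finset.sum_comm, ← Finset.card_univ, ← smul_eq_mul, ← Finset.sum_const]
  refine Finset.sum_congr rfl (fun x _ => ?_)
  simp only [← Finset.card_filter]
  have h1 : (Finset.univ.filter (P a)).card = (Finset.univ.filter (P x)).card := by
    obtain ⟨g, rfl⟩ := htr x
    exact card_eq_of_smul g (fun y => by simp [hP])
  rw [h1, ← smul_eq_mul, ← Finset.sum_const, Finset.card_eq_sum_card_fiberwise (f := fun z => z • x)
    (t := Finset.univ.filter (P x)) (fun z hz => by simpa using (Finset.mem_filter.mp hz).2)]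
  refine Finset.sum_congr rfl (fun y hy => ?_)
  have hy' : P x y := by simpa using hy
  obtain ⟨g, rfl, rfl⟩ := ht x y hy'
  symm
  refine Finset.card_bij (fun z _ => g * z * g⁻¹) (fun z hz => ?_) (fun _ _ _ _ e => by simpa using e)
    (fun z hz => ⟨g⁻¹ * z * g⁻¹⁻¹, ?_, by group⟩)
  · rw [Finset.mem_filter] at hz
    have e : (g * z * g⁻¹) • g • a = g • b := by rw [mul_smul, mul_smul, inv_smul_smul, hz.2]
    exact Finset.mem_filter.mpr ⟨Finset.mem_filter.mpr ⟨invF_conj hz.1 g, by rwa [e]⟩, e⟩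
  · rw [Finset.mem_filter, Finset.mem_filter] at hz
    exact Finset.mem_filter.mpr ⟨invF_conj hz.1.1 _, by
      rw [mul_smul, mul_smul, inv_inv, hz.2, inv_smul_smul]⟩

theorem sum_cntR_mul {X : Type*} [MulAction G X] [Fintype X] (P : X → X → Prop) (K : Subgroup G) {z : G}
    (hz : ∀ x : X, ∃ u ∈ K, z • x = u • x) :
    ∑ u ∈ Finset.univ.filter (fun u => u ∈ K), cntR P (u * z) =
      ∑ u ∈ Finset.univ.filter (fun u => u ∈ K), cntR P u := by
  simp only [cntR, Finset.card_filter]
  rw [Finset.sum_comm, Finset.sum_comm (s := Finset.univ.filter (fun u => u ∈ K))]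
  refine Finset.sum_congr rfl (fun x _ => ?_)
  obtain ⟨w, hw, e⟩ := hz x
  refine Finset.sum_bij (fun u _ => u * w) (fun u hu => by simpa using K.mul_mem (by simpa using hu) hw)
    (fun _ _ _ _ e => mul_right_cancel e)
    (fun u hu => ⟨u * w⁻¹, by simpa using K.mul_mem (by simpa using hu) (K.inv_mem hw), by simp⟩)
    (fun u _ => by rw [mul_smul, mul_smul, e])

end Gen

end Cfsg.Agent.H2
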