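import Cfsg.Agent.H2.R3e

/-! Rank 3 groups with a Frobenius suborbit: both two-point stabilizers of even order. -/

set_option autoImplicit false

namespace Cfsg.Agent.H2

open Subgroup MulAction
open scoped Classical

namespace R3

variable {G X : Type*} [Group G] [MulAction G X] {adj : X → X → Prop} (R : R3 G adj)
include R

variable [Fintype G] [Fintype X]

omit [Fintype X] in
theorem card_KS_smul (g : G) (x y : X) : Nat.card (R.Ker (g • x) ⊓ stabilizer G (g • y) : Subgroup G) =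
    Nat.card (R.Ker x ⊓ stabilizer G y : Subgroup G) := by
  refine Nat.card_congr ⟨fun u => ⟨g⁻¹ * u * g⁻¹⁻¹, by simpa using R.Ker_conj u.2.1 g⁻¹, ?_⟩,
    fun u => ⟨g * u * g⁻¹, R.Ker_conj u.2.1 g, conj_smul u.2.2⟩,
    fun x => Subtype.ext (by simp [mul_assoc]), fun x => Subtype.ext (by simp [mul_assoc])⟩
  simpa using conj_smul (g := g⁻¹) u.2.2

omit [Fintype X] in
theorem card_KS_non {x y x' y' : X} (h : x ≠ y ∧ ¬ adj x y) (h' : x' ≠ y' ∧ ¬ adj x' y') :
    Nat.card (R.Ker x ⊓ stabilizer G y : Subgroup G) = Nat.card (R.Ker x' ⊓ stabilizer G y' : Subgroup G) := by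
  obtain ⟨g, rfl, rfl⟩ := R.tN h.1 h.2 h'.1 h'.2
  rw [R.card_KS_smul]

omit [Fintype X] in
theorem mem_of_comm {a b : X} (hb : adj a b) {t u : G} (ht : t ∈ St2 G a b) (ht1 : t ≠ 1) (D : Subgroup G)
    (hD : D ≤ R.Ker a) (hn : ∀ w ∈ D, t * w * t⁻¹ ∈ D) (hu : u ∈ R.Ker a) (h : t * u * t⁻¹ * u⁻¹ ∈ D) :
    u ∈ D := by
  have hinj : ∀ w ∈ R.Ker a, ∀ w' ∈ R.Ker a, t * w * t⁻¹ * w⁻¹ = t * w' * t⁻¹ * w'⁻¹ → w = w' := by
    intro w hw w' hw' e
    by_contra h1
    refine ht1 ((R.mem_Ker_of_commute ht.1 (mul_mem (inv_mem hw') hw) (fun e => h1 (inv_mul_eq_one.mp e).symm)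
      ?_).2 b hb ht.2)
    calc t * (w'⁻¹ * w) = t * w'⁻¹ * t⁻¹ * (t * w * t⁻¹ * w⁻¹) * w * t := by group
      _ = _ := by rw [e]; group
  let f : D → D := fun w => ⟨t * w * t⁻¹ * w⁻¹, D.mul_mem (hn w w.2) (D.inv_mem w.2)⟩
  have hf : Function.Injective f := fun w w' e =>
    Subtype.ext (hinj _ (hD w.2) _ (hD w'.2) (congrArg Subtype.val e))
  obtain ⟨w, hw⟩ := Finite.injective_iff_surjective.mp hf ⟨_, h⟩
  rw [← hinj _ (hD w.2) _ hu (congrArg Subtype.val hw)]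
  exact w.2

variable {a0 b0 : X} (h0 : adj a0 b0) (hev : 2 ∣ Nat.card (St2 G a0 b0))
include h0 hev

theorem fix_of_sq {a x : X} {u : G} (hu : u ∈ R.Ker a) (h : (u * u) • x = x) : u • x = x := by
  obtain ⟨j, hj⟩ := R.odd_k h0 hev a
  have h1 := R.Ker_pow hu a
  have h2 : (u * u) ^ (j + 1) = u := by
    rw [← pow_two, ← pow_mul, show 2 * (j + 1) = (2 * j + 1) + 1 by ring, pow_succ, ← hj, h1, one_mul]
  rw [← h2]
  exact (stabilizer G x).pow_mem h _

theorem card_inv_fix {x y : X} {z : G} (hz : z * z = 1) (hz0 : z ≠ 1) (hx : z • x = x) (hy : z • y = y) :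
    ((invF G X).filter (fun w => w • x = x ∧ w • y = y)).card =
      Nat.card (R.Ker x ⊓ stabilizer G y : Subgroup G) := by
  rw [natCard_eq_filter]
  refine Finset.card_bij (fun w _ => z * w) (fun w hw => ?_) (fun _ _ _ _ e => mul_left_cancel e)
    (fun u hu => ⟨z * u, ?_, by rw [← mul_assoc, hz, one_mul]⟩)
  · rw [Finset.mem_filter, mem_invF] at hw
    refine Finset.mem_filter.mpr ⟨Finset.mem_univ _, R.mul_mem_Ker h0 hev hz hz0 hx hw.1.1 hw.1.2.1 hw.2.1, ?_⟩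
    change (z * w) • y = y
    rw [mul_smul, hw.2.2, hy]
  · have hu' : u ∈ R.Ker x ⊓ stabilizer G y := (Finset.mem_filter.mp hu).2
    have h1 : (z * u) • x = x := by rw [mul_smul, hu'.1.1, hx]
    refine Finset.mem_filter.mpr ⟨mem_invF.mpr ⟨?_, fun e => hz0 ?_, x, h1⟩, h1, by
      rw [mul_smul, show u • y = y from hu'.2, hy]⟩
    · rw [← mul_assoc, R.inverts' h0 hev hz hz0 hx u hu'.1, inv_mul_cancel]
    · have h2 : z = u⁻¹ := eq_inv_of_mul_eq_one_left e
      exact R.Ker_sq h0 hev (h2 ▸ (R.Ker x).inv_mem hu'.1) hz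

theorem invol_conj_Ker {x : X} {z w : G} (hz : z * z = 1) (hz0 : z ≠ 1) (hx : z • x = x)
    (hw : w * w = 1) (hw0 : w ≠ 1) (hx' : w • x = x) : ∃ u ∈ R.Ker x, u * z * u⁻¹ = w := by
  obtain ⟨y, hy, e⟩ := R.partner h0 hev hz hz0 hx
  obtain ⟨y', hy', e'⟩ := R.partner h0 hev hw hw0 hx'
  obtain ⟨u, hu, rfl⟩ := R.exists_Ker hy hy'
  exact ⟨u, hu, R.invol_uniq h0 hev hy' (conj_invol hz u) (by simpa using hz0)
    (by simpa [hu.1] using conj_smul (g := u) hx) (conj_smul e) hw hw0 hx' e'⟩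

theorem cntR_const {P : X → X → Prop} (hP : ∀ (g : G) x y, P (g • x) (g • y) ↔ P x y) {z w : G}
    (hz : z ∈ invF G X) (hw : w ∈ invF G X) : cntR P w = cntR P z := by
  obtain ⟨h1, h2, x, h3⟩ := mem_invF.mp hz
  obtain ⟨h4, h5, y, h6⟩ := mem_invF.mp hw
  obtain ⟨g, -, rfl⟩ := R.invol_conj h0 hev h1 h2 h3 h4 h5 h6
  exact cntR_conj hP z g

theorem cntR_eq {P : X → X → Prop} (hP : ∀ (g : G) x y, P (g • x) (g • y) ↔ P x y) {a b : X}
    (ht : ∀ x y, P x y → ∃ g : G, g • a = x ∧ g • b = y) {z : G} (hz : z * z = 1) (hz0 : z ≠ 1)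
    (hza : z • a = a) : (nbF adj a).card * cntR P z =
      al0 X z * ((Finset.univ.filter (P a)).card * ((invF G X).filter (fun w => w • a = b)).card) := by
  have hzI : z ∈ invF G X := mem_invF.mpr ⟨hz, hz0, a, hza⟩
  have h1 := sum_cntR hP ht (R.tr a)
  rw [Finset.sum_congr rfl (fun w hw => R.cntR_const h0 hev hP hzI hw), Finset.sum_const, smul_eq_mul] at h1
  have hQ : ∀ (g : G) (x y : X), g • y = g • x ↔ y = x := fun g x y => smul_left_cancel_iff g
  have h2 := sum_cntR (G := G) (P := fun x y : X => y = x) hQ (a := a) (b := a) (fun x y e => by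
    obtain ⟨g, hg⟩ := R.tr a x
    exact ⟨g, hg, hg.trans e.symm⟩) (R.tr a)
  rw [Finset.sum_congr rfl (fun w hw => R.cntR_const h0 hev (P := fun x y : X => y = x) hQ hzI hw),
    Finset.sum_const, smul_eq_mul] at h2
  rw [Finset.card_eq_one.mpr ⟨a, by ext; simp⟩, one_mul] at h2
  have h3 := R.card_inv_fix h0 hev hz hz0 hza hza
  rw [inf_eq_left.mpr (fun u hu => hu.1), R.card_Ker] at h3
  simp only [and_self] at h3
  rw [h3] at h2
  have hv : 0 < Fintype.card X := Fintype.card_pos_iff.mpr ⟨a⟩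
  apply Nat.eq_of_mul_eq_mul_left hv
  rw [← mul_assoc, ← h2, mul_left_comm, ← h1]
  change _ * al0 X z * _ = _
  ring

omit h0 hev [Fintype G] in
theorem al_sum (z : G) : al0 X z + al1 adj z + cntR (fun x y => x ≠ y ∧ ¬ adj x y) z = Fintype.card X := by
  simp only [al0, al1, cntR, Finset.card_filter, ← Finset.sum_add_distrib]
  rw [← Finset.card_univ, Finset.card_eq_sum_ones]
  refine Finset.sum_congr rfl (fun x _ => ?_)
  by_cases h1 : z • x = x
  · simp [h1, R.irrefl]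
  · by_cases h2 : adj x (z • x)
    · simp [h1, h2]
    · simp [h1, h2, Ne.symm h1]

omit h0 hev R [Fintype X] in
theorem card_swap_le (a b : X) : ((invF G X).filter (fun w => w • a = b)).card ≤ Nat.card (St2 G a b) := by
  refine card_coset_le (X := X) _ _ (fun g hg g' hg' => ?_)
  rw [Finset.mem_filter, mem_invF] at hg hg'
  rw [mem_St2, mul_smul, mul_smul, inv_smul_eq_iff, inv_smul_eq_iff, hg.2, hg'.2]
  refine ⟨rfl, ?_⟩
  rw [← hg'.2, ← mul_smul, hg'.1.1, hg'.2, ← hg.2, ← mul_smul, hg.1.1]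

omit h0 hev [Fintype G] in
theorem al0_eq {a b : X} (hb : adj a b) {z : G} (hz0 : z ≠ 1) (hza : z • a = a) (hzb : z • b = b) :
    al0 X z = ((nonF adj a).filter (fun x => z • x = x)).card + 2 := by
  have h1 : Finset.univ.filter (fun x : X => z • x = x) =
      insert a (insert b ((nonF adj a).filter (fun x => z • x = x))) := by
    ext x
    simp only [Finset.mem_filter, Finset.mem_univ, true_and, Finset.mem_insert, mem_nonF]
    constructor
    · intro h
      by_cases e : x = a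
      · exact Or.inl e
      by_cases e' : adj a x
      · by_contra h2
        exact hz0 (R.frob e' hb (fun e => h2 (Or.inr (Or.inl e))) hza h hzb)
      · exact Or.inr (Or.inr ⟨⟨fun e' => e e'.symm, e'⟩, h⟩)
    · rintro (rfl | rfl | h)
      · exact hza
      · exact hzb
      · exact h.2
  rw [al0, h1, Finset.card_insert_of_notMem (by simp [mem_nonF, R.ne_of_adj hb]),
    Finset.card_insert_of_notMem (by simp [mem_nonF, hb])]

theorem exists_H {a b c x : X} (hb : adj a b) (hc : a ≠ c ∧ ¬ adj a c) {z : G} (hz : z * z = 1) (hz0 : z ≠ 1)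
    (hza : z • a = a) (hzb : z • b = b) (hzc : z • c = c) (hx : a ≠ x ∧ ¬ adj a x) (hzx : z • x = x) :
    ∃ g ∈ St2 G a b, g • c = x := by
  obtain ⟨g, h1, rfl⟩ := R.tN hc.1 hc.2 hx.1 hx.2
  obtain ⟨u, hu, h2⟩ := R.exists_Ker (R.adj_smul h1 hb) hb
  have h3 : u * g ∈ St2 G a b := ⟨by change (u * g) • a = a; rw [mul_smul, h1, hu.1],
    by change (u * g) • b = b; rw [mul_smul, h2]⟩
  refine ⟨_, h3, ?_⟩
  have h4 := R.commute_of_edge h0 hev hb hz hz0 hza hzb (Or.inl h3)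
  have h5 : z • u • g • c = u • g • c := by rw [← mul_smul u, ← mul_smul, ← h4, mul_smul, hzc]
  rw [mul_smul]
  apply R.fix_of_sq h0 hev hu
  have h6 : (z * u * z) • g • c = u • g • c := by rw [mul_smul, mul_smul, hzx, h5]
  rw [R.inverts' h0 hev hz hz0 hza u hu, inv_smul_eq_iff] at h6
  rw [mul_smul, ← h6]

theorem card_H {a b c : X} (hb : adj a b) (hc : a ≠ c ∧ ¬ adj a c) {z : G} (hz : z * z = 1) (hz0 : z ≠ 1)
    (hza : z • a = a) (hzb : z • b = b) (hzc : z • c = c) :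
    ((nonF adj a).filter (fun x => z • x = x)).card * Nat.card (St2 G a b ⊓ stabilizer G c : Subgroup G) =
      Nat.card (St2 G a b) := by
  refine orb_stab _ c _ (fun y => ?_)
  rw [Finset.mem_filter, mem_nonF]
  refine ⟨fun h => R.exists_H h0 hev hb hc hz hz0 hza hzb hzc h.1 h.2, ?_⟩
  rintro ⟨g, hg, rfl⟩
  exact ⟨R.non_smul hg.1 hc, by
    rw [← mul_smul, ← R.commute_of_edge h0 hev hb hz hz0 hza hzb (Or.inl hg), mul_smul, hzc]⟩

variable {a1 c1 : X} (hc1 : a1 ≠ c1 ∧ ¬ adj a1 c1) (hm : 2 ∣ Nat.card (St2 G a1 c1))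
include hc1 hm

omit h0 hev [Fintype X] in
theorem exists_invol_non {x y : X} (h : x ≠ y ∧ ¬ adj x y) :
    ∃ z : G, z * z = 1 ∧ z ≠ 1 ∧ z • x = x ∧ z • y = y := by
  rw [R.card_St2_non hc1 h] at hm
  have := Nat.fact_prime_two
  obtain ⟨z, hz⟩ := exists_prime_orderOf_dvd_card' 2 hm
  rw [← orderOf_coe] at hz
  refine ⟨z, by rw [← pow_two, ← hz, pow_orderOf_eq_one], fun e => ?_, z.2.1, z.2.2⟩
  rw [e, orderOf_one] at hz
  omega

theorem card_Ker_inv {a c : X} (hc : a ≠ c ∧ ¬ adj a c) (T : Finset X) (hT : T ⊆ nonF adj a)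
    (hK : ∀ u ∈ R.Ker a, ∀ x, x ∈ T ↔ u • x ∈ T) {z : G} (hz : z * z = 1) (hz0 : z ≠ 1) (hza : z • a = a) :
    (nbF adj a).card * (T.filter (fun x => z • x = x)).card =
      T.card * Nat.card (R.Ker a ⊓ stabilizer G c : Subgroup G) := by
  have h3 := R.card_inv_fix h0 hev hz hz0 hza hza
  rw [inf_eq_left.mpr (fun u hu => hu.1), R.card_Ker] at h3
  rw [← h3]
  refine Finset.card_mul_eq_card_mul (fun (w : G) x => w • x = x) (fun w hw => ?_) (fun y hy => ?_)
  · rw [Finset.mem_filter, mem_invF] at hw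
    obtain ⟨u, hu, rfl⟩ := R.invol_conj_Ker h0 hev hz hz0 hza hw.1.1 hw.1.2.1 hw.2.1
    refine (card_eq_of_smul u (fun x => ?_)).symm
    rw [Finset.mem_bipartiteAbove, Finset.mem_filter, ← hK u hu, mul_smul, mul_smul, inv_smul_smul,
      smul_left_cancel_iff]
  · have hy' := mem_nonF.mp (hT hy)
    obtain ⟨w, h1, h2, h4, h5⟩ := R.exists_invol_non hc1 hm hy'
    rw [R.card_KS_non hc hy', ← R.card_inv_fix h0 hev h1 h2 h4 h5]
    congr 1
    ext x
    simp [Finset.mem_bipartiteBelow, and_assoc]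

theorem chi_pos {a b c : X} (hb : adj a b) (hc : a ≠ c ∧ ¬ adj a c) {r y : ℕ} (hr : 1 ≤ r)
    (h1 : r + (nbF adj a ∩ nbF adj c).card = y + (nbF adj a ∩ nbF adj b).card)
    (h2 : r * y + (nbF adj a ∩ nbF adj c).card = (nbF adj a).card)
    {z : G} (hz : z * z = 1) (hz0 : z ≠ 1) (hza : z • a = a) :
    (∃ g : ℤ, g * (r + y) = r * Fintype.card X + (nbF adj a).card - r) ∧
    ∃ n : ℕ, 1 ≤ n ∧ n * (r + y) + al1 adj z + r = r * al0 X z + (nbF adj a).card := by
  obtain ⟨χ, hχ, hS⟩ := R.eig_int hb hc hr h1 h2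
  refine ⟨⟨χ 1, by rw [hχ, al0_one, R.al1_one]; simp⟩, ?_⟩
  obtain ⟨n, hn, e⟩ := hS (R.Ker a) (fun u hu => hu.1)
  refine ⟨n, hn, ?_⟩
  have horb : ∀ x : X, ∃ u ∈ R.Ker a, z • x = u • x := by
    intro x
    by_cases e1 : a = x
    · exact ⟨1, one_mem _, by rw [← e1, hza, one_smul]⟩
    obtain ⟨w, h3, h4, h5, h6⟩ : ∃ w : G, w * w = 1 ∧ w ≠ 1 ∧ w • a = a ∧ w • x = x := by
      by_cases e2 : adj a x
      · exact R.exists_invol h0 hev e2
      · exact R.exists_invol_non hc1 hm ⟨e1, e2⟩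
    exact ⟨z * w, R.mul_mem_Ker h0 hev hz hz0 hza h3 h4 h5, by rw [mul_smul, h6]⟩
  have hzI : z ∈ invF G X := mem_invF.mpr ⟨hz, hz0, a, hza⟩
  have hI : ∀ u ∈ Finset.univ.filter (fun u => u ∈ R.Ker a), u * z ∈ invF G X := by
    intro u hu
    have hu' : u ∈ R.Ker a := (Finset.mem_filter.mp hu).2
    refine mem_invF.mpr ⟨?_, fun e => hz0 ?_, a, by rw [mul_smul, hza, hu'.1]⟩
    · rw [mul_assoc, ← mul_assoc z, R.inverts' h0 hev hz hz0 hza u hu', mul_inv_cancel]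
    · have h2 : z = u⁻¹ := eq_inv_of_mul_eq_one_right e
      exact R.Ker_sq h0 hev (h2 ▸ inv_mem hu') hz
  have hQ : ∀ (g : G) (x y : X), g • y = g • x ↔ y = x := fun g x y => smul_left_cancel_iff g
  have e0 := sum_cntR_mul (fun x y : X => y = x) _ horb
  have e1 := sum_cntR_mul adj _ horb
  rw [Finset.sum_congr rfl (fun u hu => R.cntR_const h0 hev (P := fun x y : X => y = x) hQ hzI (hI u hu)),
    Finset.sum_const, smul_eq_mul, ← natCard_eq_filter] at e0
  rw [Finset.sum_congr rfl (fun u hu => R.cntR_const h0 hev (fun g x y => R.inv_iff g) hzI (hI u hu)),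
    Finset.sum_const, smul_eq_mul, ← natCard_eq_filter] at e1
  have e2 := congrArg (· * ((r : ℤ) + y)) e
  simp only [Finset.sum_mul, hχ, Finset.sum_sub_distrib, Finset.sum_add_distrib, ← Finset.mul_sum,
    Finset.sum_const, ← natCard_eq_filter, nsmul_eq_mul] at e2
  have e0' : (Nat.card (R.Ker a) : ℤ) * al0 X z = ∑ u ∈ Finset.univ.filter (fun u => u ∈ R.Ker a),
    (al0 X u : ℤ) := by exact_mod_cast e0
  have e1' : (Nat.card (R.Ker a) : ℤ) * al1 adj z = ∑ u ∈ Finset.univ.filter (fun u => u ∈ R.Ker a),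
    (al1 adj u : ℤ) := by exact_mod_cast e1
  rw [← e0', ← e1'] at e2
  have hk : (0 : ℤ) < Nat.card (R.Ker a) := by exact_mod_cast Nat.card_pos
  zify
  apply mul_left_cancel₀ hk.ne'
  linear_combination -e2

end R3

end Cfsg.Agent.H2
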