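import Cfsg.Agent.H2.R3f

/-! Rank 3 groups with a Frobenius suborbit: determination of the parameters. -/

set_option autoImplicit false

namespace Cfsg.Agent.H2

open Subgroup MulAction
open scoped Classical

theorem e3_num {k c e s t r y n1 n2 b : ℕ} {g : ℤ} (hc : Even c) (hc0 : 1 ≤ c) (he : Even e) (he0 : 1 ≤ e)
    (ht : 1 ≤ t) (hk : k = 1 + c * e * (s + t)) (h1 : n1 ≤ c * e) (h2 : n2 ≤ e)
    (h3 : c + 2 + (c + 2) * n1 + (c + 2) * c * n2 = 1 + k + k * c) (hr : 1 ≤ r) (hy : 1 ≤ y)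
    (h4 : r + e * t = y + c * e * s) (h5 : r * y + e * t = k) (hb : 1 ≤ b)
    (h6 : b * (r + y) + (c + 2) * n1 + r = r * (c + 2) + k)
    (h7 : g * (r + y) = r * ((1 + k + k * c : ℕ) : ℤ) + k - r) :
    (c = 2 ∧ e = 2 ∧ k = 5) ∨ (n2 < e ∧ e < 2 * n2 ∧ (3 * e < 4 * n2 ∨ e = 2 * 2 ∨ e = 2 * 5)) := by
  have hc2 : 2 ≤ c := by obtain ⟨j, rfl⟩ := hc; omega
  have he2 : 2 ≤ e := by obtain ⟨j, rfl⟩ := he; omega
  obtain ⟨c, rfl⟩ : ∃ c', c = c' + 1 := ⟨c - 1, by omega⟩
  have a0 : (c + 3) * n1 + (c + 3) * (c + 1) * n2 = (c + 2) * ((c + 1) * e * (s + t)) := by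
    subst hk; linarith
  have hce : 0 < (c + 1) * e := by positivity
  have a1 : s + t ≤ 2 := by
    by_contra h
    have b1 : (c + 2) * ((c + 1) * e * 3) ≤ (c + 2) * ((c + 1) * e * (s + t)) := by gcongr; omega
    have b2 : (c + 3) * n1 ≤ (c + 3) * ((c + 1) * e) := by gcongr
    have b3 : (c + 3) * (c + 1) * n2 ≤ (c + 3) * (c + 1) * e := by gcongr
    have b4 : (c + 1) * e * 1 ≤ (c + 1) * e * c := by gcongr; omega
    nlinarith
  have hby : r + y ≤ b * (r + y) := Nat.le_mul_of_pos_left _ hb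
  rcases (by omega : (s = 1 ∧ t = 1) ∨ (s = 0 ∧ t = 2) ∨ (s = 0 ∧ t = 1)) with ⟨rfl, rfl⟩ | ⟨rfl, rfl⟩ | ⟨rfl, rfl⟩
  · exfalso
    have b1 : r = y + c * e := by linarith
    rw [b1, hk] at h5
    rcases (by omega : y = 1 ∨ y = 2 ∨ 3 ≤ y) with rfl | rfl | h
    · nlinarith
    · obtain ⟨j, rfl⟩ := he
      have : 3 = 2 * j := by linarith
      omega
    · have b2 : (y + c * e) * 3 ≤ (y + c * e) * y := by gcongr
      have b3 : 1 * e ≤ c * e := by gcongr; omega
      nlinarith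
  · exfalso
    have b1 : y = r + 2 * e := by linarith
    subst b1
    have b2 : r ≤ c := by
      by_contra h
      have : (c + 1) * e ≤ r * e := by gcongr; omega
      nlinarith
    have b3 : (c + 3) * (c + 1) * n2 ≤ (c + 3) * (c + 1) * e := by gcongr
    have b4 : r * c ≤ c * c := by gcongr
    have b5 : (c * c + 1) * 2 ≤ (c * c + 1) * e := by gcongr
    nlinarith
  · have b1 : y = r + e := by linarith
    subst b1
    have b2 : c + 3 ∣ 2 * e := by
      have : (c + 3) * (n1 + (c + 1) * n2) = (c + 3) * (c * e) + 2 * e := by linarith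
      exact (Nat.dvd_add_right (Dvd.intro _ rfl)).mp (Dvd.intro _ this)
    have b3 := Nat.le_of_dvd (by omega) b2
    have b4 : r < e := by
      by_contra h
      have : e * (e + e) ≤ r * (r + e) := by gcongr <;> omega
      have : (c + 3) * e ≤ 2 * e * e := by gcongr
      nlinarith
    have b5 : n2 < e := by
      by_contra h
      have : (c + 3) * (c + 1) * e ≤ (c + 3) * (c + 1) * n2 := by gcongr; omega
      nlinarith
    have b6 : (r + 1) * c ≤ e * c := by gcongr; omega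
    have b7 : e * (c * c + c + 2) ≤ (c + 3) * (c + 1) * n2 := by
      have : 1 ≤ c := by omega
      linarith
    have b8 : r ≤ c := by
      by_contra h
      have : (c + 1) * e ≤ r * e := by gcongr; omega
      have := Nat.zero_le (r * r)
      linarith
    have b9 : 3 ≤ c → e < 2 * n2 := by
      intro h
      by_contra h'
      have : (c + 3) * (c + 1) * (2 * n2) ≤ (c + 3) * (c + 1) * e := by gcongr; omega
      have : e * (3 * c) ≤ e * (c * c) := by gcongr
      have : e * 3 ≤ e * c := by gcongr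
      linarith
    by_cases h : 9 ≤ c
    · refine Or.inr ⟨b5, b9 (by omega), Or.inl ?_⟩
      by_contra h'
      have : (c + 3) * (c + 1) * (4 * n2) ≤ (c + 3) * (c + 1) * (3 * e) := Nat.mul_le_mul_left _ (by omega)
      have : e * (9 * c) ≤ e * (c * c) := by gcongr
      have : e * 9 ≤ e * c := by gcongr
      linarith
    obtain ⟨j, hj⟩ := hc
    obtain ⟨i, hi⟩ := he
    rcases (by omega : c = 1 ∨ c = 3 ∨ c = 5 ∨ c = 7) with rfl | rfl | rfl | rfl
    · have : r = 1 := by omega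
      subst this
      have a8 : ((e : ℤ) + 2) ∣ 12 := by
        refine ⟨8 - g, ?_⟩
        rw [hk] at h7
        push_cast at h7
        linear_combination h7
      have a9 : e + 2 ∣ 12 := by exact_mod_cast a8
      have a10 := Nat.le_of_dvd (by norm_num) a9
      have : e ≤ 10 := by omega
      interval_cases e <;> omega
    · interval_cases r <;> omega
    · have := b9 (by norm_num)
      interval_cases r <;> omega
    · interval_cases r <;> omega

theorem e2_num {k c e s t r y d κ φ : ℕ} (hk : Odd k) (hd : 1 < d) (he : 2 ≤ e) (hφ : 1 ≤ φ) (h1 : k = d * κ)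
    (h2 : d * d ≤ k) (h3 : κ * φ + 1 ≤ φ + 1 + φ * (φ + 1)) (h4 : φ * e * d + d ≤ k) (ht : 1 ≤ t)
    (h5 : k = 1 + c * e * (s + t)) (hr : 1 ≤ r) (hy : 1 ≤ y) (h6 : r + d * e * t = y + c * e * s)
    (h7 : r * y + d * e * t = k) : k = 9 ∧ c = 2 ∧ e = 2 ∧ d = 3 ∧ φ = 1 := by
  have a1 : κ ≤ φ + 2 := by
    by_contra h
    have : (φ + 3) * φ ≤ κ * φ := by gcongr; omega
    nlinarith
  have a2 : φ * e + 1 ≤ κ := by
    apply Nat.le_of_mul_le_mul_left (c := d) _ (by omega)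
    linarith
  have a3 : φ * 2 ≤ φ * e := by gcongr
  have a4 : φ = 1 := by omega
  subst a4
  have a5 : e = 2 := by omega
  have a6 : κ = 3 := by omega
  subst a5 a6
  have a7 : d ≤ 3 := by nlinarith
  have a8 : d = 3 := by
    obtain ⟨j, hj⟩ := hk
    omega
  subst a8
  have a9 : 1 ≤ r * y := Nat.mul_pos hr hy
  have a10 : t = 1 := by omega
  subst a10
  have a11 : c ≤ 4 := by nlinarith
  have a12 : r ≤ 3 := Nat.le_of_dvd (by norm_num) ⟨y, by omega⟩
  interval_cases c <;> interval_cases r <;> omega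

namespace R3

variable {G X : Type*} [Group G] [MulAction G X] {adj : X → X → Prop} (R : R3 G adj)
include R

variable [Fintype G] [Fintype X]

variable {a0 b0 : X} (h0 : adj a0 b0) (hev : 2 ∣ Nat.card (St2 G a0 b0))
include h0 hev

variable {a c : X} (hc : a ≠ c ∧ ¬ adj a c) (hm : 2 ∣ Nat.card (St2 G a c))
include hc hm

theorem basic {b : X} (hb : adj a b) {z : G} (hz : z * z = 1) (hz0 : z ≠ 1) (hza : z • a = a)
    (hzb : z • b = b) (hzc : z • c = c) :
    (nbF adj a).card * ((nonF adj a).filter (fun x => z • x = x)).card =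
      (nonF adj a).card * Nat.card (R.Ker a ⊓ stabilizer G c : Subgroup G) ∧
    Nat.card (St2 G a c) = Nat.card (R.Ker a ⊓ stabilizer G c : Subgroup G) *
      Nat.card (St2 G a b ⊓ stabilizer G c : Subgroup G) ∧
    2 ∣ Nat.card (St2 G a b ⊓ stabilizer G c : Subgroup G) := by
  have e1 := R.card_Ker_inv h0 hev hc hm hc (nonF adj a) subset_rfl (fun u hu x => by
    rw [mem_nonF, mem_nonF]
    exact ⟨R.non_smul hu.1, fun h => by simpa using R.non_smul (inv_mem hu).1 h⟩) hz hz0 hza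
  refine ⟨e1, ?_, ?_⟩
  · have e2 := R.card_H h0 hev hb hc hz hz0 hza hzb hzc
    have e3 := R.nb_mul hb
    rw [← R.non_mul hc, ← e2, ← mul_assoc, e1, mul_assoc] at e3
    exact (Nat.eq_of_mul_eq_mul_left (Finset.card_pos.mpr ⟨c, mem_nonF.mpr hc⟩) e3).symm
  · have := (St2 G a b ⊓ stabilizer G c).orderOf_dvd_natCard (x := z) ⟨⟨hza, hzb⟩, hzc⟩
    rwa [orderOf_eq_prime (p := 2) (by rw [pow_two, hz]) hz0] at this

theorem case_one {b : X} (hb : adj a b) (hd : Nat.card (R.Ker a ⊓ stabilizer G c : Subgroup G) = 1) :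
    (nbF adj a).card = 5 ∧ Nat.card (St2 G a b) = 4 ∧ Fintype.card X = 16 := by
  obtain ⟨z, hz, hz0, hza, hzc⟩ := R.exists_invol_non hc hm hc
  obtain ⟨b', hb', hzb⟩ := R.partner h0 hev hz hz0 hza
  rw [R.card_St2_adj hb hb']
  clear hb b
  rename' b' => b, hb' => hb
  obtain ⟨e1, e2, e3⟩ := R.basic h0 hev hc hm hb hz hz0 hza hzb hzc
  have e4 := R.card_H h0 hev hb hc hz hz0 hza hzb hzc
  rw [hd, mul_one] at e1
  rw [hd, one_mul] at e2
  rw [← e2] at e3 e4
  obtain ⟨s, t, ht, f1, -, f3, f4⟩ := R.params hb hc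
  obtain ⟨r, y, hr, hy, f5, f6⟩ := R.exists_eigs hb hc (R.even_v h0 hev)
  obtain ⟨⟨g, f7⟩, n, hn, f8⟩ := R.chi_pos h0 hev hc hm hb hc hr f5 f6 hz hz0 hza
  have f9 := R.al0_eq hb hz0 hza hzb
  have g1 := R.cntR_eq h0 hev (P := adj) (fun g x y => R.inv_iff g) (b := b) (fun x y h => R.tE hb h) hz hz0 hza
  have g2 := R.cntR_eq h0 hev (P := fun x y => x ≠ y ∧ ¬ adj x y) (fun g x y => by
    rw [R.inv_iff, ne_eq, smul_left_cancel_iff]) (b := c) (fun x y h => R.tN hc.1 hc.2 h.1 h.2) hz hz0 hza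
  have g3 := R.al_sum z
  have g4 := R.card_eq a
  have hk : 0 < (nbF adj a).card := Finset.card_pos.mpr ⟨b, mem_nbF.mpr hb⟩
  change _ * al1 adj z = _ * ((nbF adj a).card * _) at g1
  rw [show @Finset.filter _ _ (fun _ => Classical.propDecidable _) Finset.univ = nonF adj a from
    Finset.ext (fun x => by simp [mem_nonF])] at g2
  rw [mul_left_comm] at g1
  rw [← e1, mul_assoc, mul_left_comm] at g2
  have g5 := card_swap_le (G := G) a b
  have g6 := card_swap_le (G := G) a c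
  have g7 := R.even_al0 h0 hev hz hz0
  have g8 : 1 ≤ ((nonF adj a).filter (fun x => z • x = x)).card :=
    Finset.card_pos.mpr ⟨c, Finset.mem_filter.mpr ⟨mem_nonF.mpr hc, hzc⟩⟩
  rw [Nat.eq_of_mul_eq_mul_left hk g1, Nat.eq_of_mul_eq_mul_left hk g2, f9, g4, ← e1, ← mul_assoc] at g3
  rw [Nat.eq_of_mul_eq_mul_left hk g1, f9] at f8
  rw [g4, ← e1] at f7
  rw [f9] at g7
  rw [← e4] at g5 f1 f3
  rw [f1, f4] at f5
  rw [f4] at f6
  rcases e3_num ((Nat.even_add.mp g7).mpr even_two) g8 (even_iff_two_dvd.mpr e3) Nat.card_pos ht f3 g5 g6 g3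
    hr hy f5 f6 hn f8 f7 with ⟨a1, a2, a3⟩ | ⟨a1, a2, a3⟩
  · rw [g4, ← e1, ← e4, a1, a2, a3]
    exact ⟨rfl, rfl, rfl⟩
  exfalso
  have hu : ∀ g ∈ St2 G a c, g * g = 1 → g = 1 ∨ g = z := by
    intro g hg h
    by_cases h1 : g = 1
    · exact Or.inl h1
    have h2 : z * g ∈ R.Ker a ⊓ stabilizer G c := ⟨R.mul_mem_Ker h0 hev hz hz0 hza h h1 hg.1, by
      change (z * g) • c = c
      rw [mul_smul, hg.2, hzc]⟩
    rw [card_eq_one.mp hd, mem_bot] at h2
    exact Or.inr (mul_left_cancel (h2.trans hz.symm))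
  set J := (invF G X).filter (fun w => w • a = c) with hJ
  obtain ⟨τ, hτ⟩ : J.Nonempty := Finset.card_pos.mp (by omega)
  have hJ' : ∀ w ∈ J, w * w = 1 ∧ w • a = c ∧ w • c = a := by
    intro w hw
    rw [hJ, Finset.mem_filter, mem_invF] at hw
    exact ⟨hw.1.1, hw.2, by rw [← hw.2, ← mul_smul, hw.1.1, one_smul]⟩
  have hA : (J.image (fun w => τ * w)).card = J.card :=
    Finset.card_image_of_injective _ (mul_right_injective τ)
  have hA1 : ∀ x ∈ J.image (fun w => τ * w), x ∈ St2 G a c := by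
    intro x hx
    obtain ⟨w, hw, rfl⟩ := Finset.mem_image.mp hx
    rw [mem_St2, mul_smul, mul_smul, (hJ' w hw).2.1, (hJ' w hw).2.2]
    exact ⟨(hJ' τ hτ).2.2, (hJ' τ hτ).2.1⟩
  have hA2 : ∀ x ∈ J.image (fun w => τ * w), τ * x * τ⁻¹ = x⁻¹ := by
    intro x hx
    obtain ⟨w, hw, rfl⟩ := Finset.mem_image.mp hx
    rw [← mul_assoc, (hJ' τ hτ).1, one_mul, mul_inv_rev, inv_eq_of_mul_eq_one_right (hJ' w hw).1]
  have hzc' : ∀ x ∈ St2 G a c, x * z = z * x := by
    intro x hx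
    rcases hu (x * z * x⁻¹) (mul_mem (mul_mem hx ⟨hza, hzc⟩) (inv_mem hx)) (conj_invol hz x) with h | h
    · exact absurd (by simpa using h) hz0
    · exact mul_inv_eq_iff_eq_mul.mp h
  have hE : ∀ x ∈ St2 G a c, ∀ y ∈ St2 G a c, x * y = y * x := by
    rcases a3 with h | h | h
    · exact comm_of_three_four _ _ hA1 τ hA2 (by rwa [hA])
    · exact comm_of_two_p _ Nat.prime_two h hz hz0 ⟨hza, hzc⟩ hzc'
    · exact comm_of_two_p _ Nat.prime_five h hz hz0 ⟨hza, hzc⟩ hzc'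
  have := two_mul_le_of_comm _ hE hu _ hA1 τ hA2 (fun x hx g hg => by
    obtain ⟨w, hw, rfl⟩ := Finset.mem_image.mp hx
    refine Finset.mem_image.mpr ⟨g⁻¹ * w * g⁻¹⁻¹, Finset.mem_filter.mpr
      ⟨invF_conj (Finset.mem_filter.mp hw).1 _, ?_⟩, by group⟩
    rw [inv_inv, mul_smul, mul_smul, hg.1, (hJ' w hw).2.1, inv_smul_eq_iff, hg.2]) (by rwa [hA])
  omega

end R3

end Cfsg.Agent.H2
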