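import Cfsg.Agent.H2.R3g
import Cfsg.Agent.H2.SolvGen

/-! Rank 3 groups with a Frobenius suborbit: the last case, and the regular normal subgroup. -/

set_option autoImplicit false

namespace Cfsg.Agent.H2

open Subgroup MulAction
open scoped Classical

theorem four_pt {X : Type*} (T : Finset X) (hT : T.card = 4) (σ τ : X → X) (h1 : ∀ x ∈ T, σ x ∈ T)
    (h2 : ∀ x ∈ T, τ x ∈ T) (h3 : ∀ x, σ (σ x) = x) (h4 : ∀ x, τ (τ x) = x) (h5 : ∀ x ∈ T, σ x ≠ x)
    (h6 : ∀ x ∈ T, τ x ≠ x) {x : X} (hx : x ∈ T) : σ (τ (σ (τ x))) = x := by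
  by_cases e : τ x = σ x
  · rw [e, h3, e, h3]
  have a1 := h5 x hx
  have a2 := h6 x hx
  have a3 := h5 _ (h2 x hx)
  have a4 : σ (τ x) ≠ x := fun h => e (by rw [← h3 (τ x), h])
  have a5 : σ (τ x) ≠ σ x := fun h => a2 (by rw [← h3 (τ x), h, h3])
  have h7 : ({x, σ x, τ x, σ (τ x)} : Finset X) = T := by
    apply Finset.eq_of_subset_of_card_le
    · intro y hy
      simp only [Finset.mem_insert, Finset.mem_singleton] at hy
      rcases hy with rfl | rfl | rfl | rfl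
      · exact hx
      · exact h1 _ hx
      · exact h2 _ hx
      · exact h1 _ (h2 _ hx)
    · rw [hT, Finset.card_insert_of_notMem (by simp [a1.symm, a2.symm, a4.symm]),
        Finset.card_insert_of_notMem (by simp [a5.symm, Ne.symm e]), Finset.card_pair a3.symm]
  have h8 := h2 _ (h1 _ (h2 _ hx))
  rw [← h7] at h8
  simp only [Finset.mem_insert, Finset.mem_singleton] at h8
  rcases h8 with h | h | h | h
  · exact absurd (by rw [← h4 (σ (τ x)), h]) a3
  · rw [h, h3]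
  · exact absurd (by rw [← h4 (σ (τ x)), h, h4]) a4
  · exact absurd h (h6 _ (h1 _ (h2 _ hx)))

namespace R3

variable {G X : Type*} [Group G] [MulAction G X] {adj : X → X → Prop} (R : R3 G adj)
include R

variable [Fintype G] [Fintype X]

variable {a0 b0 : X} (h0 : adj a0 b0) (hev : 2 ∣ Nat.card (St2 G a0 b0))
include h0 hev

variable {a c : X} (hc : a ≠ c ∧ ¬ adj a c) (hm : 2 ∣ Nat.card (St2 G a c))
include hc hm

theorem case_two {b : X} (hb : adj a b) (hd : 1 < Nat.card (R.Ker a ⊓ stabilizer G c : Subgroup G)) :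
    (nbF adj a).card = 9 ∧ Nat.card (St2 G a b) = 4 ∧ Fintype.card X = 16 ∧
      ∃ V : Subgroup G, V ≠ ⊥ ∧ IsPGroup 2 V ∧ ∀ u ∈ R.Ker a, ∀ v ∈ V, u * v * u⁻¹ ∈ V := by
  obtain ⟨z, hz, hz0, hza, hzc⟩ := R.exists_invol_non hc hm hc
  obtain ⟨b', hb', hzb⟩ := R.partner h0 hev hz hz0 hza
  rw [R.card_St2_adj hb hb']
  clear hb b
  rename' b' => b, hb' => hb
  obtain ⟨e1, e2, e3⟩ := R.basic h0 hev hc hm hb hz hz0 hza hzb hzc
  have e4 := R.card_H h0 hev hb hc hz hz0 hza hzb hzc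
  set D := R.Ker a ⊓ stabilizer G c with hD
  obtain ⟨⟨w0, hw0⟩, hw1⟩ := ne_bot_iff_exists_ne_one.mp ((one_lt_card_iff_ne_bot _).mp hd)
  have hw2 : w0 ≠ 1 := fun e => hw1 (Subtype.ext e)
  let Φ := Finset.univ.filter (fun x : X => ∀ u ∈ D, u • x = x)
  have hΦ : ∀ x, x ∈ Φ ↔ ∀ u ∈ D, u • x = x := fun x => by simp [Φ]
  have haΦ : a ∈ Φ := (hΦ a).mpr (fun u hu => hu.1.1)
  have hcΦ : c ∈ Φ := (hΦ c).mpr (fun u hu => hu.2)
  have p1 : ∀ x ∈ Φ, D ≤ R.Ker x := fun x hx u hu => R.mem_Ker_of_fix hu.1 ((hΦ x).mp hx u hu)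
  have p2 : ∀ x ∈ Φ, ∀ y ∈ Φ, ¬ adj x y := fun x hx y hy =>
    R.not_adj_of_Ker hw0.1 hw2 ((hΦ x).mp hx _ hw0) ((hΦ y).mp hy _ hw0)
  have p3 : ∀ g : G, (∀ u ∈ D, g⁻¹ * u * g ∈ D) → ∀ x ∈ Φ, g • x ∈ Φ := by
    intro g hg x hx
    refine (hΦ _).mpr (fun u hu => ?_)
    have := (hΦ x).mp hx _ (hg u hu)
    rwa [mul_smul, mul_smul, inv_smul_eq_iff] at this
  have p4 : ∀ g : G, (∀ u ∈ D, g * u = u * g) → ∀ x ∈ Φ, g • x ∈ Φ := fun g hg =>
    p3 g (fun u hu => by rwa [mul_assoc, ← hg u hu, inv_mul_cancel_left])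
  have p5 : ∀ x ∈ Φ, ∀ w : G, w * w = 1 → w ≠ 1 → w • x = x → ∀ u ∈ D, w * u * w = u⁻¹ :=
    fun x hx w h1 h2 h3 u hu => R.inverts' h0 hev h1 h2 h3 u (p1 x hx hu)
  have p6 : ∀ w w' : G, w * w = 1 → w' * w' = 1 → (∀ u ∈ D, w * u * w = u⁻¹) → (∀ u ∈ D, w' * u * w' = u⁻¹) →
      ∀ u ∈ D, w * w' * u = u * (w * w') := by
    intro w w' h1 h2 h3 h4 u hu
    have h5 := h3 _ (inv_mem hu)
    rw [inv_inv, ← h4 u hu] at h5
    calc w * w' * u = (w * (w' * u * w') * w) * (w * w') := by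
          rw [show w * (w' * u * w') * w * (w * w') = w * w' * u * (w' * (w * w) * w') by group, h1, mul_one,
            h2, mul_one]
      _ = u * (w * w') := by rw [h5]
  have hk : 0 < (nbF adj a).card := Finset.card_pos.mpr ⟨b, mem_nbF.mpr hb⟩
  have pA : ∀ x ∈ Φ, ∀ w : G, w * w = 1 → w ≠ 1 → w • x = x →
      (nbF adj a).card * ((Φ.erase x).filter (fun y => w • y = y)).card = (Φ.card - 1) * Nat.card D ∧
      (Φ.filter (fun y => w • y = y)).card = ((Φ.erase x).filter (fun y => w • y = y)).card + 1 := by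
    intro x hx w h1 h2 h3
    obtain ⟨c', hc'⟩ := R.exists_non x
    refine ⟨?_, ?_⟩
    · rw [R.card_nb a x, hD, R.card_KS_non hc hc', ← Finset.card_erase_of_mem hx]
      refine R.card_Ker_inv h0 hev hc hm hc' _ (fun y hy => ?_) (fun u hu y => ?_) h1 h2 h3
      · rw [Finset.mem_erase] at hy
        exact mem_nonF.mpr ⟨hy.1.symm, p2 x hx y hy.2⟩
      · have h4 : ∀ u ∈ R.Ker x, ∀ y ∈ Φ.erase x, u • y ∈ Φ.erase x := by
          intro u hu y hy
          rw [Finset.mem_erase] at hy ⊢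
          exact ⟨fun e => hy.1 (smul_left_cancel u (e.trans hu.1.symm)),
            p4 u (fun v hv => R.Ker_comm h0 hev x u hu v (p1 x hx hv)) y hy.2⟩
        exact ⟨h4 u hu y, fun h => by simpa using h4 _ (inv_mem hu) _ h⟩
    · rw [Finset.filter_erase]
      refine (Finset.card_erase_add_one ?_).symm
      exact Finset.mem_filter.mpr ⟨hx, h3⟩
  obtain ⟨A1, A2⟩ := pA a haΦ z hz hz0 hza
  set φ := ((Φ.erase a).filter (fun y => z • y = y)).card with hφ
  have hφ1 : 1 ≤ φ := Finset.card_pos.mpr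
    ⟨c, Finset.mem_filter.mpr ⟨Finset.mem_erase.mpr ⟨hc.1.symm, hcΦ⟩, hzc⟩⟩
  obtain ⟨κ, hκ⟩ : Nat.card D ∣ (nbF adj a).card := by
    rw [← R.card_Ker]; exact card_dvd_of_le inf_le_left
  have A3 : Φ.card = κ * φ + 1 := by
    have h1 : 0 < Φ.card := Finset.card_pos.mpr ⟨a, haΦ⟩
    rw [hκ, mul_assoc, mul_comm (Φ.card - 1)] at A1
    have := Nat.eq_of_mul_eq_mul_left (by omega) A1
    omega
  let W := Φ.filter (fun y => ¬ z • y = y)
  have hzz : ∀ x : X, z • z • x = x := fun x => by rw [← mul_smul, hz, one_smul]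
  have hzi : z⁻¹ = z := inv_eq_of_mul_eq_one_right hz
  have hodd : Odd (Nat.card D) := Odd.of_dvd_nat (R.odd_k h0 hev a) ⟨κ, hκ⟩
  have hζ : ∀ x ∈ W, ∃ w : G, w * w = 1 ∧ w ≠ 1 ∧ w • x = x ∧ z * w = w * z := by
    intro x hx
    rw [Finset.mem_filter] at hx
    have h1 : x ≠ z • x ∧ ¬ adj x (z • x) := ⟨fun e => hx.2 e.symm, p2 x hx.1 _ (p3 z (fun u hu => by
      rw [hzi, p5 a haΦ z hz hz0 hza u hu]; exact inv_mem hu) x hx.1)⟩
    obtain ⟨w, h2, h3, h4, h5⟩ := R.exists_invol_non hc hm h1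
    have h6 := R.card_inv_fix h0 hev h2 h3 h4 h5
    rw [R.card_KS_non h1 hc, ← hD] at h6
    obtain ⟨n, hn⟩ := even_card_sub_fixed ((invF G X).filter (fun w => w • x = x ∧ w • z • x = z • x))
      (fun w => z * w * z⁻¹) (fun w hw => by
        rw [Finset.mem_filter] at hw ⊢
        exact ⟨invF_conj hw.1 z, by simpa [hzz] using conj_smul (g := z) hw.2.2, conj_smul hw.2.1⟩)
      (fun w _ => by
        calc z * (z * w * z⁻¹) * z⁻¹ = (z * z) * w * (z * z)⁻¹ := by group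
          _ = w := by rw [hz]; simp)
    obtain ⟨j, hj⟩ := hodd
    obtain ⟨w, hw⟩ := Finset.card_pos.mp (by omega : 0 < (((invF G X).filter
      (fun w => w • x = x ∧ w • z • x = z • x)).filter (fun w => z * w * z⁻¹ = w)).card)
    rw [Finset.mem_filter, Finset.mem_filter, mem_invF] at hw
    exact ⟨w, hw.1.1.1, hw.1.1.2.1, hw.1.2.1, mul_inv_eq_iff_eq_mul.mp hw.2⟩
  choose! ζ hζ using hζ
  have hζi : ∀ x ∈ W, ∀ u ∈ D, ζ x * u * ζ x = u⁻¹ := fun x hx =>
    p5 x (Finset.mem_filter.mp hx).1 _ (hζ x hx).1 (hζ x hx).2.1 (hζ x hx).2.2.1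
  have hζn : ∀ x ∈ W, ζ x ≠ z := fun x hx e => (Finset.mem_filter.mp hx).2 (e ▸ (hζ x hx).2.2.1)
  have B1 : W.card ≤ (φ + 1) * φ := by
    refine Finset.card_le_mul_card_image_of_maps_to (f := fun x => ζ x • a) (fun x hx => ?_) _ (fun y hy => ?_)
    · refine Finset.mem_filter.mpr ⟨Finset.mem_erase.mpr ⟨fun e => hζn x hx
        (R.invol_eq_of_commute h0 hev (hζ x hx).1 (hζ x hx).2.1 e hz hz0 hza (hζ x hx).2.2.2), p3 _
        (fun u hu => ?_) a haΦ⟩, by rw [← mul_smul, (hζ x hx).2.2.2, mul_smul, hza]⟩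
      rw [inv_eq_of_mul_eq_one_right (hζ x hx).1, hζi x hx u hu]
      exact inv_mem hu
    · rcases (W.filter (fun x => ζ x • a = y)).eq_empty_or_nonempty with h | ⟨x, hx⟩
      · simp [h]
      rw [Finset.mem_filter] at hx
      obtain ⟨h1, h2⟩ := pA x (Finset.mem_filter.mp hx.1).1 _ (hζ x hx.1).1 (hζ x hx.1).2.1 (hζ x hx.1).2.2.1
      rw [← A1] at h1
      rw [← Nat.eq_of_mul_eq_mul_left hk h1, ← h2]
      refine Finset.card_le_card (fun x' hx' => ?_)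
      rw [Finset.mem_filter] at hx' ⊢
      refine ⟨(Finset.mem_filter.mp hx'.1).1, ?_⟩
      have h3 : (ζ x * ζ x') • a = a := by
        rw [mul_smul, hx'.2, ← hx.2, ← mul_smul, (hζ x hx.1).1, one_smul]
      have h4 := (R.mem_Ker_of_commute h3 hw0.1 hw2 (p6 _ _ (hζ x hx.1).1 (hζ x' hx'.1).1 (hζi x hx.1)
        (hζi x' hx'.1) w0 hw0)).2 b hb (R.fix_partner hb hz0 hza hzb h3 (by
          rw [mul_assoc, ← (hζ x' hx'.1).2.2.2, ← mul_assoc, ← (hζ x hx.1).2.2.2, mul_assoc]))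
      rw [mul_left_cancel (h4.trans (hζ x hx.1).1.symm).symm, (hζ x' hx'.1).2.2.1]
  have B2 := Finset.card_filter_add_card_filter_not (s := Φ) (fun y => z • y = y)
  change _ + W.card = _ at B2
  have C1 : Nat.card D * Nat.card D ≤ (nbF adj a).card := by
    obtain ⟨c', h1, h2⟩ := R.partner h0 hev hz hz0 hzc
    have h3 : a ≠ c' ∧ ¬ adj a c' := ⟨fun e => hc.2 (R.symm (e ▸ h1)), fun h =>
      hz0 (R.frob (R.symm h) (R.symm h1) hc.1 h2 hza hzc)⟩
    have h4 := orbF_card (R.Ker a) c'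
    rw [R.card_KS_non h3 hc, R.card_Ker] at h4
    have h5 := orbF_card D c'
    rw [show D ⊓ stabilizer G c' = ⊥ from eq_bot_iff.mpr (fun u hu => (p1 c hcΦ hu.1).2 c' h1 hu.2),
      card_bot, mul_one] at h5
    rw [← h4]
    refine Nat.mul_le_mul_right _ (h5 ▸ Finset.card_le_card (fun y hy => ?_))
    obtain ⟨g, hg, e⟩ := mem_orbF.mp hy
    exact mem_orbF.mpr ⟨g, hg.1, e⟩
  obtain ⟨u, hu, huD⟩ : ∃ u ∈ R.Ker a, u ∉ D := by
    by_contra h
    push Not at h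
    have := card_le_of_le (show R.Ker a ≤ D from h)
    rw [R.card_Ker] at this
    nlinarith
  have hN : ∀ g : G, g • a = a → g • c ∈ Φ → g ∈ normalizer (D : Set G) := by
    intro g h1 h2
    have h3 : D = R.Ker a ⊓ stabilizer G (g • c) := eq_of_le_of_card_ge
      (fun v hv => ⟨hv.1, (hΦ _).mp h2 v hv⟩) (R.card_KS_non (R.non_smul h1 hc) hc).le
    refine mem_normalizer_iff.mpr (fun v => ⟨fun hv => h3 ▸ ⟨R.Ker_conj' hv.1 h1, conj_smul hv.2⟩, fun hv => ?_⟩)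
    rw [h3] at hv
    exact ⟨by simpa [mul_assoc] using R.Ker_conj' hv.1 (inv_smul_eq_iff.mpr h1.symm),
      by simpa [mul_assoc] using conj_smul (g := g⁻¹) hv.2⟩
  set N := St2 G a b ⊓ normalizer (D : Set G) with hNd
  have C2 : φ * Nat.card (St2 G a b ⊓ stabilizer G c : Subgroup G) = Nat.card N := by
    rw [show St2 G a b ⊓ stabilizer G c = N ⊓ stabilizer G c from le_antisymm
      (fun g hg => ⟨⟨hg.1, hN g hg.1.1 (by rw [show g • c = c from hg.2]; exact hcΦ)⟩, hg.2⟩)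
      (fun g hg => ⟨hg.1.1, hg.2⟩)]
    refine orb_stab _ c _ (fun y => ?_)
    rw [Finset.mem_filter, Finset.mem_erase]
    constructor
    · intro h
      obtain ⟨g, hg, rfl⟩ := R.exists_H h0 hev hb hc hz hz0 hza hzb hzc ⟨h.1.1.symm, p2 a haΦ y h.1.2⟩ h.2
      exact ⟨g, ⟨hg, hN g hg.1 h.1.2⟩, rfl⟩
    · rintro ⟨g, hg, rfl⟩
      refine ⟨⟨(R.non_smul hg.1.1 hc).1.symm, p3 g (fun v hv => ?_) c hcΦ⟩, by
        rw [← mul_smul, ← R.commute_of_edge h0 hev hb hz hz0 hza hzb (Or.inl hg.1), mul_smul, hzc]⟩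
      simpa using (mem_normalizer_iff.mp (inv_mem hg.2) v).mp hv
  have C3 : Nat.card N * Nat.card D + Nat.card D ≤ (nbF adj a).card := by
    rw [← R.card_Ker, natCard_eq_filter N, natCard_eq_filter D, natCard_eq_filter (R.Ker a),
      ← Finset.card_product, ← Finset.card_sdiff_add_card_eq_card
        (s := Finset.univ.filter (fun g => g ∈ D)) (t := Finset.univ.filter (fun g => g ∈ R.Ker a))
        (fun g hg => Finset.mem_filter.mpr ⟨Finset.mem_univ _, (Finset.mem_filter.mp hg).2.1⟩)]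
    refine Nat.add_le_add_right (Finset.card_le_card_of_injOn (fun p => p.1 * u * p.1⁻¹ * p.2)
      (fun p hp => ?_) (fun p hp q hq e => ?_)) _
    · simp only [Finset.coe_product, Finset.coe_filter, Finset.mem_univ, true_and, Set.mem_prod,
        Set.mem_ofPred_eq, Finset.coe_sdiff, Set.mem_sdiff] at hp ⊢
      exact ⟨mul_mem (R.Ker_conj' hu hp.1.1.1) hp.2.1, fun h =>
        huD ((mem_normalizer_iff.mp hp.1.2 u).mpr ((mul_mem_cancel_right hp.2).mp h))⟩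
    · simp only [Finset.coe_product, Finset.coe_filter, Finset.mem_univ, true_and, Set.mem_prod,
        Set.mem_ofPred_eq] at hp hq e
      have h1 : q.1⁻¹ * p.1 ∈ N := mul_mem (inv_mem hq.1) hp.1
      have h2 : q.1⁻¹ * p.1 = 1 := by
        by_contra h2
        refine huD (R.mem_of_comm hb h1.1 h2 D inf_le_left
          (fun w hw => (mem_normalizer_iff.mp h1.2 w).mp hw) hu ?_)
        have h3 := (mem_normalizer_iff.mp (inv_mem hq.1.2) _).mp (mul_mem hq.2 (inv_mem hp.2))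
        have h4 : q.1⁻¹ * p.1 * u * (q.1⁻¹ * p.1)⁻¹ * u⁻¹ = u * (q.1⁻¹ * (q.2 * p.2⁻¹) * q.1⁻¹⁻¹) * u⁻¹ := by
          calc _ = q.1⁻¹ * (p.1 * u * p.1⁻¹ * p.2) * p.2⁻¹ * q.1 * u⁻¹ := by group
            _ = _ := by rw [e]; group
        rwa [h4, R.Ker_comm h0 hev a u hu _ h3.1, mul_inv_cancel_right]
      have h3 := (inv_mul_eq_one.mp h2).symm
      rw [h3] at e
      exact Prod.ext h3 (mul_left_cancel e)
  obtain ⟨s, t, ht, f1, -, f3, f4⟩ := R.params hb hc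
  obtain ⟨r, y, hr, hy, f5, f6⟩ := R.exists_eigs hb hc (R.even_v h0 hev)
  rw [← e4] at f1 f3
  rw [f1, f4, e2] at f5
  rw [f4, e2] at f6
  rw [← C2] at C3
  obtain ⟨a1, a2, a3, a4, a5⟩ := e2_num (R.odd_k h0 hev a) hd (Nat.le_of_dvd Nat.card_pos e3) hφ1 hκ C1
    (by rw [mul_comm φ]; omega) C3 ht f3 hr hy f5 f6
  have g4 := R.card_eq a
  rw [a1, a2, a4] at e1
  rw [a1, a4] at hκ
  have hΦ4 : Φ.card = 4 := by rw [A3, a5]; omega
  refine ⟨a1, by rw [← e4, a2, a3], by omega, ?_⟩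
  have q1 : ∀ g : G, g * g = 1 → g ≠ 1 → (∀ u ∈ D, g * u = u * g) → ∀ x ∈ Φ, g • x ≠ x := by
    intro g h1 h2 h3 x hx e
    have h4 := p5 x hx g h1 h2 e w0 hw0
    rw [h3 w0 hw0, mul_assoc, h1, mul_one] at h4
    exact hw2 (R.Ker_sq h0 hev hw0.1 (mul_eq_one_iff_eq_inv.mpr h4))
  let V : Subgroup G :=
    { carrier := {g | g * g = 1 ∧ ∀ u ∈ D, g * u = u * g}
      one_mem' := ⟨one_mul _, fun u _ => by simp⟩
      inv_mem' := fun {g} hg => by rwa [inv_eq_of_mul_eq_one_right hg.1]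
      mul_mem' := fun {g g'} hg hg' => by
        by_cases h1 : g = 1
        · simpa [h1] using hg'
        by_cases h2 : g' = 1
        · simpa [h2] using hg
        have h3 : ∀ u ∈ D, g * g' * u = u * (g * g') := fun u hu => by
          rw [mul_assoc, hg'.2 u hu, ← mul_assoc, hg.2 u hu, mul_assoc]
        refine ⟨?_, h3⟩
        have h4 : ∀ x ∈ Φ, (g * g' * (g * g')) • x = x := fun x hx => by
          simp only [mul_smul]
          exact four_pt Φ hΦ4 (fun x => g • x) (fun x => g' • x) (p4 g hg.2) (p4 g' hg'.2)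
            (fun x => by rw [← mul_smul, hg.1, one_smul]) (fun x => by rw [← mul_smul, hg'.1, one_smul])
            (q1 g hg.1 h1 hg.2) (q1 g' hg'.1 h2 hg'.2) hx
        have h5 : g * g' * (g * g') ∈ D := ⟨R.mem_Ker_of_commute (h4 a haΦ) hw0.1 hw2 (by
          rw [mul_assoc, h3 w0 hw0, ← mul_assoc, h3 w0 hw0, mul_assoc]), h4 c hcΦ⟩
        refine R.Ker_sq h0 hev h5.1 ?_
        calc g * g' * (g * g') * (g * g' * (g * g')) = g * g' * (g * g') * g * (g' * g * g') := by group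
          _ = g * (g * g' * (g * g')) * (g' * g * g') := by rw [hg.2 _ h5]
          _ = (g * g) * g' * g * (g' * g') * g * g' := by group
          _ = g' * (g * g) * g' := by rw [hg'.1]; nth_rw 1 [hg.1]; group
          _ = 1 := by rw [hg.1, mul_one, hg'.1] }
  obtain ⟨x, hx⟩ : W.Nonempty := Finset.card_pos.mp (by omega)
  refine ⟨V, ne_bot_iff_exists_ne_one.mpr ⟨⟨z * ζ x, ?_, p6 _ _ hz (hζ x hx).1 (p5 a haΦ z hz hz0 hza)
    (hζi x hx)⟩, fun e => hζn x hx ?_⟩, fun g => ⟨1, Subtype.ext (by simpa [pow_two] using g.2.1)⟩,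
    fun u hu v hv => ⟨conj_invol hv.1 u, fun w hw => ?_⟩⟩
  · calc z * ζ x * (z * ζ x) = z * (ζ x * z) * ζ x := by group
      _ = (z * z) * (ζ x * ζ x) := by rw [← (hζ x hx).2.2.2]; group
      _ = 1 := by rw [hz, (hζ x hx).1, one_mul]
  · exact mul_left_cancel ((congrArg Subtype.val e).trans hz.symm)
  · have h1 : Commute u w := R.Ker_comm h0 hev a u hu w hw.1
    exact ((h1.mul_left (hv.2 w hw)).mul_left h1.inv_left : Commute (u * v * u⁻¹) w)

end R3

end Cfsg.Agent.H2
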