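import Cfsg.Agent.H2.R3h

/-! Rank 3 groups with a Frobenius suborbit: the main theorem. -/

set_option autoImplicit false

namespace Cfsg.Agent.H2

open Subgroup MulAction
open scoped Classical

namespace R3

variable {G X : Type*} [Group G] [MulAction G X] {adj : X → X → Prop} (R : R3 G adj)
include R

variable [Fintype G] [Fintype X]

theorem regular_of_normal {a0 b0 : X} (h0 : adj a0 b0) (h4 : Nat.card (St2 G a0 b0) = 4)
    (hv : Fintype.card X = 16) (N : Subgroup G) (hN : N.Normal) (hN0 : N ≠ ⊥) (hp : IsPGroup 2 N) :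
    Group.IsSolvable G ∧ ∃ N : Subgroup G, N.Normal ∧ Nat.card N = 16 ∧
      ∀ x y : X, ∃! n : ↥N, (n : G) • x = y := by
  have hev : 2 ∣ Nat.card (St2 G a0 b0) := by rw [h4]; norm_num
  have h1 : ∀ a : X, ∀ g ∈ N, g ∈ R.Ker a → g = 1 := by
    intro a g hg hK
    obtain ⟨n, hn⟩ := hp ⟨g, hg⟩
    exact eq_one_of_coprime ((Nat.coprime_two_left.mpr (R.odd_k h0 hev a)).pow_left n)
      (congrArg Subtype.val hn) (R.Ker_pow hK a)
  have h2 : ∀ a : X, ∀ g ∈ N, g • a = a → g = 1 := by
    intro a g hg ha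
    obtain ⟨u, hu, hu1⟩ := R.exists_Ker_ne a
    have h3 := h1 a (g * (u * g⁻¹ * u⁻¹)) (mul_mem hg (hN.conj_mem _ (inv_mem hg) u)) (by
      rw [← mul_assoc, ← mul_assoc]
      exact mul_mem (R.Ker_conj' hu ha) (inv_mem hu))
    refine h1 a g hg (R.mem_Ker_of_commute ha hu hu1 ?_)
    calc g * u = g * (u * g⁻¹ * u⁻¹) * (u * g) := by group
      _ = u * g := by rw [h3, one_mul]
  refine ⟨?_, N, hN, ?_, fun x y => ?_⟩
  · have := Nat.fact_prime_two
    have h5 : Group.IsSolvable (stabilizer G a0) := by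
      refine isSolvable_of_pow_mem (N := R.Ker a0) (p := 2) (k := 2)
        (Group.isSolvable_of_comm fun u v => Subtype.ext (R.Ker_comm h0 hev a0 u u.2 v v.2))
        (fun g hg => mem_normalizer_iff.mpr (fun u => ⟨fun hu => R.Ker_conj' hu hg, fun hu => ?_⟩))
        (fun g hg => ?_)
      · simpa [mul_assoc] using R.Ker_conj' hu (inv_mem hg)
      · by_cases h : g ∈ R.Ker a0
        · exact pow_mem h _
        · obtain ⟨x, hx, hx'⟩ : ∃ x, adj a0 x ∧ g • x = x := by
            by_contra h3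
            push Not at h3
            exact h ⟨hg, fun b hb e => absurd e (h3 b hb)⟩
          have h5 := pow_card_of_mem (S := St2 G a0 x) ⟨hg, hx'⟩
          rw [← R.card_St2_adj h0 hx, h4] at h5
          rw [show 2 ^ 2 = 4 from rfl, h5]
          exact one_mem _
    rw [Group.isSolvable_iff_subgroup_quotient N]
    refine ⟨isSolvable_of_isPGroup hp, ?_⟩
    refine Group.isSolvable_of_surjective (f := (QuotientGroup.mk' N).comp (stabilizer G a0).subtype) (fun q => ?_)
    obtain ⟨g, rfl⟩ := QuotientGroup.mk_surjective q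
    obtain ⟨n, hn, e⟩ := R.prim N hN hN0 (g⁻¹ • a0) a0
    refine ⟨⟨(n * g⁻¹)⁻¹, inv_mem (by rwa [mem_stabilizer_iff, mul_smul])⟩, ?_⟩
    change (((n * g⁻¹)⁻¹ : G) : G ⧸ N) = g
    rw [QuotientGroup.eq]
    simpa using hn
  · rw [← R.card_normal hN hN0 a0, hv, show N ⊓ stabilizer G a0 = ⊥ from eq_bot_iff.mpr (fun g hg =>
      h2 a0 g hg.1 hg.2), card_bot]
  · obtain ⟨n, hn, e⟩ := R.prim N hN hN0 x y
    refine ⟨⟨n, hn⟩, e, fun m hm => Subtype.ext ?_⟩
    exact (inv_mul_eq_one.mp (h2 x _ (mul_mem (inv_mem hn) m.2) (by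
      rw [mul_smul, inv_smul_eq_iff, e]; exact hm))).symm

theorem main : (Nonempty (G ≃* alternatingGroup (Fin 5)) ∧ Fintype.card X = 10) ∨
    (Group.IsSolvable G ∧ ∃ N : Subgroup G, N.Normal ∧ Nat.card N = 16 ∧
      ∀ x y : X, ∃! n : ↥N, (n : G) • x = y) := by
  obtain ⟨a, b, -, hb, -⟩ := R.nt
  obtain ⟨c, hc⟩ := R.exists_non a
  have := Nat.fact_prime_two
  have hev : 2 ∣ Nat.card (St2 G a b) := by
    by_contra h
    exact R.odd_false hb (Nat.not_even_iff_odd.mp (fun e => h e.two_dvd))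
  rcases Nat.even_or_odd (Nat.card (St2 G a c)) with hm | hm
  swap
  · exact Or.inl (R.petersen hb hev hc hm)
  right
  have hG := R.card_G a
  rw [← R.nb_mul hb] at hG
  rcases (Nat.one_le_iff_ne_zero.mpr (Nat.card_pos (α := (R.Ker a ⊓ stabilizer G c : Subgroup G))).ne').lt_or_eq
    with hd | hd
  · obtain ⟨h1, h2, h3, V, hV, hVp, hVn⟩ := R.case_two hb hev hc hm.two_dvd hb hd
    obtain ⟨S, hS⟩ := hVp.exists_le_sylow
    rw [h1, h2, h3] at hG
    have h4 : Nat.card S = 64 := by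
      rw [S.card_eq_multiplicity, ← hG, show 16 * (9 * 4) = 2 ^ 6 * 3 ^ 2 from rfl,
        Nat.factorization_mul (by norm_num) (by norm_num), Nat.prime_two.factorization_pow,
        Nat.prime_three.factorization_pow]
      simp
    have h5 : IsComplement' (S : Subgroup G) (R.Ker a) := isComplement'_of_coprime (by
      rw [h4, R.card_Ker, h1, ← hG]) (by rw [h4, R.card_Ker, h1]; norm_num)
    refine R.regular_of_normal hb h2 h3 (S : Subgroup G).normalCore inferInstance
      (fun e => hV (eq_bot_iff.mpr (e ▸ fun v hv g => ?_))) (S.isPGroup'.to_le (normalCore_le _))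
    obtain ⟨⟨s, u⟩, rfl⟩ := h5.2 g
    have h6 := mul_mem (mul_mem s.2 (hS (hVn u u.2 v hv))) (inv_mem s.2)
    simpa [mul_assoc] using h6
  · obtain ⟨h1, h2, h3⟩ := R.case_one hb hev hc hm.two_dvd hb hd.symm
    rw [h1, h2, h3] at hG
    obtain ⟨S, hS⟩ := Sylow.exists_subgroup_card_pow_prime (G := G) 2 (n := 6) (by rw [← hG]; norm_num)
    refine R.regular_of_normal hb h2 h3 S.normalCore inferInstance (fun e => ?_)
      ((IsPGroup.of_card hS).to_le (normalCore_le _))
    rw [normalCore_eq_ker, MonoidHom.ker_eq_bot_iff] at e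
    have h4 := card_dvd_of_injective _ e
    have h5 := card_eq_card_quotient_mul_card_subgroup S
    rw [← hG, hS] at h5
    rw [Nat.card_perm, show Nat.card (G ⧸ S) = 5 by omega, ← hG] at h4
    norm_num [Nat.factorial] at h4

end R3

end Cfsg.Agent.H2
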