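import Cfsg.Agent.H2.GenProd
import Cfsg.Agent.H2.ReeTor4

/-! Products of two conjugates in the small Ree groups. -/

set_option autoImplicit false
set_option linter.unusedSectionVars false
set_option linter.unusedSimpArgs false

namespace Cfsg.Agent.H2

open Cfsg.Agent.H1

theorem fixN_conj {G X : Type*} [Group G] [MulAction G X] (y g : G) : fixN X (y * g * y⁻¹) = fixN X g :=
  Nat.card_congr ((MulAction.toPerm y⁻¹).subtypeEquiv fun p => by
    simp only [mul_smul, MulAction.toPerm_apply]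
    rw [← eq_inv_smul_iff])

theorem ncard_classes_mul {G : Type*} [Group G] [Finite G] {S : Set G} (hS : ∀ y ∈ S, ∀ g, g * y * g⁻¹ ∈ S) {c : ℕ}
    (hc : ∀ y ∈ S, Nat.card (Cen y) = c) : (ConjClasses.mk '' S).ncard * Nat.card G = S.ncard * c := by
  classical
  lift S to Finset G using S.toFinite
  rw [← Finset.coe_image, Set.ncard_coe_finset, Set.ncard_coe_finset, Finset.card_eq_sum_card_image ConjClasses.mk S,
    Finset.sum_mul, ← smul_eq_mul, ← Finset.sum_const]
  refine Finset.sum_congr rfl fun C hC => ?_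
  obtain ⟨y, hy, rfl⟩ := Finset.mem_image.1 hC
  rw [← hc y hy, ← (Cen y).index_mul_card, ← card_carrier_eq_index, Nat.card_coe_set_eq, ← Set.ncard_coe_finset]
  congr 2
  ext z
  simp only [ConjClasses.mem_carrier_iff_mk_eq, Finset.coe_filter, Set.mem_ofPred_eq, iff_and_self]
  intro h
  obtain ⟨g, rfl⟩ := isConj_iff.1 (ConjClasses.mk_eq_mk_iff_isConj.1 h.symm)
  exact hS y hy g

namespace Ree

variable {K : Type*} [Field K] {m : ℕ} [hK : ReeF K m]
include hK

/-- regular semisimple elements -/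
def Reg (x : ReeG K m) : Prop := x ^ 2 ≠ 1 ∧ ¬ 3 ∣ orderOf x

theorem Reg.conj {x : ReeG K m} (hx : Reg x) (g : ReeG K m) : Reg (g * x * g⁻¹) :=
  ⟨by rw [Ne, conj_pow_eq_one_iff']; exact hx.1, by rw [orderOf_conj']; exact hx.2⟩

theorem Reg.not_pow {x : ReeG K m} (hx : Reg x) : x ^ 18 ≠ 1 := fun h => hx.1 (orderOf_dvd_iff_pow_eq_one.1
  ((Nat.Coprime.pow_right 2 ((Nat.Prime.coprime_iff_not_dvd Nat.prime_three).2 hx.2).symm).dvd_of_dvd_mul_left
    (orderOf_dvd_of_pow_eq_one h)))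

theorem Reg.cases {x : ReeG K m} (hx : Reg x) : x ^ (Nat.card K - 1) = 1 ∨ x ^ (Nat.card K + 1) = 1 ∨ Cox x := by
  rcases order_cases x with h | h | h | h | h
  · exact absurd (orderOf_dvd_iff_pow_eq_one.1 (h.trans (by norm_num))) hx.not_pow
  · exact absurd (orderOf_dvd_iff_pow_eq_one.1 (h.trans (by norm_num))) hx.not_pow
  · exact Or.inl (orderOf_dvd_iff_pow_eq_one.1 h)
  · exact Or.inr (Or.inl (orderOf_dvd_iff_pow_eq_one.1 h))
  · exact Or.inr (Or.inr (cox_of_orderOf_dvd (fun e => hx.1 (by rw [e, one_pow])) h))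

theorem Reg.card_Cen_le {x : ReeG K m} (hx : Reg x) : 3 * Nat.card (Cen x) ≤ 4 * Nat.card K + 3 := by
  have h1 : 3 * 3 ^ (m + 1) ≤ 3 ^ (2 * m + 1) := by
    rw [← pow_succ']; exact Nat.pow_le_pow_right (by norm_num) (by have := hK.pos; omega)
  rcases hx.cases with h | h | h
  · rw [card_Cen_H h hx.1]; omega
  · rw [card_Cen_A h hx.1]; omega
  · rw [hK.card]; rcases h.card_Cen with h | h <;> rw [h] <;> omega

theorem ut_pow_six (b : K) : (u 0 b 0 * t K) ^ 6 = 1 := by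
  have c : Commute (u 0 b 0) (t K) := by have := t_mul_u 0 b 0; rw [neg_zero] at this; exact this.symm
  rw [c.mul_pow, show 6 = 3 * 2 from rfl, pow_mul, u_cube_eq_one.2 rfl, one_pow, one_mul, mul_comm, pow_mul, sq,
    t_mul_t, one_pow]

theorem Reg.fix {x : ReeG K m} (hx : Reg x) : fixN (Pt K) x = 0 ∨ fixN (Pt K) x = 2 := by
  by_cases hp : ∃ p : Pt K, x • p = p
  · obtain ⟨p, hp⟩ := hp
    obtain ⟨y, -, ⟨a, b, c, rfl⟩ | ⟨b, rfl⟩ | ⟨k, h1, h2, rfl⟩⟩ := fix_cases hp
    · exact absurd (by rw [conj_pow_eq_one_iff', show 18 = 9 * 2 from rfl, pow_mul, u_pow_nine, one_pow]) hx.not_pow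
    · exact absurd (by rw [conj_pow_eq_one_iff', show 18 = 6 * 3 from rfl, pow_mul, ut_pow_six, one_pow]) hx.not_pow
    · right
      rw [fixN_conj]
      refine Nat.card_eq_two_iff.2 ⟨⟨_, h_smul_inf k⟩, ⟨_, h_smul_zero k⟩, fun e => pt_ne_inf _ _ _
        (congrArg Subtype.val e).symm, Set.eq_univ_of_forall fun p => ?_⟩
      rcases h_fix_cases h1 h2 p.2 with e | e
      exacts [Or.inl (Subtype.ext e), Or.inr (Subtype.ext e)]
  · exact Or.inl (Nat.card_eq_zero.2 (Or.inl ⟨fun p => hp ⟨p.1, p.2⟩⟩))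

variable (K) in
theorem fixN_t : fixN (Pt K) (t K) = Nat.card K + 1 := by
  have := finite K
  rw [← Finite.card_option]
  refine (Nat.card_eq_of_bijective (fun b => Option.elim b ⟨inf K, h_smul_inf _⟩ fun b =>
    ⟨pt 0 b 0, t_fix_pt.2 ⟨rfl, rfl⟩⟩) ⟨?_, ?_⟩).symm
  · rintro (_ | a) (_ | b) e
    · rfl
    · exact absurd (congrArg Subtype.val e).symm (pt_ne_inf _ _ _)
    · exact absurd (congrArg Subtype.val e) (pt_ne_inf _ _ _)
    · rw [(pt_inj (show pt 0 a 0 = pt 0 b 0 from congrArg Subtype.val e)).2.1]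
  · rintro ⟨p, hp⟩
    rcases pt_cases p with rfl | ⟨a, b, c, rfl⟩
    · exact ⟨none, rfl⟩
    · obtain ⟨rfl, rfl⟩ := t_fix_pt.1 hp
      exact ⟨some b, rfl⟩

theorem comm_uh {a b c d e f : K} {k : Kˣ} (hc : u d e f * h k * u a b c = u a b c * (u d e f * h k)) :
    u d e f * u (k * a) (k * sg (k : K) * b) ((k : K) ^ 2 * sg (k : K) * c) * (u d e f)⁻¹ = u a b c := by
  rw [← h_conj_u, mul_inv_eq_iff_eq_mul, ← mul_assoc, ← mul_assoc, hc]; group

theorem card_Cen_nine {a : K} (ha : a ≠ 0) (b c : K) : Nat.card (Cen (u a b c)) ≤ 3 * Nat.card K := by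
  have := finite K
  have := finite_G K
  have h1 : (Cen (u a b c) : Set (ReeG K m)) ⊆ Set.range fun p : Fin 3 × K => u (![0, 1, -1] p.1 * a)
      (![0, 1, -1] p.1 * (b + sg a * a + sg a * (![0, 1, -1] p.1 * a) + sg (![0, 1, -1] p.1 * a) * a * ![0, 1, -1] p.1))
      p.2 := by
    intro y hy
    have hy' := mem_Cen.1 hy
    obtain ⟨d, e, f, k, rfl⟩ := fix_inf_iff.1 (fix_of_commute (u_mem_Qp a b c) (fun e => ha (u_eq_one.1 e).1) hy')
    have h2 := comm_uh hy'
    rw [u_conj] at h2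
    obtain ⟨h3, h4, h5⟩ := u_inj h2
    obtain rfl : k = 1 := Units.ext (mul_right_cancel₀ ha (h3.trans (one_mul a).symm))
    simp only [Units.val_one, map_one, one_mul, one_pow, mul_one] at h4 h5 ⊢
    obtain ⟨d, rfl⟩ : ∃ r, d = r * a := ⟨d / a, by field_simp⟩
    have h6 : sg d = d := by
      rw [map_mul] at h4
      exact mul_right_cancel₀ (mul_ne_zero ha (sg_ne_zero ha)) (by linear_combination h4)
    obtain rfl : e = d * (b + sg a * a + sg a * (d * a) + sg (d * a) * a * d) := by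
      refine mul_left_cancel₀ ha ?_
      rw [map_mul, h6] at h5 ⊢
      rcases eq_of_sg_eq_self h6 with rfl | rfl | rfl <;> linear_combination -h5
    rcases eq_of_sg_eq_self h6 with rfl | rfl | rfl
    exacts [⟨(0, f), rfl⟩, ⟨(1, f), rfl⟩, ⟨(2, f), rfl⟩]
  have := (Nat.card_mono (Set.toFinite _) h1).trans (Finite.card_range_le _)
  rwa [Nat.card_prod, Nat.card_eq_fintype_card (α := Fin 3), Fintype.card_fin] at this

theorem card_Cen_six {b : K} (hb : b ≠ 0) : Nat.card (Cen (u 0 b 0 * t K)) ≤ 3 * Nat.card K := by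
  have := finite K
  have := finite_G K
  have h3 := three_eq_zero K
  have c : Commute (u 0 b 0) (t K) := by have := t_mul_u 0 b 0; rw [neg_zero] at this; exact this.symm
  have h1 : (Cen (u 0 b 0 * t K) : Set (ReeG K m)) ⊆ Set.range fun p : Fin 3 × K => u 0 p.2 0 * h (![1, -1, 1] p.1) := by
    intro y hy
    have e1 := mem_Cen.1 (Cen_le_Cen_pow _ 3 hy)
    have e2 := mem_Cen.1 (Cen_le_Cen_pow _ 4 hy)
    rw [c.mul_pow, u_cube_eq_one.2 rfl, one_mul, pow_succ, sq, t_mul_t, one_mul] at e1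
    rw [c.mul_pow, pow_succ, u_cube_eq_one.2 rfl, one_mul, show 4 = 2 * 2 from rfl, pow_mul, sq (t K), t_mul_t, one_pow,
      mul_one] at e2
    obtain ⟨d, e, f, k, rfl⟩ := fix_inf_iff.1 (fix_of_commute (u_mem_Qp 0 b 0) (fun e => hb (u_eq_one.1 e).2.1) e2)
    have h2 := comm_uh e2
    rw [u_conj] at h2
    rw [mul_assoc, ← t_mul_h, ← mul_assoc, ← mul_assoc, t_mul_u, mul_left_inj, mul_left_inj] at e1
    obtain rfl := eq_zero_of_eq_neg (u_inj e1).1
    obtain rfl := eq_zero_of_eq_neg (u_inj e1).2.2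
    rcases sq_eq_one_of_mul_sg (x := (k : K)) (mul_right_cancel₀ hb (by simpa using (u_inj h2).2.1)) with h4 | h4
    · exact ⟨(0, e), by rw [show k = 1 from Units.ext h4]; rfl⟩
    · exact ⟨(1, e), by rw [show k = -1 from Units.ext h4]; rfl⟩
  have := (Nat.card_mono (Set.toFinite _) h1).trans (Finite.card_range_le _)
  rwa [Nat.card_prod, Nat.card_eq_fintype_card (α := Fin 3), Fintype.card_fin] at this

theorem Reg.pc_of_le {x g : ReeG K m} (hx : Reg x) (hg : Nat.card (Cen g) ≤ 3 * Nat.card K) : PC x g := by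
  have := finite_G K
  have := Fintype.ofFinite (ReeG K m)
  refine pc_of_degree (D := Nat.card K ^ 2 - Nat.card K + 1) (fun χ hχ h1 n hn => ?_) ?_
  · obtain ⟨k, ρ, hρ, rfl⟩ := id hχ
    have h2 := degree_bound ρ (by
      by_contra hc
      push Not at hc
      have h0 := IsIrrCharacter.one_ne_zero hχ
      refine h1 (IsIrrCharacter.eq_of_classInner_ne_zero hχ isIrrCharacter_one ?_)
      have : ρ.character = ρ.character 1 • fun _ => 1 := by ext g; simp [Representation.character, hc]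
      rwa [this, classInner_smul_left, IsIrrCharacter.classInner_self isIrrCharacter_one, mul_one])
    rw [Representation.char_one] at hn
    rwa [Nat.cast_injective hn] at h2
  · have h1 := hx.card_Cen_le
    obtain ⟨s, h0, q1, -, -, -, q2⟩ := exists_s K
    rw [q2]
    rw [q1] at h1 hg
    calc _ ≤ (32 * s + 5) ^ 2 * (3 * (24 * s + 3)) := 
        Nat.mul_le_mul (Nat.pow_le_pow_left (show Nat.card (Cen x) ≤ _ by omega) 2) hg
      _ < _ := by
        obtain ⟨s, rfl⟩ := Nat.exists_eq_add_of_le' h0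
        ring_nf
        omega

variable (K) in
theorem center_eq_bot : Subgroup.center (ReeG K m) = ⊥ := by
  by_contra h
  have := Subgroup.mem_center_iff.1 (eq_top_of_normal inferInstance h ▸ Subgroup.mem_top (u (1 : K) 0 0)) (t K)
  rw [t_mul_u, mul_left_inj] at this
  exact neg_one_ne K (u_inj this).1

variable (K) in
theorem locChar : LocChar 3 (ReeG K m) := by
  intro g hg
  obtain ⟨p, hp⟩ := exists_mem_Qp_of_pow (g := g) (n := 1) (orderOf_dvd_iff_pow_eq_one.1 (by rw [hg]; rfl))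
  have g1 : g ≠ 1 := by rintro rfl; simp at hg
  have k1 : ∀ x ∈ Cen g, x • p = p := fun x hx => fix_of_commute hp g1 (mem_Cen.1 hx)
  have k2 : ∀ x ∈ Cen g, x ∈ Subgroup.centralizer ((Cen g ⊓ Qp p : Subgroup (ReeG K m)) : Set (ReeG K m)) →
      x ∈ Qp p := by
    intro x hx hc
    obtain ⟨y, rfl, a, b, c, rfl⟩ := exists_of_mem_Qp hp
    have h1 := hc (y * u 0 0 1 * y⁻¹) ⟨mem_Cen.2 (by
      rw [conj_mul, conj_mul, z_comm]), conj_mem_Qp_smul y (u_mem_Qp _ _ _)⟩
    obtain ⟨d, e, f, k, h2⟩ := fix_inf_iff.1 (show (y⁻¹ * x * y) • inf K = inf K by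
      rw [mul_smul, mul_smul, k1 x hx, inv_smul_smul])
    have h3 := comm_uh (a := 0) (b := 0) (c := 1) (d := d) (e := e) (f := f) (k := k) (by
      rw [← h2]
      calc _ = y⁻¹ * (x * (y * u 0 0 1 * y⁻¹)) * y := by group
        _ = _ := by rw [← h1]; group)
    rw [u_conj] at h3
    have h4 : k = 1 := Units.ext (eq_one_of_sq_mul_sg (by simpa using (u_inj h3).2.2))
    rw [mem_Qp_smul, h2, h4, map_one, mul_one]
    exact u_mem_Qp _ _ _
  refine ⟨Cen g ⊓ Qp p, (isPGroup_Qp p).to_inf_right, inf_le_left, fun x hx s hs =>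
    ⟨(Cen g).mul_mem ((Cen g).mul_mem ((Cen g).inv_mem hx) hs.1) hx, mem_Qp_smul.1 (by rw [k1 x hx]; exact hs.2)⟩, fun x hx hc =>
    ⟨1, one_mem _, x, ⟨hx, k2 x hx hc⟩, (one_mul x).symm⟩⟩

theorem Reg.pc_t {x : ReeG K m} (hx : Reg x) : PC x (t K) := by
  have := finite K
  have := finite_G K
  have := finite_Pt K
  have := Fintype.ofFinite (ReeG K m)
  have : Fact (Nat.Prime 3) := ⟨Nat.prime_three⟩
  choose a b c k hk using fun y : MulAction.stabilizer (ReeG K m) (inf K) => fix_inf_iff.1 y.2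
  have h1 : 3 ^ (Nat.card (ReeG K m)).factorization 3 = Nat.card K ^ 3 := by
    rw [← Sylow.card_eq_multiplicity (sylQ (inf K)), ← card_Qp (inf K)]; rfl
  refine gow_rank_one (pt_ne_inf 0 0 0) exists_smul_inf (fun y hy => exists_smul_pair hy.symm) (isPGroup_Qp (inf K))
    (fun g hg => hg.1) (MonoidHom.mk' k fun y z => ?_) (fun y => ?_) (by rw [h1, card_Pt])
    (by rw [card_G]; exact ((three_dvd_card K).trans (dvd_pow_self _ three_ne_zero)).mul_right _ |>.mul_right _)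
    (fun l g => congrArg Units.val (hom_eq_one l.toHomUnits g)) (locChar K) (center_eq_bot K)
    (fun n e => units_neg_one_ne (units_eq_one_of_pow_three_pow ((h_eq_one (K := K)).1 (by rw [map_pow]; exact e)))) hx.fix
    (k := Nat.card K ^ 2 - Nat.card K + 1) (fun e => absurd (Nat.eq_one_of_dvd_coprimes (cop_N_six K) e (by norm_num))
      (by norm_num)) (fixN_t K) ?_
  · have := hk (y * z)
    rw [Subgroup.coe_mul, hk y, hk z, mul_assoc, ← mul_assoc (h _), h_mul_u, mul_assoc, ← map_mul, ← mul_assoc,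
      u_mul] at this
    exact (uh_inj this).2.2.2.symm
  · rw [mem_Qp_inf]
    exact ⟨fun e => ⟨_, _, _, by rw [hk y, show k y = 1 from e, map_one, mul_one]⟩, fun ⟨d, e, f, h2⟩ =>
      (uh_inj ((hk y).symm.trans (show _ = u d e f * h 1 by rw [h2, map_one, mul_one]))).2.2.2⟩
  · have h2 := (Cen (t K)).index_mul_card
    have h3 := le_card K
    rw [card_Cen_t, card_G'] at h2
    refine Nat.eq_of_mul_eq_mul_right (m := (Nat.card K - 1) * (Nat.card K + 1)) (Nat.mul_pos (by omega) (by omega)) ?_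
    rw [h1]
    linear_combination h2

theorem Reg.exists_std {x : ReeG K m} (hx : Reg x) :
    ∃ a b c k, b ≠ a * sg a ∧ IsConj x (u a b c * h k * w K) := by
  classical
  have := finite_G K
  have := finite_Pt K
  have := Fintype.ofFinite (ReeG K m)
  have := Fintype.ofFinite (Pt K)
  let I : Finset (ReeG K m) := {s | s ^ 2 = 1 ∧ s * x * s⁻¹ = x⁻¹}
  have fx : ∀ g : ReeG K m, (Finset.univ.filter fun p : Pt K => g • p = p).card = fixN (Pt K) g := fun g => by
    rw [fixN, Nat.card_eq_fintype_card, Fintype.card_subtype]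
  have h1 : I.card ≤ Nat.card (Cen x) := by
    rcases I.eq_empty_or_nonempty with h | ⟨s, hs⟩
    · rw [h]; exact Nat.zero_le _
    rw [← Nat.card_eq_finsetCard]
    refine Nat.card_le_card_of_injective (fun r => ⟨s⁻¹ * r, mem_Cen.2 ?_⟩) fun a b e =>
      Subtype.ext (mul_left_cancel (congrArg Subtype.val e))
    calc _ = s⁻¹ * (r.1 * x * r.1⁻¹) * r := by group
      _ = _ := by rw [(Finset.mem_filter.1 r.2).2.2, ← (Finset.mem_filter.1 hs).2.2]; group
  have h2 := Finset.card_biUnion_le_card_mul I (fun g => Finset.univ.filter fun p : Pt K => g • p = p) (Nat.card K + 1)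
    fun s hs => by
      obtain ⟨e1, e2⟩ := (Finset.mem_filter.1 hs).2
      obtain ⟨y, rfl⟩ := exists_conj_t e1 (by
        rintro rfl
        exact hx.1 (by rw [sq, mul_eq_one_iff_eq_inv, ← e2]; simp))
      rw [fx, fixN_conj, fixN_t]
  obtain ⟨p, -, hp⟩ := Finset.exists_mem_notMem_of_card_lt_card (t := Finset.univ)
    (s := (Finset.univ.filter fun p : Pt K => x • p = p) ∪ I.biUnion fun g => Finset.univ.filter fun p : Pt K => g • p = p)
    ((Finset.card_union_le _ _).trans_lt (by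
      have h3 := hx.card_Cen_le
      have h4 := le_card K
      have h5 : fixN (Pt K) x ≤ 2 := by rcases hx.fix with h | h <;> omega
      rw [Finset.card_univ, ← Nat.card_eq_fintype_card, card_Pt, fx]
      have h6 : I.card * (Nat.card K + 1) ≤ 2 * Nat.card K * (2 * Nat.card K) := Nat.mul_le_mul (by omega) (by omega)
      nlinarith))
  simp only [Finset.mem_union, Finset.mem_filter, Finset.mem_univ, true_and, Finset.mem_biUnion, not_or, not_exists,
    not_and, I] at hp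
  obtain ⟨y, rfl, h3⟩ := exists_smul_pair (p := p) (p' := x⁻¹ • p) fun e => hp.1 (eq_inv_smul_iff.1 e)
  obtain ⟨a, b, c, k, h4⟩ := fix_inf_iff.1 (show (y⁻¹ * x * y * w K) • inf K = inf K by
    simp only [mul_smul, w_smul_inf, h3, smul_inv_smul, inv_smul_smul])
  have h5 : x = y * (u a b c * h k * w K) * y⁻¹ := by rw [← h4, mul_assoc _ (w K), w_mul_w]; group
  refine ⟨a, b, c, k, fun e => hp.2 (y * (u a b c * t K) * y⁻¹) ⟨?_, ?_⟩ ?_, (isConj_iff.2 ⟨y, h5.symm⟩).symm⟩
  · rw [conj_pow_eq_one_iff', ut_sq_eq_one, e]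
  · have e1 := ut_sq_eq_one (c := c).2 e
    rw [h5, eq_inv_iff_mul_eq_one]
    calc _ = y * ((u a b c * t K) ^ 2 * (t K)⁻¹ * (h k * w K) * (t K)⁻¹ * (h k * w K)) * y⁻¹ := by rw [sq]; group
      _ = 1 := by
        rw [e1, one_mul, t_inv, ← mul_assoc (t K), t_mul_h, mul_assoc (h k), t_mul_w, mul_assoc (h k), mul_assoc (w K),
          t_mul_t, mul_one, hw_sq]; group
  · simp only [mul_smul, inv_smul_smul, t, h_smul_inf, u_smul_inf]

/-- the trace in the natural representation -/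
def T7 (g : ReeG K m) : K := (rho g).trace

theorem T7_conj (y g : ReeG K m) : T7 (y * g * y⁻¹) = T7 g := by
  rw [T7, T7, map_mul rho, Matrix.trace_mul_comm, ← map_mul rho, inv_mul_cancel_left]

theorem T7_u (a b c : K) : T7 (u a b c) = 1 := by
  have h3 := three_eq_zero K
  simp [T7, rho_u, uM, Matrix.trace, Fin.sum_univ_seven]
  linear_combination 2 * h3

theorem T7_ut (b : K) : T7 (u 0 b 0 * t K) = -1 := by
  simp [T7, map_mul rho, rho_u, t, rho_h, uM, hM, Matrix.trace, Fin.sum_univ_seven]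

theorem T7_std (k : Kˣ) : T7 (u 0 0 1 * h k * w K) = ((k : K) ^ 2 * sg (k : K))⁻¹ - 1 := by
  simp [T7, map_mul rho, rho_u, rho_w, rho_h, uM, hM, wM, nrm, Matrix.trace, Fin.sum_univ_seven]
  ring

theorem reg_of_T7 {g : ReeG K m} (h1 : T7 g ≠ 1) (h2 : T7 g ≠ -1) : Reg g := by
  refine ⟨fun e => ?_, fun e => ?_⟩
  · obtain ⟨y, rfl⟩ := exists_conj_t e (by rintro rfl; exact h1 (by rw [← u_zero, T7_u]))
    exact h2 (by rw [T7_conj, ← T7_ut 0, u_zero, one_mul])
  · obtain ⟨p, hp⟩ := exists_fix_of_comm (g := g) e rfl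
    obtain ⟨y, -, ⟨a, b, c, rfl⟩ | ⟨b, rfl⟩ | ⟨k, -, -, rfl⟩⟩ := fix_cases hp
    · exact h1 (by rw [T7_conj, T7_u])
    · exact h2 (by rw [T7_conj, T7_ut])
    · rw [orderOf_conj'] at e
      have h3 := e.trans ((Ho K).orderOf_dvd_natCard (h_mem_Ho k))
      obtain ⟨s, -, -, h4, -⟩ := exists_s K
      rw [card_Ho, h4] at h3
      omega

variable (K) in
theorem ncard_classes_reg : (ConjClasses.mk '' {x : ReeG K m | Reg x}).ncard ≤ Nat.card K - 2 := by
  have := finite_G K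
  have hG : 0 < Nat.card (ReeG K m) := Nat.card_pos
  obtain ⟨x₁, x₂, c1, c2, d1, d2, -, -, hcov⟩ := exists_two_tori K
  have k1 : ∀ x : ReeG K m, Cox x → 6 * (ConjClasses.mk '' Uset x).ncard = Nat.card (Cen x) - 1 := fun x hx => by
    obtain ⟨n, -, e1, e2⟩ := hx.card_Uset
    rw [← e1, hx.card_normalizer] at e2
    have e3 := ncard_classes_mul (S := Uset x) (fun y hy g => ⟨by simpa using hy.1, hy.2.elim fun a ha =>
      ⟨a * g⁻¹, by simpa [mul_assoc] using ha⟩⟩) fun y hy => hx.card_Cen_eq hy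
    exact Nat.eq_of_mul_eq_mul_right hG (by linear_combination 6 * e3 + e2)
  have h4 := ncard_H (K := K) (fun n => n ∣ Nat.card K - 1 ∧ ¬ n ∣ 2) fun _ h => h
  have h5 := ncard_A (K := K) (fun n => n ∣ Nat.card K + 1 ∧ ¬ n ∣ 2) fun _ h => h
  have e4 := ncard_not_sq (Ho K) fun e => invol_Ho_iff
  have e5 := ncard_not_sq (Ao K) fun e => invol_Ao_iff
  rw [card_Ho, Set.ncard_singleton] at e4
  rw [card_Ao, ncard_three] at e5
  have f4 := ncard_classes_mul (S := {y : ReeG K m | orderOf y ∣ Nat.card K - 1 ∧ ¬ orderOf y ∣ 2})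
    (fun y hy g => by rwa [Set.mem_ofPred_eq, orderOf_conj']) fun y hy =>
    card_Cen_H (orderOf_dvd_iff_pow_eq_one.1 hy.1) (mt orderOf_dvd_of_pow_eq_one hy.2)
  have f5 := ncard_classes_mul (S := {y : ReeG K m | orderOf y ∣ Nat.card K + 1 ∧ ¬ orderOf y ∣ 2})
    (fun y hy g => by rwa [Set.mem_ofPred_eq, orderOf_conj']) fun y hy =>
    card_Cen_A (orderOf_dvd_iff_pow_eq_one.1 hy.1) (mt orderOf_dvd_of_pow_eq_one hy.2)
  have g4 : 2 * (ConjClasses.mk '' {y : ReeG K m | orderOf y ∣ Nat.card K - 1 ∧ ¬ orderOf y ∣ 2}).ncard =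
      {a | a ∈ Ho K ∧ orderOf a ∣ Nat.card K - 1 ∧ ¬ orderOf a ∣ 2}.ncard := Nat.eq_of_mul_eq_mul_right hG (by
    rw [mul_assoc, f4, ← mul_assoc, h4, card_G]; ring)
  have g5 : 6 * (ConjClasses.mk '' {y : ReeG K m | orderOf y ∣ Nat.card K + 1 ∧ ¬ orderOf y ∣ 2}).ncard =
      {a | a ∈ Ao K ∧ orderOf a ∣ Nat.card K + 1 ∧ ¬ orderOf a ∣ 2}.ncard := Nat.eq_of_mul_eq_mul_right hG (by
    rw [mul_assoc, f5, ← mul_assoc, h5, card_G']; ring)
  have g1 := k1 _ c1
  have g2 := k1 _ c2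
  have hle : 3 ^ (m + 1) ≤ 3 ^ (2 * m + 1) := Nat.pow_le_pow_right (by norm_num) (by omega)
  rw [d1] at g1
  rw [d2] at g2
  rw [← hK.card] at g1 g2 hle
  generalize 3 ^ (m + 1) = r at g1 g2 hle
  have hsub : {x : ReeG K m | Reg x} ⊆ ({y | orderOf y ∣ Nat.card K - 1 ∧ ¬ orderOf y ∣ 2} ∪
      {y | orderOf y ∣ Nat.card K + 1 ∧ ¬ orderOf y ∣ 2}) ∪ (Uset x₁ ∪ Uset x₂) := fun x hx => by
    rcases Reg.cases hx with h | h | h
    · exact Or.inl (Or.inl ⟨orderOf_dvd_of_pow_eq_one h, mt orderOf_dvd_iff_pow_eq_one.1 hx.1⟩)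
    · exact Or.inl (Or.inr ⟨orderOf_dvd_of_pow_eq_one h, mt orderOf_dvd_iff_pow_eq_one.1 hx.1⟩)
    · exact Or.inr (hcov x h)
  have := Set.ncard_le_ncard (Set.image_mono (f := ConjClasses.mk) hsub)
  rw [Set.image_union, Set.image_union, Set.image_union] at this
  have := this.trans ((Set.ncard_union_le _ _).trans (add_le_add (Set.ncard_union_le _ _) (Set.ncard_union_le _ _)))
  omega

theorem Reg.isConj_std {x : ReeG K m} (hx : Reg x) : ∃ k, IsConj x (u 0 0 1 * h k * w K) := by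
  have := finite K
  have := finite_G K
  have h3 := three_eq_zero K
  have h1 : Function.Injective fun k : Kˣ => ConjClasses.mk (u 0 0 1 * h k * w K) := fun k l e => by
    obtain ⟨y, hy⟩ := isConj_iff.1 (ConjClasses.mk_eq_mk_iff_isConj.1 e)
    have := T7_conj y (u 0 0 1 * h k * w K)
    rw [hy, T7_std, T7_std, sub_left_inj, inv_inj] at this
    exact Units.ext (sq_mul_sg_inj this.symm)
  have h2 := Set.eq_of_subset_of_ncard_le (s := (fun k : Kˣ => ConjClasses.mk (u 0 0 1 * h k * w K)) '' {-1}ᶜ)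
    (t := ConjClasses.mk '' {x : ReeG K m | Reg x}) (by
      rintro _ ⟨k, hk, rfl⟩
      have h4 := mul_ne_zero (pow_ne_zero 2 k.ne_zero) (sg_ne_zero k.ne_zero)
      refine ⟨_, reg_of_T7 (fun e => hk (Units.ext (sq_mul_sg_inj ?_))) fun e => ?_, rfl⟩
      · rw [T7_std] at e
        rw [← inv_inj, Units.val_neg, Units.val_one, map_neg, map_one, neg_one_sq, one_mul, inv_neg, inv_one]
        linear_combination e + h3
      · rw [T7_std, sub_eq_neg_self] at e
        exact inv_ne_zero h4 e) (by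
      rw [Set.ncard_image_of_injective _ h1, Set.ncard_compl, Set.ncard_singleton, Nat.card_units]
      exact ncard_classes_reg K)
  obtain ⟨k, -, hk⟩ := h2.ge ⟨x, hx, rfl⟩
  exact ⟨k, (ConjClasses.mk_eq_mk_iff_isConj.1 hk).symm⟩

theorem Reg.isConj_inv {x : ReeG K m} (hx : Reg x) : IsConj x x⁻¹ := by
  obtain ⟨k, hk⟩ := hx.isConj_std
  refine hk.trans (IsConj.trans (isConj_iff.2 ⟨h k * w K * t K, ?_⟩) (isConj_inv' hk).symm)
  have e : t K * u 0 0 1 * t K = (u 0 0 1)⁻¹ := by rw [t_u_t, u0_inv, neg_zero]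
  have e1 := inv_eq_of_mul_eq_one_right (hw_sq k)
  rw [mul_assoc (u _ _ _), mul_inv_rev (u _ _ _), ← e, mul_inv_rev, e1, t_inv]
  have e2 : h k * (w K * t K) * (h k * w K) = t K := by
    rw [← t_mul_w, ← mul_assoc (h k) (t K), ← t_mul_h, mul_assoc (t K), mul_assoc (t K), hw_sq, mul_one]
  calc _ = h k * w K * (t K * u 0 0 1 * (h k * (w K * t K) * (h k * w K))) := by group
    _ = _ := by rw [e2]

theorem Reg.pc {x g : ReeG K m} (hx : Reg x) (hg : g ≠ 1) : PC x g := by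
  have h3 := three_eq_zero K
  have k0 : ∀ y g : ReeG K m, PC x g → PC x (y * g * y⁻¹) := fun y g h => h.conj_right (isConj_iff.2 ⟨y, rfl⟩)
  have k1 : ∀ g : ReeG K m, Reg g → PC x g := fun g h => hx.pc_of_le (by
    have := h.card_Cen_le; have := le_card K; omega)
  by_cases hp : ∃ p : Pt K, g • p = p
  swap
  · refine k1 g ⟨fun e => ?_, fun e => hp (exists_fix_of_comm e rfl)⟩
    obtain ⟨y, rfl⟩ := exists_conj_t e hg
    exact hp ⟨y • inf K, by rw [mul_smul, inv_smul_smul, mul_smul, t, h_smul_inf]⟩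
  obtain ⟨p, hp⟩ := hp
  obtain ⟨y, -, ⟨a, b, c, rfl⟩ | ⟨b, rfl⟩ | ⟨k, h1, h2, rfl⟩⟩ := fix_cases hp <;> refine k0 _ _ ?_
  · by_cases ha : a = 0
    swap
    · exact hx.pc_of_le (card_Cen_nine ha b c)
    subst ha
    by_cases hb : b = 0
    · subst hb
      obtain ⟨k, hk⟩ := hx.isConj_std
      obtain ⟨l, hl⟩ := exists_unit_z (c := (-1 : K)) (c' := c) (by simp) (by rintro rfl; simp at hg)
      have : u 0 0 c = h l * u 0 0 (-1) * (h l)⁻¹ := by rw [h_conj_u, hl, mul_zero, mul_zero]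
      rw [this]
      refine k0 _ _ ⟨_, h k * w K * u 0 0 1, hk, hk.trans (isConj_iff.2 ⟨(u 0 0 1)⁻¹, by group⟩), ?_⟩
      rw [mul_assoc (u _ _ _), mul_assoc, ← mul_assoc (h k * w K), hw_sq, one_mul, u0_mul]
      apply u_congr <;> grind
    obtain ⟨a, d, e, k, h1, hk⟩ := hx.exists_std
    have h2 : PC x (u 0 (a * sg a - d) (a * d - a ^ 2 * sg a)) := by
      refine ⟨_, t K * (h k * w K * u a d e) * t K, hk, hk.trans (isConj_iff.2 ⟨t K * (u a d e)⁻¹, by
        rw [mul_inv_rev, t_inv]; group⟩), ?_⟩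
      rw [← ut_sq a d e, sq]
      calc _ = u a d e * t K * (h k * w K * (h k * w K)) * u a d e * t K := by rw [hw_sq]; group
        _ = u a d e * (t K * h k * w K) * (h k * w K * u a d e) * t K := by group
        _ = _ := by rw [t_mul_h, mul_assoc (h k), t_mul_w]; group
    have k2 : ∀ b' c', b' ≠ 0 → PC x (u 0 b' c') → ∀ l : Kˣ, l * sg (l : K) * b' = b → PC x (u 0 b c) := by
      intro b' c' _ h4 l hl
      have := k0 (u ((c - l ^ 2 * sg (l : K) * c') / b) 0 0) _ (k0 (h l) _ h4)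
      rw [h_conj_u, u_conj, hl] at this
      convert this using 2 <;> simp
      field_simp
      ring
    have h4 : a * sg a - d ≠ 0 := sub_ne_zero.2 (Ne.symm h1)
    obtain ⟨l, hl | hl⟩ := exists_unit_x h4 hb
    · exact k2 _ _ h4 h2 l hl
    · have := h2.inv.conj_left hx.isConj_inv
      rw [u0_inv] at this
      exact k2 _ _ (neg_ne_zero.2 h4) this l (by rw [mul_neg, hl, neg_neg])
  · by_cases hb : b = 0
    · rw [hb, u_zero, one_mul]; exact hx.pc_t
    · exact hx.pc_of_le (card_Cen_six hb)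
  · exact hx.pc_of_le (by rw [Cen_Ho (h_mem_Ho k) (h_sq_ne.2 ⟨h1, h2⟩), card_Ho]; omega)

end Ree

end Cfsg.Agent.H2
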