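import Cfsg.Agent.H2.ReeTor4

/-! Solvable subgroups of the small Ree groups. -/

set_option autoImplicit false
set_option linter.unusedSectionVars false
set_option linter.unusedSimpArgs false

namespace Cfsg.Agent.H2

open Matrix
open scoped MatrixGroups Pointwise

theorem exists_char_cyclic {G : Type*} [Group G] [Finite G] {T D : Subgroup G} (hle : D ≤ T) (hD : IsCyclic D) {n : ℕ}
    (hn : n ∣ Nat.card D) (h : ∀ x ∈ T, x ^ n = 1 → x ∈ D) :
    ∃ A : Subgroup G, IsCyclic A ∧ Nat.card A = n ∧ Subgroup.normalizer (T : Set G) ≤ Subgroup.normalizer (A : Set G) := by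
  obtain ⟨a, ha, ho⟩ := exists_orderOf_eq_of_cyclic hD hn
  have h1 : Nat.card (Subgroup.zpowers a) = n := by rw [Nat.card_zpowers, ho]
  have h2 := Subgroup.zpowers_le.2 ha
  refine ⟨Subgroup.zpowers a, inferInstance, h1, fun s hs => Subgroup.mem_normalizer_fintype fun x hx => ?_⟩
  have h3 : (s * x * s⁻¹) ^ n = 1 := by rw [conj_pow_eq_one_iff', ← h1]; exact pow_card_of_mem hx
  exact mem_of_pow_card_of_cyclic hD h2 (h _ ((Subgroup.mem_normalizer_iff.1 hs x).1 (hle (h2 hx))) h3) (h1 ▸ h3)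

theorem isPGroup_conjS {G : Type*} [Group G] {p : ℕ} (g : G) {P : Subgroup G} (h : IsPGroup p P) :
    IsPGroup p (conjS g P) := h.map _

namespace Ree

variable {K : Type*} [Field K] {m : ℕ} [hK : ReeF K m]
include hK

/-- the subgroups whose normalisers contain all solvable subgroups -/
def Loc (A : Subgroup (ReeG K m)) : Prop :=
  (∃ P : Sylow 2 (ReeG K m), A = P) ∨ (∃ P : Sylow 3 (ReeG K m), A = P) ∨
    (IsCyclic A ∧ (Nat.card A = (3 ^ (2 * m + 1) - 1) / 2 ∨ Nat.card A = (3 ^ (2 * m + 1) + 1) / 4 ∨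
      Nat.card A = 3 ^ (2 * m + 1) - 3 ^ (m + 1) + 1 ∨ Nat.card A = 3 ^ (2 * m + 1) + 3 ^ (m + 1) + 1))

/-- subgroups of the local normalisers -/
def Good (S : Subgroup (ReeG K m)) : Prop := 
  ∃ A : Subgroup (ReeG K m), S ≤ Subgroup.normalizer (A : Set (ReeG K m)) ∧ Loc A

theorem Loc.conj {A : Subgroup (ReeG K m)} (h : Loc A) (x : ReeG K m) : Loc (conjS x A) := by
  rcases h with ⟨P, rfl⟩ | ⟨P, rfl⟩ | ⟨h1, h2⟩
  · exact Or.inl ⟨x • P, rfl⟩
  · exact Or.inr (Or.inl ⟨x • P, rfl⟩)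
  · exact Or.inr (Or.inr ⟨isCyclic_conjS x h1, by rwa [card_conjS]⟩)

theorem Good.of_conj {S : Subgroup (ReeG K m)} (x : ReeG K m) (h : Good (conjS x S)) : Good S := by
  obtain ⟨A, h1, h2⟩ := h
  refine ⟨conjS x⁻¹ A, fun s hs => ?_, h2.conj x⁻¹⟩
  rw [conjS, normalizer_map_conj]
  exact mem_conjS.2 (by rw [inv_inv]; exact h1 (conj_mem_conjS x hs))

theorem Good.mono {S S' : Subgroup (ReeG K m)} (h : Good S') (hle : S ≤ S') : Good S :=
  h.imp fun _ hA => ⟨hle.trans hA.1, hA.2⟩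

theorem good_stab (p : Pt K) : Good (MulAction.stabilizer (ReeG K m) p) :=
  ⟨Qp p, (normalizer_Qp p).ge, Or.inr (Or.inl ⟨sylQ p, rfl⟩)⟩

theorem good_half {T D : Subgroup (ReeG K m)} (hle : D ≤ T) (hD : IsCyclic D) (hn : (Nat.card K - 1) / 2 ∣ Nat.card D)
    (h : ∀ x ∈ T, x ^ ((Nat.card K - 1) / 2) = 1 → x ∈ D) : Good (Subgroup.normalizer (T : Set (ReeG K m))) := by
  have := finite_G K
  obtain ⟨A, h1, h2, h3⟩ := exists_char_cyclic hle hD hn h
  exact ⟨A, h3, Or.inr (Or.inr ⟨h1, Or.inl (by rw [h2, hK.card])⟩)⟩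

theorem good_quart {T D : Subgroup (ReeG K m)} (hle : D ≤ T) (hD : IsCyclic D) (hn : (Nat.card K + 1) / 4 ∣ Nat.card D)
    (h : ∀ x ∈ T, x ^ ((Nat.card K + 1) / 4) = 1 → x ∈ D) : Good (Subgroup.normalizer (T : Set (ReeG K m))) := by
  have := finite_G K
  obtain ⟨A, h1, h2, h3⟩ := exists_char_cyclic hle hD hn h
  exact ⟨A, h3, Or.inr (Or.inr ⟨h1, Or.inr (Or.inl (by rw [h2, hK.card]))⟩)⟩

theorem exists_sylow_two {Q : Subgroup (ReeG K m)} (hQ : IsPGroup 2 Q) (h : 4 < Nat.card Q) :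
    ∃ P : Sylow 2 (ReeG K m), Q = P := by
  have := finite_G K
  have : Fact (Nat.Prime 2) := ⟨Nat.prime_two⟩
  obtain ⟨P, hP⟩ := hQ.exists_le_sylow
  obtain ⟨a, ha⟩ := hQ.exists_card_eq
  obtain ⟨b, hb⟩ := P.isPGroup'.exists_card_eq
  have h1 : b ≤ 3 := by
    by_contra h1
    have h2 := (pow_dvd_pow 2 (show 4 ≤ b by omega)).trans (hb ▸ Subgroup.card_subgroup_dvd_card (P : Subgroup (ReeG K m)))
    have := card_G_mod K
    omega
  have h2 : 3 ≤ a := by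
    by_contra h2
    have := Nat.pow_le_pow_right two_pos (show a ≤ 2 by omega)
    omega
  exact ⟨P, Subgroup.eq_of_le_of_card_ge hP (by rw [ha, hb]; exact Nat.pow_le_pow_right two_pos (h1.trans h2))⟩

theorem conj_psi {a : ReeG K m} {M : SL(2, K)} (h : a = psi M ∨ a = t K * psi M) (N : SL(2, K)) :
    a * psi N * a⁻¹ = psi (M * N * M⁻¹) := by
  rcases h with rfl | rfl
  · simp only [map_mul, map_inv]
  · rw [← mul_inv_cancel_right (psi (M * N * M⁻¹)) (t K), ← t_mul_psi]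
    simp only [map_mul, map_inv]; group

theorem tP_norm_map (L : Subgroup SL(2, K)) :
    tP (Subgroup.normalizer (L : Set SL(2, K))) ≤ Subgroup.normalizer (L.map psi : Set (ReeG K m)) := by
  have := finite_G K
  rintro a ⟨M, hM, e⟩
  refine Subgroup.mem_normalizer_fintype ?_
  rintro _ ⟨N, hN, rfl⟩
  exact ⟨_, (Subgroup.mem_normalizer_iff.1 hM N).1 hN, (conj_psi e N).symm⟩

theorem tP_norm_tP (L : Subgroup SL(2, K)) :
    tP (Subgroup.normalizer (L : Set SL(2, K))) ≤ Subgroup.normalizer (tP L : Set (ReeG K m)) := by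
  have := finite_G K
  rintro a ⟨M, hM, e⟩
  refine Subgroup.mem_normalizer_fintype ?_
  rintro _ ⟨N, hN, rfl | rfl⟩
  · rw [conj_psi e]; exact psi_mem_tP ((Subgroup.mem_normalizer_iff.1 hM N).1 hN)
  · rw [← conj_mul, conj_psi e, mem_Cen.1 (mem_Cen_t.2 ⟨M, e⟩), mul_inv_cancel_right]
    exact mul_mem (t_mem_tP _) (psi_mem_tP ((Subgroup.mem_normalizer_iff.1 hM N).1 hN))

theorem psi_mem_Bo {M : SL(2, K)} (hM : M.1 1 0 = 0) : psi M ∈ Bo K := by
  rcases SL2_bruhat M with ⟨b, a, rfl⟩ | ⟨b, a, b', rfl⟩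
  · rw [map_mul, psi_uSL, psi_dSL]; exact ⟨_, _, _, _, rfl⟩
  · simp [m2_mul_apply, dSL] at hM

theorem good_of_le_Cen_t {S : Subgroup (ReeG K m)} (hS : Group.IsSolvable S) (h1 : S ≤ Cen (t K)) (ht : t K ∈ S) :
    Good S := by
  have := finite K
  have := finite_G K
  have h2 : S ≤ tP (S.comap psi) := fun s hs => by
    obtain ⟨M, rfl | rfl⟩ := mem_Cen_t.1 (h1 hs)
    · exact psi_mem_tP hs
    · exact ⟨M, (S.mul_mem_cancel_left ht).1 hs, Or.inr rfl⟩
  have h3 : Group.IsSolvable (S.comap psi) := by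
    have h2 : Group.IsSolvable (Subgroup.center SL(2, K)) := Group.isSolvable_of_comm fun a b =>
      Subtype.ext (Subgroup.mem_center_iff.1 b.2 a)
    refine Group.isSolvable_of_ker_le_range (Subgroup.inclusion (H := Subgroup.center SL(2, K)) (fun z hz => ?_))
      (psi.subgroupComap _) ?_
    · rw [Subgroup.mem_comap, psi_eq_one.2 (mem_center_SL_iff.1 hz)]; exact one_mem _
    · intro z hz
      exact ⟨⟨z, mem_center_SL_iff.2 (psi_eq_one.1 (congrArg Subtype.val hz))⟩, rfl⟩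
  rcases solvable_cases (Or.inr (Or.inl (card_mod_eight K))) h3 with ⟨v, hv, h⟩ | ⟨z, hz, h⟩ | ⟨-, P, h⟩
  · obtain ⟨τ, rfl⟩ := exists_mulVec_e1 hv
    refine (good_stab (psi τ • inf K)).mono fun s hs => ?_
    obtain ⟨M, hM, e⟩ := h2 hs
    have h4 := h hM
    rw [St_mulVec, mem_conjS, mem_St_e1] at h4
    have h5 := fix_inf_iff.2 (psi_mem_Bo h4)
    rw [map_mul, map_mul, map_inv, mul_smul, mul_smul, inv_smul_eq_iff] at h5
    rcases e with rfl | rfl
    · exact h5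
    · rw [MulAction.mem_stabilizer_iff, mul_smul, h5, ← mul_smul, t_mul_psi, mul_smul, t, h_smul_inf]
  · have h4 := (h2.trans (tP_mono h)).trans (tP_norm_map (Cen z))
    have h5 := card_map_psi (neg_one_mem_Cen z)
    have := hz.isCyclic_Cen
    have h6 : IsCyclic ((Cen z).map psi) := isCyclic_of_surjective _ (psi.subgroupMap_surjective _)
    obtain ⟨s, -, q1, q2, q3, q4, -⟩ := exists_s K
    rcases hz.card_Cen with ⟨-, h7⟩ | ⟨-, h7⟩
    · exact (good_half le_rfl h6 ⟨1, by omega⟩ fun _ h _ => h).mono h4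
    · exact (good_quart le_rfl h6 ⟨2, by omega⟩ fun _ h _ => h).mono h4
  · have : Fact (Nat.Prime 2) := ⟨Nat.prime_two⟩
    have h4 : -1 ∈ (P : Subgroup SL(2, K)) := mem_sylow_of_norm' (k := 1) P (by simp) (fun s _ => by simp)
    have h5 := P.isPGroup'.exists_card_eq
    rw [← card_tP h4] at h5
    refine ⟨tP P, (h2.trans (tP_mono h)).trans (tP_norm_tP _), Or.inl (exists_sylow_two (IsPGroup.iff_card.2 h5) ?_)⟩
    rw [card_tP h4]
    have h6 := (P : Subgroup SL(2, K)).card_mul_index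
    have h7 : 2 ^ 3 ∣ Nat.card (P : Subgroup SL(2, K)) := by
      refine Nat.Coprime.dvd_of_dvd_mul_right
        (Nat.Coprime.pow_left 3 ((Nat.Prime.coprime_iff_not_dvd Nat.prime_two).2 P.not_dvd_index)) ?_
      obtain ⟨s, -, q1, q2, -⟩ := exists_s K
      rw [h6, card_SL2', q2, q1]
      exact ⟨(24 * s + 3) * (12 * s + 1) * (6 * s + 1), by ring⟩
    have := Nat.le_of_dvd Nat.card_pos h7
    omega

theorem good_of_four {S N : Subgroup (ReeG K m)} (h2 : ∀ a ∈ N, a ^ 2 = 1) (h3 : ∀ g ∈ S, ∀ a ∈ N, g * a * g⁻¹ ∈ N)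
    (ht : t K ∈ N) (hw : w K ∈ N) : Good S := by
  have := finite_G K
  have := finite K
  have h4 := card_four (t_mul_t (K := K)) w_mul_w t_mul_w.symm t_ne_one w_ne_one tw_ne
  have hle : four (t_mul_t (K := K)) w_mul_w t_mul_w.symm ≤ N := by
    rintro _ (rfl | rfl | rfl | rfl)
    exacts [one_mem _, ht, hw, mul_mem ht hw]
  by_cases h : N = four (t_mul_t (K := K)) w_mul_w t_mul_w.symm
  · refine (good_quart (T := Cen (t K) ⊓ Cen (w K)) (fun a ha => ⟨mem_Cen.2 (comm_Ao (Do_le_Ao ha) t_mem_Ao),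
      mem_Cen.2 (comm_Ao (Do_le_Ao ha) w_mem_Ao)⟩) (isCyclic_Do K) (by rw [card_Do]; exact Dvd.intro_left _ rfl)
      fun x hx hn => ?_).mono fun s hs => Subgroup.mem_normalizer_fintype fun x hx => ?_
    · have ho := (odd_quart K).of_dvd_nat (orderOf_dvd_of_pow_eq_one hn)
      by_cases h5 : x ^ 2 = 1
      · rw [eq_one_of_pow_cop (Nat.coprime_two_left.2 ho) h5 (pow_orderOf_eq_one x)]; exact one_mem _
      obtain ⟨M, e⟩ := mem_Cen_t.1 hx.1
      obtain ⟨N, hN, e' | e'⟩ := (mem_tP_Cen (b := w K) e h5).2 ⟨mem_Cen.2 (mem_Cen.1 hx.2).symm, mem_Cen.2 t_mul_w.symm⟩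
      · rw [← psi_wSL, psi_eq_iff] at e'
        refine mem_Do_of_odd ⟨M, mem_Cen.2 ?_, e⟩ ho
        rcases e' with rfl | e'
        · exact (mem_Cen.1 hN).symm
        · rw [e', mul_neg, neg_mul, mem_Cen.1 hN]
      · exact absurd (psi_wSL.trans e') (psi_ne_t_mul _ _)
    · have key : ∀ e ∈ N, x * e = e * x := by
        rw [h]
        rintro _ (rfl | rfl | rfl | rfl)
        · simp
        · exact mem_Cen.1 hx.1
        · exact mem_Cen.1 hx.2
        · exact Commute.mul_right (mem_Cen.1 hx.1) (mem_Cen.1 hx.2)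
      have key2 : ∀ e ∈ N, s * x * s⁻¹ ∈ Cen e := fun e he => mem_Cen.2 (by
        have := key _ (h3 _ (inv_mem hs) e he)
        calc s * x * s⁻¹ * e = s * (x * (s⁻¹ * e * s⁻¹⁻¹)) * s⁻¹ := by group
          _ = _ := by rw [this]; group)
      exact ⟨key2 _ ht, key2 _ hw⟩
  · refine ⟨N, fun s hs => Subgroup.mem_normalizer_fintype (h3 s hs), Or.inl (exists_sylow_two
      (fun a => ⟨1, Subtype.ext (h2 a a.2)⟩) ?_)⟩
    rw [← h4]
    by_contra hc
    exact h (Subgroup.eq_of_le_of_card_ge hle (not_lt.1 hc)).symm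

theorem good_of_t {S N : Subgroup (ReeG K m)} (hS : Group.IsSolvable S) (h1 : N ≤ S) (h2 : ∀ a ∈ N, a ^ 2 = 1)
    (hc : ∀ a ∈ N, ∀ b ∈ N, a * b = b * a) (h3 : ∀ g ∈ S, ∀ a ∈ N, g * a * g⁻¹ ∈ N) (ht : t K ∈ N) : Good S := by
  by_cases h : ∀ a ∈ N, a = 1 ∨ a = t K
  · refine good_of_le_Cen_t hS (fun s hs => mem_Cen.2 (mul_inv_eq_iff_eq_mul.1 ?_)) (h1 ht)
    exact (h _ (h3 s hs _ ht)).resolve_left (by simpa using t_ne_one)
  push Not at h
  obtain ⟨a, ha, a1, a2⟩ := h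
  obtain ⟨M, e⟩ := mem_Cen_t.1 (mem_Cen.2 (hc a ha _ ht))
  have h4 : psi M ∈ N := by
    rcases e with rfl | rfl
    · exact ha
    · exact (N.mul_mem_cancel_left ht).1 ha
  have h5 : tr M = 0 := (psi_sq_eq_one.1 (h2 _ h4)).resolve_left fun h => by
    rw [psi_eq_one.2 h, mul_one] at e
    tauto
  obtain ⟨x, hx⟩ := psi_conj_w h5
  refine Good.of_conj (psi x)⁻¹ (good_of_four (N := conjS (psi x)⁻¹ N) ?_ ?_ ?_ ?_)
  · rintro _ ⟨b, hb, rfl⟩
    rw [← map_pow, h2 b hb, map_one]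
  · rintro _ ⟨g, hg, rfl⟩ _ ⟨b, hb, rfl⟩
    exact ⟨_, h3 g hg b hb, by simp only [map_mul, map_inv]⟩
  · rw [mem_conjS, inv_inv, ← t_mul_psi, mul_inv_cancel_right]; exact ht
  · rw [mem_conjS, inv_inv, ← hx]; exact h4

theorem good_of_solvable {S : Subgroup (ReeG K m)} (hS : Group.IsSolvable S) : Good S := by
  have := finite_G K
  by_cases h0 : S = ⊥
  · exact (good_stab (inf K)).mono (h0 ▸ bot_le)
  obtain ⟨N, hN, h1, hc, h3⟩ := exists_abelian_normal hS h0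
  by_cases h2 : ∀ a ∈ N, a ^ 2 = 1
  · obtain ⟨e, he, e1⟩ := (Subgroup.bot_or_exists_ne_one _).resolve_left hN
    obtain ⟨x, rfl⟩ := exists_conj_t (h2 e he) e1
    refine Good.of_conj x⁻¹ (good_of_t (N := conjS x⁻¹ N) (isSolvable_conjS _ hS) (Subgroup.map_mono h1) ?_
      (comm_conjS _ hc) ?_ (by rwa [mem_conjS, inv_inv]))
    · rintro _ ⟨b, hb, rfl⟩
      rw [← map_pow, h2 b hb, map_one]
    · rintro _ ⟨g, hg, rfl⟩ _ ⟨b, hb, rfl⟩
      exact ⟨_, h3 g hg b hb, by simp only [map_mul, map_inv]⟩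
  push Not at h2
  obtain ⟨g, hg, h2⟩ := h2
  obtain ⟨k, l, hl, e1, e2, e3⟩ := exists_prime_pow h2
  have e4 : ((g ^ 2) ^ k) ^ 2 ≠ 1 := fun e => e1 (by
    rw [← pow_mul, mul_comm, pow_mul]
    exact sq_eq_one_of_pow_four (by rw [← e, ← pow_mul, ← pow_mul, ← pow_mul]; congr 1; ring))
  have e5 := pow_mem (pow_mem hg 2) k
  have e7 := e3.trans (orderOf_dvd_natCard _)
  have e8 : ∀ n, l ∣ n → ((g ^ 2) ^ k) ^ n = 1 := by rintro _ ⟨n, rfl⟩; rw [pow_mul, e2, one_pow]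
  generalize (g ^ 2) ^ k = y at *
  have key : ∀ (x : ReeG K m) (T : Subgroup (ReeG K m)), x * y * x⁻¹ ∈ T → (∀ a ∈ T, a ^ 2 ≠ 1 → Cen a = T) →
      Good (Subgroup.normalizer (T : Set (ReeG K m))) → Good S := by
    intro x T hx hT hG
    refine Good.of_conj x (hG.mono ?_)
    rintro _ ⟨s, hs, rfl⟩
    have h5 := hT _ hx (by rwa [Ne, conj_pow_eq_one_iff'])
    refine mem_norm_of_conj h5 (hT _ ?_ (by rwa [Ne, conj_pow_eq_one_iff', conj_pow_eq_one_iff']))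
    rw [← h5, Cen_conj]
    exact ⟨s * y * s⁻¹, mem_Cen.2 (hc _ (h3 s hs y e5) y e5), by simp [mul_assoc]⟩
  rw [card_G'] at e7
  simp only [Nat.Prime.dvd_mul hl] at e7
  rcases e7 with ((e7 | e7) | e7) | e7
  · obtain rfl := eq_three_of_dvd hl e7
    obtain ⟨p, hp⟩ := exists_mem_Qp_of_pow (n := 1) e2
    refine (good_stab p).mono fun s hs => ?_
    exact (Qp_eq_of_mem (mem_Qp_of_pow (n := 1) (fix_of_commute hp e1 (hc _ (h3 s hs y e5) y e5))
      (conj_pow_eq_one_iff'.2 e2)) (conj_mem_Qp_smul s hp) (by simpa using e1)).symm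
  · obtain ⟨x, hx⟩ := exists_conj_Ho (e8 _ e7) e4
    exact key x _ hx (fun a => Cen_Ho) (good_half le_rfl (isCyclic_Ho K) (by rw [card_Ho]; exact half_dvd K)
      fun _ h _ => h)
  · obtain ⟨x, hx⟩ := exists_conj_Ao (e8 _ e7) e4
    exact key x _ hx (fun a => Cen_Ao) (good_quart Do_le_Ao (isCyclic_Do K) (by rw [card_Do]; exact Dvd.intro_left _ rfl)
      fun a ha h => mem_Do_of_odd ha ((odd_quart K).of_dvd_nat (orderOf_dvd_of_pow_eq_one h)))
  · have hy : Cox y := ⟨e1, e8 _ e7⟩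
    exact key 1 (Cen y) (by simpa using self_mem_Cen y) (fun a ha h => hy.Cen_eq ha (by rintro rfl; simp at h))
      ⟨Cen y, le_rfl, Or.inr (Or.inr ⟨hy.isCyclic_Cen, Or.inr (Or.inr hy.card_Cen.symm)⟩)⟩

end Ree

end Cfsg.Agent.H2
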