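import Cfsg.Agent.H2.SL2Sol

/-! Solubilizers in `SL₂` in characteristic three. -/

set_option autoImplicit false
set_option linter.unusedSectionVars false
set_option linter.unusedSimpArgs false

namespace Cfsg.Agent.H2

open Matrix
open scoped MatrixGroups Pointwise

variable {F : Type*} [Field F]

theorem Sol_symm {G : Type*} [Group G] {x y : G} (h : y ∈ Sol x) : x ∈ Sol y := by
  change Group.IsSolvable _ at h ⊢
  rwa [Set.pair_comm]

theorem mem_NC_tr (h2 : (2 : F) ≠ 0) {m g : SL(2, F)} (hm : tr m = 0) :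
    g ∈ NC m ↔ g * m * g⁻¹ = m ∨ g * m * g⁻¹ = -m := by
  rw [(SS_of_tr_zero h2 hm).mem_NC, inv_eq_neg_of_tr hm, mem_Cen, mul_inv_eq_iff_eq_mul, mul_inv_eq_iff_eq_mul]

theorem tr_cube (h3 : (3 : F) = 0) (g : SL(2, F)) : tr (g ^ 3) = tr g ^ 3 := by
  have hd := g.det_coe
  rw [det_fin_two] at hd
  simp only [tr, trace_fin_two, pow_succ, pow_zero, one_mul, Matrix.SpecialLinearGroup.coe_mul, m2_mul_apply]
  linear_combination (-3 * (g.1 0 0 + g.1 1 1)) * hd - (g.1 0 0 + g.1 1 1) * h3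

theorem sq_mul_eq {i y : SL(2, F)} (hi : tr i = 0) (hs : tr y ^ 2 = 1) (ht : tr (i * y) ^ 2 = 1) :
    y * y * i = i * y * (i * y) ∨ y * y * i = -(i * y * (i * y)) := by
  have e1 := cayley y.1
  have e2 := cayley (i * y).1
  have e3 : y.1 * i.1 = tr y • i.1 + tr (i * y) • (1 : Matrix (Fin 2) (Fin 2) F) - (i * y).1 := by
    have hi' : i.1 1 1 = -i.1 0 0 := by rw [tr, trace_fin_two] at hi; linear_combination hi
    apply m2_ext <;> simp [tr, trace_fin_two, m2_mul_apply, hi'] <;> ring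
  rw [y.det_coe] at e1
  rw [(i * y).det_coe] at e2
  have e4 : (y * y * i).1 = -(tr y * tr (i * y)) • (i * y * (i * y)).1 := by
    change y.1 * y.1 * i.1 = _ • ((i * y).1 * (i * y).1)
    rw [e1, e2, sub_mul, smul_mul_assoc, e3, one_smul, one_mul]
    change tr y • _ - _ = _ • (tr (i * y) • _ - _)
    generalize tr y = s at *
    generalize tr (i * y) = t at *
    match_scalars
    · linear_combination hs
    · ring
    · linear_combination s * ht
  have e5 : (tr y * tr (i * y)) ^ 2 = 1 := by rw [mul_pow, hs, ht, one_mul]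
  rcases sq_eq_one_iff.1 e5 with h | h
  · right; apply SL_ext; rw [e4, h]; simp
  · left; apply SL_ext; rw [e4, h]; simp

theorem tr_mul_conj (i y : SL(2, F)) (hi : tr i = 0) :
    tr (i * (y * i * y⁻¹)) = 2 - tr y ^ 2 - tr (i * y) ^ 2 := by
  have hi' : i.1 1 1 = -i.1 0 0 := by rw [tr, trace_fin_two] at hi; linear_combination hi
  have hd := y.det_coe
  have hd' := i.det_coe
  rw [det_fin_two] at hd hd'
  rw [hi'] at hd'
  simp only [tr, trace_fin_two, Matrix.SpecialLinearGroup.coe_mul, Matrix.SpecialLinearGroup.coe_inv, adjugate_fin_two,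
    m2_mul_apply, hi']
  simp
  linear_combination (-2 * (i.1 0 0 ^ 2 + i.1 0 1 * i.1 1 0)) * hd + (2 - (y.1 0 0 + y.1 1 1) ^ 2) * hd'

variable [Finite F]

theorem mem_Sol_of_tr (h8 : Nat.card F % 8 = 3 ∨ Nat.card F % 8 = 5) {i y : SL(2, F)} (hi : tr i = 0)
    (hs : tr y ^ 2 = 1) (ht : tr (i * y) ^ 2 = 1) : y ∈ Sol i := by
  have h2 := two_ne_zero_of_h8 h8
  have hj : tr (y * i * y⁻¹) = 0 := by rw [tr_conj, hi]
  have hij : tr (i * (y * i * y⁻¹)) = 0 := by rw [tr_mul_conj _ _ hi, hs, ht]; ring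
  have hk : y * (y * i * y⁻¹) * y⁻¹ = i * (y * i * y⁻¹) ∨ y * (y * i * y⁻¹) * y⁻¹ = -(i * (y * i * y⁻¹)) := by
    rw [show y * (y * i * y⁻¹) * y⁻¹ = (y * y * i) * y⁻¹ * y⁻¹ by group]
    rcases sq_mul_eq hi hs ht with h | h <;> rw [h]
    · left; group
    · right; rw [neg_mul, neg_mul]; congr 1; group
  have e : ∀ g, y⁻¹ * g * y⁻¹⁻¹ ∈ NC i ↔ g ∈ NC (y * i * y⁻¹) := fun g => by
    rw [← conj_mem_NC_iff y⁻¹ g]; congr! 2; group
  have e' : ∀ g, y⁻¹ * g * y⁻¹⁻¹ ∈ NC (y * i * y⁻¹) ↔ g ∈ NC (y * (y * i * y⁻¹) * y⁻¹) := fun g => by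
    rw [← conj_mem_NC_iff y⁻¹ g]; congr! 2; group
  have hk0 : tr (y * (y * i * y⁻¹) * y⁻¹) = 0 := by rw [tr_conj, hj]
  generalize y * i * y⁻¹ = j at *
  have a1 := inv_of_tr_mul hi hij
  have a2 : j * i * j⁻¹ = i⁻¹ := inv_of_tr_mul hj (by rw [← hij]; exact Matrix.trace_mul_comm _ _)
  have a3 : j ∉ Cen i := (SS_of_tr_zero h2 hi).not_mem_Cen a2
  have hP : IsPGroup 2 (NC i ⊓ NC j : Subgroup SL(2, F)) := by
    rintro ⟨g, b1, b2⟩
    refine ⟨2, Subtype.ext ?_⟩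
    change g ^ 4 = 1
    have c1 := (SS_of_tr_zero h2 hi).sq_mem b1
    have c2 := (SS_of_tr_zero h2 hj).sq_mem b2
    rw [show g ^ 4 = (g ^ 2) ^ 2 from pow_mul g 2 2]
    by_contra h
    have c3 : ¬ Sc (g ^ 2) := fun h' => h h'.sq
    apply a3
    rw [← Cen_eq_of_mem (SS_of_tr_zero h2 hi).not_sc c1 c3, Cen_eq_of_mem (SS_of_tr_zero h2 hj).not_sc c2 c3]
    exact self_mem_Cen j
  obtain ⟨S, hS⟩ := hP.exists_le_sylow
  have hiQ : i ∈ NC i ⊓ NC j := ⟨Cen_le_NC _ (self_mem_Cen _), mem_NC_of_inv' a1⟩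
  have hQ := eq_syl_of_anti h8 hS hiQ ⟨mem_NC_of_inv' a2, Cen_le_NC _ (self_mem_Cen _)⟩ hi a3
  refine mem_Sol_of (isSolvable_norm_syl h8 S) (Subgroup.le_normalizer (hS hiQ)) ?_
  rw [← hQ, ← inv_mem_iff]
  refine Subgroup.mem_normalizer_fintype fun g hg => ⟨(e g).2 hg.2, (e' g).2 ?_⟩
  have b1 := (mem_NC_tr h2 hi).1 hg.1
  have b2 := (mem_NC_tr h2 hj).1 hg.2
  have b3 : g * (i * j) * g⁻¹ = (g * i * g⁻¹) * (g * j * g⁻¹) := by group
  rw [mem_NC_tr h2 hk0]
  rcases hk with h | h <;> rw [h] <;> simp only [mul_neg, neg_mul, b3] <;> rcases b1 with b1 | b1 <;>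
    rcases b2 with b2 | b2 <;> simp [b1, b2]

theorem tr_of_norm_syl (h3 : (3 : F) = 0) (h8 : Nat.card F % 8 = 3 ∨ Nat.card F % 8 = 5) {S : Sylow 2 SL(2, F)}
    {g : SL(2, F)} (hg : g ∈ Subgroup.normalizer ((S : Subgroup SL(2, F)) : Set SL(2, F))) :
    tr g = 0 ∨ tr g ^ 2 = 1 := by
  have h := Sc_or_tr_of_pow_four (two_ne_zero_of_h8 h8) (pow_four_of_mem_syl h8 S (cube_mem_syl h8 S hg))
  have e := tr_cube h3 g
  rcases h with h | h
  · right
    have : tr (g ^ 3) ^ 2 = 4 := by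
      by_contra h'; exact SS.not_sc h' h
    rw [e] at this
    have h4 : (tr g ^ 2 - 1) ^ 3 = 0 := by linear_combination this + (1 - tr g ^ 4 + tr g ^ 2) * h3
    exact sub_eq_zero.1 (pow_eq_zero_iff (by norm_num) |>.1 h4)
  · left
    rw [e] at h
    exact pow_eq_zero_iff (by norm_num) |>.1 h

theorem noQ_of_three (h3 : (3 : F) = 0) (h8 : Nat.card F % 8 = 3 ∨ Nat.card F % 8 = 5) {x : SL(2, F)} (hx : SS x)
    (ht : tr x ≠ 0) : NoQ x := fun _ _ hS =>
  hx (by rw [(tr_of_norm_syl h3 h8 hS).resolve_left ht]; linear_combination -h3)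

theorem ncard_fiber_10 (s : F) {c : F} (hc : c ≠ 0) : {y : SL(2, F) | tr y = s ∧ y.1 1 0 = c}.ncard = Nat.card F := by
  rw [← Nat.card_coe_set_eq]
  symm
  refine Nat.card_eq_of_bijective (fun a : F => ⟨toSL !![a, (a * (s - a) - 1) / c; c, s - a]
    (by simp [det_fin_two_of]; field_simp; ring), by simp [tr, trace_fin_two], by simp⟩) ⟨?_, ?_⟩
  · intro a b h
    exact congrArg (fun g : {y : SL(2, F) | tr y = s ∧ y.1 1 0 = c} => g.1.1 0 0) h
  · rintro ⟨g, h1, h2⟩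
    have hd := g.det_coe
    rw [tr, trace_fin_two] at h1
    rw [det_fin_two, h2] at hd
    refine ⟨g.1 0 0, Subtype.ext (SL_ext (m2_ext rfl ?_ h2.symm ?_))⟩
    · change (g.1 0 0 * (s - g.1 0 0) - 1) / c = _
      field_simp
      linear_combination hd - g.1 0 0 * h1
    · change s - g.1 0 0 = _
      linear_combination -h1

theorem card_Sol_uSL_three (h3 : (3 : F) = 0) (h8 : Nat.card F % 8 = 3 ∨ Nat.card F % 8 = 5) {b : F} (hb : b ≠ 0) :
    Nat.card (Sol (uSL b)) = Nat.card F * (Nat.card F + 5) := by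
  have h2 := two_ne_zero_of_h8 h8
  have hx : tr (uSL b) = 2 := by rw [tr, trace_uSL]
  have hx2 : tr (uSL b) ^ 2 = 1 := by rw [hx]; linear_combination h3
  have e : Sol (uSL b) = (St (![1, 0] : Fin 2 → F) : Set SL(2, F)) ∪
      {y : SL(2, F) | (tr y, y.1 1 0) ∈ ({0, 1, -1} : Set F) ×ˢ ({b⁻¹, -b⁻¹} : Set F)} := by
    ext y
    have k1 : tr y ∈ ({0, 1, -1} : Set F) ↔ tr y = 0 ∨ tr y ^ 2 = 1 := by simp [sq_eq_one_iff]
    have k2 : y.1 1 0 ∈ ({b⁻¹, -b⁻¹} : Set F) ↔ (b * y.1 1 0) ^ 2 = 1 := by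
      rw [sq_eq_one_iff, Set.mem_insert_iff, Set.mem_singleton_iff]
      refine or_congr ?_ ?_ <;> constructor <;> intro h
      · rw [h, mul_inv_cancel₀ hb]
      · exact eq_inv_of_mul_eq_one_right h
      · rw [h, mul_neg, mul_inv_cancel₀ hb]
      · rw [← neg_eq_iff_eq_neg]; exact eq_inv_of_mul_eq_one_right (by rw [mul_neg, h, neg_neg])
    rw [Set.mem_union, Set.mem_ofPred_eq, Set.mem_prod, k1, k2, SetLike.mem_coe, mem_St_e1]
    constructor
    · intro h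
      by_cases hy : y.1 1 0 = 0
      · exact Or.inl hy
      rcases mem_Sol_SL (Or.inr h8) h with ⟨v, hv, h1, h4⟩ | ⟨z, hz, h1, h4⟩ | ⟨-, S, h1, h4⟩
      · exact absurd (St_eq_of_uSL hb hv h1 h4) hy
      · exact absurd (hx.symm.trans (hz.tr_of_not_mem h1 fun h =>
          not_SS_uSL b (hz.of_mem_Cen h (not_Sc_uSL hb)))) h2
      · have a1 := tr_of_norm_syl h3 h8 h4
        have a2 := tr_of_norm_syl h3 h8 (Subgroup.mul_mem _ h1 h4)
        rw [tr_uSL_mul] at a2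
        refine Or.inr ⟨a1, ?_⟩
        have a3 := mul_ne_zero hb hy
        generalize b * y.1 1 0 = e at *
        generalize tr y = s at *
        have a4 : s ^ 3 = s := by rcases a1 with a | a <;> [simp [a]; linear_combination s * a]
        have a5 : (s + e) ^ 3 = s + e := by rcases a2 with a | a <;> [simp [a]; linear_combination (s + e) * a]
        exact mul_left_cancel₀ a3 (by linear_combination a5 - a4 - (s ^ 2 * e + s * e ^ 2) * h3)
    · rintro (h | ⟨h1, h4⟩)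
      · exact mem_Sol_of (isSolvable_St (v := ![1, 0]) (by simp)) (mem_St_e1.2 rfl) (mem_St_e1.2 h)
      have key : ∀ i : SL(2, F), tr i = 0 → i.1 1 0 = y.1 1 0 → i ∈ Sol (uSL b) := fun i a1 a2 => by
        refine Sol_symm (mem_Sol_of_tr h8 a1 hx2 ?_)
        have : tr (i * uSL b) = tr (uSL b * i) := Matrix.trace_mul_comm _ _
        rw [this, tr_uSL_mul, a1, a2, zero_add, h4]
      rcases h1 with h1 | h1
      · exact key y h1 rfl
      have h5 : (tr y + b * y.1 1 0) * (tr y + -b * y.1 1 0) = 0 := by linear_combination h1 - h4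
      have m1 : ∀ i, uSL b ∈ Subgroup.closure ({uSL b, i} : Set SL(2, F)) := fun i => Subgroup.subset_closure (by simp)
      have m2 : ∀ i, i ∈ Subgroup.closure ({uSL b, i} : Set SL(2, F)) := fun i => Subgroup.subset_closure (by simp)
      rcases mul_eq_zero.1 h5 with h | h <;> rw [← tr_uSL_mul] at h
      · exact mem_Sol_of (key _ h (uSL_mul_10 _ _)) (m1 _) ((Subgroup.mul_mem_cancel_left _ (m1 _)).1 (m2 _))
      · refine mem_Sol_of (key _ h (uSL_mul_10 _ _)) (m1 _) ((Subgroup.mul_mem_cancel_left _ ?_).1 (m2 _))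
        rw [uSL_neg]; exact inv_mem (m1 _)
  have c1 : (St (![1, 0] : Fin 2 → F) : Set SL(2, F)).ncard = _ := card_St_e1
  have n1 : (1 : F) ≠ -1 := fun h => h2 (by linear_combination h)
  have c2 := ncard_mul_eq {y : SL(2, F) | (tr y, y.1 1 0) ∈ ({0, 1, -1} : Set F) ×ˢ ({b⁻¹, -b⁻¹} : Set F)}
    (({0, 1, -1} : Set F) ×ˢ ({b⁻¹, -b⁻¹} : Set F)) (fun y p => (tr y, y.1 1 0) = p) (a := 1) (b := Nat.card F)
    (fun y hy => Set.ncard_eq_one.2 ⟨_, by ext p; exact ⟨fun h => h.2.symm, fun h => ⟨h ▸ hy, h.symm⟩⟩⟩)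
    (fun p hp => by
      rw [← ncard_fiber_10 p.1 (c := p.2) (by rcases hp.2 with h | h <;> rw [h] <;> simp [hb])]
      congr 1; ext y
      exact ⟨fun h => Prod.ext_iff.1 h.2, fun h => ⟨by rw [Set.mem_ofPred_eq, h.1, h.2]; exact hp, Prod.ext h.1 h.2⟩⟩)
  rw [Set.ncard_prod, Set.ncard_pair (fun h => mul_ne_zero h2 (inv_ne_zero hb) (by linear_combination h)),
    Set.ncard_insert_of_notMem (by simp), Set.ncard_pair n1, mul_one] at c2
  rw [e, Nat.card_coe_set_eq, Set.ncard_union_eq, c1, c2]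
  · obtain ⟨n, hn⟩ : ∃ n, Nat.card F = n + 1 := ⟨Nat.card F - 1, by omega⟩
    rw [hn, Nat.add_sub_cancel]; ring
  · rw [Set.disjoint_left]
    intro y a c
    have := c.2
    rw [mem_St_e1.1 a] at this
    simp [hb] at this
    exact hb this.symm

theorem ncard_sq_add_sq (hr : ∀ x : F, x ^ 2 - 0 * x + 1 ≠ 0) (h2 : (2 : F) ≠ 0) {c : F} (hc : c ≠ 0) :
    Nat.card {p : F × F // p.1 ^ 2 + p.2 ^ 2 = c} = Nat.card F + 1 := by
  have h4 : (0 : F) ^ 2 ≠ 4 * 1 := fun h => mul_ne_zero h2 h2 (by linear_combination -h)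
  have h1 := card_form_one (Or.inr h4)
  rw [nroots_of_none hr, Nat.sub_zero] at h1
  obtain ⟨a, b, hab⟩ := exists_form_eq (Or.inr h4) c
  rw [← h1]
  symm
  refine Nat.card_eq_of_bijective (fun s => ⟨(a * s.1.1 - b * s.1.2, a * s.1.2 + b * s.1.1), by
    linear_combination (a ^ 2 + b ^ 2) * s.2 + hab⟩) ⟨?_, ?_⟩
  · rintro ⟨⟨x, y⟩, _⟩ ⟨⟨x', y'⟩, _⟩ h
    simp only [Subtype.mk.injEq, Prod.mk.injEq] at h ⊢
    exact ⟨mul_left_cancel₀ hc (by linear_combination a * h.1 + b * h.2 - (x - x') * hab),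
      mul_left_cancel₀ hc (by linear_combination a * h.2 - b * h.1 - (y - y') * hab)⟩
  · rintro ⟨⟨x, y⟩, h⟩
    simp only at h
    refine ⟨⟨((a * x + b * y) / c, (a * y - b * x) / c), ?_⟩, Subtype.ext (Prod.ext ?_ ?_)⟩ <;> simp only <;> field_simp
    · linear_combination (a ^ 2 + b ^ 2) * h + c * hab
    · linear_combination x * hab
    · linear_combination y * hab

omit [Finite F] in
theorem tr_comp_mul (y : SL(2, F)) : tr (compSL 0 * y) = y.1 0 1 - y.1 1 0 := by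
  rw [tr, trace_fin_two, Matrix.SpecialLinearGroup.coe_mul, m2_mul_apply, m2_mul_apply]
  simp [H2.comp]; ring

theorem ncard_fiber_tr (hr : ∀ x : F, x ^ 2 - 0 * x + 1 ≠ 0) (h2 : (2 : F) ≠ 0) {s t : F} (h : s ^ 2 + t ^ 2 ≠ 4) :
    {y : SL(2, F) | tr y = s ∧ tr (compSL 0 * y) = t}.ncard = Nat.card F + 1 := by
  rw [← Nat.card_coe_set_eq, ← ncard_sq_add_sq hr h2 (sub_ne_zero.2 h)]
  symm
  refine Nat.card_eq_of_bijective (fun p => ⟨toSL !![(s + p.1.1) / 2, (t + p.1.2) / 2; (p.1.2 - t) / 2, (s - p.1.1) / 2]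
    (by rw [det_fin_two_of]; field_simp; linear_combination -p.2), ?_, ?_⟩) ⟨?_, ?_⟩
  · simp [tr, trace_fin_two]; field_simp; ring
  · rw [tr_comp_mul]; simp; field_simp; ring
  · rintro ⟨⟨x, y⟩, _⟩ ⟨⟨x', y'⟩, _⟩ h
    have h1 : (s + x) / 2 = (s + x') / 2 :=
      congrArg (fun g : {y : SL(2, F) | tr y = s ∧ tr (compSL 0 * y) = t} => g.1.1 0 0) h
    have h3 : (t + y) / 2 = (t + y') / 2 :=
      congrArg (fun g : {y : SL(2, F) | tr y = s ∧ tr (compSL 0 * y) = t} => g.1.1 0 1) h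
    field_simp at h1 h3
    exact Subtype.ext (Prod.ext (by linear_combination h1) (by linear_combination h3))
  · rintro ⟨g, h1, h3⟩
    have hd := g.det_coe
    rw [tr, trace_fin_two] at h1
    rw [tr_comp_mul] at h3
    rw [det_fin_two] at hd
    refine ⟨⟨(g.1 0 0 - g.1 1 1, g.1 0 1 + g.1 1 0), by rw [← h1, ← h3]; linear_combination -4 * hd⟩,
      Subtype.ext (SL_ext (m2_ext ?_ ?_ ?_ ?_))⟩ <;> simp <;> field_simp
    · linear_combination -h1
    · linear_combination -h3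
    · linear_combination h3
    · linear_combination -h1

theorem card_Sol_tr_zero (h3 : (3 : F) = 0) (h8 : Nat.card F % 8 = 3) {i : SL(2, F)} (hi : tr i = 0) :
    Nat.card (Sol i) = 2 * Nat.card F * (Nat.card F + 1) := by
  have h2 := two_ne_zero_of_h8 (Or.inl h8)
  have h0 : tr (compSL (0 : F)) = 0 := by simp [tr]
  have hS := SS_of_tr_zero h2 h0
  obtain ⟨t, e⟩ := isConj_iff.1 (isConj_SL_of (SS_of_tr_zero h2 hi).not_sc hS.not_sc (hi.trans h0.symm)
    (Or.inr (SS_of_tr_zero h2 hi)))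
  rw [← card_Sol_conj t, e]
  clear e hi t i
  have hC := (hS.card_Cen.resolve_left fun h => by
    have := four_dvd_card_Cen h2 h0
    omega)
  have hr := hC.1
  rw [h0] at hr
  have hcen : ∀ y : SL(2, F), y ∈ Cen (compSL 0) ↔ tr y ^ 2 + tr (compSL 0 * y) ^ 2 = 4 := fun y => by
    have hd := y.det_coe
    rw [det_fin_two] at hd
    rw [tr_comp_mul, mem_centralizer_SL_iff, m2_ext_iff, tr, trace_fin_two]
    simp only [m2_mul_apply, coe_compSL, H2.comp]
    simp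
    constructor
    · rintro ⟨a, b, -⟩
      rw [a, b] at hd ⊢
      linear_combination 4 * hd
    · intro h
      have a : y.1 0 1 + y.1 1 0 = 0 := by
        by_contra a
        apply hr ((y.1 0 0 - y.1 1 1) / (y.1 0 1 + y.1 1 0))
        field_simp
        linear_combination h - 4 * hd
      have b : (y.1 0 0 - y.1 1 1) ^ 2 = 0 := by linear_combination h - 4 * hd - (y.1 0 1 + y.1 1 0) * a
      have b' := sub_eq_zero.1 (pow_eq_zero_iff two_ne_zero |>.1 b)
      exact ⟨by linear_combination a, b', b'.symm, by linear_combination -a⟩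
  set P : Set (F × F) := (({0} : Set F) ×ˢ ({1, -1} : Set F)ᶜ ∪ ({0, 1, -1} : Set F)ᶜ ×ˢ ({0} : Set F)) ∪
    ({1, -1} : Set F) ×ˢ ({1, -1} : Set F) with hP
  have n1 : (1 : F) ≠ -1 := fun h => h2 (by linear_combination h)
  have mP : ∀ s t : F, (s, t) ∈ P ↔ s ^ 2 + t ^ 2 ≠ 4 ∧ (s = 0 ∨ t = 0 ∨ (s ^ 2 = 1 ∧ t ^ 2 = 1)) := fun s t => by
    have e4 : (4 : F) = 1 := by linear_combination h3
    simp only [hP, Set.mem_union, Set.mem_prod, Set.mem_compl_iff, Set.mem_insert_iff, Set.mem_singleton_iff,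
      ← sq_eq_one_iff, e4]
    constructor
    · rintro ((⟨rfl, a⟩ | ⟨a, rfl⟩) | ⟨a, b⟩)
      · exact ⟨by simpa using a, Or.inl rfl⟩
      · exact ⟨fun h => a (Or.inr (by simpa using h)), Or.inr (Or.inl rfl)⟩
      · exact ⟨by rw [a, b]; simp, Or.inr (Or.inr ⟨a, b⟩)⟩
    · rintro ⟨a, rfl | rfl | b⟩
      · exact Or.inl (Or.inl ⟨rfl, by simpa using a⟩)
      · by_cases h : s = 0
        · exact Or.inl (Or.inl ⟨h, by simp⟩)
        · exact Or.inl (Or.inr ⟨fun h' => h'.elim h (by simpa using a), rfl⟩)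
      · exact Or.inr b
  have cP : P.ncard + 1 = 2 * Nat.card F := by
    have a1 := Set.ncard_add_ncard_compl ({1, -1} : Set F)
    have a2 := Set.ncard_add_ncard_compl ({0, 1, -1} : Set F)
    rw [Set.ncard_insert_of_notMem (a := 0) (by simp)] at a2
    rw [hP, Set.ncard_union_eq, Set.ncard_union_eq, Set.ncard_prod, Set.ncard_prod, Set.ncard_prod, Set.ncard_singleton]
    · rw [Set.ncard_pair n1] at *; omega
    · rw [Set.disjoint_left]; rintro ⟨s, t⟩ a b; exact b.1 (Or.inl a.1)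
    · rw [Set.disjoint_left]
      rintro ⟨s, t⟩ (a | a) b
      · exact a.2 b.2
      · exact a.1 (Or.inr b.1)
  have e : Sol (compSL (0 : F)) = (Cen (compSL (0 : F)) : Set SL(2, F)) ∪ {y | (tr y, tr (compSL 0 * y)) ∈ P} := by
    ext y
    rw [Set.mem_union, Set.mem_ofPred_eq, mP, SetLike.mem_coe, Ne, ← hcen]
    generalize compSL (0 : F) = i at *
    constructor
    · intro h
      by_cases hy : y ∈ Cen i
      · exact Or.inl hy
      refine Or.inr ⟨hy, ?_⟩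
      rcases mem_Sol_SL (Or.inr (Or.inl h8)) h with ⟨v, hv, h1, -⟩ | ⟨z, hz, h1, h4⟩ | ⟨-, S, h1, h4⟩
      · obtain ⟨c, hc⟩ := root_of_mem_St hv h1
        exact absurd hc (hC.1 c)
      · by_cases a : y ∈ Cen z
        · have b : i ∉ Cen z := fun b => hy (mem_Cen.2 (Cen_comm hz.not_sc a b))
          exact Or.inr (Or.inl (hz.tr_of_not_mem (Subgroup.mul_mem _ h1 h4) fun h =>
            b ((Subgroup.mul_mem_cancel_right _ a).1 h)))
        · exact Or.inl (hz.tr_of_not_mem h4 a)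
      · rcases tr_of_norm_syl h3 (Or.inl h8) h4 with a | a
        · exact Or.inl a
        rcases tr_of_norm_syl h3 (Or.inl h8) (Subgroup.mul_mem _ h1 h4) with b | b
        · exact Or.inr (Or.inl b)
        · exact Or.inr (Or.inr ⟨a, b⟩)
    · rintro (h | ⟨h, h1 | h1 | h1⟩)
      · exact mem_Sol_of hS.isSolvable_NC (Cen_le_NC _ (self_mem_Cen _)) (Cen_le_NC _ h)
      · have h4 := mem_NC_of_inv' (inv_mul_of_tr h0 h1)
        exact mem_Sol_of (isSolvable_NC fun a => h ((Subgroup.mul_mem_cancel_left _ (self_mem_Cen i)).1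
          (a.mem_Cen i))) h4 ((Subgroup.mul_mem_cancel_left _ h4).1 (Cen_le_NC _ (self_mem_Cen _)))
      · exact mem_Sol_of (isSolvable_NC fun a => h (a.mem_Cen i)) (mem_NC_of_inv' (inv_of_tr_mul h0 h1))
          (Cen_le_NC _ (self_mem_Cen _))
      · exact mem_Sol_of_tr (Or.inl h8) h0 h1.1 h1.2
  have c2 := ncard_mul_eq {y : SL(2, F) | (tr y, tr (compSL 0 * y)) ∈ P} P
    (fun y p => (tr y, tr (compSL 0 * y)) = p) (a := 1) (b := Nat.card F + 1)
    (fun y hy => Set.ncard_eq_one.2 ⟨_, by ext p; exact ⟨fun h => h.2.symm, fun h => ⟨h ▸ hy, h.symm⟩⟩⟩)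
    (fun p hp => by
      rw [← ncard_fiber_tr hr h2 ((mP p.1 p.2).1 hp).1]
      congr 1; ext y
      exact ⟨fun h => Prod.ext_iff.1 h.2, fun h => ⟨by rw [Set.mem_ofPred_eq, h.1, h.2]; exact hp, Prod.ext h.1 h.2⟩⟩)
  have c1 : (Cen (compSL (0 : F)) : Set SL(2, F)).ncard = _ := hC.2
  rw [e, Nat.card_coe_set_eq, Set.ncard_union_eq, c1, ← mul_one (Set.ncard _), c2, ← cP]
  · ring
  · exact Set.disjoint_left.2 fun y a b => ((mP _ _).1 b).1 ((hcen y).1 a)

end Cfsg.Agent.H2
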