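import Cfsg.Agent.H7.TT7
import Cfsg.Agent.H1.OmW

/-! Two-transitive actions of orthogonal groups: root elements and Heisenberg subgroups. -/

set_option autoImplicit false
set_option linter.unusedSectionVars false

namespace Cfsg.Agent.H2.TO

open Finset MulAction Module Cfsg.Agent.H1 Cfsg.Agent.H6 Cfsg.Agent.H7
open scoped commutatorElement

theorem dvd_card_ob {G Ω : Type*} [Group G] [MulAction G Ω] [Finite Ω] {M : ℕ} (P : Subgroup G)
    (h : ∀ x : Ω, M ∣ ob P x) : M ∣ Nat.card Ω := by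
  have := Fintype.ofFinite (orbitRel.Quotient P Ω)
  rw [Nat.card_congr (selfEquivSigmaOrbits P Ω), Nat.card_sigma]
  exact Finset.dvd_sum fun a _ => h _

variable {F : Type*} [Field F] [Fintype F] {E : Type*} [AddCommGroup E] [Module F E] [FiniteDimensional F E]
  [Fintype E] {Q : QuadraticForm F E}

/-- Singular vectors generate additively. -/
theorem sing_ind {T : Submodule F E} {p p' : E} (hh : Hyp Q p p') (hp : p ∈ T) (hp' : p' ∈ T) (S : AddSubgroup E)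
    (hS : ∀ v ∈ T, Q v = 0 → v ∈ S) {b : E} (hb : b ∈ T) : b ∈ S := by
  have h1 := hh.proj_mem hp hp' hb
  obtain ⟨w, hw⟩ : ∃ w, w = b - pb Q p' b • p - pb Q p b • p' := ⟨_, rfl⟩
  rw [← hw] at h1
  have : b = ((1 : F) • p + (-Q w) • p' + w) + (pb Q p' b - 1) • p + (pb Q p b + Q w) • p' := by
    rw [hw]; module
  rw [this]
  exact S.add_mem (S.add_mem (hS _ (T.add_mem (T.add_mem (T.smul_mem _ hp) (T.smul_mem _ hp')) (mem_hc.1 h1).1)
    (by rw [hh.Q_comb h1]; ring)) (hS _ (T.smul_mem _ hp) (by simp [Q_smul, hh.l])))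
    (hS _ (T.smul_mem _ hp') (by simp [Q_smul, hh.r]))

/-- A basis of a totally singular plane. -/
structure RP (Q : QuadraticForm F E) (a b : E) : Prop where
  l : Q a = 0
  r : Q b = 0
  lr : pb Q a b = 0
  ind : ∀ s t : F, s • a + t • b = 0 → s = 0 ∧ t = 0

theorem RP.ne {a b : E} (h : RP Q a b) : a ≠ 0 := fun e => one_ne_zero (h.ind 1 0 (by simp [e])).1

theorem RP.nm {a b : E} (h : RP Q a b) : b ∉ F ∙ a := fun e => by
  obtain ⟨c, e⟩ := Submodule.mem_span_singleton.1 e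
  simpa using (h.ind c (-1) (by simp [e])).2

theorem RP.of {a b : E} (h1 : Q a = 0) (h2 : Q b = 0) (h3 : pb Q a b = 0) (h4 : a ≠ 0) (h5 : b ∉ F ∙ a) :
    RP Q a b := ⟨h1, h2, h3, fun s t e => by
  have ht : t = 0 := by
    by_contra ht
    exact h5 (Submodule.mem_span_singleton.2 ⟨-s / t, by
      rw [← smul_right_inj ht, smul_smul, mul_div_cancel₀ _ ht, neg_smul, neg_eq_iff_add_eq_zero, e]⟩)
  simpa [ht, h4] using e⟩

theorem RP.rl {a b : E} (h : RP Q a b) : pb Q b a = 0 := by rw [pb_comm, h.lr]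
theorem RP.ll {a b : E} (h : RP Q a b) : pb Q a a = 0 := pb_sing h.l
theorem RP.rr {a b : E} (h : RP Q a b) : pb Q b b = 0 := pb_sing h.r

theorem RP.symm {a b : E} (h : RP Q a b) : RP Q b a :=
  ⟨h.r, h.l, h.rl, fun s t e => (h.ind t s (by rwa [add_comm])).symm⟩

theorem oA_inj (g : Om Q) : Function.Injective (oA Q g) := fun x y e => by
  rw [← act_inv_apply (oA Q) g x, e, act_inv_apply]

theorem RP.map {a b : E} (h : RP Q a b) (g : Om Q) : RP Q (oA Q g a) (oA Q g b) :=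
  ⟨by rw [oA_Q, h.l], by rw [oA_Q, h.r], by rw [oA_pb, h.lr], fun s t e => h.ind s t (oA_inj g (by simpa using e))⟩

variable (h : OH Q)

theorem ez_cj (g : Om Q) (a b : E) : h.ez (oA Q g a) (oA Q g b) = g * h.ez a b * g⁻¹ := by
  rw [h.ez_conj, mul_inv_cancel_right]

theorem ez_eq_one {a c : E} (ha : Q a = 0) (ha0 : a ≠ 0) (hc : pb Q a c = 0) (e : h.ez a c = 1) : c ∈ F ∙ a := by
  obtain ⟨y, -, hy⟩ := exists_dual h.nd ⊥ (u := a) (by simpa using ha0)
  have := h.ez_apply ha hc y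
  rw [e, map_one, Module.End.one_apply, pb_comm Q y a, hy] at this
  exact Submodule.mem_span_singleton.2 ⟨pb Q y c - Q c, by linear_combination (norm := module) -this⟩

/-- The vectors `b` whose Eichler transformation with centre `a` lies in `H`. -/
def ezS (H : Subgroup (Om Q)) {a : E} (ha : Q a = 0) : AddSubgroup E where
  carrier := {b | pb Q a b = 0 ∧ h.ez a b ∈ H}
  zero_mem' := ⟨by simp, by rw [h.ez_zero]; exact one_mem _⟩
  add_mem' {b c} hb hc := ⟨by simp [hb.1, hc.1], by rw [h.ez_add ha hb.1 hc.1]; exact mul_mem hb.2 hc.2⟩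
  neg_mem' {b} hb := ⟨by simp [hb.1], by rw [← h.ez_inv ha hb.1]; exact inv_mem hb.2⟩

theorem mem_ezS {H : Subgroup (Om Q)} {a b : E} {ha : Q a = 0} : b ∈ ezS h H ha ↔ pb Q a b = 0 ∧ h.ez a b ∈ H :=
  Iff.rfl

/-- All Eichler transformations of `X^⊥` from the root elements. -/
theorem ez_mem_of_root {X : Submodule F E} (hX : 2 * finrank F X + 5 ≤ finrank F E) (H : Subgroup (Om Q))
    (hH : ∀ a ∈ oc Q X, ∀ b ∈ oc Q X, RP Q a b → h.ez a b ∈ H) {a b : E} (ha : a ∈ oc Q X) (hb : b ∈ oc Q X)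
    (h1 : Q a = 0) (h2 : pb Q a b = 0) : h.ez a b ∈ H := by
  rcases eq_or_ne a 0 with rfl | h0
  · rw [h.ez_zero_left]; exact one_mem _
  obtain ⟨p, p', -, -, hh, hp, hp', -⟩ := exists_hyp_room h.nd (X := X ⊔ F ∙ a) (by
    have := finrank_inf_oc_le (Q := Q) (X ⊔ F ∙ a)
    have := finrank_sup_span_le X a
    omega)
  refine (sing_ind hh hp hp' (ezS h H h1) (fun v hv hv0 => ?_) (mem_oc_sup.2 ⟨hb, mem_oc_span.2 h2⟩)).2
  rw [mem_oc_sup, mem_oc_span] at hv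
  refine ⟨hv.2, ?_⟩
  by_cases k : v ∈ F ∙ a
  · obtain ⟨c, rfl⟩ := Submodule.mem_span_singleton.1 k
    rw [h.ez_self]; exact one_mem _
  · exact hH a ha v hv.1 (.of h1 hv0 hv.2 h0 k)

section Heis

variable {a b : E} (hab : RP Q a b) {W : Submodule F E} (hW : ∀ w ∈ W, pb Q a w = 0 ∧ pb Q b w = 0)

/-- Elements of the Heisenberg group. -/
noncomputable def hx (a b u v : E) (μ : F) : Om Q := h.ez a (u + μ • b) * h.ez b v

include hab hW

theorem hx_mul {u v u' v' : E} (hu : u ∈ W) (hv : v ∈ W) (hu' : u' ∈ W) (hv' : v' ∈ W) (μ μ' : F) :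
    hx h a b u v μ * hx h a b u' v' μ' = hx h a b (u + u') (v + v') (μ + μ' + pb Q u' v) := by
  have k1 := h.ez_conj (h.ez b v) a (u' + μ' • b)
  rw [h.ez_fix hab.r (hW v hv).2 hab.lr (hW v hv).1, h.ez_apply hab.r (hW v hv).2] at k1
  simp only [map_add, map_smul, LinearMap.add_apply, LinearMap.smul_apply, (hW v hv).2, hab.rr,
    pb_comm Q u' b, (hW u' hu').2, smul_eq_mul, mul_zero, add_zero, zero_smul, sub_zero] at k1
  rw [hx, hx, hx, mul_assoc, ← mul_assoc (h.ez b v), k1, ← mul_assoc, ← mul_assoc, ← h.ez_add hab.l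
    (by simp [(hW u hu).1, hab.lr]) (by simp [(hW u' hu').1, hab.lr]), mul_assoc,
    ← h.ez_add hab.r (hW v hv).2 (hW v' hv').2]
  congr 2
  module

omit hab hW in
theorem hx_zero : hx h a b 0 0 (0 : F) = 1 := by simp [hx, h.ez_zero]

theorem hx_inv {u v : E} (hu : u ∈ W) (hv : v ∈ W) (μ : F) :
    (hx h a b u v μ)⁻¹ = hx h a b (-u) (-v) (pb Q u v - μ) := by
  rw [inv_eq_iff_mul_eq_one, hx_mul h hab hW hu hv (neg_mem hu) (neg_mem hv)]
  simpa using hx_zero h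

theorem hx_apply {u v w : E} (hu : u ∈ W) (hv : v ∈ W) (hw : w ∈ W) (μ : F) :
    oA Q (hx h a b u v μ) w = w + pb Q w u • a + pb Q w v • b := by
  rw [hx, act_mul_apply, h.ez_apply hab.r (hW v hv).2, h.ez_apply hab.l (by simp [(hW u hu).1, hab.lr])]
  simp only [map_add, map_smul, map_sub, LinearMap.add_apply, LinearMap.smul_apply, LinearMap.sub_apply,
    pb_comm Q w a, pb_comm Q w b, (hW w hw).1, (hW w hw).2, (hW u hu).2, hab.rr, hab.rl, smul_eq_mul, mul_zero,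
    add_zero, zero_smul, sub_zero]
  abel

/-- The Heisenberg group. -/
def HG : Subgroup (Om Q) where
  carrier := {g | ∃ u ∈ W, ∃ v ∈ W, ∃ μ : F, hx h a b u v μ = g}
  one_mem' := ⟨0, zero_mem _, 0, zero_mem _, 0, hx_zero h⟩
  mul_mem' := by
    rintro _ _ ⟨u, hu, v, hv, μ, rfl⟩ ⟨u', hu', v', hv', μ', rfl⟩
    exact ⟨_, add_mem hu hu', _, add_mem hv hv', _, (hx_mul h hab hW hu hv hu' hv' μ μ').symm⟩
  inv_mem' := by
    rintro _ ⟨u, hu, v, hv, μ, rfl⟩
    exact ⟨_, neg_mem hu, _, neg_mem hv, _, (hx_inv h hab hW hu hv μ).symm⟩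

omit hW in
/-- The root subgroup. -/
def RG : Subgroup (Om Q) where
  carrier := {g | ∃ μ : F, h.ez a (μ • b) = g}
  one_mem' := ⟨0, by simp [h.ez_zero]⟩
  mul_mem' := by
    rintro _ _ ⟨μ, rfl⟩ ⟨μ', rfl⟩
    exact ⟨μ + μ', by rw [add_smul, h.ez_add hab.l (by simp [hab.lr]) (by simp [hab.lr])]⟩
  inv_mem' := by
    rintro _ ⟨μ, rfl⟩
    exact ⟨-μ, by rw [h.ez_inv hab.l (by simp [hab.lr]), neg_smul]⟩

omit hab hW in
theorem hx_cent (μ : F) : hx h a b 0 0 μ = h.ez a (μ • b) := by simp [hx, h.ez_zero]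

omit hW in
theorem ez_root_inj {μ μ' : F} (e : h.ez a (μ • b) = h.ez a (μ' • b)) : μ = μ' := by
  have := ez_eq_one h hab.l hab.ne (c := (μ - μ') • b) (by simp [hab.lr]) (by
    rw [sub_smul, sub_eq_add_neg, h.ez_add hab.l (by simp [hab.lr]) (by simp [hab.lr]),
      ← h.ez_inv hab.l (by simp [hab.lr]), e, mul_inv_cancel])
  by_contra k
  exact hab.nm ((Submodule.smul_mem_iff _ (sub_ne_zero.2 k)).1 this)

omit hW in
theorem card_RG : Nat.card (RG h hab) = Fintype.card F := by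
  rw [← Nat.card_eq_fintype_card]
  exact (Nat.card_eq_of_bijective (fun μ : F => (⟨h.ez a (μ • b), μ, rfl⟩ : RG h hab))
    ⟨fun _ _ e => ez_root_inj h hab (congrArg Subtype.val e), fun ⟨_, μ, e⟩ => ⟨μ, Subtype.ext e⟩⟩).symm

theorem card_HG (hn : ND Q W) : Nat.card (HG h hab hW) = Nat.card W * Nat.card W * Fintype.card F := by
  rw [← Nat.card_eq_fintype_card, ← Nat.card_prod, ← Nat.card_prod]
  refine (Nat.card_eq_of_bijective (fun p : (W × W) × F => (⟨hx h a b p.1.1 p.1.2 p.2, _, p.1.1.2, _, p.1.2.2, _, rfl⟩ :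
    HG h hab hW)) ⟨?_, fun ⟨_, u, hu, v, hv, μ, e⟩ => ⟨((⟨u, hu⟩, ⟨v, hv⟩), μ), Subtype.ext e⟩⟩).symm
  rintro ⟨⟨⟨u, hu⟩, ⟨v, hv⟩⟩, μ⟩ ⟨⟨⟨u', hu'⟩, ⟨v', hv'⟩⟩, μ'⟩ e
  replace e : hx h a b u v μ = hx h a b u' v' μ' := congrArg Subtype.val e
  have k : ∀ w ∈ W, pb Q (u - u') w = 0 ∧ pb Q (v - v') w = 0 := fun w hw => by
    have k1 := hx_apply h hab hW hu hv hw μ
    rw [e, hx_apply h hab hW hu' hv' hw] at k1
    rw [pb_comm, pb_comm Q (v - v')]
    exact hab.ind _ _ (by simp only [map_sub]; linear_combination (norm := module) -k1)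
  obtain rfl : u = u' := by
    by_contra k1
    obtain ⟨y, hy, k2⟩ := hn _ (sub_mem hu hu') (sub_ne_zero.2 k1)
    exact k2 (k y hy).1
  obtain rfl : v = v' := by
    by_contra k1
    obtain ⟨y, hy, k2⟩ := hn _ (sub_mem hv hv') (sub_ne_zero.2 k1)
    exact k2 (k y hy).2
  rw [hx, hx, mul_left_inj, h.ez_add hab.l (hW u hu).1 (by simp [hab.lr]), h.ez_add hab.l (hW u hu).1
    (by simp [hab.lr]), mul_right_inj] at e
  rw [ez_root_inj h hab e]

theorem hx_comm {u v u' v' : E} (hu : u ∈ W) (hv : v ∈ W) (hu' : u' ∈ W) (hv' : v' ∈ W) (μ μ' : F) :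
    ⁅hx h a b u v μ, hx h a b u' v' μ'⁆ = h.ez a ((pb Q u' v - pb Q u v') • b) := by
  rw [commutatorElement_def, hx_inv h hab hW hu hv, hx_inv h hab hW hu' hv', hx_mul h hab hW hu hv hu' hv',
    hx_mul h hab hW (add_mem hu hu') (add_mem hv hv') (neg_mem hu) (neg_mem hv),
    hx_mul h hab hW (add_mem (add_mem hu hu') (neg_mem hu)) (add_mem (add_mem hv hv') (neg_mem hv)) (neg_mem hu')
      (neg_mem hv'), ← hx_cent]
  congr 1
  · abel
  · abel
  · simp only [map_add, map_neg, LinearMap.neg_apply]; ring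

theorem HG_bound (hn : ND Q W) {D : Subgroup (Om Q)} (hD : D ≤ HG h hab hW) (hR : ¬ RG h hab ≤ D) :
    Nat.card D ≤ Nat.card W * Nat.card ↥(D ⊓ RG h hab) := by
  have := finite_Om (Q := Q)
  have k := heis (Q := HG h hab hW) (R := RG h hab) (fun _ ⟨μ, e⟩ => ⟨0, zero_mem _, 0, zero_mem _, μ, by
      rw [hx_cent, e]⟩)
    (by
      rintro _ ⟨μ, rfl⟩ _ ⟨u, hu, v, hv, μ', rfl⟩
      rw [← hx_cent, hx_mul h hab hW (zero_mem _) (zero_mem _) hu hv, hx_mul h hab hW hu hv (zero_mem _) (zero_mem _)]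
      simp [add_comm])
    (by
      rintro _ ⟨u, hu, v, hv, μ, rfl⟩ _ ⟨u', hu', v', hv', μ', rfl⟩
      exact ⟨_, (hx_comm h hab hW hu hv hu' hv' μ μ').symm⟩)
    (by
      rintro _ ⟨u, hu, v, hv, μ, rfl⟩ k _ ⟨ν, rfl⟩
      by_cases k1 : v = 0
      · have k2 : u ≠ 0 := by rintro rfl; exact k ⟨μ, by rw [k1, hx_cent]⟩
        obtain ⟨y, hy, k3⟩ := hn u hu k2
        refine ⟨_, ⟨0, zero_mem _, (-ν / pb Q u y) • y, W.smul_mem _ hy, 0, rfl⟩, ?_⟩
        rw [hx_comm h hab hW hu hv (zero_mem _) (W.smul_mem _ hy)]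
        simp [k3]
      · obtain ⟨y, hy, k3⟩ := hn v hv k1
        refine ⟨_, ⟨(ν / pb Q v y) • y, W.smul_mem _ hy, 0, zero_mem _, 0, rfl⟩, ?_⟩
        rw [hx_comm h hab hW hu hv (W.smul_mem _ hy) (zero_mem _)]
        simp [k3, pb_comm Q y v]) hD hR
  rw [card_HG h hab hW hn, card_RG] at k
  refine (Nat.pow_le_pow_iff_left two_ne_zero).1 (Nat.le_of_mul_le_mul_right (c := Fintype.card F) ?_ Fintype.card_pos)
  exact k.trans (le_of_eq (by ring))

end Heis

end Cfsg.Agent.H2.TO
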