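import Cfsg.Agent.H2.TO1
import Cfsg.Agent.H2.M2

/-! Two-transitive actions of orthogonal groups: root elements have no fixed points; the basic congruences. -/

set_option autoImplicit false
set_option linter.unusedSectionVars false

namespace Cfsg.Agent.H2.TO

open Finset MulAction Module Cfsg.Agent.H1 Cfsg.Agent.H6 Cfsg.Agent.H7
open scoped MatrixGroups

variable {F : Type*} [Field F] [Fintype F] {E : Type*} [AddCommGroup E] [Module F E] [FiniteDimensional F E]
  [Fintype E] {Q : QuadraticForm F E} (h : OH Q) {Ω : Type*} [Finite Ω] [MulAction (Om Q) Ω]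

/-- The stabiliser of a singular flag is transitive. -/
def FlagT (Q : QuadraticForm F E) (Ω : Type*) [MulAction (Om Q) Ω] : Prop :=
  ∃ e1 e2 : E, Q e1 = 0 ∧ Q e2 = 0 ∧ pb Q e1 e2 = 0 ∧ e1 ≠ 0 ∧ e2 ∉ F ∙ e1 ∧
    ∀ x y : Ω, ∃ g : Om Q, g • x = y ∧ oA Q g e1 ∈ F ∙ e1 ∧ oA Q g e2 ∈ F ∙ e1 ⊔ F ∙ e2

/-- No root element has a fixed point. -/
def NoFix (Ω : Type*) [MulAction (Om Q) Ω] : Prop := ∀ a b, RP Q a b → ∀ x : Ω, h.ez a b • x ≠ x

theorem cj_fix {G Ω : Type*} [Group G] [MulAction G Ω] (g u : G) (x : Ω) :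
    (g * u * g⁻¹) • g • x = g • x ↔ u • x = x := by
  simp [mul_smul]

theorem no_fix (h7 : 7 ≤ finrank F E) (ht : TT (Om Q) Ω) (hf : FlagT Q Ω) : NoFix h Ω := by
  obtain ⟨e1, e2, h1, h2, h3, h4, h5, hf⟩ := hf
  have he := RP.of h1 h2 h3 h4 h5
  let d : E → E → Ω → ℕ := fun a b x => Nat.card {k : F // h.ez a (k • b) • x = x}
  have d1 : ∀ (g : Om Q) a b x, d (oA Q g a) (oA Q g b) (g • x) = d a b x := fun g a b x =>
    Nat.card_congr (Equiv.subtypeEquivRight fun k => by rw [← map_smul, ez_cj, cj_fix])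
  have d2 : ∀ x y, d e1 e2 x = d e1 e2 y := fun x y => by
    obtain ⟨g, rfl, k1, k2⟩ := hf x y
    have k3 := he.map g
    rw [← d1 g]
    obtain ⟨c, k1⟩ := Submodule.mem_span_singleton.1 k1
    obtain ⟨_, k4, _, k5, k2⟩ := Submodule.mem_sup.1 k2
    obtain ⟨s, rfl⟩ := Submodule.mem_span_singleton.1 k4
    obtain ⟨t, rfl⟩ := Submodule.mem_span_singleton.1 k5
    rw [← k1, ← k2] at k3 ⊢
    have hc : c ≠ 0 := by rintro rfl; exact k3.ne (by simp)
    have ht0 : t ≠ 0 := by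
      rintro rfl
      exact k3.nm (Submodule.mem_span_singleton.2 ⟨s / c, by simp [smul_smul, hc]⟩)
    refine Nat.card_congr ((MulAction.toPerm (Units.mk0 (c * t) (mul_ne_zero hc ht0))).subtypeEquiv fun k => ?_)
    rw [h.ez_smul h1 (by simp [he.ll, h3]), show c • k • (s • e1 + t • e2) = (c * k * s) • e1 + (c * t * k) • e2 by
      module, h.ez_add h1 (by simp [he.ll]) (by simp [h3]), h.ez_self, one_mul]
    rfl
  have := ht.nt
  obtain ⟨x0⟩ : Nonempty Ω := inferInstance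
  have d3 : ∀ a b, RP Q a b → ∀ x, d a b x = d e1 e2 x0 := fun a b k x => by
    obtain ⟨g, rfl, rfl⟩ := h.witt_two h7 h4 h5 k.ne k.nm (k.l.trans h1.symm) (k.r.trans h2.symm) (k.lr.trans h3.symm)
    rw [← smul_inv_smul g x, d1, d2]
  obtain ⟨e3, k1, k2, k3⟩ := exists_sing_not_mem Q (Y := oc Q (F ∙ e1 ⊔ F ∙ e2)) (R := F ∙ e1 ⊔ F ∙ e2)
    (sup_le ((Submodule.span_singleton_le_iff_mem _ _).2 (mem_oc_sup.2 ⟨mem_oc_span.2 he.ll, mem_oc_span.2 he.rl⟩))
      ((Submodule.span_singleton_le_iff_mem _ _).2 (mem_oc_sup.2 ⟨mem_oc_span.2 he.lr, mem_oc_span.2 he.rr⟩))) (by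
      have := finrank_oc h.nd (F ∙ e1 ⊔ F ∙ e2)
      have := finrank_sup_span_le (F ∙ e1) e2
      have := finrank_span_le (F := F) e1
      omega)
  rw [mem_oc_sup, mem_oc_span, mem_oc_span] at k1
  let φ : F × F →ₗ[F] E := (LinearMap.toSpanSingleton F E e2).coprod (LinearMap.toSpanSingleton F E e3)
  have hφ : ∀ v, φ v = v.1 • e2 + v.2 • e3 := fun v => rfl
  have k4 := line_lemma ((ezS h (stabilizer (Om Q) x0) h1).comap φ.toAddMonoidHom) (d := d e1 e2 x0) fun v hv => by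
    rw [← d3 e1 (φ v) ⟨h1, by simp [hφ, Q_add, Q_smul, h2, k3, k1.2], by simp [hφ, h3, k1.1], fun s t e => ?_⟩ x0]
    · refine Nat.card_congr (Equiv.subtypeEquivRight fun k => ?_)
      change φ (k • v) ∈ ezS h _ h1 ↔ _
      rw [mem_ezS, map_smul]
      exact and_iff_right (by simp [hφ, h3, k1.1])
    have k5 : t * v.2 = 0 := by
      by_contra k5
      refine k2 ((Submodule.smul_mem_iff _ k5).1 (Submodule.mem_sup.2 ⟨(-s) • e1, Submodule.smul_mem _ _
        (Submodule.mem_span_singleton_self _), (-(t * v.1)) • e2, Submodule.smul_mem _ _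
        (Submodule.mem_span_singleton_self _), ?_⟩))
      rw [hφ] at e
      linear_combination (norm := module) -e
    have k6 := he.ind s (t * v.1) (by rw [hφ] at e; linear_combination (norm := module) e - k5 • e3)
    refine ⟨k6.1, by_contra fun k7 => hv (Prod.ext ?_ ?_)⟩
    · simpa [k7] using k6.2
    · simpa [k7] using k5
  rcases k4 with k4 | k4
  · intro a b k x e
    have k5 := (Nat.card_eq_one_iff_unique.1 ((d3 a b k x).trans k4)).1
    exact zero_ne_one (congrArg Subtype.val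
      (k5.elim (⟨0, by simp [h.ez_zero]⟩ : {k : F // h.ez a (k • b) • x = x}) ⟨1, by simpa⟩))
  obtain ⟨g, hg⟩ := ht.exists_ne_smul x0
  refine absurd ((h.eq_top (stabilizer (Om Q) x0) fun a b k5 k6 => ez_mem_of_root h (X := ⊥) (by simp; omega) _
    (fun a _ b _ k => ?_) (by simp [mem_oc]) (by simp [mem_oc]) k5 k6).ge (Subgroup.mem_top g)) hg
  have k7 : {k : F | h.ez a (k • b) • x0 = x0} = Set.univ :=
    (Set.eq_univ_iff_ncard _).2 ((d3 a b k x0).trans k4)
  simpa using (k7 ▸ Set.mem_univ 1 : (1 : F) ∈ {k : F | h.ez a (k • b) • x0 = x0})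

theorem card_sub (W : Submodule F E) : Nat.card W = Fintype.card F ^ finrank F W := by
  rw [← Nat.card_eq_fintype_card]; exact Module.natCard_eq_pow_finrank

include h in
theorem exists_compl {a b : E} (hab : RP Q a b) : ∃ W : Submodule F E, (∀ w ∈ W, pb Q a w = 0 ∧ pb Q b w = 0) ∧
    ND Q W ∧ finrank F W + 4 = finrank F E := by
  obtain ⟨f, k1, k2⟩ := exists_hyp_oc h.nd (X := F ∙ b) (mem_oc_span.2 hab.rl) hab.symm.nm hab.l
  have k3 : b ∈ hc Q ⊤ a f := mem_hc.2 ⟨trivial, hab.lr, by rw [pb_comm]; exact mem_oc_span.1 k1⟩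
  have k4 := (nd_top h.nd).hc k2 trivial trivial
  obtain ⟨f', k5, k6⟩ := k4.exists_hyp k3 hab.symm.ne hab.r
  refine ⟨_, fun w hw => ⟨(mem_hc.1 (mem_hc.1 hw).1).2.1, (mem_hc.1 hw).2.1⟩, k4.hc k6 k3 k5, ?_⟩
  have := k6.finrank_hc k3 k5
  have := k2.finrank_hc (Y := ⊤) trivial trivial
  rw [finrank_top] at this
  omega

theorem pow_dvd_card (hn : NoFix h Ω) {a b : E} (hab : RP Q a b) :
    Fintype.card F ^ (finrank F E - 3) ∣ Nat.card Ω := by
  have := finite_Om (Q := Q)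
  obtain ⟨W, hW, k1, k2⟩ := exists_compl h hab
  refine dvd_card_ob (HG h hab hW) fun x => ?_
  have hq := Fintype.one_lt_card (α := F)
  have k3 : (HG h hab hW ⊓ stabilizer (Om Q) x) ⊓ RG h hab = ⊥ := eq_bot_iff.2 fun g ⟨k3, μ, k4⟩ => by
    subst k4
    rcases eq_or_ne μ 0 with rfl | k5
    · simp [h.ez_zero]
    · exact absurd k3.2 (hn a (μ • b) ⟨hab.l, by simp [Q_smul, hab.r], by simp [hab.lr], fun s t e => by
        simpa [k5] using hab.ind s (t * μ) (by rwa [mul_smul])⟩ x)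
  have k4 := HG_bound h hab hW k1 (D := HG h hab hW ⊓ stabilizer (Om Q) x) inf_le_left fun k => by
    have := card_RG h hab
    rw [← inf_eq_right.2 k, k3] at this
    simp at this; omega
  have k5 := ob_mul (HG h hab hW) x
  rw [k3, Subgroup.card_bot, mul_one, card_sub] at k4
  rw [card_HG h hab hW k1, card_sub] at k5
  obtain ⟨p, hp⟩ := CharP.exists F
  obtain ⟨f, hpp, hf⟩ := FiniteField.card F p
  obtain ⟨j, -, hj⟩ := (Nat.dvd_prime_pow hpp (m := f * (2 * finrank F W + 1))).1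
    (show ob (HG h hab hW) x ∣ _ from ⟨_, by rw [k5, hf]; ring⟩)
  rw [show finrank F E - 3 = finrank F W + 1 by omega, hj, hf, ← pow_mul]
  refine pow_dvd_of_le hpp.one_lt ?_
  rw [pow_mul, ← hf, ← hj]
  refine Nat.le_of_mul_le_mul_right (c := Fintype.card F ^ finrank F W) ?_ (by positivity)
  exact le_trans (le_of_eq (by rw [k5]; ring)) (Nat.mul_le_mul_left _ k4)

end Cfsg.Agent.H2.TO
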