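import Cfsg.Agent.H2.TO2

/-! Two-transitive actions of orthogonal groups: counting root elements. -/

set_option autoImplicit false
set_option linter.unusedSectionVars false

namespace Cfsg.Agent.H2.TO

open Finset MulAction Module Cfsg.Agent.H1 Cfsg.Agent.H6 Cfsg.Agent.H7
open scoped MatrixGroups

variable {F : Type*} [Field F] [Fintype F] {E : Type*} [AddCommGroup E] [Module F E] [FiniteDimensional F E]
  [Fintype E] {Q : QuadraticForm F E} (h : OH Q) {Ω : Type*} [Finite Ω] [MulAction (Om Q) Ω]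

theorem card_sing (Y : Submodule F E) : Nat.card {w // w ∈ Y ∧ Q w = 0 ∧ w ≠ 0} + 1 = (lev Q Y 0).card := by
  classical
  rw [← card_erase_add_one (a := 0) (s := lev Q Y 0) (by simp [mem_lev]), Nat.subtype_card ((lev Q Y 0).erase 0)]
  intro x
  rw [mem_erase, mem_lev]; tauto

include h in
theorem card_pairs {S s : ℕ} (hS : (lev Q ⊤ 0).card = S + 1)
    (hs : S + 1 = Fintype.card F * (s + 1) + (Fintype.card F - 1) * Fintype.card F ^ (finrank F E - 2)) :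
    Nat.card {p : E × E // RP Q p.1 p.2} = S * (Fintype.card F * s) := by
  classical
  have k : ∀ a, Nat.card {b // RP Q a b} = if Q a = 0 ∧ a ≠ 0 then Fintype.card F * s else 0 := fun a => by
    split_ifs with ha
    · obtain ⟨f, -, hh⟩ := (nd_top h.nd).exists_hyp trivial ha.2 ha.1
      have k1 := hh.card_lev (Y := ⊤) trivial trivial 0
      have k2 := hh.finrank_hc (Y := ⊤) trivial trivial
      rw [finrank_top] at k2
      rw [hS, hs, ← k2, Nat.add_sub_cancel, add_left_inj, ← card_sing] at k1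
      rw [Nat.add_right_cancel (Nat.eq_of_mul_eq_mul_left Fintype.card_pos k1), ← Nat.card_eq_fintype_card,
        ← Nat.card_prod]
      refine Nat.card_congr ⟨fun b => (pb Q f b.1, ⟨b.1 - pb Q f b.1 • a, mem_hc.2 ⟨trivial, by simp [hh.ll, b.2.lr],
        by simp [hh.rl]⟩, by simp [Q_sub, Q_smul, hh.l, b.2.r, b.2.rl], fun e => b.2.nm
          (Submodule.mem_span_singleton.2 ⟨_, (sub_eq_zero.1 e).symm⟩)⟩),
        fun p => ⟨p.2.1 + p.1 • a, .of ha.1 ?_ ?_ ha.2 fun e => ?_⟩, fun b => by simp, fun p => ?_⟩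
      · simp [Q_add, Q_smul, hh.l, p.2.2.2.1, pb_comm Q p.2.1 a, (mem_hc.1 p.2.2.1).2.1]
      · simp [hh.ll, (mem_hc.1 p.2.2.1).2.1]
      · exact hh.not_mem (mem_hc.1 p.2.2.1).2.2 p.2.2.2.2 ((Submodule.add_mem_iff_left _ (Submodule.smul_mem _ _
          (Submodule.mem_span_singleton_self a))).1 e)
      · simp [hh.rl, (mem_hc.1 p.2.2.1).2.2]
    · have : IsEmpty {b // RP Q a b} := ⟨fun b => ha ⟨b.2.l, b.2.ne⟩⟩
      simp
  rw [Nat.card_congr (Equiv.subtypeProdEquivSigmaSubtype (RP Q)), Nat.card_sigma, sum_congr rfl fun a _ => k a,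
    ← sum_filter, sum_const, smul_eq_mul]
  congr 1
  have := card_sing (Q := Q) ⊤
  rw [hS, add_left_inj] at this
  rw [← this, Nat.subtype_card (univ.filter fun a => Q a = 0 ∧ a ≠ 0)]
  simp

theorem RP.sl {a b : E} (k : RP Q a b) (M : SL(2, F)) : RP Q (M 0 0 • a + M 0 1 • b) (M 1 0 • a + M 1 1 • b) := by
  have hd : M 0 0 * M 1 1 - M 0 1 * M 1 0 = 1 := by rw [← Matrix.det_fin_two]; exact M.2
  refine ⟨by simp [Q_add, Q_smul, k.l, k.r, k.lr], by simp [Q_add, Q_smul, k.l, k.r, k.lr],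
    by simp [k.ll, k.rr, k.lr, k.rl], fun s t e => ?_⟩
  obtain ⟨k1, k2⟩ := k.ind (s * M 0 0 + t * M 1 0) (s * M 0 1 + t * M 1 1) (by rw [← e]; module)
  exact ⟨by linear_combination M 1 1 * k1 - M 1 0 * k2 - s * hd, by linear_combination M 0 0 * k2 - M 0 1 * k1 - t * hd⟩

theorem ez_sl {a b : E} (k : RP Q a b) (M : SL(2, F)) :
    h.ez (M 0 0 • a + M 0 1 • b) (M 1 0 • a + M 1 1 • b) = h.ez a b := by
  have hd : M 0 0 * M 1 1 - M 0 1 * M 1 0 = 1 := by rw [← Matrix.det_fin_two]; exact M.2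
  refine om_ext fun x => ?_
  rw [h.ez_apply (k.sl M).l (k.sl M).lr, h.ez_apply k.l k.lr, (k.sl M).r, k.r]
  simp only [map_add, map_smul, smul_eq_mul]
  match_scalars
  · rfl
  · linear_combination pb Q x b * hd
  · linear_combination -pb Q x a * hd

theorem count_main (ht : TT (Om Q) Ω) (hn : NoFix h Ω) {S s : ℕ} (hS : (lev Q ⊤ 0).card = S + 1)
    (hs : S + 1 = Fintype.card F * (s + 1) + (Fintype.card F - 1) * Fintype.card F ^ (finrank F E - 2)) :
    ∃ l, l * (Fintype.card F ^ 2 - 1) * (Nat.card Ω - 1) = S * s := by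
  classical
  have := finite_Om (Q := Q)
  let X := {p : E × E // RP Q p.1 p.2}
  let _ : MulAction (Om Q) X :=
    { smul g p := ⟨(oA Q g p.1.1, oA Q g p.1.2), p.2.map g⟩
      one_smul p := Subtype.ext (Prod.ext (by change oA Q 1 _ = _; simp) (by change oA Q 1 _ = _; simp))
      mul_smul g k p := Subtype.ext (Prod.ext (act_mul_apply _ g k _) (act_mul_apply _ g k _)) }
  have := ht.nt
  obtain ⟨x, y, hy⟩ := exists_pair_ne Ω
  have k1 := ht.count_rel' (A := X) (fun p x y => h.ez p.1.1 p.1.2 • x = y) (fun g p x y e => by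
    change h.ez (oA Q g _) (oA Q g _) • _ = _
    rw [ez_cj, ← e]; simp [mul_smul]) hy.symm (e := 1) fun p =>
      Nat.card_eq_one_iff_exists.2 ⟨⟨_, hn _ _ p.2 x, rfl⟩, fun z => Subtype.ext z.2.2.symm⟩
  let T := {p : X // h.ez p.1.1 p.1.2 • x = y}
  let _ : MulAction SL(2, F) T :=
    { smul M p := ⟨⟨(_, _), p.1.2.sl M⟩, (congrArg (· • x) (ez_sl h p.1.2 M)).trans p.2⟩
      one_smul p := Subtype.ext (Subtype.ext (Prod.ext (by change _ • _ + _ • _ = _; simp)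
        (by change _ • _ + _ • _ = _; simp)))
      mul_smul M N p := Subtype.ext (Subtype.ext (Prod.ext
        (by change _ • _ + _ • _ = _ • (_ • _ + _ • _) + _ • (_ • _ + _ • _)
            simp only [Matrix.SpecialLinearGroup.coe_mul, Matrix.mul_apply, Fin.sum_univ_two]; module)
        (by change _ • _ + _ • _ = _ • (_ • _ + _ • _) + _ • (_ • _ + _ • _)
            simp only [Matrix.SpecialLinearGroup.coe_mul, Matrix.mul_apply, Fin.sum_univ_two]; module))) }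
  have k2 := Nat.card_congr (selfEquivOrbitsQuotientProd (G := SL(2, F)) (X := T) fun p => eq_bot_iff.2 fun M e => by
    have e1 : M 0 0 • p.1.1.1 + M 0 1 • p.1.1.2 = p.1.1.1 := congrArg (·.1.1.1) e
    have e2 : M 1 0 • p.1.1.1 + M 1 1 • p.1.1.2 = p.1.1.2 := congrArg (·.1.1.2) e
    obtain ⟨k1, k2⟩ := p.1.2.ind (M 0 0 - 1) (M 0 1) (by linear_combination (norm := module) e1)
    obtain ⟨k3, k4⟩ := p.1.2.ind (M 1 0) (M 1 1 - 1) (by linear_combination (norm := module) e2)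
    exact Subtype.ext (m2_ext (sub_eq_zero.1 k1) k2 k3 (sub_eq_zero.1 k4)))
  rw [Nat.card_prod, card_SL2, Nat.card_eq_fintype_card (α := F)] at k2
  rw [show Nat.card {p : X // h.ez p.1.1 p.1.2 • x = y} = _ from k2, show Nat.card X = _ from card_pairs h hS hs] at k1
  exact ⟨Nat.card (Quotient (orbitRel SL(2, F) T)), Nat.eq_of_mul_eq_mul_left (Fintype.card_pos (α := F)) (by linear_combination k1)⟩

theorem num_odd {q M l n : ℤ} (hq : 2 ≤ q) (hM : 2 ≤ M) (hl : 0 ≤ l) (hn : 1 ≤ n) (h1 : q ^ 2 - 1 ∣ M - 1) (h2 : M ∣ n)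
    (h3 : l * (q ^ 2 - 1) * (n - 1) = (q ^ 2 * M - 1) * (M - 1)) : n = q ^ 2 * M ∨ n ≤ M := by
  obtain ⟨t, rfl⟩ := h2
  obtain ⟨r, hr⟩ := h1
  obtain ⟨j, hj⟩ : ∃ j, l * (q ^ 2 - 1) + 1 = M * j :=
    ⟨l * (q ^ 2 - 1) * t - q ^ 2 * M + q ^ 2 + 1, by linear_combination -h3⟩
  obtain ⟨i, hi⟩ : ∃ i, j = 1 + (q ^ 2 - 1) * i := ⟨l - r * j, by linear_combination -hj - j * hr⟩
  have h4 : 3 ≤ q ^ 2 - 1 := by nlinarith
  rcases lt_trichotomy i 0 with h5 | rfl | h5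
  · have : j ≤ 0 := by nlinarith
    nlinarith [mul_nonneg hl (show 0 ≤ q ^ 2 - 1 by omega)]
  · left
    rw [show l * (q ^ 2 - 1) = M - 1 by rw [hi] at hj; linear_combination hj, mul_comm] at h3
    linear_combination mul_right_cancel₀ (show M - 1 ≠ 0 by omega) h3
  · right
    have h6 : q ^ 2 ≤ j := by nlinarith
    have h7 : q ^ 2 * M - 1 ≤ l * (q ^ 2 - 1) := by nlinarith
    have h8 : 0 < q ^ 2 * M - 1 := by nlinarith
    have := le_of_mul_le_mul_left ((mul_le_mul_of_nonneg_right h7 (show 0 ≤ M * t - 1 by omega)).trans h3.le) h8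
    omega

theorem num_even {q A l n η : ℤ} (hq : 2 ≤ q) (hA : q ≤ A) (hl : 0 ≤ l) (hn : 1 ≤ n) (hη : η = 1 ∨ η = -1)
    (h1 : q ^ 2 - 1 ∣ A ^ 2 - 1) (h2 : q * A ^ 2 ∣ n)
    (h3 : l * (q ^ 2 - 1) * (n - 1) = (q ^ 2 * A ^ 2 - 1) * (q ^ 2 * A ^ 2 + η * A * (q ^ 2 - 1) - 1)) :
    n ≤ q ^ 2 * A ^ 2 := by
  obtain ⟨t, rfl⟩ := h2
  obtain ⟨r, hr⟩ := h1
  obtain ⟨j, hj⟩ : ∃ j, l * (q ^ 2 - 1) - η * A * (q ^ 2 - 1) + 1 = q * A ^ 2 * j :=
    ⟨l * (q ^ 2 - 1) * t - q * (q ^ 2 * A ^ 2 + η * A * (q ^ 2 - 1) - 1) + q, by linear_combination -h3⟩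
  obtain ⟨i, hi⟩ : ∃ i, j = q + (q ^ 2 - 1) * i :=
    ⟨q * l - q * η * A - q ^ 2 * r * j - j, by linear_combination -q * hj - q ^ 2 * j * hr⟩
  have h4 : q + 1 ≤ q ^ 2 - 1 := by nlinarith
  have h5 : η * A * (q ^ 2 - 1) ≤ A * (q ^ 2 - 1) ∧ -(A * (q ^ 2 - 1)) ≤ η * A * (q ^ 2 - 1) := by
    have := mul_nonneg (show 0 ≤ A by omega) (show 0 ≤ q ^ 2 - 1 by omega)
    rcases hη with rfl | rfl <;> constructor <;> linarith
  have h6 : q ^ 2 * A ≤ q * A ^ 2 := by nlinarith [mul_pos (show 0 < q by omega) (show 0 < A by omega)]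
  have h9 : 0 < q * A ^ 2 := mul_pos (by omega) (pow_pos (by omega) _)
  rcases lt_or_ge i 0 with h7 | h7
  · have : j ≤ -1 := by nlinarith
    nlinarith [mul_nonneg hl (show 0 ≤ q ^ 2 - 1 by omega)]
  have h8 : q ≤ j := by nlinarith
  have h10 : q ^ 2 * A ^ 2 + η * A * (q ^ 2 - 1) - 1 ≤ l * (q ^ 2 - 1) := by nlinarith
  have h11 : 0 < q ^ 2 * A ^ 2 + η * A * (q ^ 2 - 1) - 1 := by nlinarith
  have := le_of_mul_le_mul_left ((mul_le_mul_of_nonneg_right h10 (show 0 ≤ q * A ^ 2 * t - 1 by omega)).trans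
    (h3.le.trans (mul_comm _ _).le)) h11
  omega

include h in
theorem exists_count (h7 : 7 ≤ finrank F E) : ∃ S s : ℕ, (lev Q ⊤ 0).card = S + 1 ∧
    S + 1 = Fintype.card F * (s + 1) + (Fintype.card F - 1) * Fintype.card F ^ (finrank F E - 2) := by
  obtain ⟨e, -, f, -, hh⟩ := (nd_top h.nd).exists_hyp' (by rw [finrank_top]; omega)
  have k1 := hh.card_lev (Y := ⊤) trivial trivial 0
  have k2 := hh.finrank_hc (Y := ⊤) trivial trivial
  rw [finrank_top] at k2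
  exact ⟨_, Nat.card {w // w ∈ hc Q ⊤ e f ∧ Q w = 0 ∧ w ≠ 0}, (card_sing ⊤).symm,
    by rw [card_sing, card_sing, k1, ← k2, Nat.add_sub_cancel]⟩

theorem FlagT.rp (hf : FlagT Q Ω) : ∃ a b, RP Q a b :=
  let ⟨a, b, h1, h2, h3, h4, h5, _⟩ := hf; ⟨a, b, .of h1 h2 h3 h4 h5⟩

include h in
theorem even_le {m : ℕ} (hm : finrank F E = 2 * (m + 2)) (h2 : 2 ≤ m) (ht : TT (Om Q) Ω) (hf : FlagT Q Ω) :
    Nat.card Ω ≤ Fintype.card F ^ (2 * m + 2) := by
  have hn := no_fix h (by omega) ht hf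
  obtain ⟨a, b, hab⟩ := hf.rp
  have k1 := pow_dvd_card h hn hab
  obtain ⟨S, s, hS, hs⟩ := exists_count h (by omega)
  obtain ⟨l, hl⟩ := count_main h ht hn hS hs
  have hq := Fintype.one_lt_card (α := F)
  have h0 := ht.two_le
  obtain ⟨η, hη, k2⟩ : ∃ η : ℤ, (η = 1 ∨ η = -1) ∧ (Fintype.card F : ℤ) * (S + 1) =
      Fintype.card F ^ (2 * (m + 2)) + η * (Fintype.card F - 1) * Fintype.card F ^ (m + 2) := by
    by_cases k : ∃ T : Submodule F E, TotSing Q T ∧ m + 2 ≤ finrank F T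
    · obtain ⟨T, k2, k3⟩ := k
      have := card_lev_plus (m + 2) (nd_top h.nd) (by rw [finrank_top, hm]) k2 le_top k3
      rw [hS] at this
      zify [hq.le] at this
      exact ⟨1, .inl rfl, by linear_combination this⟩
    · have := card_lev_minus (m + 2) (nd_top h.nd) (by rw [finrank_top, hm]) fun T _ k2 => by
        by_contra k3; exact k ⟨T, k2, by omega⟩
      rw [hS] at this
      zify [hq.le] at this
      exact ⟨-1, .inr rfl, by linear_combination this⟩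
  rw [hm] at k1 hs
  rw [show 2 * (m + 2) - 3 = 2 * m + 1 by omega] at k1
  rw [show 2 * (m + 2) - 2 = 2 * m + 2 by omega] at hs
  generalize Fintype.card F = q at *
  have h3 : 1 ≤ q ^ 2 := Nat.one_le_pow _ _ (by omega)
  zify [hq.le, h3, (by omega : 1 ≤ Nat.card Ω)] at hl hs k1 hq h0 ⊢
  have k3 : (S : ℤ) = q ^ 3 * (q ^ m) ^ 2 + η * (q - 1) * q * q ^ m - 1 :=
    mul_left_cancel₀ (show (q : ℤ) ≠ 0 by omega) (by linear_combination k2)
  have k4 : (s : ℤ) = q * (q ^ m) ^ 2 + η * (q - 1) * q ^ m - 1 :=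
    mul_left_cancel₀ (show (q : ℤ) ≠ 0 by omega) (by linear_combination k3 - hs)
  have k5 : η ^ 2 = 1 := by rcases hη with rfl | rfl <;> norm_num
  refine (num_even (A := q ^ m) (l := l) hq (le_self_pow₀ hq.le (by omega)) (by omega) (by omega) hη
    (by rw [pow_right_comm]; simpa using sub_dvd_pow_sub_pow ((q : ℤ) ^ 2) 1 m) (by convert k1 using 1; ring)
    ?_).trans (le_of_eq (by ring))
  rw [hl, k3, k4]
  linear_combination (q - 1) ^ 2 * q * (q ^ m) ^ 2 * k5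

include h in
theorem odd_or {m : ℕ} (hm : finrank F E = 2 * (m + 1) + 1) (h2 : 2 ≤ m) (ht : TT (Om Q) Ω) (hf : FlagT Q Ω) :
    Nat.card Ω = Fintype.card F ^ (2 * m + 2) ∨ Nat.card Ω ≤ Fintype.card F ^ (2 * m) := by
  have hn := no_fix h (by omega) ht hf
  obtain ⟨a, b, hab⟩ := hf.rp
  have k1 := pow_dvd_card h hn hab
  obtain ⟨S, s, hS, hs⟩ := exists_count h (by omega)
  obtain ⟨l, hl⟩ := count_main h ht hn hS hs
  have hq := Fintype.one_lt_card (α := F)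
  have h0 := ht.two_le
  have k2 := card_lev_odd (m + 1) (nd_top h.nd) (by rw [finrank_top, hm])
  rw [hS] at k2
  rw [hm] at k1 hs
  rw [show 2 * (m + 1) + 1 - 3 = 2 * m by omega] at k1
  rw [show 2 * (m + 1) + 1 - 2 = 2 * m + 1 by omega] at hs
  generalize Fintype.card F = q at *
  have h3 : 1 ≤ q ^ 2 := Nat.one_le_pow _ _ (by omega)
  have h4 : 1 < q ^ (2 * m) := Nat.one_lt_pow (by omega) hq
  zify [hq.le, h3, (by omega : 1 ≤ Nat.card Ω)] at hl hs k1 k2 hq h0 h4 ⊢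
  have k4 : (s : ℤ) = q ^ (2 * m) - 1 :=
    mul_left_cancel₀ (show (q : ℤ) ≠ 0 by omega) (by linear_combination k2 - hs)
  refine (num_odd (M := q ^ (2 * m)) (l := l) hq h4 (by omega) (by omega)
    (by rw [pow_mul]; simpa using sub_dvd_pow_sub_pow ((q : ℤ) ^ 2) 1 m) k1 ?_).imp_left fun k => k.trans (by ring)
  rw [hl, k4]
  linear_combination (q ^ (2 * m) - 1) * k2

end Cfsg.Agent.H2.TO
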