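import Cfsg.Agent.H2.TO3

/-! Two-transitive actions of odd-dimensional orthogonal groups: the degree is not a prime power. -/

set_option autoImplicit false
set_option linter.unusedSectionVars false

namespace Cfsg.Agent.H2.TO

open Finset MulAction Module Cfsg.Agent.H1 Cfsg.Agent.H6 Cfsg.Agent.H7

theorem aniso_le {K D V : Type*} [Field K] [Fintype K] [AddCommGroup D] [Module K D] [FiniteDimensional K D]
    [AddCommGroup V] [Module K V] [FiniteDimensional K V] (B : D →ₗ[K] D →ₗ[K] V) (h : ∀ u, B u u = 0 → u = 0) :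
    finrank K D ≤ 2 * finrank K V := by
  classical
  by_contra! hlt
  obtain ⟨p, hp⟩ := CharP.exists K
  have hpp : p.Prime := CharP.char_is_prime K p
  let b := finBasis K D
  let c := finBasis K V
  let f : Fin (finrank K V) → MvPolynomial (Fin (finrank K D)) K := fun i =>
    ∑ j, ∑ k, MvPolynomial.C (c.repr (B (b j) (b k)) i) * MvPolynomial.X j * MvPolynomial.X k
  have hf : ∀ i, (f i).totalDegree ≤ 2 := fun i =>
    MvPolynomial.totalDegree_finsetSum_le fun j _ => MvPolynomial.totalDegree_finsetSum_le fun k _ => by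
      refine (MvPolynomial.totalDegree_mul _ _).trans ?_
      have := MvPolynomial.totalDegree_mul
        (MvPolynomial.C (c.repr (B (b j) (b k)) i) : MvPolynomial (Fin (finrank K D)) K) (MvPolynomial.X j)
      simp only [MvPolynomial.totalDegree_C, MvPolynomial.totalDegree_X] at this ⊢
      omega
  have hd := char_dvd_card_solutions_of_fintype_sum_lt p (f := f) ((sum_le_card_nsmul _ _ _ fun i _ => hf i).trans_lt
    (by simpa [mul_comm] using hlt))
  have : Nat.card {x : Fin (finrank K D) → K // ∀ i, MvPolynomial.eval x (f i) = 0} = 1 := by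
    rw [Nat.card_eq_one_iff_exists]
    refine ⟨⟨0, by simp [f]⟩, fun x => Subtype.ext (b.equivFun.symm.injective ?_)⟩
    rw [map_zero]
    refine h _ (c.repr.injective (Finsupp.ext fun i => ?_))
    rw [map_zero, Finsupp.zero_apply]
    refine Eq.trans ?_ (x.2 i)
    simp only [f, Basis.equivFun_symm_apply, map_sum, map_smul, LinearMap.sum_apply, LinearMap.smul_apply,
      Finsupp.finsetSum_apply, Finsupp.smul_apply, smul_eq_mul, map_mul, MvPolynomial.eval_C, MvPolynomial.eval_X,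
      mul_sum]
    rw [sum_comm]
    exact sum_congr rfl fun j _ => sum_congr rfl fun k _ => by ring
  rw [← @Nat.card_eq_fintype_card, this] at hd
  exact hpp.one_lt.ne' (Nat.dvd_one.mp hd)

variable {F : Type*} [Field F] [Fintype F] {E : Type*} [AddCommGroup E] [Module F E] [FiniteDimensional F E]
  [Fintype E] {Q : QuadraticForm F E} (h : OH Q) {Ω : Type*} [Finite Ω] [MulAction (Om Q) Ω]

theorem card_aniso (h2 : (2 : F) ≠ 0) (D : AddSubgroup E) (hD : ∀ u ∈ D, Q u = 0 → u = 0) :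
    Nat.card D ≤ Fintype.card F ^ 2 := by
  obtain ⟨p, hp⟩ := CharP.exists F
  have := Fact.mk (CharP.char_is_prime F p)
  let _ := ZMod.algebra F p
  have _ : Module (ZMod p) D := AddCommGroup.zmodModule fun x => Subtype.ext (by
    rw [AddSubgroup.coe_nsmul, ← Nat.cast_smul_eq_nsmul F, CharP.cast_eq_zero, zero_smul]; rfl)
  have : Module.Finite (ZMod p) D := Module.Finite.of_finite
  have k := aniso_le (K := ZMod p) (D := D) (V := F) (LinearMap.mk₂ (ZMod p) (fun u v => pb Q u.1 v.1) (by simp)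
    (fun c u v => ZMod.map_smul (((pb Q).flip v.1).toAddMonoidHom.comp D.subtype) c u) (by simp)
    fun c u v => ZMod.map_smul ((pb Q u.1).toAddMonoidHom.comp D.subtype) c v) fun u e =>
      Subtype.ext (hD _ u.2 (by simpa [pb_self, h2] using (show pb Q u.1 u.1 = 0 from e)))
  rw [Module.natCard_eq_pow_finrank (K := ZMod p), ← Nat.card_eq_fintype_card,
    Module.natCard_eq_pow_finrank (K := ZMod p) (V := F), ← pow_mul, mul_comm]
  exact Nat.pow_le_pow_right Nat.card_pos k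

theorem lev_odd (n : ℕ) {Y : Submodule F E} (h : ND Q Y) (hn : finrank F Y = 2 * n + 1) {c : F} (hc0 : c ≠ 0) :
    (2 : F) ≠ 0 ∧ ∃ ε : ℤ, (ε = 1 ∨ ε = -1) ∧
      ((lev Q Y c).card : ℤ) = Fintype.card F ^ n * (Fintype.card F ^ n + ε) := by
  classical
  induction n generalizing Y with
  | zero =>
    have k : ∀ w ∈ Y, w ≠ 0 → ∀ z ∈ Y, ∃ t : F, t • w = z := fun w hw h0 z hz => by
      obtain ⟨t, e⟩ := (finrank_eq_one_iff_of_nonzero' (⟨w, hw⟩ : Y) (by simpa using h0)).1 hn ⟨z, hz⟩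
      exact ⟨t, congrArg Subtype.val e⟩
    have h2 : (2 : F) ≠ 0 := by
      obtain ⟨w, hw, h0⟩ := exists_not_mem_of_finrank_lt (S := ⊥) (T := Y) (by simp [hn])
      obtain ⟨y, hy, k1⟩ := h w hw (by simpa using h0)
      obtain ⟨t, rfl⟩ := k w hw (by simpa using h0) y hy
      intro e
      simp [pb_self, e] at k1
    refine ⟨h2, ?_⟩
    rcases (lev Q Y c).eq_empty_or_nonempty with e | ⟨w, hw⟩
    · exact ⟨-1, .inr rfl, by simp [e]⟩
    obtain ⟨k1, k2⟩ := mem_lev.1 hw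
    have h0 : w ≠ 0 := by rintro rfl; simp [← k2] at hc0
    refine ⟨1, .inl rfl, ?_⟩
    rw [show lev Q Y c = {w, -w} from Finset.ext fun z => ?_, card_pair fun e => h0 ?_]
    · simp
    · rwa [eq_neg_iff_add_eq_zero, ← two_smul F, smul_eq_zero_iff_right h2] at e
    rw [mem_lev, mem_insert, mem_singleton]
    refine ⟨fun ⟨k3, k4⟩ => ?_, by rintro (rfl | rfl) <;> simp [k1, k2, Q_neg]⟩
    obtain ⟨t, rfl⟩ := k w k1 h0 z k3
    rw [Q_smul, k2, mul_eq_right₀ hc0, sq_eq_one_iff] at k4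
    rcases k4 with rfl | rfl <;> simp
  | succ n ih =>
    obtain ⟨e, he, f, hf, hh⟩ := h.exists_hyp' (by omega)
    have h1 := hh.finrank_hc he hf
    have h2 : finrank F (hc Q Y e f) = 2 * n + 1 := by omega
    obtain ⟨k, ε, k1, k2⟩ := ih (h.hc hh he hf) h2
    refine ⟨k, ε, k1, ?_⟩
    rw [hh.card_lev he hf, h2]
    push_cast [Fintype.card_pos (α := F)]
    rw [k2]; ring

/-- The pointwise stabiliser of a vector. -/
def PF (Q : QuadraticForm F E) (e : E) : Subgroup (Om Q) where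
  carrier := {g | oA Q g e = e}
  one_mem' := by simp
  mul_mem' {a b} ha hb := by
    change oA Q (a * b) e = e
    rw [act_mul_apply, hb, ha]
  inv_mem' := inv_fix

include h in
theorem index_PF {e : E} (he : Q e = 0) (he0 : e ≠ 0) : (PF Q e).index + 1 = (lev Q ⊤ 0).card := by
  let _ : MulAction (Om Q) E := MulAction.compHom E (oA Q)
  rw [← card_sing, show PF Q e = stabilizer (Om Q) e from rfl, index_stabilizer, ← Nat.card_coe_set_eq]
  refine congrArg (· + 1) (Nat.card_congr (Equiv.subtypeEquivRight fun w => ⟨?_, fun k => ?_⟩))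
  · rintro ⟨g, rfl⟩
    exact ⟨trivial, (oA_Q g e).trans he, fun k => he0 (oA_inj g (k.trans (map_zero _).symm))⟩
  · exact h.witt_one he0 k.2.2 (k.2.1.trans he.symm)

section
variable {e f : E} (hh : Hyp Q e f)
include hh

/-- The unipotent radical of the stabiliser of a singular point. -/
noncomputable def qe : Multiplicative (hc Q ⊤ e f) →* Om Q where
  toFun w := h.ez e w.toAdd.1
  map_one' := h.ez_zero e
  map_mul' a b := h.ez_add hh.l (mem_hc.1 a.toAdd.2).2.1 (mem_hc.1 b.toAdd.2).2.1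

theorem proj_hc {v : E} (hv : pb Q e v = 0) : v - pb Q f v • e ∈ hc Q ⊤ e f :=
  mem_hc.2 ⟨trivial, by simp [hv, hh.ll], by simp [hh.rl]⟩

theorem ez_proj {v : E} (hv : pb Q e v = 0) : h.ez e (v - pb Q f v • e) = h.ez e v := by
  rw [sub_eq_add_neg, ← neg_smul, h.ez_add hh.l hv (by simp [hh.ll]), h.ez_self, mul_one]

omit hh in
theorem pb_PF {g : Om Q} (hg : g ∈ PF Q e) (v : E) : pb Q e (oA Q g v) = pb Q e v := by
  rw [← oA_pb g e v, show oA Q g e = e from hg]

theorem qe_norm : ∀ g ∈ PF Q e, ∀ u ∈ (qe h hh).range, g * u * g⁻¹ ∈ (qe h hh).range := by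
  rintro g hg _ ⟨w, rfl⟩
  have k := (pb_PF hg _).trans (mem_hc.1 w.toAdd.2).2.1
  refine ⟨Multiplicative.ofAdd ⟨_, proj_hc hh k⟩, (ez_proj h hh k).trans ?_⟩
  change _ = g * h.ez e w.toAdd.1 * g⁻¹
  rw [← ez_cj, show oA Q g e = e from hg]

theorem qe_free (h7 : 7 ≤ finrank F E) (hn : NoFix h Ω) (ht : ∀ x y : Ω, ∃ g ∈ PF Q e, g • x = y) {m j : ℕ}
    (hm : finrank F (hc Q ⊤ e f) = 2 * m + 1) (h2 : 2 ≤ m) (hΩ : Nat.card Ω = Fintype.card F ^ j) (x : Ω) {b : E}
    (hb : b ∈ hc Q ⊤ e f) (hx : h.ez e b • x = x) : b = 0 := by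
  classical
  by_contra h0
  let D := ezS h (stabilizer (Om Q) x) hh.l ⊓ (hc Q ⊤ e f).toAddSubgroup
  have hD : ∀ u ∈ D, Q u = 0 → u = 0 := fun u hu k => by
    by_contra k0
    exact hn e u (.of hh.l k hu.1.1 hh.ne (hh.not_mem (mem_hc.1 hu.2).2.2 k0)) x hu.1.2
  have hbD : b ∈ D := ⟨⟨(mem_hc.1 hb).2.1, hx⟩, hb⟩
  have hc0 : Q b ≠ 0 := fun k => h0 (hD b hbD k)
  obtain ⟨k2, ε, k3, k4⟩ := lev_odd m ((nd_top h.nd).hc hh trivial trivial) hm hc0
  have k5 := card_aniso k2 D hD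
  let A := {w // w ∈ lev Q (hc Q ⊤ e f) (Q b)}
  have hA : ∀ (g : PF Q e) (w : A), pb Q e (oA Q g w.1) = 0 := fun g w =>
    (pb_PF g.2 _).trans (mem_hc.1 (mem_lev.1 w.2).1).2.1
  let _ : MulAction (PF Q e) A :=
    { smul g w := ⟨oA Q g w.1 - pb Q f (oA Q g w.1) • e, mem_lev.2 ⟨proj_hc hh (hA g w), by
        simp [Q_sub, Q_smul, hh.l, pb_comm Q _ e, hA g w, oA_Q, (mem_lev.1 w.2).2]⟩⟩
      one_smul w := Subtype.ext (by
        change oA Q 1 _ - pb Q f (oA Q 1 _) • e = _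
        simp [(mem_hc.1 (mem_lev.1 w.2).1).2.2])
      mul_smul g k w := Subtype.ext (by
        change oA Q (g.1 * k.1) _ - pb Q f (oA Q (g.1 * k.1) _) • e =
          oA Q g (_ - _ • e) - pb Q f (oA Q g (_ - _ • e)) • e
        simp only [act_mul_apply, map_sub, map_smul, show oA Q g e = e from g.2, hh.rl]
        module) }
  have : IsPretransitive (PF Q e) A := ⟨fun w z => by
    have k : ∀ w : A, w.1 ≠ 0 := fun w e => hc0 (by rw [← (mem_lev.1 w.2).2, e, map_zero])
    obtain ⟨l, l1, l2, l3⟩ := h.exists_L h7 hh (mem_lev.1 w.2).1 (mem_lev.1 z.2).1 (k w) (k z)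
      ((mem_lev.1 z.2).2.trans (mem_lev.1 w.2).2.symm)
    refine ⟨⟨l, l1⟩, Subtype.ext ?_⟩
    change oA Q l _ - pb Q f (oA Q l _) • e = _
    simp [l3, (mem_hc.1 (mem_lev.1 z.2).1).2.2]⟩
  have : IsPretransitive (PF Q e) Ω := ⟨fun x y => let ⟨g, k1, k2⟩ := ht x y; ⟨⟨g, k1⟩, k2⟩⟩
  have k6 := fix_mul (G := PF Q e) (A := A) (fun w y => h.ez e w.1 • y = y) (fun g w y k => by
    change h.ez e (_ - _) • g.1 • y = g.1 • y
    rw [ez_proj h hh (hA g w)]
    nth_rewrite 1 [← show oA Q g e = e from g.2]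
    rwa [ez_cj, cj_fix]) ⟨b, mem_lev.2 ⟨hb, rfl⟩⟩ x
  let T := univ.filter fun w => w ∈ D ∧ Q w = Q b
  have k7 : Nat.card {w : A // h.ez e w.1 • x = x} = T.card := by
    rw [Nat.card_congr (Equiv.subtypeSubtypeEquivSubtypeInter _ fun w => h.ez e w • x = x), Nat.subtype_card T]
    exact fun w => ⟨fun k => ⟨mem_lev.2 ⟨(mem_filter.1 k).2.1.2, (mem_filter.1 k).2.2⟩, (mem_filter.1 k).2.1.1.2⟩,
      fun k => mem_filter.2 ⟨mem_univ _, ⟨⟨(mem_hc.1 (mem_lev.1 k.1).1).2.1, k.2⟩, (mem_lev.1 k.1).1⟩,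
        (mem_lev.1 k.1).2⟩⟩
  have hq := Fintype.one_lt_card (α := F)
  have k8 : (Fintype.card F : ℤ) ^ m + ε ∣ T.card := by
    rw [k7, hΩ, show Nat.card A = _ from Nat.subtype_card _ fun _ => Iff.rfl] at k6
    zify at k6
    refine IsCoprime.dvd_of_dvd_mul_left (y := (Fintype.card F : ℤ) ^ j) (IsCoprime.pow_right ?_)
      (k6 ▸ k4 ▸ (dvd_mul_left _ _).mul_right _)
    obtain ⟨m, rfl⟩ : ∃ k, m = k + 1 := ⟨m - 1, by omega⟩
    exact ⟨ε, -ε * Fintype.card F ^ m, by rcases k3 with rfl | rfl <;> ring⟩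
  have k9 := Int.le_of_dvd (by exact_mod_cast card_pos.2 ⟨b, by simp [T, hbD]⟩) k8
  have k10 : (Fintype.card F : ℤ) ^ 2 ≤ Fintype.card F ^ m := pow_le_pow_right₀ (by exact_mod_cast hq.le) h2
  let D' := (univ.filter (· ∈ D)).erase 0
  have k11 : D'.card + 1 = Nat.card D := by
    rw [card_erase_add_one (by simp), Nat.subtype_card (univ.filter (· ∈ D)) (by simp)]
  zify at k5 k11
  have k12 : T = D' := eq_of_subset_of_card_le (fun w hw => mem_erase.2 ⟨fun e => hc0 (by
    rw [← (mem_filter.1 hw).2.2, e, map_zero]), by simp [(mem_filter.1 hw).2.1]⟩) (by omega)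
  have k13 : ∀ w ∈ D, w ≠ 0 → Q w = Q b := fun w hw k =>
    (mem_filter.1 (k12 ▸ mem_erase.2 ⟨k, by simp [hw]⟩ : w ∈ T)).2.2
  obtain ⟨u, hu, k14⟩ := exists_mem_notMem_of_card_lt_card (s := {b, -b}) (t := T)
    (card_le_two.trans_lt (by zify at hq ⊢; rcases k3 with rfl | rfl <;> nlinarith))
  rw [mem_insert, mem_singleton, not_or] at k14
  obtain ⟨-, hu, k15⟩ := mem_filter.1 hu
  have k16 := k13 _ (add_mem hu hbD) fun e => k14.2 (eq_neg_of_add_eq_zero_left e)
  have k17 := k13 _ (sub_mem hu hbD) (sub_ne_zero.2 k14.1)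
  rw [Q_add, k15] at k16
  rw [Q_sub, k15] at k17
  exact mul_ne_zero k2 hc0 (by linear_combination k16 + k17)

theorem root_mem (h7 : 7 ≤ finrank F E) (h2 : (2 : F) ≠ 0)
    (hκ : Nat.card (orbitRel.Quotient (qe h hh).range Ω) ≤ Fintype.card F) {a b : E} (ha : pb Q e a = 0)
    (hb : pb Q e b = 0) (hab : RP Q a b) (y : Ω) : h.ez a b • y ∈ orbit (qe h hh).range y := by
  have := finite_Om (Q := Q)
  obtain ⟨u, hu, hu0⟩ : ∃ u ∈ oc Q (F ∙ e ⊔ F ∙ a ⊔ F ∙ b), Q u ≠ 0 := by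
    obtain ⟨v, k1, v', k2, k3⟩ := exists_pair_oc h.nd (X := F ∙ e ⊔ F ∙ a ⊔ F ∙ b) (by
      have := finrank_inf_oc_le (Q := Q) (F ∙ e ⊔ F ∙ a ⊔ F ∙ b)
      have := finrank_sup_span_le (F ∙ e ⊔ F ∙ a) b
      have := finrank_sup_span_le (F ∙ e) a
      have := finrank_span_le (F := F) e
      omega)
    exact exists_nonsing_of_pair k1 k2 (by simp [k3])
  rw [mem_oc_sup, mem_oc_sup, mem_oc_span, mem_oc_span, mem_oc_span] at hu
  have hW : ∀ w ∈ F ∙ u, pb Q a w = 0 ∧ pb Q b w = 0 := fun w hw => by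
    obtain ⟨c, rfl⟩ := Submodule.mem_span_singleton.1 hw
    simp [hu.1.2, hu.2]
  have hn : ND Q (F ∙ u) := fun w hw h0 => by
    obtain ⟨c, rfl⟩ := Submodule.mem_span_singleton.1 hw
    exact ⟨u, Submodule.mem_span_singleton_self u, by simp [pb_self, h2, hu0, left_ne_zero_of_smul h0]⟩
  have hP : HG h hab hW ≤ PF Q e := by
    rintro _ ⟨v, hv, w, hw, μ, rfl⟩
    obtain ⟨c, rfl⟩ := Submodule.mem_span_singleton.1 hv
    obtain ⟨d, rfl⟩ := Submodule.mem_span_singleton.1 hw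
    exact mul_mem (h.ez_fix hab.l (by simp [hu.1.2, hab.lr]) ha (by simp [hu.1.1, hb]))
      (h.ez_fix hab.r (by simp [hu.2]) hb (by simp [hu.1.1]))
  let _ := qAct (Ω := Ω) (HG h hab hW) (qe h hh).range fun g hg => qe_norm h hh g (hP hg)
  let D := (stabilizer (HG h hab hW) (Quotient.mk'' y : orbitRel.Quotient (qe h hh).range Ω)).map (HG h hab hW).subtype
  have k1 : Nat.card (F ∙ u) = Fintype.card F := by
    rw [card_sub, finrank_span_singleton (by rintro rfl; simp at hu0), pow_one]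
  have k2 : Nat.card (HG h hab hW) ≤ Fintype.card F * Nat.card D := by
    rw [Subgroup.card_subtype, ← Nat.card_congr (orbitProdStabilizerEquivGroup (HG h hab hW)
      (Quotient.mk'' y : orbitRel.Quotient (qe h hh).range Ω)), Nat.card_prod]
    exact Nat.mul_le_mul_right _ ((Finite.card_subtype_le _).trans hκ)
  have k3 : RG h hab ≤ D := by
    by_contra k3
    have k4 := HG_bound h hab hW hn (Subgroup.map_subtype_le _) k3
    have k5 : Nat.card ↥(D ⊓ RG h hab) < Nat.card (RG h hab) := lt_of_le_of_ne (Subgroup.card_le_of_le inf_le_right)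
      fun e => k3 (inf_eq_right.1 (Subgroup.eq_of_le_of_card_ge inf_le_right e.ge))
    rw [card_HG h hab hW hn, k1] at k2
    rw [card_RG] at k5
    rw [k1] at k4
    have := Fintype.card_pos (α := F)
    have := Nat.le_of_mul_le_mul_left ((mul_assoc _ _ _).ge.trans k2) this
    nlinarith
  obtain ⟨g, k4, k5⟩ := k3 ⟨1, (by rw [one_smul] : h.ez a ((1 : F) • b) = h.ez a b)⟩
  rw [← k5]
  exact Quotient.exact' k4

end

include h in
theorem odd_le {m : ℕ} (hm : finrank F E = 2 * (m + 1) + 1) (h2 : 2 ≤ m) (ht : TT (Om Q) Ω) (hf : FlagT Q Ω) :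
    Nat.card Ω ≤ Fintype.card F ^ (2 * m) := by
  refine (odd_or h hm h2 ht hf).resolve_left fun hΩ => ?_
  have := finite_Om (Q := Q)
  have hn := no_fix h (by omega) ht hf
  obtain ⟨e, -, f, -, hh⟩ := (nd_top h.nd).exists_hyp' (by rw [finrank_top]; omega)
  have k1 := hh.finrank_hc (Y := ⊤) trivial trivial
  rw [finrank_top] at k1
  have k2 := index_PF h hh.l hh.ne
  rw [card_lev_odd (m + 1) (nd_top h.nd) (by rw [finrank_top, hm]), show 2 * (m + 1) = 2 * m + 2 by ring, ← hΩ] at k2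
  have := ht.pre
  have k3 := trans_of_coprime (Ω := Ω) (H := PF Q e) (by rw [← k2]; simp)
  have := ht.nt
  obtain ⟨x⟩ : Nonempty Ω := inferInstance
  have k4 := ob_range (qe h hh) x
  rw [show (stabilizer (Om Q) x).comap (qe h hh) = ⊥ from eq_bot_iff.2 fun w hw =>
    Multiplicative.toAdd.injective (Subtype.ext (qe_free h hh (m := m) (by omega) hn k3 (by omega) h2 hΩ x w.toAdd.2 hw)),
    Subgroup.card_bot, mul_one, Nat.card_congr Multiplicative.toAdd, card_sub, show finrank F (hc Q ⊤ e f) = 2 * m + 1 by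
      omega] at k4
  have k5 := (NT.of k3 (qe_norm h hh)).card_eq x
  have hq := Fintype.one_lt_card (α := F)
  rw [k4, hΩ, pow_succ' _ (2 * m + 1)] at k5
  replace k5 := Nat.eq_of_mul_eq_mul_right (by positivity) k5
  have k6 := (lev_odd (m + 1) (nd_top h.nd) (by rw [finrank_top, hm]) one_ne_zero).1
  have k7 : ∀ g ∈ PF Q e, g ∈ kerO (PF Q e) (qe h hh).range Ω (qe_norm h hh) := fun g hg =>
    h.fix_le (X := F ∙ e) (by
      have := finrank_inf_oc_le (Q := Q) (F ∙ e)
      have := finrank_span_le (F := F) e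
      omega) _ (fun a ha b hb => ez_mem_of_root h (by have := finrank_span_le (F := F) e; omega)
        (kerO (PF Q e) (qe h hh).range Ω (qe_norm h hh))
        (fun a ha b hb k => ⟨h.ez_fix k.l k.lr (mem_oc_span.1 ha) (mem_oc_span.1 hb),
          root_mem h hh (by omega) k6 k5.le (mem_oc_span.1 ha) (mem_oc_span.1 hb) k⟩) ha hb) fun v hv => by
      obtain ⟨c, rfl⟩ := Submodule.mem_span_singleton.1 hv
      rw [map_smul, show oA Q g e = e from hg]
  refine hq.ne' (k5.symm.trans (Nat.card_eq_one_iff_exists.2 ⟨Quotient.mk'' x, fun y => ?_⟩))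
  induction y using Quotient.inductionOn' with | h y =>
  obtain ⟨g, hg, rfl⟩ := k3 x y
  exact Quotient.sound' ((k7 g hg).2 x)

end Cfsg.Agent.H2.TO
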