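import Cfsg.Agent.H2.TO4
import Cfsg.Agent.S2143
import Cfsg.Agent.S2144
import Cfsg.Agent.S2145
import Cfsg.Agent.S2146
import Cfsg.Agent.S2147

/-! Orthogonal groups have no 2-transitive action with a transitive flag stabiliser. -/

set_option autoImplicit false
set_option linter.unusedSectionVars false

namespace Cfsg.Agent.H2.TO

open Finset MulAction Module Cfsg.Agent.H1 Cfsg.Agent.H4 Cfsg.Agent.H6 Cfsg.Agent.H7

/-- Every 2-transitive action has a transitive flag stabiliser. -/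
def AllFlag.{u} {F : Type*} [Field F] {E : Type*} [AddCommGroup E] [Module F E] (Q : QuadraticForm F E)
    (Ω : Type u) : Prop := ∀ [MulAction (Om Q) Ω], TT (Om Q) Ω → FlagT Q Ω

variable {F : Type*} [Field F] [Fintype F] {Ω : Type*} [Finite Ω]

theorem exists_pull {ι : Type} [Fintype ι] [DecidableEq ι] (Q : QuadraticForm F (ι → F)) :
    ∃ φ : Om Q →* POmega F Q, Function.Surjective φ :=
  ⟨(QuotientGroup.mk' _).comp (commutatorEquiv (ogEquiv Q)).symm.toMonoidHom,
    (QuotientGroup.mk'_surjective _).comp (commutatorEquiv (ogEquiv Q)).symm.surjective⟩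

theorem finite_POmega {ι : Type} [Fintype ι] [DecidableEq ι] (Q : (ι → F) → F) : Finite (POmega F Q) := inferInstance

theorem plus_three (hF : Fintype.card F = 3) (k : ℕ) (H : Subgroup (Om (qPlus (k + 3 + 1) F))) (hH : H ≠ ⊤) :
    3 ^ (2 * k + 6) + 1 ≤ H.index := by
  classical
  have hB := qPlus_nondeg (k + 3 + 1) F
  have hn : finrank F (Fin (k + 3 + 1) ⊕ Fin (k + 3 + 1) → F) = 2 * k + 6 + 2 := by
    simp; omega
  have h0 := cnt_plus (F := F) (k + 3) 0
  rw [if_pos rfl, hF] at h0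
  have hS := card_Sg (Q := qPlus (k + 3 + 1) F)
  have e1 : 3 ^ (2 * (k + 3) + 1) = 3 * 3 ^ (2 * k + 6) := by ring
  have e2 : 3 ^ (2 * k + 6) = 3 ^ (k + 3) * 3 ^ (k + 3) := by ring
  have e3 : 3 ^ 3 ≤ 3 ^ (k + 3) := Nat.pow_le_pow_right (by omega) (by omega)
  have e5 : 27 * 3 ^ (k + 3) ≤ 3 ^ (2 * k + 6) := by
    rw [e2]; exact Nat.mul_le_mul_right _ e3
  have e7 : 3 ^ (k + 3 + 1) = 3 * 3 ^ (k + 3) := by ring
  exact index_ge hB (by omega) (numHyp_small hB (by omega) (N := 3 ^ (2 * k + 6) + 1)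
    (c0 := 3 ^ (2 * k + 6) + 2 * 3 ^ (k + 3) - 3)
    (c := 3 ^ (2 * k + 6) - 3 ^ (k + 3)) (w := k + 3 + 1) (B := 1080) (by omega)
    (by rw [hn, hF, Nat.add_sub_cancel]; omega)
    (fun b hb => by
      have := cnt_plus (F := F) (k + 3) b
      rw [hF, if_neg hb] at this
      rw [hn, hF, Nat.add_sub_cancel]; omega)
    (fun D hD => by have := hD.two_mul_finrank_le hB; omega)
    (by omega) (fun _ => by omega) (fun _ => by omega)
    (fun d _ _ hd => h5_of (j := 1) (by omega) (by rw [hF]; omega) (by omega))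
    (fun e a1 a2 a3 => by
      obtain rfl : k = 0 := by omega
      obtain rfl : e = 4 := by omega
      rw [hF]
      norm_num)
    (fun h _ => by
      obtain rfl : k = 0 := by omega
      rw [hF]
      have : (Sg (qPlus (0 + 3 + 1) F)).card = 2240 := by omega
      rw [this]
      norm_num) (by rw [hF]; omega) (by rw [hn, hF, Nat.add_sub_cancel]; omega)
    (by rw [hn, hF, Nat.add_sub_cancel]; omega)) H hH

theorem odd_false {m : ℕ} (hm : 3 ≤ m) (ho : Odd (Fintype.card F)) [MulAction (POmega F (quadFormOdd m F)) Ω]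
    (h : TT (POmega F (quadFormOdd m F)) Ω) (hf : AllFlag (qOdd m F) Ω) : False := by
  classical
  obtain ⟨φ, hφ⟩ : ∃ φ : Om (qOdd m F) →* POmega F (quadFormOdd m F), Function.Surjective φ := exists_pull _
  obtain ⟨k, rfl⟩ : ∃ k, m = k + 1 := ⟨m - 1, by omega⟩
  have hq := Fintype.one_lt_card (α := F)
  have k1 : Nat.card Ω ≤ Fintype.card F ^ (2 * k) := by
    let _ := MulAction.compHom Ω φ
    exact odd_le ⟨qOdd_nondeg _ F (two_ne_zero_of_odd_card F ho), by simp; omega⟩ (by simp; omega) (by omega)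
      (h.comp φ hφ) (hf (h.comp φ hφ))
  have k2 : 0 < Fintype.card F ^ (2 * k) := by positivity
  by_cases h3 : Fintype.card F = 3
  · have := (h.index_le (S2144.result h3 _ hm).1).trans k1
    rw [h3, Nat.div_le_iff_le_mul_add_pred two_pos, two_mul k, pow_add 3 k k, pow_succ 3 k] at this
    have k3 : 3 ^ 2 ≤ 3 ^ k := Nat.pow_le_pow_right (by omega) (by omega)
    obtain ⟨r, hr⟩ : ∃ r, 3 ^ k = r + 1 := ⟨3 ^ k - 1, by omega⟩
    rw [hr] at this k3
    rw [show (r + 1) * 3 - 1 = 3 * r + 2 by omega] at this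
    norm_num at this
    nlinarith
  · have := (h.index_le (S2143.result rfl ho (by obtain ⟨r, hr⟩ := ho; omega) _ hm).1).trans k1
    rw [Nat.div_le_iff_le_mul_add_pred (by omega), show 2 * (k + 1) = 2 * k + 2 by ring, pow_add] at this
    obtain ⟨r, hr⟩ : ∃ r, Fintype.card F = r + 2 := ⟨Fintype.card F - 2, by omega⟩
    rw [hr] at this k2
    rw [show r + 2 - 1 = r + 1 by omega, Nat.add_sub_cancel, Nat.sub_le_iff_le_add] at this
    generalize (r + 2) ^ (2 * k) = A at *
    nlinarith [Nat.mul_le_mul_left r k2, Nat.zero_le (A * r * r)]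

theorem plus_false {m : ℕ} (hm : 4 ≤ m) [MulAction (POmega F (quadFormPlus m F)) Ω]
    (h : TT (POmega F (quadFormPlus m F)) Ω) (hf : AllFlag (qPlus m F) Ω) : False := by
  classical
  obtain ⟨φ, hφ⟩ : ∃ φ : Om (qPlus m F) →* POmega F (quadFormPlus m F), Function.Surjective φ := exists_pull _
  obtain ⟨k, rfl⟩ : ∃ k, m = k + 3 + 1 := ⟨m - 4, by omega⟩
  have hq := Fintype.one_lt_card (α := F)
  let _ := MulAction.compHom Ω φ
  have k1 : Nat.card Ω ≤ Fintype.card F ^ (2 * (k + 2) + 2) :=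
    even_le ⟨qPlus_nondeg _ F, by simp; omega⟩ (by simp; omega) (by omega) (h.comp φ hφ) (hf (h.comp φ hφ))
  rw [show 2 * (k + 2) + 2 = k + 3 + (k + 3) by ring, pow_add] at k1
  have k2 : Fintype.card F ≤ Fintype.card F ^ (k + 3) := Nat.le_self_pow (by omega) _
  rcases (by omega : Fintype.card F = 2 ∨ Fintype.card F = 3 ∨ 4 ≤ Fintype.card F) with h2 | h2 | h2
  · have := (h.index_le (S2146.result h2 _ hm).1).trans k1
    rw [h2] at this k2
    rw [Nat.add_sub_cancel, pow_succ 2 (k + 3)] at this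
    have := Nat.le_of_mul_le_mul_left this (by positivity)
    omega
  · have := finite_Om (Q := qPlus (k + 3 + 1) F)
    have := ((h.comp φ hφ).index_le (plus_three h2 k)).trans k1
    rw [h2, ← pow_add, show k + 3 + (k + 3) = 2 * k + 6 by ring] at this
    omega
  · have := (h.index_le (S2145.result rfl h2 _ hm).1).trans k1
    rw [Nat.div_le_iff_le_mul_add_pred (by omega), Nat.add_sub_cancel, pow_succ] at this
    generalize Fintype.card F ^ (k + 3) = A at *
    generalize Fintype.card F = q at *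
    have k3 : 1 ≤ A * q := Nat.mul_pos (by omega) (by omega)
    zify [k3, hq.le, show 1 ≤ q - 1 by omega] at this k2 h2
    nlinarith

theorem minus_false {m : ℕ} (hm : 4 ≤ m) (a b : F)
    (hab : ∀ z₁ z₂ : F, z₁ ^ 2 + a * z₁ * z₂ + b * z₂ ^ 2 = 0 → z₁ = 0 ∧ z₂ = 0)
    [MulAction (POmega F (quadFormMinus (m - 1) F a b)) Ω] (h : TT (POmega F (quadFormMinus (m - 1) F a b)) Ω)
    (hf : AllFlag (qMinus (m - 1) F a b) Ω) : False := by
  classical
  obtain ⟨φ, hφ⟩ : ∃ φ : Om (qMinus (m - 1) F a b) →* POmega F (quadFormMinus (m - 1) F a b),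
    Function.Surjective φ := exists_pull _
  have k0 := h.index_le (S2147.result rfl _ hm a b hab).1
  have hq := Fintype.one_lt_card (α := F)
  let _ := MulAction.compHom Ω φ
  have k1 : Nat.card Ω ≤ Fintype.card F ^ (2 * (m - 2) + 2) :=
    even_le ⟨qMinus_nondeg _ F hab, by simp; omega⟩ (by simp; omega) (by omega) (h.comp φ hφ) (hf (h.comp φ hφ))
  replace k0 := k0.trans k1
  obtain ⟨k, rfl⟩ : ∃ k, m = k + 2 + 1 + 1 := ⟨m - 4, by omega⟩
  have k2 : Fintype.card F ≤ Fintype.card F ^ (k + 2) := Nat.le_self_pow (by omega) _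
  rw [Nat.div_le_iff_le_mul_add_pred (by omega), show 2 * (k + 2 + 1 + 1 - 2) + 2 = k + 2 + 1 + (k + 2 + 1) by omega,
    Nat.add_sub_cancel, pow_add _ (k + 2 + 1) (k + 2 + 1), pow_succ, pow_succ] at k0
  generalize Fintype.card F ^ (k + 2) = A at *
  generalize Fintype.card F = q at *
  have k3 : 1 ≤ A * q := Nat.mul_pos (by omega) (by omega)
  zify [k3, hq.le, show 1 ≤ q - 1 by omega] at k0 k2 hq
  nlinarith [mul_le_mul_of_nonneg_right k2 (show (0 : ℤ) ≤ A * q * q by positivity),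
    mul_le_mul_of_nonneg_right hq.le (show (0 : ℤ) ≤ A * q * q by positivity)]

end Cfsg.Agent.H2.TO
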