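import Cfsg.Agent.H2.TO5
import Cfsg.Agent.H4.TO6

/-! Orthogonal groups of dimension at least seven have no 2-transitive action. -/

set_option autoImplicit false
set_option linter.unusedSectionVars false

namespace Cfsg.Agent.H2.TO

open Finset MulAction Module Cfsg.Agent.H1 Cfsg.Agent.H4 Cfsg.Agent.H6 Cfsg.Agent.H7

theorem pieceO_odd {F : Type} [Field F] [Fintype F] {m : ℕ} (hm : 3 ≤ m) (ho : Odd (Fintype.card F))
    {Ω : Type*} [Finite Ω] [MulAction (POmega F (quadFormOdd m F)) Ω]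
    (h : TT (POmega F (quadFormOdd m F)) Ω) : False :=
  odd_false hm ho h fun ht => H4.TO.flag
    ⟨qOdd_nondeg _ F (two_ne_zero_of_odd_card F ho), by simp; omega⟩ (by simp; omega) ht

theorem pieceO_plus {F : Type} [Field F] [Fintype F] {m : ℕ} (hm : 4 ≤ m)
    {Ω : Type*} [Finite Ω] [MulAction (POmega F (quadFormPlus m F)) Ω]
    (h : TT (POmega F (quadFormPlus m F)) Ω) : False :=
  plus_false hm h fun ht => H4.TO.flag ⟨qPlus_nondeg _ F, by simp; omega⟩ (by simp; omega) ht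

theorem pieceO_minus {F : Type} [Field F] [Fintype F] {m : ℕ} (hm : 4 ≤ m) (a b : F)
    (hab : ∀ z₁ z₂ : F, z₁ ^ 2 + a * z₁ * z₂ + b * z₂ ^ 2 = 0 → z₁ = 0 ∧ z₂ = 0)
    {Ω : Type*} [Finite Ω] [MulAction (POmega F (quadFormMinus (m - 1) F a b)) Ω]
    (h : TT (POmega F (quadFormMinus (m - 1) F a b)) Ω) : False :=
  minus_false hm a b hab h fun ht => H4.TO.flag ⟨qMinus_nondeg _ F hab, by simp; omega⟩ (by simp; omega) ht

end Cfsg.Agent.H2.TO
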