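import Cfsg.Agent.H1.URc

/-! Maximal totally isotropic subspaces of unitary spaces: counting. -/

set_option autoImplicit false
set_option linter.unusedSectionVars false

namespace Cfsg.Agent.H2.UE

open Module Matrix Cfsg.Agent.H1 Cfsg.Agent.H1.UR
open Cfsg.Agent.H5 hiding TI im mem_im app_mem_im im_mul im_one im_inv finrank_im im_perp im_inf im_sup im_le_iff
  im_span im_eq_of_mapsTo span_le_perp pt exists_pt eq_pt_iff pt_eq_iff smul_pt sum_pt pair_trans fix_trans Rel O2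
  Sit Irr
open scoped Classical

variable {F : Type*} [Field F] {σ : F →+* F} {E : Type*} [AddCommGroup E] [Module F E]
  [FiniteDimensional F E] {B : Sesq σ E} (hB : IsEps B 1)

include hB in
theorem ti_le {T : Submodule F E} (hT : T ≤ perp B T) : 2 * finrank F T ≤ finrank F E := by
  have := hB.finrank_perp T
  have := Submodule.finrank_mono hT
  omega

include hB in
theorem ti_sup {U : Submodule F E} (hU : U ≤ perp B U) {x : E} (hx : x ∈ perp B U) (hi : B x x = 0) :
    U ⊔ F ∙ x ≤ perp B (U ⊔ F ∙ x) := by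
  rw [perp_sup]
  have := (Submodule.span_singleton_le_iff_mem _ _).2 hx
  exact sup_le (le_inf hU (hB.le_perp_comm this)) (le_inf this (span_le_perp.2 hi))

include hB in
theorem finrank_inf_perp (L U : Submodule F E) : finrank F (L ⊓ perp B U : Submodule F E) + finrank F U =
    finrank F L + finrank F (U ⊓ perp B L : Submodule F E) := by
  have h1 := hB.finrank_perp (U ⊔ perp B L)
  have h2 := Submodule.finrank_sup_add_finrank_inf_eq U (perp B L)
  have h3 := hB.finrank_perp L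
  rw [perp_sup, hB.perp_perp, inf_comm] at h1
  omega

include hB in
theorem mem_max {k : ℕ} (hd : finrank F E ≤ 2 * k + 1) (L : TI B k) {x : E} (hx : x ∈ perp B L.1) (hi : B x x = 0) :
    x ∈ L.1 := by
  by_contra h
  have := ti_le hB (ti_sup hB L.2.2 hx hi)
  rw [finrank_sup_single h, L.2.1] at this
  omega

include hB in
theorem finrank_max_inf {k : ℕ} (hd : finrank F E ≤ 2 * k + 1) (L : TI B k) {U : Submodule F E} (hU : U ≤ perp B U) :
    finrank F (L.1 ⊓ perp B U : Submodule F E) + finrank F U = k + finrank F (U ⊓ L.1 : Submodule F E) := by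
  rw [finrank_inf_perp hB, L.2.1, show U ⊓ perp B L.1 = U ⊓ L.1 from le_antisymm
    (fun x hx => ⟨hx.1, mem_max hB hd L hx.2 (hU hx.1 x hx.1)⟩) (inf_le_inf_left _ L.2.2)]

theorem ti_of_le {U W : Submodule F E} (h : U ≤ W) (hW : W ≤ perp B W) : U ≤ perp B U :=
  h.trans (hW.trans (perp_anti B h))

variable [Fintype F] [Fintype E] {q : ℕ} (hU : UF σ q)

/-- sums over the totally isotropic subspaces containing a subspace -/
noncomputable def lsum {k : ℕ} (U : Submodule F E) (φ : TI B k → ℝ) : ℝ :=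
  ∑ L : TI B k, if U ≤ L.1 then φ L else 0

theorem lsum_bot {k : ℕ} (φ : TI B k → ℝ) : lsum ⊥ φ = ∑ L, φ L := by simp [lsum]

theorem lsum_top {k : ℕ} {U : Submodule F E} (h0 : U ≤ perp B U) (h : finrank F U = k) (φ : TI B k → ℝ) :
    lsum U φ = φ ⟨U, h, h0⟩ := by
  have : ∀ L : TI B k, U ≤ L.1 ↔ L = ⟨U, h, h0⟩ := fun L =>
    ⟨fun e => UR.TI.ext' (Submodule.eq_of_le_of_finrank_eq e (h.trans L.2.1.symm)).symm, fun e => e ▸ le_rfl⟩
  simp [lsum, this]

theorem lsum_step {k : ℕ} (U W : Submodule F E) (φ : TI B k → ℝ) :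
    lsum U (fun L => (Fintype.card F : ℝ) ^ finrank F (W ⊓ L.1 : Submodule F E) * φ L) =
      ∑ x : E, if x ∈ W then lsum (U ⊔ F ∙ x) φ else 0 := by
  have : ∀ x : E, (if x ∈ W then lsum (U ⊔ F ∙ x) φ else 0) =
      ∑ L : TI B k, if U ≤ L.1 ∧ x ∈ W ⊓ L.1 then φ L else 0 := fun x => by
    by_cases hx : x ∈ W <;> simp [lsum, hx]
  simp_rw [this]
  rw [Finset.sum_comm]
  refine Finset.sum_congr rfl fun L _ => ?_
  by_cases hL : U ≤ L.1
  · simp only [hL, if_true, true_and, ← H5.sum_mem, Finset.sum_mul, boole_mul]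
  · simp [hL]

theorem lsum_zero {k : ℕ} {U : Submodule F E} (h : ¬ U ≤ perp B U) (φ : TI B k → ℝ) : lsum U φ = 0 :=
  Finset.sum_eq_zero fun L _ => if_neg fun e => h (ti_of_le e L.2.2)

theorem lsum_split {k : ℕ} {U : Submodule F E} (hU : U ≤ perp B U) (W : Submodule F E) (φ : TI B k → ℝ)
    (b : ℝ) (h : ∀ x ∈ W, x ∈ perp B U → B x x = 0 → x ∉ U → lsum (U ⊔ F ∙ x) φ = b) :
    lsum U (fun L => (Fintype.card F : ℝ) ^ finrank F (W ⊓ L.1 : Submodule F E) * φ L) =
      (Fintype.card F : ℝ) ^ finrank F (U ⊓ W : Submodule F E) * lsum U φ +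
      ((∑ x : E, if x ∈ W ⊓ perp B U ∧ B x x = 0 then (1 : ℝ) else 0) -
        (Fintype.card F : ℝ) ^ finrank F (U ⊓ W : Submodule F E)) * b := by
  rw [lsum_step, ← H5.sum_mem, ← Finset.sum_sub_distrib, Finset.sum_mul, Finset.sum_mul,
    ← Finset.sum_add_distrib]
  refine Finset.sum_congr rfl fun x _ => ?_
  have m : x ∈ U ⊔ F ∙ x := Submodule.mem_sup_right (Submodule.mem_span_singleton_self x)
  by_cases h1 : x ∈ W
  · by_cases h2 : x ∈ U
    · simp [h1, h2, hU h2, hU h2 x h2, sup_eq_left.2 ((Submodule.span_singleton_le_iff_mem _ _).2 h2)]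
    · by_cases h3 : x ∈ perp B U
      · by_cases h4 : B x x = 0
        · simp [h1, h2, h3, h4, h x h1 h3 h4 h2]
        · simp [h1, h2, h4, lsum_zero fun e => h4 (e m x m)]
      · simp [h1, h2, h3, lsum_zero fun e => h3 (perp_anti B le_sup_left (e m))]
  · simp [h1]

theorem lsum_split' {k : ℕ} {U : Submodule F E} (hU : U ≤ perp B U) {W : Submodule F E} (hW : W ≤ perp B W)
    (φ : TI B k → ℝ) (b : ℝ) (h : ∀ x ∈ W, x ∈ perp B U → B x x = 0 → x ∉ U → lsum (U ⊔ F ∙ x) φ = b) :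
    lsum U (fun L => (Fintype.card F : ℝ) ^ finrank F (W ⊓ L.1 : Submodule F E) * φ L) =
      (Fintype.card F : ℝ) ^ finrank F (U ⊓ W : Submodule F E) * lsum U φ +
      ((Fintype.card F : ℝ) ^ finrank F (W ⊓ perp B U : Submodule F E) -
        (Fintype.card F : ℝ) ^ finrank F (U ⊓ W : Submodule F E)) * b := by
  rw [lsum_split hU W φ b h, ← H5.sum_mem (W ⊓ perp B U)]
  congr 3
  exact Finset.sum_congr rfl fun x _ => if_congr ⟨fun e => e.1, fun e => ⟨e, hW e.1 x e.1⟩⟩ rfl rfl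

include hB hU in
theorem lsum_all {k s : ℕ} {U : Submodule F E} (h0 : U ≤ perp B U) (hs : finrank F E = 2 * finrank F U + s)
    (b : ℝ) (h : ∀ x ∈ perp B U, B x x = 0 → x ∉ U → lsum (U ⊔ F ∙ x) (fun _ : TI B k => 1) = b) {d : ℕ}
    (hk : finrank F U + d = k) :
    (((q : ℝ) ^ 2) ^ d - 1) * lsum U (fun _ : TI B k => 1) = (cI q s - 1) * b := by
  have h1 := lsum_split h0 ⊤ (fun _ : TI B k => 1) b fun x _ => h x
  have h2 : lsum U (fun L : TI B k => (Fintype.card F : ℝ) ^ finrank F (⊤ ⊓ L.1 : Submodule F E) * 1) =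
      (Fintype.card F : ℝ) ^ k * lsum U (fun _ : TI B k => 1) := by
    simp only [lsum, Finset.mul_sum]
    exact Finset.sum_congr rfl fun L _ => by rw [top_inf_eq, L.2.1]; split_ifs <;> simp
  have h3 := hB.finrank_perp U
  have h4 := card_iso_sub hB hU (S := perp B U) (r := finrank F U) (s := s)
    (by rw [hB.perp_perp, inf_eq_right.2 h0]) (by omega)
  have q0 : (q : ℝ) ≠ 0 := Nat.cast_ne_zero.2 hU.pos.ne'
  have h5 : (q : ℝ) * ∑ x : E, (if x ∈ perp B U ∧ B x x = 0 then (1 : ℝ) else 0) =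
      (q ^ 2) ^ finrank F U * (q ^ (2 * s) + (-q) ^ s * (q - 1)) := by
    rw [Finset.sum_boole]; exact_mod_cast h4
  rw [h2, top_inf_eq, inf_top_eq, show (Fintype.card F : ℝ) ^ k = (Fintype.card F : ℝ) ^ (finrank F U + d) by
    rw [hk], hU.card] at h1
  push_cast at h1
  apply mul_left_cancel₀ (mul_ne_zero q0 (pow_ne_zero (finrank F U) (pow_ne_zero 2 q0)))
  have h6 : q * cI q s = q ^ (2 * s) + (-q) ^ s * (q - 1) := by rw [cI]; field_simp
  linear_combination q * h1 + b * h5 - (q ^ 2) ^ finrank F U * b * h6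

/-- the number of maximal subspaces over an isotropic subspace of codimension `d` -/
noncomputable def nP (Q t : ℝ) (d : ℕ) : ℝ := ∏ i ∈ Finset.range d, (t * Q ^ i + 1)

/-- first moment -/
noncomputable def nD (Q t : ℝ) (d : ℕ) : ℝ := nP Q t d + (Q ^ d - 1) * nP Q t (d - 1)

/-- second moment -/
noncomputable def nC (Q t : ℝ) (d : ℕ) : ℝ := nD Q t d + Q * (Q ^ d - 1) * nD Q t (d - 1)

theorem nP_succ (Q t : ℝ) (d : ℕ) : nP Q t (d + 1) = nP Q t d * (t * Q ^ d + 1) := Finset.prod_range_succ _ _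

theorem nD_succ (Q t : ℝ) (d : ℕ) : nD Q t (d + 1) = Q ^ d * (t + Q) * nP Q t d := by
  rw [nD, nP_succ, Nat.add_sub_cancel]; ring

theorem nD_mul (Q t : ℝ) (d : ℕ) : (t * Q ^ d + Q) * nD Q t d = Q ^ d * (t + Q) * nP Q t d := by
  rcases d with _ | d
  · simp [nD, nP]
  · rw [nD_succ, nP_succ]; ring

theorem nP_pos {Q t : ℝ} (hq : 0 < Q) (ht : 0 < t) (d : ℕ) : 0 < nP Q t d :=
  Finset.prod_pos fun _ _ => by positivity

/-- the parity data -/
def Par (n k : ℕ) (q t : ℝ) : Prop := (n = 2 * k ∧ t = q) ∨ (n = 2 * k + 1 ∧ t = q ^ 3)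

theorem Par.le {n k : ℕ} {q t : ℝ} (h : Par n k q t) : n ≤ 2 * k + 1 := by rcases h with h | h <;> omega
theorem Par.ge {n k : ℕ} {q t : ℝ} (h : Par n k q t) : 2 * k ≤ n := by rcases h with h | h <;> omega

theorem Par.cI {n k u d : ℕ} {q t : ℝ} (h : Par n k q t) (hq : q ≠ 0) (hk : u + (d + 1) = k) :
    cI q (n - 2 * u) - 1 = ((q ^ 2) ^ (d + 1) - 1) * (t * (q ^ 2) ^ d + 1) := by
  rcases h with ⟨rfl, rfl⟩ | ⟨rfl, rfl⟩
  · rw [show 2 * k - 2 * u = 2 * (d + 1) by omega, UR.cI, pow_mul (-t), neg_sq]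
    field_simp; ring
  · rw [show 2 * k + 1 - 2 * u = 2 * (d + 1) + 1 by omega, UR.cI, pow_succ (-q), pow_mul (-q), neg_sq]
    field_simp; ring

variable {k : ℕ} {t : ℝ} (hd : Par (finrank F E) k q t)
include hB hU hd

theorem lsum_one (d : ℕ) : ∀ U : Submodule F E, U ≤ perp B U →
    finrank F U + d = k → lsum U (fun _ : TI B k => 1) = nP (Fintype.card F) t d := by
  induction d with
  | zero => intro U h0 h; rw [lsum_top h0 h]; simp [nP]
  | succ d ih =>
    intro U h0 h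
    have := hd.ge
    have h1 := lsum_all hB hU h0 (s := finrank F E - 2 * finrank F U) (by omega) _ (fun x hx hi hx' =>
      ih _ (ti_sup hB h0 hx hi) (by rw [finrank_sup_single hx']; omega)) h
    have q1 : (1 : ℝ) < Fintype.card F := by exact_mod_cast Fintype.one_lt_card
    rw [hd.cI (Nat.cast_ne_zero.2 hU.pos.ne') h, ← Nat.cast_pow, ← hU.card] at h1
    apply mul_left_cancel₀ (sub_ne_zero.2 (one_lt_pow₀ q1 (by omega : d + 1 ≠ 0)).ne')
    rw [nP_succ, h1]
    ring

theorem lsum_D {d : ℕ} {U : Submodule F E} (h0 : U ≤ perp B U) (h : finrank F U + d = k) (L' : TI B k) :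
    lsum U (fun L : TI B k => (Fintype.card F : ℝ) ^ finrank F (L'.1 ⊓ L.1 : Submodule F E)) =
      (Fintype.card F : ℝ) ^ finrank F (U ⊓ L'.1 : Submodule F E) * nD (Fintype.card F) t d := by
  have h1 := lsum_split' h0 L'.2.2 (fun _ : TI B k => 1) _ (fun x _ hx hi hx' =>
    lsum_one hB hU hd (d - 1) _ (ti_sup hB h0 hx hi) (by
      have := ti_le hB (ti_sup hB h0 hx hi)
      have := hd.le
      rw [finrank_sup_single hx'] at *; omega))
  have h2 := finrank_max_inf hB hd.le L' h0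
  simp only [mul_one] at h1
  rw [h1, lsum_one hB hU hd d U h0 h, show finrank F (L'.1 ⊓ perp B U : Submodule F E) =
    finrank F (U ⊓ L'.1 : Submodule F E) + d by omega, nD]
  ring

theorem lsum_C {d : ℕ} {U : Submodule F E} (h0 : U ≤ perp B U) (h : finrank F U + d = k) (L' : TI B k) :
    lsum U (fun L : TI B k => ((Fintype.card F : ℝ) ^ finrank F (L'.1 ⊓ L.1 : Submodule F E)) ^ 2) =
      ((Fintype.card F : ℝ) ^ finrank F (U ⊓ L'.1 : Submodule F E)) ^ 2 * nC (Fintype.card F) t d := by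
  have h1 := lsum_split' h0 L'.2.2
    (fun L : TI B k => (Fintype.card F : ℝ) ^ finrank F (L'.1 ⊓ L.1 : Submodule F E))
    ((Fintype.card F : ℝ) ^ (finrank F (U ⊓ L'.1 : Submodule F E) + 1) * nD (Fintype.card F) t (d - 1))
    (fun x hx0 hx hi hx' => by
      rw [lsum_D hB hU hd (d := d - 1) (ti_sup hB h0 hx hi) (by
        have := ti_le hB (ti_sup hB h0 hx hi)
        have := hd.le
        rw [finrank_sup_single hx'] at *; omega),
        sup_comm, sup_inf_assoc_of_le _ ((Submodule.span_singleton_le_iff_mem _ _).2 hx0), sup_comm,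
        finrank_sup_single fun e : x ∈ U ⊓ L'.1 => hx' e.1])
  have h2 := finrank_max_inf hB hd.le L' h0
  simp only [← sq] at h1
  rw [h1, lsum_D hB hU hd h0 h, show finrank F (L'.1 ⊓ perp B U : Submodule F E) =
    finrank F (U ⊓ L'.1 : Submodule F E) + d by omega, nC]
  ring

end Cfsg.Agent.H2.UE
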