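import Cfsg.Agent.H2.UE1

/-! The second constituent of the permutation module on maximal totally isotropic subspaces. -/

set_option autoImplicit false
set_option linter.unusedSectionVars false

namespace Cfsg.Agent.H2.UE

open Module Matrix Cfsg.Agent.H1 Cfsg.Agent.H1.UR
open Cfsg.Agent.H5 hiding TI im mem_im app_mem_im im_mul im_one im_inv finrank_im im_perp im_inf im_sup im_le_iff
  im_span im_eq_of_mapsTo span_le_perp pt exists_pt eq_pt_iff pt_eq_iff smul_pt sum_pt pair_trans fix_trans Rel O2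
  Sit Irr
open scoped Classical

variable {F : Type*} [Field F] {σ : F →+* F} {E : Type*} [AddCommGroup E] [Module F E]
  [FiniteDimensional F E] {B : Sesq σ E} (hB : IsEps B 1)

include hB in
theorem exists_perp_mem {U : Submodule F E} (h : 2 ≤ finrank F U) (u : E) :
    ∃ v ∈ U, v ≠ 0 ∧ B v u = 0 := by
  have h1 := hB.finrank_perp (⊥ ⊔ F ∙ u)
  have h2 := finrank_sup_single_le (F := F) ⊥ u
  have h3 := Submodule.finrank_sup_add_finrank_inf_eq U (perp B (⊥ ⊔ F ∙ u))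
  have h4 := Submodule.finrank_le (U ⊔ perp B (⊥ ⊔ F ∙ u))
  rw [finrank_bot] at h2
  obtain ⟨v, hv, v0⟩ := Submodule.exists_mem_ne_zero_of_ne_bot (p := U ⊓ perp B (⊥ ⊔ F ∙ u))
    (fun e => by rw [e, finrank_bot] at h3; omega)
  exact ⟨v, hv.1, v0, hv.2 u (Submodule.mem_sup_right (Submodule.mem_span_singleton_self u))⟩

variable [Fintype F] [Fintype E] {q : ℕ} (hU : UF σ q) {k : ℕ}

/-- indicator of the subspaces over `U` -/
noncomputable def fU (B : Sesq σ E) (k : ℕ) (U : Submodule F E) : TI B k → ℝ :=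
  fun L => if U ≤ L.1 then 1 else 0

theorem mulVec_fU {X : Type*} (Y : Matrix X (TI B k) ℝ) (U : Submodule F E) (x : X) :
    (Y *ᵥ fU B k U) x = lsum U (Y x) := by
  simp [Matrix.mulVec, dotProduct, fU, lsum]

/-- the quadratic kernel -/
noncomputable def eL (B : Sesq σ E) (k : ℕ) (α β : ℝ) : Matrix (TI B k) (TI B k) ℝ :=
  Matrix.of fun L' L => ((Fintype.card F : ℝ) ^ finrank F (L'.1 ⊓ L.1 : Submodule F E)) ^ 2 -
    α * (Fintype.card F : ℝ) ^ finrank F (L'.1 ⊓ L.1 : Submodule F E) - β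

theorem eL_transpose (α β : ℝ) : (eL B k α β)ᵀ = eL B k α β := by
  ext L L'
  simp only [eL, Matrix.transpose_apply, Matrix.of_apply]
  rw [inf_comm]

theorem invM_eL (α β : ℝ) : InvM (SUb B) (eL B k α β) := fun g L L' => by
  have : finrank F ((g • L).1 ⊓ (g • L').1 : Submodule F E) = finrank F (L.1 ⊓ L'.1 : Submodule F E) := by
    rw [UR.TI.smul_val, UR.TI.smul_val, ← im_inf, finrank_im]
  simp only [eL, Matrix.of_apply, this]

include hB hU in
theorem eL_mulVec {t : ℝ} (hd : Par (finrank F E) k q t) (α β : ℝ) {d : ℕ} {U : Submodule F E} (h0 : U ≤ perp B U)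
    (h : finrank F U + d = k) (L' : TI B k) : (eL B k α β *ᵥ fU B k U) L' =
      ((Fintype.card F : ℝ) ^ finrank F (U ⊓ L'.1 : Submodule F E)) ^ 2 * nC (Fintype.card F) t d -
      α * ((Fintype.card F : ℝ) ^ finrank F (U ⊓ L'.1 : Submodule F E) * nD (Fintype.card F) t d) -
      β * nP (Fintype.card F) t d := by
  rw [mulVec_fU, ← lsum_C hB hU hd h0 h, ← lsum_D hB hU hd h0 h, ← lsum_one hB hU hd d U h0 h]
  simp only [lsum, Finset.mul_sum, ← Finset.sum_sub_distrib, eL, Matrix.of_apply]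
  exact Finset.sum_congr rfl fun L _ => by split_ifs <;> simp

theorem mul_eL_eq_zero {X : Type*} {Y : Matrix X (TI B k) ℝ}
    (h : ∀ U : Submodule F E, U ≤ perp B U → finrank F U ≤ 2 → Y *ᵥ fU B k U = 0) (α β : ℝ) :
    Y * eL B k α β = 0 := by
  ext x L'
  have h0 : ∀ U : Submodule F E, U ≤ L'.1 → finrank F U ≤ 2 → lsum U (Y x) = 0 := fun U hU h2 => by
    rw [← mulVec_fU, h U (ti_of_le hU L'.2.2) h2]; rfl
  have h1 : ∀ U : Submodule F E, U ≤ L'.1 → finrank F U ≤ 1 → lsum U (fun L =>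
      (Fintype.card F : ℝ) ^ finrank F (L'.1 ⊓ L.1 : Submodule F E) * Y x L) = 0 := fun U hU h2 => by
    rw [lsum_step]
    refine Finset.sum_eq_zero fun v _ => ite_eq_right_iff.2 fun hv => h0 _
      (sup_le hU ((Submodule.span_singleton_le_iff_mem _ _).2 hv)) ?_
    have := finrank_sup_single_le U v
    omega
  have h2 := lsum_step ⊥ L'.1 (fun L : TI B k =>
    (Fintype.card F : ℝ) ^ finrank F (L'.1 ⊓ L.1 : Submodule F E) * Y x L)
  rw [Finset.sum_eq_zero fun v _ => ite_eq_right_iff.2 fun hv => h1 _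
    (sup_le bot_le ((Submodule.span_singleton_le_iff_mem _ _).2 hv))
    (by simpa using finrank_sup_single_le (F := F) ⊥ v)] at h2
  have h3 := h1 ⊥ bot_le (by simp)
  have h4 := h0 ⊥ bot_le (by simp)
  rw [lsum_bot] at h2 h3 h4
  rw [← eL_transpose]
  simp only [Matrix.mul_apply, eL, Matrix.transpose_apply, Matrix.of_apply, Matrix.zero_apply]
  calc _ = ∑ L, ((Fintype.card F : ℝ) ^ finrank F (L'.1 ⊓ L.1 : Submodule F E) *
        ((Fintype.card F : ℝ) ^ finrank F (L'.1 ⊓ L.1 : Submodule F E) * Y x L) -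
        α * ((Fintype.card F : ℝ) ^ finrank F (L'.1 ⊓ L.1 : Submodule F E) * Y x L) - β * Y x L) :=
        Finset.sum_congr rfl fun L _ => by ring
    _ = 0 := by
      rw [Finset.sum_sub_distrib, Finset.sum_sub_distrib, ← Finset.mul_sum, ← Finset.mul_sum, h2, h3, h4]
      ring

/-- `Y` kills the first two layers -/
def K1 {X : Type*} (Y : Matrix X (TI B k) ℝ) : Prop :=
  ∀ U : Submodule F E, U ≤ perp B U → finrank F U ≤ 1 → Y *ᵥ fU B k U = 0

theorem K1.aff {X : Type*} {Y : Matrix X (TI B k) ℝ} (h : K1 Y) {U : Submodule F E} (hU : U ≤ perp B U)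
    (y z : ℝ) : Y *ᵥ (fun L => y * (Fintype.card F : ℝ) ^ finrank F (U ⊓ L.1 : Submodule F E) + z) = 0 := by
  ext x
  have h0 : ∀ W : Submodule F E, W ≤ U → finrank F W ≤ 1 → lsum W (Y x) = 0 := fun W hW h2 => by
    rw [← mulVec_fU, h W (ti_of_le hW hU) h2]; rfl
  have h2 := lsum_step ⊥ U (Y x)
  rw [Finset.sum_eq_zero fun v _ => ite_eq_right_iff.2 fun hv => h0 _
    (sup_le bot_le ((Submodule.span_singleton_le_iff_mem _ _).2 hv))
    (by simpa using finrank_sup_single_le (F := F) ⊥ v)] at h2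
  have h4 := h0 ⊥ bot_le (by simp)
  rw [lsum_bot] at h2 h4
  simp only [Matrix.mulVec, dotProduct, Pi.zero_apply]
  calc _ = ∑ L, (y * ((Fintype.card F : ℝ) ^ finrank F (U ⊓ L.1 : Submodule F E) * Y x L) + z * Y x L) :=
        Finset.sum_congr rfl fun L _ => by ring
    _ = 0 := by rw [Finset.sum_add_distrib, ← Finset.mul_sum, ← Finset.mul_sum, h2, h4]; ring

theorem K1.layer {X : Type*} {Y : Matrix X (TI B k) ℝ} (h : K1 Y) {U : Submodule F E} (hU : U ≤ perp B U)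
    (h2 : finrank F U ≤ 2) {φ : TI B k → ℝ} {g : ℕ → ℝ}
    (hg : ∀ L, φ L = g (finrank F (U ⊓ L.1 : Submodule F E))) :
    Y *ᵥ φ = (g 2 - (Fintype.card F + 1) * g 1 + Fintype.card F * g 0) • Y *ᵥ fU B k U := by
  have q1 : (1 : ℝ) < Fintype.card F := by exact_mod_cast Fintype.one_lt_card
  have q0 : (Fintype.card F : ℝ) - 1 ≠ 0 := by linarith
  have h3 := h.aff hU ((g 1 - g 0) / (Fintype.card F - 1)) (g 0 - (g 1 - g 0) / (Fintype.card F - 1))
  by_cases h1 : finrank F U ≤ 1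
  · rw [h U hU h1, smul_zero, ← h3]
    congr 1
    ext L
    have := Submodule.finrank_mono (inf_le_left : U ⊓ L.1 ≤ U)
    rw [hg]
    rcases (by omega : finrank F (U ⊓ L.1 : Submodule F E) = 0 ∨ finrank F (U ⊓ L.1 : Submodule F E) = 1)
      with e | e <;> rw [e] <;> field_simp <;> ring
  · rw [← add_zero (_ • _), ← h3, ← Matrix.mulVec_smul, ← Matrix.mulVec_add]
    congr 1
    ext L
    have := Submodule.finrank_mono (inf_le_left : U ⊓ L.1 ≤ U)
    simp only [hg, Pi.add_apply, Pi.smul_apply, fU, le_iff_finrank_inf (U := U), smul_eq_mul,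
      show finrank F U = 2 by omega]
    rcases (by omega : finrank F (U ⊓ L.1 : Submodule F E) = 0 ∨ finrank F (U ⊓ L.1 : Submodule F E) = 1 ∨
      finrank F (U ⊓ L.1 : Submodule F E) = 2) with e | e | e <;> rw [e] <;> norm_num <;> field_simp <;> ring

include hB hU in
theorem exists_type (hd : finrank F E ≤ 2 * k + 1) (hk : k ≠ 0) {Z : Matrix (TI B k) (TI B k) ℝ}
    (hZ : InvM (SUb B) Z) (j : ℕ) : ∃ g : ℕ → ℝ, ∀ U : Submodule F E, U ≤ perp B U → finrank F U = j →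
      ∀ L, (Z *ᵥ fU B k U) L = g (finrank F (U ⊓ L.1 : Submodule F E)) := by
  refine ⟨fun i => if h : ∃ p : Submodule F E × TI B k, p.1 ≤ perp B p.1 ∧ finrank F p.1 = j ∧
    finrank F (p.1 ⊓ p.2.1 : Submodule F E) = i then (Z *ᵥ fU B k h.choose.1) h.choose.2 else 0,
    fun U h0 hj L => ?_⟩
  have h : ∃ p : Submodule F E × TI B k, p.1 ≤ perp B p.1 ∧ finrank F p.1 = j ∧
    finrank F (p.1 ⊓ p.2.1 : Submodule F E) = finrank F (U ⊓ L.1 : Submodule F E) := ⟨(U, L), h0, hj, rfl⟩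
  simp only [dif_pos h]
  obtain ⟨h1, h2, h3⟩ := h.choose_spec
  generalize h.choose = p at *
  obtain ⟨g, rfl, e⟩ := pair_trans hB hU p.2.2.2 L.2.2 h1 h0 (fun e => hk (by rw [← p.2.2.1, e, finrank_bot]))
    (p.2.2.1.trans L.2.1.symm) (h2.trans hj.symm) h3 (by
      have := finrank_max_inf hB hd p.2 h1
      have := finrank_max_inf hB hd L h0
      omega)
  obtain rfl : g • p.2 = L := UR.TI.ext' e
  simp only [mulVec_fU, lsum]
  refine (Fintype.sum_equiv (MulAction.toPerm g) _ _ fun L' => ?_).symm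
  simp only [MulAction.toPerm_apply, UR.TI.smul_val, im_le_iff, hZ g]

theorem K1.sandwich {e Z : Matrix (TI B k) (TI B k) ℝ} (h : K1 e) {g : ℕ → ℝ}
    (hg : ∀ U : Submodule F E, U ≤ perp B U → finrank F U = 2 →
      ∀ L, (Z *ᵥ fU B k U) L = g (finrank F (U ⊓ L.1 : Submodule F E)))
    (hg' : ∀ j, ∃ g : ℕ → ℝ, ∀ U : Submodule F E, U ≤ perp B U → finrank F U = j →
      ∀ L, (Z *ᵥ fU B k U) L = g (finrank F (U ⊓ L.1 : Submodule F E))) (α β : ℝ) :
    e * Z * eL B k α β = (g 2 - (Fintype.card F + 1) * g 1 + Fintype.card F * g 0) • (e * eL B k α β) := by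
  rw [← sub_eq_zero, ← Matrix.smul_mul, ← Matrix.sub_mul]
  refine mul_eL_eq_zero (fun U hU h2 => ?_) α β
  rw [Matrix.sub_mulVec, ← Matrix.mulVec_mulVec, Matrix.smul_mulVec, sub_eq_zero]
  by_cases h1 : finrank F U ≤ 1
  · obtain ⟨g', hg'⟩ := hg' (finrank F U)
    rw [h.layer hU h2 (hg' U hU rfl), h U hU h1, smul_zero, smul_zero]
  · exact h.layer hU h2 (hg U hU (by omega))

include hU in
theorem Kt_mulVec {X : Type*} [MulAction (SUb B) X] [Fintype X] {ε : F} (e0 : ε ≠ 0) (he : σ ε = -ε) (φ : X → ℝ)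
    (x : X) : ((q : ℝ) + 1) * (Kt hB X *ᵥ φ) x = ∑ u ∈ Iso B, φ (ut hB u ε • x) := by
  rw [← sum_Trs hB hU e0 he fun τ => φ (τ • x)]
  exact congrArg _ (opS_mul (Trs hB) id (Matrix.of fun (L : X) (_ : Unit) => φ L) x ())

theorem le_ut {ε : F} (he : σ ε = -ε) {u : E} (hu : B u u = 0) (U L : Submodule F E) :
    U ≤ im (ut hB u ε) L ↔ ∀ v ∈ U, v - (ε * B v u) • u ∈ L :=
  forall₂_congr fun v _ => by
    rw [mem_im, ut_inv hB hu he, ut_apply hB hu (by rw [map_neg, he]), neg_mul, neg_smul, ← sub_eq_add_neg]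

include hB hU in
theorem sum_fix {ε : F} (e0 : ε ≠ 0) {U L : Submodule F E} (hL : L ≤ perp B L) (hUL : U ≤ L) :
    (∑ u ∈ Iso B, if ∀ v ∈ U, v - (ε * B v u) • u ∈ L then (1 : ℝ) else 0) =
      ((q : ℝ) ^ 2) ^ finrank F U * cI q (finrank F E - 2 * finrank F U) - 1 := by
  have h0 := ti_of_le hUL hL
  have f1 := hB.finrank_perp U
  have f2 := ti_le hB h0
  rw [← sum_iso hB hU (S := perp B U) (by rw [hB.perp_perp, inf_eq_right.2 h0]) (by omega)]
  refine Finset.sum_congr rfl fun u _ => if_congr ⟨fun h v hv => hB.refl ?_, fun h v hv => ?_⟩ rfl rfl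
  · by_contra h1
    have h3 := L.sub_mem (hUL hv) (h v hv)
    rw [sub_sub_cancel, L.smul_mem_iff (mul_ne_zero e0 h1)] at h3
    exact h1 (hL (hUL hv) u h3)
  · simpa [hB.refl (h v hv)] using hUL hv

include hU in
theorem Kt_fU (hd : finrank F E ≤ 2 * k + 1) {U : Submodule F E} (h0 : U ≤ perp B U) (h2 : finrank F U = 2)
    (L : TI B k) : (Kt hB (TI B k) *ᵥ fU B k U) L =
      (fun i : ℕ => (if i = 2 then ((q : ℝ) ^ 2) ^ 2 * cI q (finrank F E - 4) - 1 else if i = 1 then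
        (Fintype.card F : ℝ) ^ k - (Fintype.card F : ℝ) ^ (k - 1) else 0) / (q + 1))
        (finrank F (U ⊓ L.1 : Submodule F E)) := by
  obtain ⟨ε, e0, he⟩ := hU.exists_trace_zero
  rw [eq_div_iff (by positivity), mul_comm, Kt_mulVec hB hU e0 he, Finset.sum_congr rfl
    (f := fun u => fU B k U (ut hB u ε • L))
    (g := fun u => if ∀ v ∈ U, v - (ε * B v u) • u ∈ L.1 then (1 : ℝ) else 0) fun u hu =>
      if_congr (le_ut hB he (mem_Iso.1 hu).2 U L.1) rfl rfl]
  have hle := Submodule.finrank_mono (inf_le_left : U ⊓ L.1 ≤ U)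
  rcases (by omega : finrank F (U ⊓ L.1 : Submodule F E) = 0 ∨ finrank F (U ⊓ L.1 : Submodule F E) = 1 ∨
    finrank F (U ⊓ L.1 : Submodule F E) = 2) with e | e | e <;> rw [e] <;> norm_num only [if_true, if_false]
  · refine Finset.sum_eq_zero fun u _ => if_neg fun h => ?_
    obtain ⟨v, hv, v0, h1⟩ := exists_perp_mem hB h2.ge u
    have h3 : v ∈ U ⊓ L.1 := ⟨hv, by simpa [h1] using h v hv⟩
    rw [Submodule.finrank_eq_zero.1 e] at h3
    exact v0 h3
  · obtain ⟨x, hx, hx'⟩ := SetLike.exists_of_lt (lt_of_le_of_ne (inf_le_left : U ⊓ L.1 ≤ U)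
      fun h => by rw [h] at e; omega)
    have xL : x ∉ L.1 := fun h => hx' ⟨hx, h⟩
    have xx : B x x = 0 := h0 hx x hx
    have hs : U ⊓ L.1 ⊔ F ∙ x = U := Submodule.eq_of_le_of_finrank_eq
      (sup_le inf_le_left ((Submodule.span_singleton_le_iff_mem _ _).2 hx))
      (by rw [finrank_sup_single hx', e, h2])
    have dec : ∀ v ∈ U, ∃ y ∈ U ⊓ L.1, ∃ a : F, v = y + a • x := fun v hv => by
      rw [← hs] at hv
      obtain ⟨y, hy, z, hz, rfl⟩ := Submodule.mem_sup.1 hv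
      obtain ⟨a, rfl⟩ := Submodule.mem_span_singleton.1 hz
      exact ⟨y, hy, a, rfl⟩
    have f1 := finrank_max_inf hB hd L h0
    have f2 := ti_le hB h0
    have f3 := H5.sum_mem (L.1 ⊓ perp B U)
    have f4 := H5.sum_mem L.1
    rw [show finrank F (L.1 ⊓ perp B U : Submodule F E) = k - 1 by omega] at f3
    rw [L.2.1] at f4
    have f5 : (Fintype.card F : ℝ) ^ k - (Fintype.card F : ℝ) ^ (k - 1) =
        ∑ l ∈ Finset.univ.filter fun l => l ∈ L.1 ∧ B x l ≠ 0, (1 : ℝ) := by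
      rw [← f3, ← f4, ← Finset.sum_sub_distrib, Finset.sum_filter]
      refine Finset.sum_congr rfl fun l _ => ?_
      by_cases h3 : l ∈ L.1
      · have : l ∈ perp B U ↔ B x l = 0 := ⟨fun h => hB.refl (h x hx), fun h v hv => by
          obtain ⟨y, hy, a, rfl⟩ := dec v hv
          simp [L.2.2 h3 y hy.2, hB.refl h]⟩
        by_cases h4 : B x l = 0 <;> simp [h3, h4, this]
      · simp [h3]
    rw [f5, ← Finset.sum_filter]
    refine (Finset.sum_bij' (fun l _ => (ε * B x l)⁻¹ • x + l) (fun u _ => u - (ε * B x u)⁻¹ • x)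
      (fun l hl => ?_) (fun u hu => ?_) (fun l hl => ?_) (fun u hu => ?_) fun _ _ => rfl).symm
    · obtain ⟨h3, h4⟩ := (Finset.mem_filter.1 hl).2
      refine Finset.mem_filter.2 ⟨mem_Iso.2 ⟨fun h => h4 ?_, ?_⟩, fun v hv => ?_⟩
      · simpa [xx] using congrArg (B x) h
      · have h5 : σ (B x l) ≠ 0 := (map_ne_zero σ).2 h4
        simp only [map_add, LinearMap.map_smulₛₗ, LinearMap.add_apply, LinearMap.smul_apply, xx, L.2.2 h3 l h3,
          hB.herm x l, smul_eq_mul, map_inv₀, map_mul, he, RingHom.id_apply]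
        field_simp
        ring
      · obtain ⟨y, hy, a, rfl⟩ := dec v hv
        convert L.1.sub_mem hy.2 (L.1.smul_mem (a * (ε * B x l)) h3) using 1
        simp only [map_add, LinearMap.map_smulₛₗ, LinearMap.add_apply, LinearMap.smul_apply, RingHom.id_apply,
          xx, h0 hy.1 x hx, L.2.2 hy.2 l h3, smul_eq_mul]
        match_scalars <;> field_simp <;> ring
    · have h3 := (Finset.mem_filter.1 hu).2 x hx
      have h4 : B x u ≠ 0 := fun h => xL (by simpa [h] using h3)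
      refine Finset.mem_filter.2 ⟨Finset.mem_univ _, ?_, by simpa [xx] using h4⟩
      convert L.1.smul_mem (-(ε * B x u)⁻¹) h3 using 1
      match_scalars <;> field_simp
    · simp [xx]
    · simp [xx]
  · rw [sum_fix hB hU e0 L.2.2 (le_iff_finrank_inf.2 (e.trans h2.symm)), h2]

include hU in
theorem max_idem {j : ℕ} {Q t S : ℝ} (hd : Par (finrank F E) (j + 3) q t) (hQ : Q = q ^ 2) (hS : S = Q ^ j) :
    ∃ e : Matrix (TI B (j + 3)) (TI B (j + 3)) ℝ, Prim (SUb B) e ∧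
      Kt hB _ * e = ((t * Q ^ 3 * S ^ 2 + Q ^ 3 * S - t * Q ^ 2 * S - (Q ^ 2 - 1) * Q ^ 2 * S - 1) / (q + 1)) • e ∧
      e.trace * ((Q - 1) ^ 2 * (Q + 1) * (t + Q) * (t + Q ^ 2)) =
        Q * t ^ 2 * (t * Q ^ 2 * S + 1) * (Q ^ 3 * S - 1) * (Q ^ 2 * S - 1) * (t * S + Q) ∧
      (∀ T : Finset (TI B (j + 3)), ∀ L', ∑ L ∈ T, e L L' = 0 → ∃ a b : ℕ,
        (t * Q * S + 1) * ((Q + 1) * S * (t + Q ^ 2) * a - (t * S + 1) * b) =
          Q ^ 2 * S ^ 2 * (t + Q) * (t + Q ^ 2) * T.card) ∧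
      ∀ U : Submodule F E, U ≤ perp B U → finrank F U = 2 → ∃ g : ℕ → ℝ,
        (∀ L, (e *ᵥ fU B _ U) L = g (finrank F (U ⊓ L.1 : Submodule F E))) ∧ g 2 - (Q + 1) * g 1 + Q * g 0 = 1 := by
  have hq : Q = Fintype.card F := by rw [hQ, hU.card, Nat.cast_pow]
  have q1 : 1 < Q := by rw [hq]; exact_mod_cast Fintype.one_lt_card
  have q0 : 0 < Q := by linarith
  have q5 : (0 : ℝ) < q := by exact_mod_cast hU.pos
  have t0 : 0 < t := by rcases hd with h | h <;> rw [h.2] <;> positivity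
  subst hS
  set α := (Q + 1) * Q ^ j * (t + Q ^ 2) / (t * Q ^ j + 1) with hα
  set β := -(Q ^ 2 * (Q ^ j) ^ 2 * (t + Q) * (t + Q ^ 2)) / ((t * Q ^ j + 1) * (t * Q * Q ^ j + 1)) with hβ
  set e := eL B (j + 3) α β with he
  have k1 : K1 e := fun U h0 h1 => by
    ext L
    have hle := Submodule.finrank_mono (inf_le_left : U ⊓ L.1 ≤ U)
    rcases (by omega : finrank F U = 0 ∨ finrank F U = 1) with h | h
    · rw [eL_mulVec hB hU hd α β (d := j + 3) h0 (by omega), ← hq,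
        show finrank F (U ⊓ L.1 : Submodule F E) = 0 by omega]
      simp only [nC, Nat.add_succ_sub_one, nD_succ, nP_succ, hα, hβ, Pi.zero_apply]
      field_simp
      ring
    · rw [eL_mulVec hB hU hd α β (d := j + 2) h0 (by omega), ← hq]
      simp only [nC, Nat.add_succ_sub_one, nD_succ, nP_succ, hα, hβ, Pi.zero_apply]
      rcases (by omega : finrank F (U ⊓ L.1 : Submodule F E) = 0 ∨ finrank F (U ⊓ L.1 : Submodule F E) = 1)
        with h' | h' <;> rw [h'] <;> field_simp <;> ring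
  have ei : InvM (SUb B) e := invM_eL α β
  have et : eᵀ = e := eL_transpose α β
  set c := nC Q t (j + 1) * (Q * (Q - 1) * (Q ^ 2 - 1)) with hc
  have hC : (t * Q ^ j + Q) * nC Q t (j + 1) = (Q ^ j) ^ 2 * (t + Q) * (t + Q ^ 2) * nP Q t j := by
    rw [nC, Nat.add_sub_cancel, nD_succ]
    linear_combination Q * (Q ^ (j + 1) - 1) * nD_mul Q t j
  have np := nP_pos q0 t0 j
  have q2 : 0 < Q ^ 2 - 1 := by nlinarith
  have q3 : 0 < Q - 1 := by linarith
  have c0 : c ≠ 0 := by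
    refine mul_ne_zero (fun h => ?_) (by positivity)
    rw [h, mul_zero] at hC
    exact absurd hC.symm (by positivity)
  have ty := fun Z hZ => exists_type hB hU hd.le (by omega : j + 3 ≠ 0) (Z := Z) hZ
  have eU : ∀ U : Submodule F E, U ≤ perp B U → finrank F U = 2 → ∀ L, (e *ᵥ fU B _ U) L =
      (fun i => (Q ^ i) ^ 2 * nC Q t (j + 1) - α * (Q ^ i * nD Q t (j + 1)) - β * nP Q t (j + 1))
        (finrank F (U ⊓ L.1 : Submodule F E)) := fun U h0 h L => by
    rw [eL_mulVec hB hU hd α β (d := j + 1) h0 (by omega), ← hq]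
  have e3 : e * e * e = c • (e * e) := by
    rw [k1.sandwich (g := fun i => (Q ^ i) ^ 2 * nC Q t (j + 1) - α * (Q ^ i * nD Q t (j + 1)) - β * nP Q t (j + 1))
      eU (ty _ ei), ← hq]
    congr 1
    ring
  have e2 : e * e = c • e := by
    rw [← sub_eq_zero]
    by_contra h
    refine mul_transpose_ne_zero h ?_
    rw [Matrix.transpose_sub, Matrix.transpose_smul, Matrix.transpose_mul, et]
    simp only [Matrix.mul_sub, Matrix.sub_mul, Matrix.mul_smul, Matrix.smul_mul, ← Matrix.mul_assoc, e3]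
    module
  refine ⟨c⁻¹ • e, ⟨ei.smul _, by rw [Matrix.transpose_smul, et], ?_, fun Z hZ => ?_⟩, ?_, ?_, ?_, ?_⟩
  · rw [Matrix.smul_mul, Matrix.mul_smul, e2, smul_smul c⁻¹ c, inv_mul_cancel₀ c0, one_smul]
  · obtain ⟨g, hg⟩ := ty _ hZ 2
    refine ⟨g 2 - (Fintype.card F + 1) * g 1 + Fintype.card F * g 0, ?_⟩
    rw [Matrix.smul_mul, Matrix.smul_mul, Matrix.mul_smul, k1.sandwich hg (ty _ hZ), e2]
    match_scalars; field_simp
  · have h1 := k1.sandwich (g := fun i : ℕ => (if i = 2 then ((q : ℝ) ^ 2) ^ 2 * cI q (finrank F E - 4) - 1 else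
      if i = 1 then (Fintype.card F : ℝ) ^ (j + 3) - (Fintype.card F : ℝ) ^ (j + 3 - 1) else 0) / (q + 1))
      (fun U h0 h L => Kt_fU hB hU hd.le h0 h L) (ty _ (invM_Kt hB _)) α β
    rw [← he, Kt, ← ei.opS_comm, Matrix.mul_assoc, e2, Matrix.mul_smul, smul_comm, ← Kt, ← hq] at h1
    rw [Matrix.mul_smul, smul_right_injective _ c0 h1, smul_comm]
    norm_num only [if_true, if_false]
    have h2 := hd.cI (u := 2) (d := j) q5.ne' (by omega)
    rw [← hQ, show j + 3 - 1 = j + 2 by omega] at *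
    congr 1
    field_simp
    linear_combination Q ^ 2 * h2
  · have h1 : e.trace = nP Q t (j + 3) * ((Q ^ (j + 3)) ^ 2 - α * Q ^ (j + 3) - β) := by
      rw [hq, ← lsum_one hB hU hd (j + 3) ⊥ bot_le (by simp), lsum_bot, Finset.sum_mul, ← hq]
      exact Finset.sum_congr rfl fun L _ => by
        simp only [Matrix.diag, he, eL, Matrix.of_apply]; rw [inf_idem, L.2.1, ← hq, one_mul]
    have h2 : nC Q t (j + 1) = (Q ^ j) ^ 2 * (t + Q) * (t + Q ^ 2) * nP Q t j / (t * Q ^ j + Q) := by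
      rw [← hC]; field_simp
    rw [Matrix.trace_smul, h1, smul_eq_mul, hc, h2, show Q ^ 2 - 1 = (Q - 1) * (Q + 1) by ring]
    simp only [nP_succ, hα, hβ]
    field_simp
    ring
  · intro T L' h
    simp only [Matrix.smul_apply, smul_eq_mul, ← Finset.mul_sum] at h
    have h1 := (mul_eq_zero.1 h).resolve_left (inv_ne_zero c0)
    simp only [he, eL, Matrix.of_apply, Finset.sum_sub_distrib, Finset.sum_const, nsmul_eq_mul,
      ← Finset.mul_sum, ← hq] at h1
    refine ⟨∑ L ∈ T, Fintype.card F ^ finrank F (L.1 ⊓ L'.1 : Submodule F E),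
      ∑ L ∈ T, (Fintype.card F ^ finrank F (L.1 ⊓ L'.1 : Submodule F E)) ^ 2, ?_⟩
    push_cast
    rw [← hq]
    rw [hα, hβ] at h1
    field_simp at h1
    linear_combination -h1
  · intro U h0 h
    refine ⟨fun i => c⁻¹ * ((Q ^ i) ^ 2 * nC Q t (j + 1) - α * (Q ^ i * nD Q t (j + 1)) - β * nP Q t (j + 1)),
      fun L => by rw [Matrix.smul_mulVec, Pi.smul_apply, eU U h0 h]; rfl, ?_⟩
    refine Eq.trans ?_ (inv_mul_cancel₀ c0)
    generalize c⁻¹ = c'
    rw [hc]
    ring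

end Cfsg.Agent.H2.UE
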