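import Cfsg.Agent.H2.UE2

/-! Occurrence of the second constituent; totally isotropic lines in dimension six. -/

set_option autoImplicit false
set_option linter.unusedSectionVars false

namespace Cfsg.Agent.H2.UE

open Module Matrix Cfsg.Agent.H1 Cfsg.Agent.H1.UR
open Cfsg.Agent.H5 hiding TI im mem_im app_mem_im im_mul im_one im_inv finrank_im im_perp im_inf im_sup im_le_iff
  im_span im_eq_of_mapsTo span_le_perp pt exists_pt eq_pt_iff pt_eq_iff smul_pt sum_pt pair_trans fix_trans Rel O2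
  Sit Irr
open scoped Classical

theorem zmod_facts {r q d : ℕ} [Fact r.Prime] (ho : orderOf (q : ZMod r) = 2 * d) (hd : 4 ≤ d) :
    (q : ZMod r) ^ d + 1 = 0 ∧ (q : ZMod r) ≠ 0 ∧ (q : ZMod r) + 1 ≠ 0 ∧ (q : ZMod r) ^ 3 + 1 ≠ 0 := by
  have h1 := pow_orderOf_eq_one (q : ZMod r)
  have h2 : ∀ n, 0 < n → n < 2 * d → (q : ZMod r) ^ n ≠ 1 := fun n h3 h4 =>
    pow_ne_one_of_lt_orderOf h3.ne' (ho ▸ h4)
  rw [ho] at h1
  refine ⟨?_, fun e => ?_, fun e => h2 2 (by omega) (by omega) ?_, fun e => h2 6 (by omega) (by omega) ?_⟩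
  · refine (mul_eq_zero.1 (show ((q : ZMod r) ^ d + 1) * (q ^ d - 1) = 0 by linear_combination h1)).resolve_right ?_
    exact sub_ne_zero.2 (h2 d (by omega) (by omega))
  · rw [e, zero_pow (by omega)] at h1
    exact zero_ne_one h1
  · linear_combination ((q : ZMod r) - 1) * e
  · linear_combination ((q : ZMod r) ^ 3 - 1) * e

variable {F : Type*} [Field F] {σ : F →+* F} {E : Type*} [AddCommGroup E] [Module F E]
  [FiniteDimensional F E] {B : Sesq σ E} (hB : IsEps B 1) [Fintype F] [Fintype E] {q : ℕ} (hU : UF σ q)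
variable {X : Type*} [MulAction (SUb B) X] [Fintype X] {adj : X → X → Prop} {ω : X}

include hU in
theorem eta_occ {j r d : ℕ} {Q t S : ℝ} (hq : 3 ≤ q) (hQ : Q = q ^ 2) (hS : S = Q ^ j)
    (hn : (finrank F E = 2 * j + 6 ∧ t = q ∧ d = 2 * j + 3 ∧ 1 ≤ j) ∨
      (finrank F E = 2 * j + 7 ∧ t = q ^ 3 ∧ d = 2 * j + 5))
    (hr : r.Prime) (ho : orderOf (q : ZMod r) = 2 * d) (hno : ∀ g : SUb B, g • ω = ω → orderOf g ≠ r) :
    ∃ θ f : ℝ, Occ hB X θ f ∧
      θ * (q + 1) = t * Q ^ 3 * S ^ 2 + Q ^ 3 * S - t * Q ^ 2 * S - (Q ^ 2 - 1) * Q ^ 2 * S - 1 ∧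
      f * ((Q - 1) ^ 2 * (Q + 1) * (t + Q) * (t + Q ^ 2)) =
        Q * t ^ 2 * (t * Q ^ 2 * S + 1) * (Q ^ 3 * S - 1) * (Q ^ 2 * S - 1) * (t * S + Q) := by
  have hd : Par (finrank F E) (j + 3) q t := hn.imp (fun h => ⟨by omega, h.2.1⟩) fun h => ⟨by omega, h.2.1⟩
  obtain ⟨e, p, k, tr, dv, -⟩ := max_idem hB hU hd hQ hS
  haveI := finite_SUb B
  haveI := Fact.mk hr
  have q5 : (0 : ℝ) < q := by positivity
  obtain ⟨L₀⟩ : Nonempty (TI B (j + 3)) := by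
    by_contra! h
    have := lsum_one hB hU hd (j + 3) ⊥ bot_le (by simp)
    rw [lsum_bot, Finset.univ_eq_empty, Finset.sum_empty] at this
    exact (nP_pos (by exact_mod_cast Fintype.card_pos) (by rcases hd with h | h <;> rw [h.2] <;> positivity) _).ne this
  refine ⟨_, _, Occ.of_prim hB p k (invM_orbM ω L₀) fun e0 => ?_, div_mul_cancel₀ _ (by positivity), tr⟩
  obtain ⟨a, b, h⟩ := dv (H2.orbF (MulAction.stabilizer (SUb B) ω) L₀) L₀ (by
    rw [← show _ = (0 : ℝ) from congrFun (congrFun e0 ω) L₀, H2.orbF, Finset.sum_filter, Matrix.mul_apply]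
    exact Finset.sum_congr rfl fun L _ => by simp [orbM])
  obtain ⟨z1, z2, z3, z4⟩ := zmod_facts ho (by omega)
  have d1 : r ∣ (H2.orbF (MulAction.stabilizer (SUb B) ω) L₀).card := by
    rw [← ZMod.natCast_eq_zero_iff]
    generalize (H2.orbF (MulAction.stabilizer (SUb B) ω) L₀).card = N at h
    subst hQ hS
    rcases hn with ⟨-, rfl, rfl, -⟩ | ⟨-, rfl, rfl⟩
    · have h' := congrArg (Int.cast : ℤ → ZMod r) (show ((q : ℤ) * q ^ 2 * (q ^ 2) ^ j + 1) *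
        ((q ^ 2 + 1) * (q ^ 2) ^ j * (q + (q ^ 2) ^ 2) * a - (q * (q ^ 2) ^ j + 1) * b) =
          (q ^ 2) ^ 2 * ((q ^ 2) ^ j) ^ 2 * (q + q ^ 2) * (q + (q ^ 2) ^ 2) * N by exact_mod_cast h)
      push_cast at h'
      rw [show (q : ZMod r) * q ^ 2 * (q ^ 2) ^ j + 1 = 0 by linear_combination z1, zero_mul] at h'
      exact (mul_eq_zero.1 (show (q : ZMod r) ^ (4 * j + 6) * (q + 1) * (q ^ 3 + 1) * N = 0 by
        linear_combination -h')).resolve_left (by simp [z2, z3, z4])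
    · have h' := congrArg (Int.cast : ℤ → ZMod r) (show ((q : ℤ) ^ 3 * q ^ 2 * (q ^ 2) ^ j + 1) *
        ((q ^ 2 + 1) * (q ^ 2) ^ j * (q ^ 3 + (q ^ 2) ^ 2) * a - (q ^ 3 * (q ^ 2) ^ j + 1) * b) =
          (q ^ 2) ^ 2 * ((q ^ 2) ^ j) ^ 2 * (q ^ 3 + q ^ 2) * (q ^ 3 + (q ^ 2) ^ 2) * N by exact_mod_cast h)
      push_cast at h'
      rw [show (q : ZMod r) ^ 3 * q ^ 2 * (q ^ 2) ^ j + 1 = 0 by linear_combination z1, zero_mul] at h'
      exact (mul_eq_zero.1 (show (q : ZMod r) ^ (4 * j + 9) * (q + 1) * (q + 1) * N = 0 by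
        linear_combination -h')).resolve_left (by simp [z2, z3])
  obtain ⟨g, hg⟩ := exists_prime_orderOf_dvd_card' r
    (d1.trans (Dvd.intro _ (H2.orbF_card (MulAction.stabilizer (SUb B) ω) L₀)))
  exact hno g g.2 ((Subgroup.orderOf_coe g).trans hg)

end Cfsg.Agent.H2.UE
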