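import Cfsg.Agent.H2.UE3

/-! Totally isotropic lines in dimension six: types of pairs and counting. -/

set_option autoImplicit false
set_option linter.unusedSectionVars false

namespace Cfsg.Agent.H2.UE

open Module Matrix Cfsg.Agent.H1 Cfsg.Agent.H1.UR
open Cfsg.Agent.H5 hiding TI im mem_im app_mem_im im_mul im_one im_inv finrank_im im_perp im_inf im_sup im_le_iff
  im_span im_eq_of_mapsTo span_le_perp pt exists_pt eq_pt_iff pt_eq_iff smul_pt sum_pt pair_trans fix_trans Rel O2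
  Sit Irr
open scoped Classical

variable {F : Type*} [Field F] {σ : F →+* F} {E : Type*} [AddCommGroup E] [Module F E]
  [FiniteDimensional F E] {B : Sesq σ E} (hB : IsEps B 1) [Fintype F] [Fintype E] {q : ℕ} (hU : UF σ q)

theorem card_cast (hU : UF σ q) : (Fintype.card F : ℝ) = (q : ℝ) ^ 2 := by rw [hU.card, Nat.cast_pow]

theorem one_lt_q (hU : UF σ q) : (1 : ℝ) < q := by
  have h1 : 1 < q ^ 2 := hU.card ▸ Fintype.one_lt_card
  have h2 : q ≠ 1 := fun e => by simp [e] at h1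
  have := hU.pos
  exact_mod_cast (by omega : 1 < q)

include hB hU in
theorem lines_pt (hn : finrank F E = 6) {x : E} (hi : B x x = 0) (hx : x ∉ (⊥ : Submodule F E)) :
    lsum (⊥ ⊔ F ∙ x) (fun _ : TI B 2 => 1) = ((q : ℝ) ^ 2 + 1) * (q ^ 3 + 1) := by
  have h0 := ti_sup hB (U := ⊥) bot_le (x := x) (by simp [mem_perp]) hi
  have h1 : finrank F (⊥ ⊔ F ∙ x : Submodule F E) = 1 := by rw [finrank_sup_single hx, finrank_bot]
  have h2 := lsum_all hB hU h0 (s := 4) (k := 2) (by omega) 1 (fun y hy hj hy' =>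
    lsum_top (ti_sup hB h0 hy hj) (by rw [finrank_sup_single hy', h1]) _) (d := 1) (by omega)
  have q1 := one_lt_q hU
  apply mul_left_cancel₀ (show ((q : ℝ) ^ 2) ^ 1 - 1 ≠ 0 by nlinarith)
  rw [h2, cI]
  field_simp
  ring

include hB hU in
theorem lines_all (hn : finrank F E = 6) :
    lsum ⊥ (fun _ : TI B 2 => 1) = ((q : ℝ) ^ 4 + q ^ 2 + 1) * (q ^ 5 + 1) * (q ^ 3 + 1) := by
  have h2 := lsum_all hB hU (U := ⊥) bot_le (s := 6) (k := 2) (by simp [hn]) _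
    (fun y _ hj hy' => lines_pt hB hU hn hj hy') (d := 2) (by simp)
  have q1 := one_lt_q hU
  have q2 : (1 : ℝ) < q ^ 2 := by nlinarith
  apply mul_left_cancel₀ (show ((q : ℝ) ^ 2) ^ 2 - 1 ≠ 0 by nlinarith)
  rw [h2, cI]
  field_simp
  ring

include hB hU in
theorem card_lines6 (hn : finrank F E = 6) :
    Fintype.card (TI B 2) = (q ^ 4 + q ^ 2 + 1) * (q ^ 5 + 1) * (q ^ 3 + 1) := by
  have := lines_all hB hU hn
  rw [lsum_bot, Finset.sum_const, Finset.card_univ, nsmul_eq_mul, mul_one] at this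
  exact_mod_cast this

include hU in
theorem lines_plane (W : TI B 3) :
    (∑ L : TI B 2, if L.1 ≤ W.1 then (1 : ℝ) else 0) = (q : ℝ) ^ 4 + q ^ 2 + 1 := by
  have q1 := one_lt_q hU
  have q2 : (1 : ℝ) < q ^ 2 := by nlinarith
  have e : ∀ U : Submodule F E, lsum U (fun L : TI B 2 => (Fintype.card F : ℝ) ^ finrank F (W.1 ⊓ L.1 : Submodule F E) *
      if L.1 ≤ W.1 then (1 : ℝ) else 0) = (Fintype.card F : ℝ) ^ 2 *
      lsum U (fun L : TI B 2 => if L.1 ≤ W.1 then (1 : ℝ) else 0) := fun U => by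
    simp only [lsum, Finset.mul_sum]
    refine Finset.sum_congr rfl fun L _ => ?_
    split_ifs with h1 h2
    · rw [inf_eq_right.2 h2, L.2.1]
    all_goals simp
  have hp : ∀ U : Submodule F E, U ≤ W.1 → W.1 ⊓ perp B U = W.1 := fun U h =>
    inf_eq_left.2 (W.2.2.trans (perp_anti B h))
  have h1 : ∀ x ∈ W.1, x ∉ (⊥ : Submodule F E) →
      lsum (⊥ ⊔ F ∙ x) (fun L : TI B 2 => if L.1 ≤ W.1 then (1 : ℝ) else 0) = q ^ 2 + 1 := fun x hx hx' => by
    have l1 : ⊥ ⊔ F ∙ x ≤ W.1 := sup_le bot_le ((Submodule.span_singleton_le_iff_mem _ _).2 hx)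
    have d1 : finrank F (⊥ ⊔ F ∙ x : Submodule F E) = 1 := by rw [finrank_sup_single hx', finrank_bot]
    have h2 := lsum_split' (ti_of_le l1 W.2.2) W.2.2 (fun L : TI B 2 => if L.1 ≤ W.1 then (1 : ℝ) else 0) 1
      fun y hy _ _ hy' => by
        have l2 : ⊥ ⊔ F ∙ x ⊔ F ∙ y ≤ W.1 := sup_le l1 ((Submodule.span_singleton_le_iff_mem _ _).2 hy)
        rw [lsum_top (ti_of_le l2 W.2.2) (by rw [finrank_sup_single hy', d1]), if_pos l2]
    rw [e, hp _ l1, inf_eq_left.2 l1, d1, W.2.1, card_cast hU] at h2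
    apply mul_left_cancel₀ (show ((q : ℝ) ^ 2) ^ 2 - q ^ 2 ≠ 0 by nlinarith)
    linear_combination h2
  have h2 := lsum_split' (U := ⊥) bot_le W.2.2 (fun L : TI B 2 => if L.1 ≤ W.1 then (1 : ℝ) else 0) _
    fun x hx _ _ hx' => h1 x hx hx'
  rw [e, hp _ bot_le, bot_inf_eq, finrank_bot, W.2.1, card_cast hU, lsum_bot] at h2
  apply mul_left_cancel₀ (show ((q : ℝ) ^ 2) ^ 2 - 1 ≠ 0 by nlinarith)
  linear_combination h2

/-- dimension of the intersection -/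
noncomputable def tI (L l : TI B 2) : ℕ := finrank F (l.1 ⊓ L.1 : Submodule F E)

/-- dimension of the intersection with the orthogonal complement -/
noncomputable def tJ (L l : TI B 2) : ℕ := finrank F (perp B l.1 ⊓ L.1 : Submodule F E)

/-- incidence -/
noncomputable def inc (B : Sesq σ E) (j k : ℕ) : Matrix (TI B j) (TI B k) ℝ :=
  Matrix.of fun U L => if U.1 ≤ L.1 then 1 else 0

theorem invM_inc (j k : ℕ) : InvM (SUb B) (inc B j k) := fun g U L => by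
  simp only [inc, Matrix.of_apply, UR.TI.smul_val, im_le_iff]

/-- the number of common planes -/
noncomputable def cP (L l : TI B 2) : ℝ := (inc B 2 3 *ᵥ fU B 3 l.1) L

theorem cP_eq (L l : TI B 2) : cP L l = lsum (l.1 ⊔ L.1) fun _ : TI B 3 => 1 := by
  rw [cP, mulVec_fU]
  refine Finset.sum_congr rfl fun W _ => ?_
  by_cases h1 : l.1 ≤ W.1 <;> by_cases h2 : L.1 ≤ W.1 <;> simp [inc, h1, h2]

theorem tI_self (l : TI B 2) : tI l l = 2 := by rw [tI, inf_idem, l.2.1]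

theorem tJ_self (l : TI B 2) : tJ l l = 2 := by rw [tJ, inf_eq_right.2 l.2.2, l.2.1]

include hB hU in
theorem cP_self (hn : finrank F E = 6) (l : TI B 2) : cP l l = q + 1 := by
  rw [cP_eq, sup_idem, lsum_one hB hU (t := q) (Or.inl ⟨by omega, rfl⟩) 1 _ l.2.2 (by rw [l.2.1])]
  simp [nP]

include hB hU in
theorem types (hn : finrank F E = 6) (L l : TI B 2) : (L = l ∧ tI L l = 2 ∧ tJ L l = 2 ∧ cP L l = q + 1) ∨
    (L ≠ l ∧ ((tI L l = 1 ∧ tJ L l = 2 ∧ cP L l = 1 ∧ L.1 ≤ perp B l.1) ∨ (cP L l = 0 ∧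
      ((tI L l = 1 ∧ tJ L l = 1) ∨ (tI L l = 0 ∧ tJ L l = 1) ∨ (tI L l = 0 ∧ tJ L l = 0))))) := by
  by_cases h : L = l
  · subst h
    exact Or.inl ⟨rfl, tI_self L, tJ_self L, cP_self hB hU hn L⟩
  refine Or.inr ⟨h, ?_⟩
  have h1 : tI L l ≤ tJ L l := Submodule.finrank_mono (inf_le_inf_right _ l.2.2)
  have h2 : tJ L l ≤ 2 := (Submodule.finrank_mono inf_le_right).trans L.2.1.le
  have h3 : tI L l ≠ 2 := fun e => h (UR.TI.ext' (Submodule.eq_of_le_of_finrank_eq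
    (le_iff_finrank_inf.2 (e.trans l.2.1.symm)) (l.2.1.trans L.2.1.symm)).symm)
  by_cases h4 : L.1 ≤ perp B l.1
  · have h5 : l.1 ⊔ L.1 ≤ perp B (l.1 ⊔ L.1) := by
      rw [perp_sup]
      exact sup_le (le_inf l.2.2 (hB.le_perp_comm h4)) (le_inf h4 L.2.2)
    have h6 := ti_le hB h5
    have h7 := Submodule.finrank_sup_add_finrank_inf_eq l.1 L.1
    have h8 : tJ L l = 2 := by rw [tJ, inf_eq_right.2 h4, L.2.1]
    rw [l.2.1, L.2.1, ← tI] at h7
    exact Or.inl ⟨by omega, h8, by rw [cP_eq, lsum_top h5 (by omega)], h4⟩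
  · have h5 : tJ L l ≠ 2 := fun e => h4 (le_iff_finrank_inf.2 (by rw [inf_comm, L.2.1]; exact e))
    exact Or.inr ⟨by
      rw [cP_eq, lsum_zero fun e => h4 (le_sup_right.trans (e.trans (perp_anti B le_sup_left)))], by omega⟩

/-- the character -/
noncomputable def chi (q : ℝ) (g : ℕ → ℕ → ℝ) : ℝ :=
  g 2 2 - (q + 1) * g 1 2 + (q - q ^ 2) * g 1 1 + (q + 1) * q ^ 2 * g 0 1 - q ^ 3 * g 0 0

include hB hU in
theorem decomp (hn : finrank F E = 6) (g : ℕ → ℕ → ℝ) (L l : TI B 2) : g (tI L l) (tJ L l) =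
    chi q g * (if L = l then 1 else 0) + (g 1 1 - g 0 1) / (q ^ 2 - 1) * (Fintype.card F : ℝ) ^ tI L l +
      (g 0 1 - g 0 0) / (q ^ 2 - 1) * (Fintype.card F : ℝ) ^ tJ L l +
      (g 1 2 - g 1 1 - q ^ 2 * (g 0 1 - g 0 0)) * cP L l + (g 0 0 - (g 1 1 - g 0 0) / (q ^ 2 - 1)) := by
  have q1 := one_lt_q hU
  have q2 : (q : ℝ) ^ 2 - 1 ≠ 0 := by nlinarith
  rw [card_cast hU, chi]
  rcases types hB hU hn L l with ⟨h, h1, h2, h3⟩ | ⟨h, ⟨h1, h2, h3, -⟩ | ⟨h3, ⟨h1, h2⟩ | ⟨h1, h2⟩ | ⟨h1, h2⟩⟩⟩ <;>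
    rw [h1, h2, h3] <;> simp only [h, if_true, if_false] <;> field_simp <;> ring

include hB hU in
theorem colsum (hn : finrank F E = 6) (g : ℕ → ℕ → ℝ) (l : TI B 2) : ∑ L, g (tI L l) (tJ L l) =
    g 2 2 + (q + 1) * q ^ 2 * (q ^ 2 + 1) * g 1 2 + (q ^ 2 + 1) * q ^ 5 * g 1 1 +
      q ^ 7 * (q + 1) * (q ^ 2 + 1) * g 0 1 + q ^ 12 * g 0 0 := by
  have q1 := one_lt_q hU
  have q2 : (q : ℝ) ^ 2 - 1 ≠ 0 := by nlinarith
  have s0 := lines_all hB hU hn
  have s1 := lsum_split' (U := ⊥) bot_le l.2.2 (fun _ : TI B 2 => 1) _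
    fun x _ _ hi hx => lines_pt hB hU hn hi hx
  have s3 := lsum_split (U := ⊥) bot_le (perp B l.1) (fun _ : TI B 2 => 1) _
    fun x _ _ hi hx => lines_pt hB hU hn hi hx
  have f1 := hB.finrank_perp l.1
  have f2 := l.2.1
  have h4 := card_iso_sub hB hU (S := perp B l.1) (r := 2) (s := 2)
    (by rw [hB.perp_perp, inf_eq_right.2 l.2.2, f2]) (by omega)
  have h5 : (∑ x : E, (if x ∈ perp B l.1 ∧ B x x = 0 then (1 : ℝ) else 0)) = q ^ 4 * (q ^ 3 + q ^ 2 - q) := by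
    apply mul_left_cancel₀ (show (q : ℝ) ≠ 0 by positivity)
    rw [Finset.sum_boole]
    have := congrArg (Int.cast : ℤ → ℝ) h4
    push_cast at this
    linear_combination this
  have p0 : perp B (⊥ : Submodule F E) = ⊤ := eq_top_iff.2 fun x _ => by simp [mem_perp]
  have s2 : ∑ L, cP L l = (q + 1) * ((q : ℝ) ^ 4 + q ^ 2 + 1) := by
    rw [← cP_self hB hU hn l, cP_eq, sup_idem, lsum, Finset.sum_mul]
    simp only [cP, Matrix.mulVec, dotProduct]
    rw [Finset.sum_comm]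
    refine Finset.sum_congr rfl fun W _ => ?_
    rw [← Finset.sum_mul, mul_comm, ← lines_plane hU W]
    rfl
  rw [s0, p0, inf_top_eq, bot_inf_eq, finrank_bot, lsum_bot] at s1 s3
  rw [f2] at s1
  rw [h5] at s3
  rw [lsum_bot] at s0
  simp only [mul_one] at s1 s3
  rw [Finset.sum_congr rfl fun L _ => decomp hB hU hn g L l]
  simp only [Finset.sum_add_distrib, ← Finset.mul_sum, s2, tI, tJ, s1, s3]
  rw [Finset.sum_ite_eq', if_pos (Finset.mem_univ _), Finset.sum_const, nsmul_eq_mul, Finset.card_univ,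
    card_lines6 hB hU hn, card_cast hU, chi]
  push_cast
  field_simp
  ring

end Cfsg.Agent.H2.UE
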