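import Cfsg.Agent.H1.URe

/-! Rank 3 actions of unitary groups of dimension six: lower bounds for the degree. -/

set_option autoImplicit false
set_option linter.unusedSectionVars false

namespace Cfsg.Agent.H2.UF6

open Module Matrix Cfsg.Agent.H1 Cfsg.Agent.H1.UR
open Cfsg.Agent.H5 hiding TI im mem_im app_mem_im im_mul im_one im_inv finrank_im im_perp im_inf im_sup im_le_iff
  im_span im_eq_of_mapsTo span_le_perp pt exists_pt eq_pt_iff pt_eq_iff smul_pt sum_pt pair_trans fix_trans Rel O2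
  Sit Irr
open scoped Classical

variable {F : Type*} [Field F] {σ : F →+* F} {E : Type*} [AddCommGroup E] [Module F E]
  [FiniteDimensional F E] {B : Sesq σ E} (hB : IsEps B 1) [Fintype F] [Fintype E] {q : ℕ} (hU : UF σ q)
variable {X : Type*} [MulAction (SUb B) X] [Fintype X] {adj : X → X → Prop} {ω : X}

/-- the vector part of the stabiliser is minimal -/
def Sm (ω : X) (e : E) : Prop := ∀ a μ, Adm B a e μ → ei hB a e μ • ω = ω → a ∈ F ∙ e

theorem Sm.map {e : E} (h : Sm hB ω e) (k : SUb B) {c : F} (c0 : c ≠ 0) : Sm hB (k • ω) (c • suAct B k e) := by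
  intro a μ h1 h2
  obtain ⟨h3, h4⟩ := ei_smul hB h1 c0
  have h5 := h3.map k⁻¹
  have h6 := congrArg (· • k • ω) (ei_conj hB k⁻¹ h3)
  simp only [mul_smul, ← h4, h2, inv_smul_smul] at h6
  rw [sa_inv_app] at h5 h6
  obtain ⟨s, hs⟩ := Submodule.mem_span_singleton.1 (h _ _ h5 h6.symm)
  have h7 := congrArg (suAct B k) hs
  rw [sa_app_inv, map_smul] at h7
  have c1 : σ c ≠ 0 := (map_ne_zero σ).2 c0
  refine Submodule.mem_span_singleton.2 ⟨s / (σ c * c), smul_right_injective E c1 ?_⟩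
  simp only [← h7, smul_smul]
  congr 1
  field_simp

include hB in
theorem adm_half (h2 : (2 : F) ≠ 0) {x e : E} {c : F} (h1 : B e e = 0) (h3 : B x e = 0) (h4 : σ c = -c) :
    Adm B x e (B x x / 2 + c) :=
  ⟨h1, h3, by rw [map_add, map_div₀ σ, hB.herm_self, map_ofNat, h4]; field_simp; ring⟩

include hU in
theorem nine_dvd (hs : Sit B adj ω) (ht : TF hB ω) (hn : finrank F E = 6)
    (h : ∀ e, e ≠ 0 → B e e = 0 → Sm hB ω e) : q ^ 9 ∣ Fintype.card X := by
  obtain ⟨e, -, he0, he⟩ := exists_iso_vec hB hU ⊤ (by rw [finrank_top]; omega)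
  refine pow_dvd_of_orbit hB hU he fun x => ?_
  obtain ⟨g, rfl⟩ := hs.rk.tr ω x
  refine (ht.smul hB g).orbit_ge' hB hU he0 he (k := 2) ?_ (by omega)
  have h1 := (h _ (sa_ne_zero g⁻¹ he0) (sa_iso g⁻¹ he)).map hB g one_ne_zero
  rw [sa_app_inv, one_smul] at h1
  have h2 := card_sub_u hU (F ∙ e)
  rw [finrank_span_singleton he0] at h2
  exact h2 ▸ Nat.card_mono (Set.toFinite _) fun a ⟨μ, h3, h4⟩ => h1 a μ h3 h4

include hU in
theorem card_A_le (ht : TF hB ω) {u a : E} (u0 : u ≠ 0) (he : B u u = 0) (ha : a ∈ (uD hB he).A ω)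
    (a0 : B a a ≠ 0) (h : ∀ y ∈ (uD hB he).A ω, ∃ s t : F, y = s • u + t • a) :
    Nat.card ((uD hB he).A ω) ≤ q ^ 3 := by
  have h1 := Finite.card_range_le fun p : F × Kf σ => p.1 • u + p.2.1 • a
  rw [Nat.card_prod, card_Kf hU, Nat.card_eq_fintype_card (α := F), hU.card, ← pow_succ] at h1
  refine le_trans (Nat.card_mono (Set.toFinite _) fun y hy => ?_) h1
  obtain ⟨s, t, rfl⟩ := h y hy
  have h2 := ht.real hB u0 he hy ha
  have h3 : B u a = 0 := hB.refl (uA_perp hB he ha)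
  simp only [map_add, map_smul, LinearMap.add_apply, LinearMap.smul_apply, h3, smul_eq_mul, mul_zero, zero_add,
    map_mul, hB.herm_self] at h2
  exact ⟨(s, ⟨t, mul_right_cancel₀ a0 h2⟩), rfl⟩

include hU in
theorem ten_a (ht : TF hB ω) (hn : finrank F E = 6) (h2 : (2 : F) ≠ 0) {W : Submodule F E} (h3 : finrank F W = 3)
    (hW : Disjoint W (perp B W)) {u : E} (hu : u ∈ W) (u0 : u ≠ 0) (he : B u u = 0)
    (hA : ∀ a ∈ (uD hB he).A ω, a ∈ W) (h : ¬ Sm hB ω u) : q ^ 10 ≤ Fintype.card X := by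
  simp only [Sm, not_forall] at h
  obtain ⟨a, μ, h4, h5, h6⟩ := h
  have ha : a ∈ (uD hB he).A ω := ⟨μ, h4, h5⟩
  have ua : B u a = 0 := hB.refl h4.perp
  have f1 := hB.finrank_perp W
  have sp : W ⊓ perp B (F ∙ u) = F ∙ u ⊔ F ∙ a := by
    refine (Submodule.eq_of_le_of_finrank_le (sup_le ((Submodule.span_singleton_le_iff_mem _ _).2
      (Submodule.mem_inf.2 ⟨hu, mem_perp_one.2 he⟩)) ((Submodule.span_singleton_le_iff_mem _ _).2
      (Submodule.mem_inf.2 ⟨hA a ha, mem_perp_one.2 h4.perp⟩))) ?_).symm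
    have := Submodule.finrank_lt_finrank_of_lt (lt_of_le_of_ne (inf_le_left : W ⊓ perp B (F ∙ u) ≤ W) fun e =>
      u0 (Submodule.disjoint_def.1 hW u hu fun w hw => hB.refl (mem_perp_one.1 (inf_eq_left.1 e hw))))
    rw [finrank_sup_single h6, finrank_span_singleton u0]
    omega
  have a0 : B a a ≠ 0 := fun e => by
    have h7 : F ∙ u ⊔ F ∙ a ≤ perp B (F ∙ u ⊔ F ∙ a) := by
      refine sup_le ?_ ?_ <;> rw [Submodule.span_singleton_le_iff_mem, mem_perp_two]
      exacts [⟨he, ua⟩, ⟨h4.perp, e⟩]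
    have h8 := hB.finrank_perp (F ∙ u ⊔ F ∙ a)
    have h9 := Submodule.finrank_sup_add_finrank_inf_eq (F ∙ u ⊔ F ∙ a) (perp B W)
    have h10 : F ∙ u ⊔ F ∙ a ≤ W := sp ▸ inf_le_left
    have h11 := Submodule.finrank_mono (sup_le h7 (perp_anti B h10))
    rw [(hW.mono_left h10).eq_bot, finrank_bot] at h9
    rw [finrank_sup_single h6, finrank_span_singleton u0] at h8 h9
    omega
  obtain ⟨z, hz, z0, zz⟩ := exists_iso_vec hB hU (perp B W) (by omega)
  have az : B a z = 0 := hB.refl (hz a (hA a ha))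
  have uz : B u z = 0 := hB.refl (hz u hu)
  have mv : ∀ b : F, ∃ k : SUb B, suAct B k u = u ∧ suAct B k a = a + b • z := fun b => by
    have h7 := adm_half hB h2 (x := σ (-b / B a a) • a) (c := 0) zz (by simp [az]) (by simp)
    refine ⟨ei hB _ _ _, by rw [ei_apply hB h7]; simp [ua, uz], ?_⟩
    rw [ei_apply hB h7]
    simp only [az, zero_smul, add_zero, mul_zero, LinearMap.map_smulₛₗ, hB.invol, smul_eq_mul]
    match_scalars <;> field_simp
  choose k ku ka using mv
  have kA : ∀ b, ∀ y ∈ (uD hB he).A (k b • ω), ∃ s t : F, y = s • u + t • (a + b • z) := fun b y hy => by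
    have h7 : suAct B (k b)⁻¹ y ∈ (uD hB he).A ω := by
      rw [← uA_conj' hB he (a := 1) (g := k b) (by rw [ku, one_smul]) one_ne_zero, sa_app_inv, map_one, one_smul]
      exact hy
    obtain ⟨s, t, e⟩ := mem_span_pair'.1 (sp.le (Submodule.mem_inf.2 ⟨hA _ h7, mem_perp_one.2 (uA_perp hB he h7)⟩))
    exact ⟨s, t, by rw [← sa_app_inv (k b) y, e, map_add, map_smul, map_smul, ku, ka]⟩
  have kM : ∀ b, a + b • z ∈ (uD hB he).A (k b • ω) := fun b => by
    simpa [ka] using uA_conj hB he (a := 1) (g := k b) (by rw [ku, one_smul]) one_ne_zero ha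
  have inj : ∀ b b', (uD hB he).Eqv (k b • ω) (k b' • ω) → b = b' := fun b b' e => by
    obtain ⟨s, t, e1⟩ := kA b' _ (e.A_le (kM b))
    have e2 := congrArg (fun v => B v a) e1
    simp only [map_add, map_smul, LinearMap.add_apply, LinearMap.smul_apply, ua, hB.refl az, smul_eq_mul] at e2
    obtain rfl : t = 1 := mul_right_cancel₀ a0 (by linear_combination -e2)
    have e3 : (b - b') • z = s • u := by linear_combination (norm := module) e1
    have := Submodule.disjoint_def.1 hW _ (e3 ▸ W.smul_mem s hu) ((perp B W).smul_mem _ hz)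
    exact sub_eq_zero.1 ((smul_eq_zero.1 this).resolve_right z0)
  have h7 := (uD hB he).sum_orbit_le (p := fun _ : X => True) (fun _ _ _ _ => trivial)
    (Finset.univ.image fun b => k b • ω) (fun _ _ => trivial) (by
      simp only [Finset.mem_image, Finset.mem_univ, true_and]
      rintro _ ⟨b, rfl⟩ _ ⟨b', rfl⟩ e
      rw [inj b b' e])
  rw [Finset.sum_image fun b _ b' _ e => inj b b' ((show k b • ω = k b' • ω from e) ▸ HD.Eqv.refl _ _),
    Nat.card_congr (Equiv.subtypeUnivEquiv fun _ => trivial), Nat.card_eq_fintype_card] at h7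
  refine le_trans ?_ ((Finset.card_nsmul_le_sum _ _ (q ^ 8) fun b _ => (ht.smul hB (k b)).orbit_ge' hB hU u0 he
    (card_A_le hB hU (ht.smul hB (k b)) u0 he (kM b) (by rwa [← ka, suAct_pres]) (kA b)) (by omega)).trans h7)
  rw [Finset.card_univ, hU.card, smul_eq_mul, ← pow_add]

include hU in
theorem ten_c (ht : TF hB ω) (hn : finrank F E = 6) (h2 : (2 : F) ≠ 0) {l : Submodule F E} (hl : Ln B ω l)
    {u : E} (hu : u ∈ l) (u0 : u ≠ 0) (he : B u u = 0) (h : Sm hB ω u) : q ^ 10 ≤ Fintype.card X := by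
  obtain ⟨l2, ld, i, i1, i2, i3⟩ := hl
  have f1 := hB.finrank_perp l
  obtain ⟨v, hv, v0, vv⟩ := exists_iso_vec hB hU (perp B l) (by omega)
  obtain ⟨a₀, ha₀, a0⟩ : ∃ a ∈ perp B l ⊓ perp B (F ∙ v), B a a ≠ 0 := by
    refine hU.exists_aniso fun hle => ?_
    rw [← perp_sup, hB.perp_perp] at hle
    have f2 := hB.finrank_perp (l ⊔ F ∙ v)
    have f3 := finrank_sup_single_le l v
    have f4 := Submodule.eq_of_le_of_finrank_le hle (by omega)
    exact u0 (Submodule.disjoint_def.1 ld u hu (perp_anti B le_sup_left (f4.ge (Submodule.mem_sup_left hu))))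
  obtain ⟨ε, e0, hε⟩ := hU.exists_trace_zero
  obtain ⟨a, ha, av, hA⟩ : ∃ a ∈ perp B l, B a v = 0 ∧ ∀ t : F, σ t = t → t • a ∈ (uD hB vv).A ω → t = 0 := by
    by_cases hc : ∃ s : F, s ≠ 0 ∧ s • a₀ ∈ (uD hB vv).A ω
    · obtain ⟨s, s0, hs⟩ := hc
      refine ⟨ε • s • a₀, (perp B l).smul_mem _ ((perp B l).smul_mem _ ha₀.1), by simp [mem_perp_one.1 ha₀.2],
        fun t h1 h3 => ?_⟩
      have h4 := ht.real hB v0 vv h3 hs
      have h5 : B (s • a₀) (s • a₀) ≠ 0 := by simp [s0, a0]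
      generalize s • a₀ = b at *
      simp only [map_smul, LinearMap.smul_apply, smul_eq_mul, map_mul, h1, hε, hB.herm_self] at h4
      exact (mul_eq_zero.1 (show t * (2 * ε * B b b) = 0 by linear_combination -h4)).resolve_right
        (mul_ne_zero (mul_ne_zero h2 e0) h5)
    · exact ⟨a₀, ha₀.1, mem_perp_one.1 ha₀.2, fun t _ h3 => by_contra fun t0 => hc ⟨t, t0, h3⟩⟩
  have a1 : ∀ b : perp B l, Adm B b.1 u (B b.1 b.1 / 2 + 0) := fun b => adm_half hB h2 he (b.2 u hu) (by simp)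
  have a2 : ∀ (t : F) (c : {x : F // σ x = -x}), Adm B (t • a) v (B (t • a) (t • a) / 2 + c.1) := fun t c =>
    adm_half hB h2 vv (by simp [av]) c.2
  have h1 := Nat.card_le_card_of_injective (fun p : perp B l × Kf σ × {x : F // σ x = -x} =>
    ei hB p.1.1 u (B p.1.1 p.1.1 / 2 + 0) • ei hB (p.2.1.1 • a) v (B (p.2.1.1 • a) (p.2.1.1 • a) / 2 + p.2.2.1) • ω)
    (by
      rintro ⟨b, t, c⟩ ⟨b', t', c'⟩ e
      have fx : ∀ (t : F) (c : {x : F // σ x = -x}), i • ei hB (t • a) v (B (t • a) (t • a) / 2 + c.1) • ω =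
          ei hB (t • a) v (B (t • a) (t • a) / 2 + c.1) • ω := fun t c => by
        rw [← mul_smul, ei_conj hB i (a2 t c), i3 v hv, i3 _ ((perp B l).smul_mem t ha), mul_smul, i1]
      obtain rfl : b = b' := by
        have h3 := (h.map hB (ei hB (t.1 • a) v (B (t.1 • a) (t.1 • a) / 2 + c.1)) one_ne_zero)
        rw [ei_apply hB (a2 _ _), hB.refl (hv u hu), hB.refl ((perp B l).smul_mem t.1 ha u hu)] at h3
        simp only [zero_smul, add_zero, mul_zero, sub_zero, one_smul] at h3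
        have x1 := fx t c
        have x2 := fx t' c'
        simp only at e
        generalize ei hB (t.1 • a) v (B (t.1 • a) (t.1 • a) / 2 + c.1) • ω = x at *
        generalize ei hB (t'.1 • a) v (B (t'.1 • a) (t'.1 • a) / 2 + c'.1) • ω = x' at *
        have h4 := (uD hB he).adm_add ((uD hB he).adm_neg (a1 b')) (a1 b)
        have h5 := inv_smul_eq_iff.2 e
        rw [← mul_smul, show (ei hB b'.1 u _)⁻¹ = _ from (uD hB he).x_inv (a1 b'),
          show (uD hB he).x _ _ * ei hB b.1 u _ = _ from (uD hB he).x_mul ((uD hB he).adm_neg (a1 b')) (a1 b)] at h5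
        obtain ⟨h6, h7⟩ := ei_conj_e hB (g := i) (a := -1) (by rw [i2 u hu, neg_one_smul]) (by simp) h4
        have h8 := congrArg (· • x) h7
        simp only [mul_smul, x1] at h8
        obtain ⟨ν, h9, h10⟩ := (uD hB he).sub_mem_A h4 h6 (by
          refine h5.trans (x2.symm.trans ?_)
          rw [← h5]; exact h8)
        have m : -b'.1 + b.1 ∈ perp B l := (perp B l).add_mem ((perp B l).neg_mem b'.2) b.2
        have h11 := (Submodule.span_singleton_le_iff_mem _ _).2 hu (h3 _ _ h9 h10)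
        rw [i3 _ m, show -b'.1 + b.1 - σ (-1) • (-b'.1 + b.1) = (2 : F) • (-b'.1 + b.1) by
          rw [map_neg, map_one]; module, l.smul_mem_iff h2] at h11
        exact Subtype.ext (neg_add_eq_zero.1 (Submodule.disjoint_def.1 ld _ h11 m)).symm
      replace e := smul_left_cancel _ e
      obtain rfl : t = t' := by
        have h3 := (uD hB vv).sub_mem_A (a2 _ _) (a2 _ _) e
        rw [← sub_smul] at h3
        exact Subtype.ext (sub_eq_zero.1 (hA _ ((Kf σ).sub_mem t.2 t'.2) h3))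
      have h3 := (uD hB vv).sub_mem_J (a2 _ _) (a2 _ _) e
      rw [ht.J_eq hB v0 vv, AddSubgroup.mem_bot, add_sub_add_left_eq_sub, sub_eq_zero] at h3
      rw [show c = c' from Subtype.ext h3])
  rw [Nat.card_prod, Nat.card_prod, card_Kf hU, card_trace_zero hU, card_sub_u hU, Nat.card_eq_fintype_card,
    show finrank F (perp B l) = 4 by omega] at h1
  refine le_trans (le_of_eq ?_) h1
  ring

include hU in
theorem six_core (hs : Sit B adj ω) (ht : TF hB ω) (hn : finrank F E = 6) (h2 : (2 : F) ≠ 0) (ho : O2 B ω)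
    {W : Submodule F E} (h3 : finrank F W = 3) (hW : Disjoint W (perp B W))
    (hA : ∀ u ∈ W, u ≠ 0 → ∀ he : B u u = 0, ∀ a ∈ (uD hB he).A ω, a ∈ W)
    (hL : (∀ y y' : TI B 1, y.1 ≤ W → y'.1 ≤ W → Rel B ω y y') → ∀ u ∈ W, u ≠ 0 → B u u = 0 →
      ∃ l, Ln B ω l ∧ u ∈ l) : q ^ 9 ∣ Fintype.card X ∨ q ^ 10 ≤ Fintype.card X := by
  by_cases h : ∀ u ∈ W, u ≠ 0 → B u u = 0 → Sm hB ω u
  · by_cases h1 : ∀ y y' : TI B 1, y.1 ≤ W → y'.1 ≤ W → Rel B ω y y'
    · obtain ⟨u, hu, u0, he⟩ := exists_iso_vec hB hU W (by omega)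
      obtain ⟨l, hl, ul⟩ := hL h1 u hu u0 he
      exact Or.inr (ten_c hB hU ht hn h2 hl ul u0 he (h u hu u0 he))
    · simp only [not_forall] at h1
      obtain ⟨y, y', hy, hy', h1⟩ := h1
      refine Or.inl (nine_dvd hB hU hs ht hn fun e e0 he => ?_)
      have key : ∀ y : TI B 1, y.1 ≤ W → Rel B ω y (pt e0 he) → Sm hB ω e := fun y hy ⟨k, k1, k2⟩ => by
        obtain ⟨u, u0, hu, rfl⟩ := exists_pt y
        obtain ⟨c, rfl⟩ := (smul_pt_eq k u0 hu e0 he).1 k2
        exact k1 ▸ (h u (hy (Submodule.mem_span_singleton_self u)) u0 hu).map hB k (left_ne_zero_of_smul e0)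
      exact ((ho y y' (pt e0 he)).resolve_left h1).elim (key y hy) (key y' hy')
  · simp only [not_forall] at h
    obtain ⟨u, hu, u0, he, h⟩ := h
    exact Or.inr (ten_a hB hU ht hn h2 h3 hW hu u0 he (hA u hu u0 he) h)

end Cfsg.Agent.H2.UF6
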